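import Mathlib
import Cfsg.Agent.Lib.Helper32.T3Stmt

/-!
S3701 piece FIN (helper99, for helper32): three normal subgroups meeting `H` in
`<x2,x3,u1>`, `<x1,x3,u2>`, `<x2,x1,u3>`, the last one supplementing `H`, force `H = G`
(assuming NCORE).
-/

set_option autoImplicit false

universe u

namespace Cfsg.Agent.Lib.Helper99.T3FIN

open Cfsg.Agent.Lib.Helper32.T3Stmt

variable {G : Type u} [Group G]

theorem pow_one_or_self {a : G} (h : a ^ 2 = 1) (l : ℕ) : a ^ l = 1 ∨ a ^ l = a := by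
  rcases Nat.even_or_odd' l with ⟨m, rfl | rfl⟩
  · left; rw [pow_mul, h, one_pow]
  · right; rw [pow_succ, pow_mul, h, one_pow, one_mul]

theorem eq_one_of_sq_cube {a : G} (h2 : a * a = 1) (h3 : a ^ 3 = 1) : a = 1 := by
  have h : a ^ 3 = a * a * a := by rw [pow_succ, pow_succ, pow_one]
  rw [h, h2, one_mul] at h3
  exact h3

/-- an element of order dividing 3 which is centralized and inverted by `g` is trivial -/
theorem eq_one_of_inv_comm {g x : G} (h3 : x ^ 3 = 1) (hinv : g * x * g⁻¹ = x⁻¹)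
    (hc : Commute g x) : x = 1 := by
  have h1 : g * x * g⁻¹ = x := by rw [hc.eq, mul_assoc, mul_inv_cancel, mul_one]
  rw [h1] at hinv
  have h2 : x * x = 1 := by
    have := mul_inv_cancel x
    rw [← hinv] at this
    exact this
  exact eq_one_of_sq_cube h2 h3

theorem conj_pow_inv {a x : G} (h : a * x * a⁻¹ = x⁻¹) (j : ℕ) :
    a * x ^ j * a⁻¹ = (x ^ j)⁻¹ := by
  rw [← conj_pow, h, inv_pow]

theorem conj_pow_comm {a x : G} (h : a * x = x * a) (j : ℕ) : a * x ^ j * a⁻¹ = x ^ j := by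
  have hc : Commute a (x ^ j) := (show Commute a x from h).pow_right j
  rw [hc.eq, mul_assoc, mul_inv_cancel, mul_one]

theorem conj_mul' (a b c : G) : a * (b * c) * a⁻¹ = (a * b * a⁻¹) * (a * c * a⁻¹) := by group

theorem inv_of_mul {a b x : G} (ha : Commute a x) (hb : b * x * b⁻¹ = x⁻¹) :
    (a * b) * x * (a * b)⁻¹ = x⁻¹ := by
  have h1 : (a * b) * x * (a * b)⁻¹ = a * (b * x * b⁻¹) * a⁻¹ := by group
  rw [h1, hb]
  have hc : Commute a x⁻¹ := ha.inv_right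
  rw [hc.eq, mul_assoc, mul_inv_cancel, mul_one]

/-- the intersection of the three subgroups meets `H` trivially -/
theorem inter_trivial {T H : Subgroup G} {x1 x2 x3 u1 u2 u3 : G}
    (hcfg : Cfg3 T H x1 x2 x3 u1 u2 u3) (g : G)
    (h1 : ∃ j k l : ℕ, g = x2 ^ j * x3 ^ k * u1 ^ l)
    (h2 : ∃ j k l : ℕ, g = x1 ^ j * x3 ^ k * u2 ^ l)
    (h3 : ∃ j k l : ℕ, g = x2 ^ j * x1 ^ k * u3 ^ l) : g = 1 := by
  obtain ⟨j1, k1, l1, hg1⟩ := h1
  obtain ⟨j2, k2, l2, hg2⟩ := h2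
  obtain ⟨j3, k3, l3, hg3⟩ := h3
  have c12 : Commute x1 x2 := hcfg.c12
  have c13 : Commute x1 x3 := hcfg.c13
  have c23 : Commute x2 x3 := hcfg.c23
  have cu1 : Commute u1 x1 := hcfg.a11
  have cu2 : Commute u2 x2 := hcfg.a22
  have cu3 : Commute u3 x3 := hcfg.a33
  -- the `u`-parts are trivial
  have hcomm2 : Commute g x2 := by
    rw [hg2]
    exact ((c12.pow_left j2).mul_left (c23.symm.pow_left k2)).mul_left (cu2.pow_left l2)
  have hl1 : u1 ^ l1 = 1 := by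
    rcases pow_one_or_self hcfg.u1sq l1 with h | h
    · exact h
    · exfalso
      rw [h] at hg1
      have hinv : g * x2 * g⁻¹ = x2⁻¹ := by
        rw [hg1]
        exact inv_of_mul (((Commute.refl x2).pow_left j1).mul_left (c23.symm.pow_left k1))
          hcfg.a12
      exact hcfg.ne2 (eq_one_of_inv_comm hcfg.x23 hinv hcomm2)
  rw [hl1, mul_one] at hg1
  have hcomm1 : Commute g x1 := by
    rw [hg1]
    exact (c12.symm.pow_left j1).mul_left (c13.symm.pow_left k1)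
  have hl2 : u2 ^ l2 = 1 := by
    rcases pow_one_or_self hcfg.u2sq l2 with h | h
    · exact h
    · exfalso
      rw [h] at hg2
      have hinv : g * x1 * g⁻¹ = x1⁻¹ := by
        rw [hg2]
        exact inv_of_mul (((Commute.refl x1).pow_left j2).mul_left (c13.symm.pow_left k2))
          hcfg.a21
      exact hcfg.ne1 (eq_one_of_inv_comm hcfg.x13 hinv hcomm1)
  rw [hl2, mul_one] at hg2
  have hl3 : u3 ^ l3 = 1 := by
    rcases pow_one_or_self hcfg.u3sq l3 with h | h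
    · exact h
    · exfalso
      rw [h] at hg3
      have hinv : g * x1 * g⁻¹ = x1⁻¹ := by
        rw [hg3]
        exact inv_of_mul ((c12.symm.pow_left j3).mul_left ((Commute.refl x1).pow_left k3))
          hcfg.a31
      exact hcfg.ne1 (eq_one_of_inv_comm hcfg.x13 hinv hcomm1)
  rw [hl3, mul_one] at hg3
  -- conjugate by `u1`
  have e1 : u1 * g * u1⁻¹ = g⁻¹ := by
    rw [hg1, conj_mul', conj_pow_inv hcfg.a12, conj_pow_inv hcfg.a13, ← mul_inv_rev,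
      ((c23.pow_left j1).pow_right k1).eq]
  have e2 : u1 * g * u1⁻¹ = x1 ^ j2 * (x3 ^ k2)⁻¹ := by
    rw [hg2, conj_mul', conj_pow_comm hcfg.a11, conj_pow_inv hcfg.a13]
  have hA : x1 ^ j2 = 1 := by
    have hAB : Commute (x1 ^ j2) (x3 ^ k2) := (c13.pow_left j2).pow_right k2
    have h4 : g⁻¹ = x1 ^ j2 * (x3 ^ k2)⁻¹ := e1.symm.trans e2
    rw [hg2, mul_inv_rev, ← hAB.inv_left.inv_right.eq] at h4
    have h5 : (x1 ^ j2)⁻¹ = x1 ^ j2 := mul_right_cancel h4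
    have h6 : x1 ^ j2 * x1 ^ j2 = 1 := by
      have := mul_inv_cancel (x1 ^ j2)
      rw [h5] at this
      exact this
    apply eq_one_of_sq_cube h6
    rw [← pow_mul, mul_comm, pow_mul, hcfg.x13, one_pow]
  rw [hA, one_mul] at hg2
  -- conjugate by `u3`
  have e3 : u3 * g * u3⁻¹ = g := by
    rw [hg2, conj_pow_comm hcfg.a33]
  have e4 : u3 * g * u3⁻¹ = g⁻¹ := by
    rw [hg3, conj_mul', conj_pow_inv hcfg.a32, conj_pow_inv hcfg.a31, ← mul_inv_rev,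
      ((c12.pow_left k3).pow_right j3).eq]
  have h7 : g = g⁻¹ := e3.symm.trans e4
  have h8 : g * g = 1 := by
    have := mul_inv_cancel g
    rw [← h7] at this
    exact this
  apply eq_one_of_sq_cube h8
  rw [hg2, ← pow_mul, mul_comm, pow_mul, hcfg.x33, one_pow]

theorem main (hN : NCORE.{u}) : FIN.{u} := by
  intro G _ _ T H x1 x2 x3 u1 u2 u3 hcfg K1 K2 K3 hn1 hn2 hn3 hK1 hK2 hK3 hsupp
  have hDn : (K1 ⊓ K2 ⊓ K3).Normal := by
    haveI := hn1
    haveI := hn2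
    haveI := hn3
    infer_instance
  have hD : K1 ⊓ K2 ⊓ K3 = ⊥ := by
    apply hN hcfg _ hDn
    intro g hgD hgH
    obtain ⟨⟨hg1, hg2⟩, hg3⟩ := hgD
    exact inter_trivial hcfg g ((hK1 g hgH).mp hg1) ((hK2 g hgH).mp hg2) ((hK3 g hgH).mp hg3)
  have hx3T : x3 ∈ T := (hcfg.memT x3).mpr ⟨0, 0, 1, by simp⟩
  have hx3H : x3 ∈ H := (hcfg.memH x3).mpr ⟨x3, hx3T, Or.inl rfl⟩
  have hx3K1 : x3 ∈ K1 := (hK1 x3 hx3H).mpr ⟨0, 1, 0, by simp⟩
  have hx3K2 : x3 ∈ K2 := (hK2 x3 hx3H).mpr ⟨0, 1, 0, by simp⟩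
  have hK3H : ∀ k ∈ K3, k ∈ H := by
    intro k hk
    have hc1 : k * x3 * k⁻¹ * x3⁻¹ ∈ K1 :=
      K1.mul_mem (hn1.conj_mem x3 hx3K1 k) (K1.inv_mem hx3K1)
    have hc2 : k * x3 * k⁻¹ * x3⁻¹ ∈ K2 :=
      K2.mul_mem (hn2.conj_mem x3 hx3K2 k) (K2.inv_mem hx3K2)
    have hc3 : k * x3 * k⁻¹ * x3⁻¹ ∈ K3 := by
      have h := K3.mul_mem hk (hn3.conj_mem k⁻¹ (K3.inv_mem hk) x3)
      have e : k * (x3 * k⁻¹ * x3⁻¹) = k * x3 * k⁻¹ * x3⁻¹ := by group
      rw [e] at h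
      exact h
    have hc : k * x3 * k⁻¹ * x3⁻¹ ∈ K1 ⊓ K2 ⊓ K3 :=
      Subgroup.mem_inf.mpr ⟨Subgroup.mem_inf.mpr ⟨hc1, hc2⟩, hc3⟩
    rw [hD, Subgroup.mem_bot] at hc
    have hcomm : k * x3 = x3 * k := mul_inv_eq_iff_eq_mul.mp (mul_inv_eq_one.mp hc)
    exact hcfg.loc x3 hx3T hcfg.ne3 k hcomm
  rw [eq_top_iff]
  intro g _
  obtain ⟨k, hk, n, hn, rfl⟩ := hsupp g
  exact mul_mem (hK3H k hk) hn

end Cfsg.Agent.Lib.Helper99.T3FIN
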