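import Mathlib
import Cfsg.Agent.Lib.Helper64.AutStmt

/-! Piece AQ1 of S4411: if `q` divides `|N(R) : C(R)|` then some `q`-element of `N(R)` does not
centralize `R`. -/

set_option autoImplicit false

namespace Cfsg.Agent.Lib.Helper99.AutAQ1

open Cfsg Cfsg.Agent.Lib.Helper64.AutStmt

universe u

theorem main : Cfsg.Agent.Lib.Helper64.AutStmt.Aq1.{u} := by
  intro q _ G _ _ R hq
  obtain ⟨Q⟩ : Nonempty (Sylow q ↥(Subgroup.normalizer (R : Set G))) := inferInstance
  have hnot : ¬ ((Q : Subgroup ↥(Subgroup.normalizer (R : Set G))) ≤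
      (Subgroup.centralizer (R : Set G)).subgroupOf (Subgroup.normalizer (R : Set G))) := by
    intro hle
    have h1 : ((Subgroup.centralizer (R : Set G)).subgroupOf
        (Subgroup.normalizer (R : Set G))).index ∣
        (Q : Subgroup ↥(Subgroup.normalizer (R : Set G))).index :=
      Subgroup.index_dvd_of_le hle
    exact Sylow.not_dvd_index Q (hq.trans h1)
  obtain ⟨y, hyQ, hyC⟩ : ∃ y ∈ (Q : Subgroup ↥(Subgroup.normalizer (R : Set G))),
      y ∉ (Subgroup.centralizer (R : Set G)).subgroupOf (Subgroup.normalizer (R : Set G)) := by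
    by_contra hcon
    push Not at hcon
    exact hnot hcon
  refine ⟨(y : G), Subgroup.mem_top _, y.2, ?_, ?_⟩
  · obtain ⟨k, hk⟩ := Q.isPGroup' ⟨y, hyQ⟩
    refine ⟨k, ?_⟩
    have h2 : y ^ q ^ k = 1 := by
      have h3 := congrArg Subtype.val hk
      simpa using h3
    have h4 := congrArg Subtype.val h2
    simpa using h4
  · intro h
    exact hyC (Subgroup.mem_subgroupOf.2 h)

end Cfsg.Agent.Lib.Helper99.AutAQ1
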