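import Mathlib
import Cfsg.Agent.Lib.Helper64.AutStmt

/-! Piece AQ2 of S4411: if some `q`-element of `N(R)` does not centralize `R` then `q` divides
`|N(R) : C(R)|`. -/

set_option autoImplicit false

namespace Cfsg.Agent.Lib.Helper99.AutAQ2

open Cfsg Cfsg.Agent.Lib.Helper64.AutStmt

universe u

theorem main : Cfsg.Agent.Lib.Helper64.AutStmt.Aq2.{u} := by
  intro q _ G _ _ R hbad
  obtain ⟨y, -, hyN, ⟨k, hk⟩, hyC⟩ := hbad
  rw [Subgroup.index_eq_card]
  have h1 : (QuotientGroup.mk (⟨y, hyN⟩ : ↥(Subgroup.normalizer (R : Set G))) :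
      ↥(Subgroup.normalizer (R : Set G)) ⧸
        (Subgroup.centralizer (R : Set G)).subgroupOf (Subgroup.normalizer (R : Set G)))
        ^ (q ^ k) = 1 := by
    rw [← QuotientGroup.mk_pow]
    have h5 : (⟨y, hyN⟩ : ↥(Subgroup.normalizer (R : Set G))) ^ (q ^ k) = 1 :=
      Subtype.ext (by simpa using hk)
    rw [h5]
    rfl
  have h2 : (QuotientGroup.mk (⟨y, hyN⟩ : ↥(Subgroup.normalizer (R : Set G))) :
      ↥(Subgroup.normalizer (R : Set G)) ⧸
        (Subgroup.centralizer (R : Set G)).subgroupOf (Subgroup.normalizer (R : Set G)))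
        ≠ 1 := by
    intro h
    rw [QuotientGroup.eq_one_iff] at h
    exact hyC (Subgroup.mem_subgroupOf.1 h)
  have h3 := orderOf_dvd_of_pow_eq_one h1
  obtain ⟨j, -, hj⟩ := (Nat.dvd_prime_pow (Fact.out : q.Prime)).1 h3
  have hj0 : j ≠ 0 := by
    rintro rfl
    rw [pow_zero, orderOf_eq_one_iff] at hj
    exact h2 hj
  have h4 : q ∣ orderOf (QuotientGroup.mk (⟨y, hyN⟩ : ↥(Subgroup.normalizer (R : Set G))) :
      ↥(Subgroup.normalizer (R : Set G)) ⧸
        (Subgroup.centralizer (R : Set G)).subgroupOf (Subgroup.normalizer (R : Set G))) := by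
    rw [hj]
    exact dvd_pow_self q hj0
  exact h4.trans (orderOf_dvd_natCard _)

end Cfsg.Agent.Lib.Helper99.AutAQ2
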