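import Mathlib
import Cfsg.Prelude.Def_FusionSystem
import Cfsg.Prelude.Def_FusionComponents
import Cfsg.Agent.H85.Basic
import Cfsg.Agent.H85.Aut
import Cfsg.Agent.Lib.Helper87.FSSat
import Cfsg.Agent.Lib.Helper88.CESStmt

/-! S5127 piece LGSTEP: the inductive step on `|C_T(φ(X))|` (from LGFAR, NGROW, YCAP). -/

set_option autoImplicit false

namespace Cfsg.Agent.Lib.Helper99.CELGSTEP

open Cfsg Cfsg.FusionSystem Cfsg.Agent.Lib.Helper88.FCStmt Cfsg.Agent.Lib.Helper88.CESStmt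

universe u

theorem main (hFar : LemGFar.{u}) (hNG : NormGrow.{u}) (hYC : YCap.{u}) : LemGStep.{u} := by
  intro Ω _ S _ p _ hS F hF T E hEn X hX hXE φ hφ H
  have hT : F.StronglyClosed T := hEn.1.2.2.2.1
  have hTS : T ≤ S := hT.1
  have hR'S : φ.range ≤ S := by rintro _ ⟨x, rfl⟩; exact (F.le_of_mem hφ).2 x
  have hC₁T : centralizerIn T φ.range ≤ T := inf_le_left
  have hYS : φ.range ⊔ centralizerIn T φ.range ≤ S := sup_le hR'S (hC₁T.trans hTS)
  obtain ⟨ρ, hρ, hfa, hrec⟩ := Cfsg.Agent.Lib.Helper87.FSSat.exists_far F hF hYS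
  obtain ⟨χ, hχ, hχr, ω, hω, hωx⟩ :=
    Cfsg.Agent.Lib.Helper87.FSSat.exists_extension_normalizer hS F hρ hfa hrec
  have hYN : φ.range ⊔ centralizerIn T φ.range ≤
      normalizerIn S (φ.range ⊔ centralizerIn T φ.range) :=
    Cfsg.Agent.Lib.Helper87.FSSat.le_normalizerIn hYS
  have hωinj : Function.Injective ω := F.injective_of_mem hω
  -- strong closure of `T` for `ω`
  have hωT : ∀ t : ↥(normalizerIn S (φ.range ⊔ centralizerIn T φ.range)),
      (t : Ω) ∈ T → ω t ∈ T := by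
    intro t ht
    have hle : T ⊓ normalizerIn S (φ.range ⊔ centralizerIn T φ.range) ≤
        normalizerIn S (φ.range ⊔ centralizerIn T φ.range) := inf_le_right
    have h1 := Cfsg.Agent.H85.restrict_mem F hω hle
    exact hT.2 _ inf_le_left _ h1 ⟨t, ⟨ht, t.2⟩⟩
  have hφN : ∀ x : X, φ x ∈ normalizerIn S (φ.range ⊔ centralizerIn T φ.range) :=
    fun x => hYN (le_sup_left (b := centralizerIn T φ.range) ⟨x, rfl⟩)
  obtain ⟨φs, hφsdef⟩ : ∃ φs : X →* Ω, φs = ω.comp (φ.codRestrict _ hφN) := ⟨_, rfl⟩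
  have hφs : φs ∈ F.Hom X := by rw [hφsdef]; exact F.comp_mem hφ hω hφN
  have hφsx : ∀ x : X, φs x = ω ⟨φ x, hφN x⟩ := by intro x; rw [hφsdef]; rfl
  -- `ω` maps `C_T(R')` into `C_T(R*)`
  have hmap : ∀ c : ↥(centralizerIn T φ.range),
      ω ⟨c, hYN (le_sup_right (a := φ.range) c.2)⟩ ∈ centralizerIn T φs.range := by
    intro c
    refine ⟨hωT _ c.2.1, Subgroup.mem_centralizer_iff.mpr ?_⟩
    rintro _ ⟨x, rfl⟩
    rw [hφsx, ← map_mul, ← map_mul]
    congr 1
    apply Subtype.ext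
    exact c.2.2 (φ x) ⟨x, rfl⟩
  have hfinT : Finite ↥(centralizerIn T φs.range) :=
    Cfsg.Agent.Lib.Helper87.FSSat.finite_of_le (inf_le_left.trans hTS)
  obtain ⟨ι, hι⟩ : ∃ ι : ↥(centralizerIn T φ.range) → ↥(centralizerIn T φs.range),
      ∀ c, ((ι c : ↥(centralizerIn T φs.range)) : Ω) =
        ω ⟨c, hYN (le_sup_right (a := φ.range) c.2)⟩ :=
    ⟨fun c => ⟨_, hmap c⟩, fun c => rfl⟩
  have hιinj : Function.Injective ι := by
    intro a b hab
    have h1 : ω ⟨a, hYN (le_sup_right (a := φ.range) a.2)⟩ =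
        ω ⟨b, hYN (le_sup_right (a := φ.range) b.2)⟩ := by
      rw [← hι a, ← hι b, hab]
    have h2 := hωinj h1
    have h3 : (a : Ω) = b :=
      congrArg (fun z : ↥(normalizerIn S (φ.range ⊔ centralizerIn T φ.range)) => (z : Ω)) h2
    exact Subtype.ext h3
  -- `χ.range = ρ.range` pointwise
  have hωρ : ∀ (y : Ω) (hy : y ∈ φ.range ⊔ centralizerIn T φ.range),
      ω ⟨y, hYN hy⟩ ∈ ρ.range := by
    intro y hy
    rw [hωx ⟨y, hy⟩ (hYN hy)]
    have h : χ ⟨ρ ⟨y, hy⟩, ⟨_, rfl⟩⟩ ∈ χ.range := ⟨_, rfl⟩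
    rw [hχr] at h
    exact h
  have hRs : φs.range ≤ centralizerIn S T := by
    by_cases hlt : Nat.card ↥(centralizerIn T φ.range) < Nat.card ↥(centralizerIn T φs.range)
    · exact H φs hφs hlt
    · have hbij := hιinj.bijective_of_nat_card_le (not_lt.mp hlt)
      have hYeq : ρ.range = φs.range ⊔ centralizerIn T φs.range := by
        apply le_antisymm
        · intro z hz
          rw [← hχr] at hz
          obtain ⟨⟨_, y, rfl⟩, rfl⟩ := hz
          have h1 : χ ⟨ρ y, ⟨y, rfl⟩⟩ = ω ⟨y, hYN y.2⟩ := (hωx y (hYN y.2)).symm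
          rw [h1]
          -- induction on `y ∈ R' ⊔ C₁`
          have hK : φ.range ⊔ centralizerIn T φ.range ≤
              ((φs.range ⊔ centralizerIn T φs.range).comap ω).map
                (normalizerIn S (φ.range ⊔ centralizerIn T φ.range)).subtype := by
            apply sup_le
            · rintro _ ⟨x, rfl⟩
              refine ⟨⟨φ x, hφN x⟩, ?_, rfl⟩
              show ω ⟨φ x, hφN x⟩ ∈ φs.range ⊔ centralizerIn T φs.range
              rw [← hφsx]
              exact le_sup_left (b := centralizerIn T φs.range) ⟨x, rfl⟩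
            · intro c hc
              refine ⟨⟨c, hYN (le_sup_right (a := φ.range) hc)⟩, ?_, rfl⟩
              show ω ⟨c, _⟩ ∈ φs.range ⊔ centralizerIn T φs.range
              exact le_sup_right (a := φs.range) (hmap ⟨c, hc⟩)
          obtain ⟨k, hk, hky⟩ := hK y.2
          have hke : k = ⟨y, hYN y.2⟩ := Subtype.ext hky
          rw [← hke]
          exact hk
        · apply sup_le
          · rintro _ ⟨x, rfl⟩
            rw [hφsx]
            exact hωρ _ (le_sup_left (b := centralizerIn T φ.range) ⟨x, rfl⟩)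
          · intro d hd
            obtain ⟨c, hc⟩ := hbij.2 ⟨d, hd⟩
            have h1 : d = ω ⟨c, hYN (le_sup_right (a := φ.range) c.2)⟩ := by
              rw [← hι c, hc]
            rw [h1]
            exact hωρ _ (le_sup_right (a := φ.range) c.2)
      rw [hYeq] at hfa hrec
      exact hFar p hS F hF E hEn X hX hXE φs hφs hfa hrec
  -- `N_T(Y) ≤ Y`
  have hNT : normalizerIn T (φ.range ⊔ centralizerIn T φ.range) ≤
      φ.range ⊔ centralizerIn T φ.range := by
    intro t ht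
    have htN : t ∈ normalizerIn S (φ.range ⊔ centralizerIn T φ.range) := ⟨hTS ht.1, ht.2⟩
    have h1 : ω ⟨t, htN⟩ ∈ T := hωT ⟨t, htN⟩ ht.1
    apply le_sup_right (a := φ.range)
    refine ⟨ht.1, Subgroup.mem_centralizer_iff.mpr ?_⟩
    rintro _ ⟨x, rfl⟩
    have h2 : φs x ∈ centralizerIn S T := hRs ⟨x, rfl⟩
    have h3 := h2.2 (ω ⟨t, htN⟩) h1
    rw [hφsx, ← map_mul, ← map_mul] at h3
    have h4 := hωinj h3
    exact (congrArg Subtype.val h4).symm
  have hSnT : ∀ s ∈ S, ∀ t ∈ T, s * t * s⁻¹ ∈ T := fun s hs t ht =>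
    hT.2 T le_rfl (conjHom T s) (F.conj_mem hTS hs) ⟨t, ht⟩
  have hTY : T ≤ φ.range ⊔ centralizerIn T φ.range := hNG p hS T _ hTS hYS hSnT hNT
  have hYC' := hYC F T hT X hX φ hφ
  refine fun r hr => ⟨hR'S hr, Subgroup.mem_centralizer_iff.mpr ?_⟩
  intro t ht
  have h5 := (hYC' t (hTY ht) ht).2
  exact (h5 r hr).symm

end Cfsg.Agent.Lib.Helper99.CELGSTEP
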