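import Mathlib
import Cfsg.Prelude.Def_FusionSystem
import Cfsg.Prelude.Def_FusionComponents
import Cfsg.Agent.H85.Basic
import Cfsg.Agent.H85.Aut
import Cfsg.Agent.Lib.Helper87.FSSat
import Cfsg.Agent.Lib.Helper88.CNStmt

/-! S5155 piece EXTY: every map of `F` with source `P ≤ Y` extends to `T P`. -/

set_option autoImplicit false

namespace Cfsg.Agent.Lib.Helper99.CNEXTY

open Cfsg Cfsg.FusionSystem Cfsg.Agent.Lib.Helper88.CNStmt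

universe u

theorem main : ExtOverT.{u} := by
  intro Ω _ S _ p _ hS F hF T hT Y hY hYsc P hPY ψ hψ
  have hTS : T ≤ S := hT.1
  have hψY : ∀ x : P, ψ x ∈ Y := fun x => hYsc.2 P hPY ψ hψ x
  have hRS : ψ.range ≤ S := by rintro _ ⟨x, rfl⟩; exact (F.le_of_mem hψ).2 x
  have hRY : ψ.range ≤ Y := by rintro _ ⟨x, rfl⟩; exact hψY x
  obtain ⟨σ, hσ, -, hrec⟩ := Cfsg.Agent.Lib.Helper87.FSSat.exists_far F hF hRS
  obtain ⟨ρ, hρdef⟩ : ∃ ρ : P →* Ω,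
      ρ = σ.comp (ψ.codRestrict ψ.range (fun x => ⟨x, rfl⟩)) := ⟨_, rfl⟩
  have hρ : ρ ∈ F.Hom P := by rw [hρdef]; exact F.comp_mem hψ hσ _
  have hρx : ∀ x : P, ρ x = σ ⟨ψ x, ⟨x, rfl⟩⟩ := by intro x; rw [hρdef]; rfl
  have hρr : ρ.range = σ.range := by
    ext y; constructor
    · rintro ⟨x, rfl⟩; rw [hρx]; exact ⟨_, rfl⟩
    · rintro ⟨⟨_, x, rfl⟩, rfl⟩; exact ⟨x, hρx x⟩
  obtain ⟨ρh, hρh, hρhx⟩ := Cfsg.Agent.H85.receptive_extend_sup F hrec hρ hρr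
  obtain ⟨σh, hσh, hσhx⟩ := Cfsg.Agent.H85.receptive_extend_sup F hrec hσ rfl
  have hTC : ∀ Q : Subgroup Ω, Q ≤ Y → T ≤ centralizerIn S Q := by
    intro Q hQ t ht
    refine ⟨hTS ht, Subgroup.mem_centralizer_iff.mpr ?_⟩
    intro q hq
    exact ((hY (hQ hq)).2 t ht).symm
  have hle1 : T ⊔ P ≤ P ⊔ centralizerIn S P :=
    sup_le ((hTC P hPY).trans le_sup_right) le_sup_left
  have hle2 : T ⊔ ψ.range ≤ ψ.range ⊔ centralizerIn S ψ.range :=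
    sup_le ((hTC _ hRY).trans le_sup_right) le_sup_left
  have hρ1 := Cfsg.Agent.H85.restrict_mem F hρh hle1
  have hσ1 := Cfsg.Agent.H85.restrict_mem F hσh hle2
  obtain ⟨ρ1, hρ1def⟩ : ∃ ρ1 : ↥(T ⊔ P) →* Ω, ρ1 = ρh.comp (Subgroup.inclusion hle1) :=
    ⟨_, rfl⟩
  obtain ⟨σ1, hσ1def⟩ : ∃ σ1 : ↥(T ⊔ ψ.range) →* Ω,
      σ1 = σh.comp (Subgroup.inclusion hle2) := ⟨_, rfl⟩
  rw [← hρ1def] at hρ1
  rw [← hσ1def] at hσ1
  have hρ1x : ∀ x : P, ρ1 (Subgroup.inclusion le_sup_right x) = ρ x := by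
    intro x
    rw [hρ1def]
    show ρh (Subgroup.inclusion hle1 (Subgroup.inclusion le_sup_right x)) = ρ x
    exact hρhx x
  have hσ1x : ∀ y : ψ.range, σ1 (Subgroup.inclusion le_sup_right y) = σ y := by
    intro y
    rw [hσ1def]
    show σh (Subgroup.inclusion hle2 (Subgroup.inclusion le_sup_right y)) = σ y
    exact hσhx y
  have hρ1T : ∀ (t : Ω) (ht : t ∈ T), ρ1 ⟨t, le_sup_left (b := P) ht⟩ ∈ T := by
    intro t ht
    have h1 := Cfsg.Agent.H85.restrict_mem F hρ1 (le_sup_left : T ≤ T ⊔ P)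
    exact hT.2 T le_rfl _ h1 ⟨t, ht⟩
  have hσ1T : ∀ (t : Ω) (ht : t ∈ T), σ1 ⟨t, le_sup_left (b := ψ.range) ht⟩ ∈ T := by
    intro t ht
    have h1 := Cfsg.Agent.H85.restrict_mem F hσ1 (le_sup_left : T ≤ T ⊔ ψ.range)
    exact hT.2 T le_rfl _ h1 ⟨t, ht⟩
  have hTfin : Finite T := Cfsg.Agent.Lib.Helper87.FSSat.finite_of_le hTS
  have hσ1surj : ∀ t ∈ T, ∃ (t' : Ω) (ht' : t' ∈ T),
      σ1 ⟨t', le_sup_left (b := ψ.range) ht'⟩ = t := by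
    obtain ⟨f, hf⟩ : ∃ f : T → T, ∀ t : T,
        ((f t : T) : Ω) = σ1 ⟨t, le_sup_left (b := ψ.range) t.2⟩ :=
      ⟨fun t => ⟨_, hσ1T t t.2⟩, fun t => rfl⟩
    have hfinj : Function.Injective f := by
      intro a b hab
      have h1 : σ1 ⟨a, le_sup_left (b := ψ.range) a.2⟩ =
          σ1 ⟨b, le_sup_left (b := ψ.range) b.2⟩ := by
        rw [← hf a, ← hf b, hab]
      have h2 := F.injective_of_mem hσ1 h1
      have h3 : (a : Ω) = b := congrArg (fun z : ↥(T ⊔ ψ.range) => (z : Ω)) h2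
      exact Subtype.ext h3
    have hfsurj := Finite.surjective_of_injective hfinj
    intro t ht
    obtain ⟨t', ht'⟩ := hfsurj ⟨t, ht⟩
    refine ⟨t', t'.2, ?_⟩
    rw [← hf t', ht']
  have hrange : ρ1.range ≤ σ1.range := by
    rintro _ ⟨z, rfl⟩
    have hK : T ⊔ P ≤ (σ1.range.comap ρ1).map (T ⊔ P).subtype := by
      apply sup_le
      · intro t ht
        refine ⟨⟨t, le_sup_left (b := P) ht⟩, ?_, rfl⟩
        show ρ1 _ ∈ σ1.range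
        obtain ⟨t', ht', h⟩ := hσ1surj _ (hρ1T t ht)
        exact ⟨_, h⟩
      · intro x hx
        refine ⟨⟨x, le_sup_right (a := T) hx⟩, ?_, rfl⟩
        show ρ1 _ ∈ σ1.range
        have h2 : ρ1 ⟨x, le_sup_right (a := T) hx⟩ = ρ ⟨x, hx⟩ := hρ1x ⟨x, hx⟩
        rw [h2, hρx, ← hσ1x]
        exact ⟨_, rfl⟩
    obtain ⟨k, hk, hkz⟩ := hK z.2
    have hke : k = z := Subtype.ext hkz
    rw [← hke]
    exact hk
  obtain ⟨θ, hθ, hθx⟩ := Cfsg.Agent.H85.inv_mem' F hσ1 hrange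
  refine ⟨θ.comp (ρ1.codRestrict ρ1.range (fun x => ⟨x, rfl⟩)), F.comp_mem hρ1 hθ _,
    fun x => ?_⟩
  have h1 : ρ1 (Subgroup.inclusion le_sup_right x) =
      σ1 (Subgroup.inclusion le_sup_right ⟨ψ x, ⟨x, rfl⟩⟩) := by
    rw [hρ1x, hρx, hσ1x]
  have h2 : ∀ (w : Ω) (hw : w ∈ ρ1.range) (v : ↥(T ⊔ ψ.range)), w = σ1 v →
      θ ⟨w, hw⟩ = v := by
    intro w hw v hwv
    subst hwv
    exact hθx v hw
  exact h2 _ ⟨_, rfl⟩ _ h1

end Cfsg.Agent.Lib.Helper99.CNEXTY
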