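import Mathlib
import Cfsg.Agent.Lib.Helper99.G504a

/-!
A simple group of order 504, part 2 (helper99): Sylow 3-subgroups are self-centralizing
(`C(x) = P` for `1 ≠ x ∈ P`), element orders.
-/

set_option autoImplicit false
set_option linter.unusedSectionVars false

namespace Cfsg.Agent.Lib.Helper99.G504

open Subgroup MulAction
open Cfsg.Agent.Lib.Helper17.Sylow Cfsg.Agent.Lib.Helper17.Sylow2 Cfsg.Agent.Lib.Helper17.Count
open Cfsg.Agent.Lib.Helper17.Count2 Cfsg.Agent.Lib.Helper17.Commuting
open Cfsg.Agent.Lib.Helper17.CentFix Cfsg.Agent.Lib.Helper17.Embed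
open Cfsg.Agent.Lib.Helper17.Classes

variable {G : Type*} [Group G] [Finite G] [IsSimpleGroup G]

theorem comm_P3 (h : Nat.card G = 504) (P : Sylow 3 G) : IsMulCommutative (P : Subgroup G) :=
  IsPGroup.isMulCommutative_of_card_eq_prime_sq (p := 3) (by rw [card_P3 h P]; norm_num)

theorem mul_comm_P3 (h : Nat.card G = 504) (P : Sylow 3 G) {a b : G} (ha : a ∈ (P : Subgroup G))
    (hb : b ∈ (P : Subgroup G)) : a * b = b * a := by
  have := (comm_P3 h P).is_comm.comm ⟨a, ha⟩ ⟨b, hb⟩
  exact congrArg Subtype.val this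

/-- an involution of `N(P)` centralizes no nontrivial element of the Sylow 3-subgroup `P` -/
theorem eq_one_of_commute_involution (h : Nat.card G = 504) (P : Sylow 3 G) (t : G)
    (ht : orderOf t = 2) (htN : t ∈ normalizer ((P : Subgroup G) : Set G)) (u : G)
    (hu : u ∈ (P : Subgroup G)) (hc : t * u = u * t) : u = 1 := by
  have hG := not_comm h
  apply eq_one_of_normalizer_le_centralizer hG P (comm_P3 h P) u hu
  -- K = C(u) ⊓ N(P) contains P and t
  have hPK : (P : Subgroup G) ≤ centralizer ({u} : Set G) ⊓ normalizer ((P : Subgroup G) : Set G) := by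
    refine le_inf ?_ le_normalizer
    intro g hg
    rw [mem_centralizer_iff]
    intro z hz
    rw [Set.mem_singleton_iff] at hz
    subst hz
    exact mul_comm_P3 h P hu hg
  have htK : t ∈ centralizer ({u} : Set G) ⊓ normalizer ((P : Subgroup G) : Set G) := by
    refine Subgroup.mem_inf.mpr ⟨?_, htN⟩
    rw [mem_centralizer_iff]
    intro z hz
    rw [Set.mem_singleton_iff] at hz
    subst hz
    exact hc.symm
  have htP : t ∉ (P : Subgroup G) := by
    intro htP
    have := orderOf_dvd_card_of_mem htP
    rw [ht, card_P3 h P] at this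
    omega
  have hd1 : Nat.card (centralizer ({u} : Set G) ⊓ normalizer ((P : Subgroup G) : Set G) : Subgroup G) ∣ 18 := by
    rw [← card_N3 h P]
    exact Subgroup.card_dvd_of_le inf_le_right
  have hd2 : 9 ∣ Nat.card (centralizer ({u} : Set G) ⊓ normalizer ((P : Subgroup G) : Set G) : Subgroup G) := by
    rw [← card_P3 h P]
    exact Subgroup.card_dvd_of_le hPK
  have hne : Nat.card (centralizer ({u} : Set G) ⊓ normalizer ((P : Subgroup G) : Set G) : Subgroup G) ≠ 9 := by
    intro h9
    have := Subgroup.eq_of_le_of_card_ge hPK (by rw [h9, card_P3 h P])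
    rw [this] at htP
    exact htP htK
  have h18 : Nat.card (centralizer ({u} : Set G) ⊓ normalizer ((P : Subgroup G) : Set G) : Subgroup G) = 18 := by
    have key : ∀ n ∈ Nat.divisors 18, 9 ∣ n → n ≠ 9 → n = 18 := by decide
    exact key _ (Nat.mem_divisors.mpr ⟨hd1, by norm_num⟩) hd2 hne
  have heq := Subgroup.eq_of_le_of_card_ge
    (inf_le_right : centralizer ({u} : Set G) ⊓ normalizer ((P : Subgroup G) : Set G) ≤ _)
    (by rw [h18, card_N3 h P])
  rw [← heq]
  exact inf_le_left

/-- an involution of `N(P)` inverts the Sylow 3-subgroup `P` -/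
theorem conj_eq_inv (h : Nat.card G = 504) (P : Sylow 3 G) (t : G)
    (ht : orderOf t = 2) (htN : t ∈ normalizer ((P : Subgroup G) : Set G)) (x : G)
    (hx : x ∈ (P : Subgroup G)) : t * x * t⁻¹ = x⁻¹ := by
  have ht2 : t * t = 1 := by
    have := pow_orderOf_eq_one t
    rwa [ht, pow_two] at this
  have htinv : t⁻¹ = t := inv_eq_of_mul_eq_one_left ht2
  have hx' : t * x * t⁻¹ ∈ (P : Subgroup G) := (mem_normalizer_iff.mp htN x).mp hx
  have hu : x * (t * x * t⁻¹) ∈ (P : Subgroup G) := mul_mem hx hx'
  have hcomm : x * (t * x * t⁻¹) = (t * x * t⁻¹) * x := mul_comm_P3 h P hx hx'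
  have hc : t * (x * (t * x * t⁻¹)) = x * (t * x * t⁻¹) * t := by
    calc t * (x * (t * x * t⁻¹)) = t * ((t * x * t⁻¹) * x) := by rw [hcomm]
      _ = (t * t) * x * t⁻¹ * x := by group
      _ = x * t * x := by rw [ht2, one_mul, htinv]
      _ = x * (t * x * t⁻¹) * t := by group
  have h1 := eq_one_of_commute_involution h P t ht htN _ hu hc
  exact eq_inv_of_mul_eq_one_right h1

/-- there is an involution in `N(P)` -/
theorem exists_involution_N3 (h : Nat.card G = 504) (P : Sylow 3 G) :
    ∃ t : G, t ∈ normalizer ((P : Subgroup G) : Set G) ∧ orderOf t = 2 :=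
  exists_mem_orderOf_eq_prime _ 2 (by rw [card_N3 h P]; norm_num)

/-- the centralizer of a nontrivial element of a Sylow 3-subgroup `P` is `P` -/
theorem centralizer_eq (h : Nat.card G = 504) (P : Sylow 3 G) (x : G)
    (hx : x ∈ (P : Subgroup G)) (hx1 : x ≠ 1) :
    centralizer ({x} : Set G) = (P : Subgroup G) := by
  have hG := not_comm h
  obtain ⟨t, htN, ht⟩ := exists_involution_N3 h P
  have hinv := conj_eq_inv h P t ht htN x hx
  have hPC : (P : Subgroup G) ≤ centralizer ({x} : Set G) := by
    intro g hg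
    rw [mem_centralizer_iff]
    intro z hz
    rw [Set.mem_singleton_iff] at hz
    subst hz
    exact mul_comm_P3 h P hx hg
  have hox : orderOf x ∣ 9 := by
    rw [← card_P3 h P]
    exact orderOf_dvd_card_of_mem hx
  have hxx : x⁻¹ ≠ x := by
    intro hh
    have h2 : x ^ 2 = 1 := by
      rw [pow_two]
      nth_rewrite 1 [← hh]
      exact inv_mul_cancel x
    have hd2 := orderOf_dvd_of_pow_eq_one h2
    have h1 : orderOf x = 1 := by
      have := Nat.dvd_gcd hd2 hox
      simpa using this
    exact hx1 (orderOf_eq_one_iff.mp h1)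
  have htC : t ∉ centralizer ({x} : Set G) := by
    intro htC
    have hc : x * t = t * x := mem_centralizer_iff.mp htC x rfl
    apply hxx
    rw [← hinv, ← hc, mul_inv_cancel_right]
  have hCN : centralizer ({x} : Set G) ≤ normalizer ((zpowers x : Subgroup G) : Set G) := by
    rw [centralizer_singleton_eq]
    exact Subgroup.centralizer_le_normalizer _
  have hinv' : t⁻¹ * x * t = x⁻¹ := by
    have e : x = t⁻¹ * x⁻¹ * t := by
      rw [← hinv]
      group
    calc t⁻¹ * x * t = (t⁻¹ * x⁻¹ * t)⁻¹ := by group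
      _ = x⁻¹ := by rw [← e]
  have htNx : t ∈ normalizer ((zpowers x : Subgroup G) : Set G) := by
    rw [mem_normalizer_iff]
    intro g
    constructor
    · rintro ⟨k, rfl⟩
      refine ⟨-k, ?_⟩
      show x ^ (-k) = t * x ^ k * t⁻¹
      rw [← conj_zpow, hinv, inv_zpow, zpow_neg]
    · rintro ⟨k, hk⟩
      refine ⟨-k, ?_⟩
      have hk' : x ^ k = t * g * t⁻¹ := hk
      show x ^ (-k) = g
      have e : g = t⁻¹ * x ^ k * t := by
        rw [hk']
        group
      rw [e]
      have e2 : t⁻¹ * x ^ k * t = (t⁻¹ * x * t) ^ k := by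
        have := conj_zpow (a := t⁻¹) (b := x) (i := k)
        rw [inv_inv] at this
        exact this.symm
      rw [e2, hinv', inv_zpow, zpow_neg]
  have hNtop : normalizer ((zpowers x : Subgroup G) : Set G) ≠ ⊤ := by
    intro htop
    have hn : (zpowers x).Normal := Subgroup.normalizer_eq_top_iff.mp htop
    rcases hn.eq_bot_or_eq_top with hb | ht'
    · exact hx1 (zpowers_eq_bot.mp hb)
    · have hc : Nat.card (zpowers x) = 504 := by rw [ht', Subgroup.card_top, h]
      rw [Nat.card_zpowers] at hc
      have := Nat.le_of_dvd (by norm_num) hox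
      omega
  have hN63 := card_le_of_ne_top h _ hNtop
  have hmul := card_mul_relIndex hCN
  have hrel : (centralizer ({x} : Set G)).relIndex
      (normalizer ((zpowers x : Subgroup G) : Set G)) ≠ 1 := by
    intro h1
    exact htC (relIndex_eq_one.mp h1 htNx)
  have hNpos : 0 < Nat.card (normalizer ((zpowers x : Subgroup G) : Set G)) := Nat.card_pos
  have hC31 : Nat.card (centralizer ({x} : Set G)) ≤ 31 := by
    have hrel0 : (centralizer ({x} : Set G)).relIndex
        (normalizer ((zpowers x : Subgroup G) : Set G)) ≠ 0 := by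
      intro h0
      rw [h0, mul_zero] at hmul
      omega
    have h2 : 2 ≤ (centralizer ({x} : Set G)).relIndex
        (normalizer ((zpowers x : Subgroup G) : Set G)) := by omega
    nlinarith
  have hd9 : 9 ∣ Nat.card (centralizer ({x} : Set G)) := by
    rw [← card_P3 h P]
    exact Subgroup.card_dvd_of_le hPC
  have hd504 : Nat.card (centralizer ({x} : Set G)) ∣ 504 := by
    rw [← h]
    exact Subgroup.card_subgroup_dvd_card _
  have key : ∀ n ∈ Nat.divisors 504, 9 ∣ n → n ≤ 31 → n = 9 ∨ n = 18 := by decide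
  rcases key _ (Nat.mem_divisors.mpr ⟨hd504, by norm_num⟩) hd9 hC31 with h9 | h18
  · exact (Subgroup.eq_of_le_of_card_ge hPC (by rw [h9, card_P3 h P])).symm
  · exfalso
    have hrel2 : (P : Subgroup G).relIndex (centralizer ({x} : Set G)) = 2 := by
      have := card_mul_relIndex hPC
      rw [card_P3 h P, h18] at this
      omega
    have hnorm : ((P : Subgroup G).subgroupOf (centralizer ({x} : Set G))).Normal :=
      Subgroup.normal_of_index_eq_two hrel2
    have hle : centralizer ({x} : Set G) ≤ normalizer ((P : Subgroup G) : Set G) :=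
      (Subgroup.normal_subgroupOf_iff_le_normalizer hPC).mp hnorm
    have heq := Subgroup.eq_of_le_of_card_ge hle (by rw [h18, card_N3 h P])
    exact htC (heq ▸ htN)

/-- element orders, first version -/
theorem orderOf_mem (h : Nat.card G = 504) (g : G) :
    orderOf g ∈ ({1, 2, 3, 4, 7, 8, 9} : Finset ℕ) := by
  have h1 : orderOf g ∣ 504 := h ▸ orderOf_dvd_natCard g
  have h7 : 7 ∣ orderOf g → orderOf g = 7 := orderOf_eq_of_dvd (card_P7 h) (card_C7 h) g
  have h3 : 3 ∣ orderOf g → orderOf g ∣ 9 := by
    intro h3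
    have ho : 0 < orderOf g := orderOf_pos g
    set y := g ^ (orderOf g / 3) with hy
    have hyo : orderOf y = 3 := by
      rw [hy, orderOf_pow' g (by
        intro h0
        have := Nat.div_pos (Nat.le_of_dvd ho h3) (by norm_num : 0 < 3)
        omega), Nat.gcd_eq_right (Nat.div_dvd_of_dvd h3), Nat.div_div_self h3 ho.ne']
    have hpg : IsPGroup 3 (zpowers y) := by
      apply IsPGroup.of_card (n := 1)
      rw [Nat.card_zpowers, hyo, pow_one]
    obtain ⟨P, hP⟩ := hpg.exists_le_sylow
    have hyP : y ∈ (P : Subgroup G) := hP (mem_zpowers y)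
    have hy1 : y ≠ 1 := by
      intro h1
      rw [h1, orderOf_one] at hyo
      omega
    have hC := centralizer_eq h P y hyP hy1
    have hgC : g ∈ centralizer ({y} : Set G) := by
      rw [mem_centralizer_iff]
      intro z hz
      rw [Set.mem_singleton_iff] at hz
      subst hz
      have : Commute g (g ^ (orderOf g / 3)) := (Commute.refl g).pow_right _
      exact this.eq.symm
    rw [hC] at hgC
    have := orderOf_dvd_card_of_mem hgC
    rwa [card_P3 h P] at this
  have key : ∀ d ∈ Nat.divisors 504, (7 ∣ d → d = 7) → (3 ∣ d → d ∣ 9) →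
      d ∈ ({1, 2, 3, 4, 7, 8, 9} : Finset ℕ) := by decide
  exact key _ (Nat.mem_divisors.mpr ⟨h1, by norm_num⟩) h7 h3

end Cfsg.Agent.Lib.Helper99.G504
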