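import Mathlib
import Cfsg.Agent.Lib.Helper99.G504b

/-!
A simple group of order 504, part 3 (helper99): counting elements, no elements of order 4,
and the centralizers of involutions are elementary abelian.
-/

set_option autoImplicit false
set_option linter.unusedSectionVars false

namespace Cfsg.Agent.Lib.Helper99.G504

open Subgroup MulAction
open Cfsg.Agent.Lib.Helper17.Sylow Cfsg.Agent.Lib.Helper17.Sylow2 Cfsg.Agent.Lib.Helper17.Count
open Cfsg.Agent.Lib.Helper17.Count2 Cfsg.Agent.Lib.Helper17.Commuting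
open Cfsg.Agent.Lib.Helper17.CentFix Cfsg.Agent.Lib.Helper17.Embed
open Cfsg.Agent.Lib.Helper17.Classes

variable {G : Type*} [Group G] [Finite G] [IsSimpleGroup G]

/-- at least `224` elements of order `3` or `9` -/
theorem card_three (h : Nat.card G = 504) :
    224 ≤ Nat.card {g : G // orderOf g ∈ ({3, 9} : Finset ℕ)} := by
  classical
  have : Fintype (Sylow 3 G) := Fintype.ofFinite _
  let f : (Σ P : Sylow 3 G, {x : (P : Subgroup G) // x ≠ 1}) →
      {g : G // orderOf g ∈ ({3, 9} : Finset ℕ)} :=
    fun a => ⟨(a.2.1 : G), by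
      have hd : orderOf (a.2.1 : G) ∣ 9 := by
        rw [← card_P3 h a.1]
        exact orderOf_dvd_card_of_mem a.2.1.2
      have hne : orderOf (a.2.1 : G) ≠ 1 := by
        intro h1
        exact a.2.2 (Subtype.ext (orderOf_eq_one_iff.mp h1))
      have key : ∀ d ∈ Nat.divisors 9, d ≠ 1 → d ∈ ({3, 9} : Finset ℕ) := by decide
      exact key _ (Nat.mem_divisors.mpr ⟨hd, by norm_num⟩) hne⟩
  have hf : Function.Injective f := by
    rintro ⟨P, ⟨x, hx⟩⟩ ⟨Q, ⟨y, hy⟩⟩ hab
    have hxy : (x : G) = (y : G) := congrArg Subtype.val hab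
    have hx1 : (x : G) ≠ 1 := fun h1 => hx (Subtype.ext h1)
    have hPQ : P = Q := by
      apply Sylow.ext
      rw [← centralizer_eq h P x x.2 hx1, hxy]
      exact centralizer_eq h Q y y.2 (hxy ▸ hx1)
    subst hPQ
    have hxy' : x = y := Subtype.ext hxy
    subst hxy'
    rfl
  have hle := Nat.card_le_card_of_injective f hf
  rw [Nat.card_sigma] at hle
  have hfib : ∀ P : Sylow 3 G, Nat.card {x : (P : Subgroup G) // x ≠ 1} = 8 := by
    intro P
    have : Fintype (P : Subgroup G) := Fintype.ofFinite _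
    rw [Nat.card_eq_fintype_card, Fintype.card_subtype_compl, Fintype.card_subtype_eq,
      ← Nat.card_eq_fintype_card, card_P3 h P]
  simp_rw [hfib] at hle
  have hs : ∑ _P : Sylow 3 G, 8 = 224 := by
    simp [← Nat.card_eq_fintype_card, card_sylow3 h]
  omega

theorem card_order_one : Nat.card {g : G // orderOf g = 1} = 1 := by
  rw [Nat.card_eq_one_iff_unique]
  refine ⟨⟨?_⟩, ⟨⟨1, orderOf_one⟩⟩⟩
  rintro ⟨a, ha⟩ ⟨b, hb⟩
  apply Subtype.ext
  show a = b
  rw [orderOf_eq_one_iff.mp ha, orderOf_eq_one_iff.mp hb]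

/-- at most `63` nontrivial `2`-elements -/
theorem card_two_le (h : Nat.card G = 504) :
    Nat.card {g : G // orderOf g = 2} + Nat.card {g : G // orderOf g = 4}
      + Nat.card {g : G // orderOf g = 8} ≤ 63 := by
  have hsum := sum_card_orderOf_eq (G := G) ({1, 2, 3, 4, 7, 8, 9} : Finset ℕ) (orderOf_mem h)
  have h39 := sum_card_orderOf_eq_card (G := G) ({3, 9} : Finset ℕ)
  have h3 := card_three h
  have h7 := card_orderOf_eq_prime (G := G) (p := 7) (card_P7 h)
  rw [card_sylow7 h] at h7
  rw [Finset.sum_insert (by decide), Finset.sum_insert (by decide), Finset.sum_insert (by decide),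
    Finset.sum_insert (by decide), Finset.sum_insert (by decide), Finset.sum_insert (by decide),
    Finset.sum_singleton, card_order_one, h7, h] at hsum
  rw [Finset.sum_insert (by decide), Finset.sum_singleton] at h39
  omega

/-- the centralizer of an element of order `2` or `4` is a `2`-group -/
theorem card_centralizer_dvd (h : Nat.card G = 504) (u : G)
    (hu : orderOf u = 2 ∨ orderOf u = 4) : Nat.card (centralizer ({u} : Set G)) ∣ 8 := by
  have hd : Nat.card (centralizer ({u} : Set G)) ∣ 504 := by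
    rw [← h]
    exact Subgroup.card_subgroup_dvd_card _
  have aux : ∀ q : ℕ, q = 3 ∨ q = 7 → ∀ g : G, g ∈ centralizer ({u} : Set G) →
      orderOf g = q → False := by
    intro q hq g hgC hg
    have hc : Commute u g := mem_centralizer_iff.mp hgC u rfl
    have hcop : Nat.Coprime (orderOf u) (orderOf g) := by
      rw [hg]
      rcases hu with hu | hu <;> rcases hq with hq | hq <;> rw [hu, hq] <;> decide
    have ho := hc.orderOf_mul_eq_mul_orderOf_of_coprime hcop
    have hm := orderOf_mem h (u * g)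
    rw [ho, hg] at hm
    rcases hu with hu | hu <;> rcases hq with hq | hq <;> rw [hu, hq] at hm <;>
      revert hm <;> decide
  have h3 : ¬ 3 ∣ Nat.card (centralizer ({u} : Set G)) := by
    intro h3
    obtain ⟨g, hgC, hg⟩ := exists_mem_orderOf_eq_prime _ 3 h3
    exact aux 3 (Or.inl rfl) g hgC hg
  have h7 : ¬ 7 ∣ Nat.card (centralizer ({u} : Set G)) := by
    intro h7
    obtain ⟨g, hgC, hg⟩ := exists_mem_orderOf_eq_prime _ 7 h7
    exact aux 7 (Or.inr rfl) g hgC hg
  have key : ∀ d ∈ Nat.divisors 504, ¬ 3 ∣ d → ¬ 7 ∣ d → d ∣ 8 := by decide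
  exact key _ (Nat.mem_divisors.mpr ⟨hd, by norm_num⟩) h3 h7

/-- no element of order `4` -/
theorem orderOf_ne_four (h : Nat.card G = 504) (u : G) : orderOf u ≠ 4 := by
  intro hu
  have hd := card_centralizer_dvd h u (Or.inr hu)
  have hmul := card_conj_mul_card_centralizer u
  rw [h] at hmul
  have hle := card_le_of_isConj 4 u hu
  have h8 : Nat.card (centralizer ({u} : Set G)) ≤ 8 := Nat.le_of_dvd (by norm_num) hd
  have h63 : 63 ≤ Nat.card {g : G // IsConj u g} := by
    by_contra hcon
    push Not at hcon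
    nlinarith
  have h2 : 1 ≤ Nat.card {g : G // orderOf g = 2} := by
    have hne : Nonempty {g : G // orderOf g = 2} := by
      refine ⟨⟨u ^ 2, ?_⟩⟩
      rw [orderOf_pow' u (by norm_num), hu]
      rfl
    exact Nat.card_pos
  have := card_two_le h
  omega

/-- element orders -/
theorem orderOf_mem' (h : Nat.card G = 504) (g : G) :
    orderOf g ∈ ({1, 2, 3, 7, 9} : Finset ℕ) := by
  have h1 := orderOf_mem h g
  have h4 := orderOf_ne_four h g
  have h8 : orderOf g ≠ 8 := by
    intro h8
    apply orderOf_ne_four h (g ^ 2)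
    rw [orderOf_pow' g (by norm_num), h8]
    rfl
  simp only [Finset.mem_insert, Finset.mem_singleton] at h1 ⊢
  omega

/-- the centralizer of an involution has exponent `2` -/
theorem sq_eq_one_of_mem_centralizer (h : Nat.card G = 504) (t : G) (ht : orderOf t = 2)
    (c : G) (hc : c ∈ centralizer ({t} : Set G)) : c ^ 2 = 1 := by
  have hd := card_centralizer_dvd h t (Or.inl ht)
  have h1 : orderOf c ∣ 8 := (orderOf_dvd_card_of_mem hc).trans hd
  have h2 := orderOf_mem' h c
  have h3 : orderOf c ∣ 2 := by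
    simp only [Finset.mem_insert, Finset.mem_singleton] at h2
    rcases h2 with h2 | h2 | h2 | h2 | h2 <;> rw [h2] at h1 ⊢ <;> revert h1 <;> decide
  exact orderOf_dvd_iff_pow_eq_one.mp h3

/-- the centralizer of an involution is commutative -/
theorem comm_centralizer (h : Nat.card G = 504) (t : G) (ht : orderOf t = 2) :
    IsMulCommutative (centralizer ({t} : Set G)) := by
  refine ⟨⟨fun a b => ?_⟩⟩
  apply Subtype.ext
  show (a : G) * (b : G) = (b : G) * (a : G)
  have ha := sq_eq_one_of_mem_centralizer h t ht a a.2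
  have hb := sq_eq_one_of_mem_centralizer h t ht b b.2
  have hab := sq_eq_one_of_mem_centralizer h t ht (a * b : G) (mul_mem a.2 b.2)
  rw [pow_two] at ha hb hab
  have ha' : (a : G)⁻¹ = a := inv_eq_of_mul_eq_one_left ha
  have hb' : (b : G)⁻¹ = b := inv_eq_of_mul_eq_one_left hb
  have hab' : ((a : G) * b)⁻¹ = a * b := inv_eq_of_mul_eq_one_left hab
  rw [mul_inv_rev, ha', hb'] at hab'
  exact hab'.symm

/-- Sylow 2-subgroups are not cyclic -/
theorem not_isCyclic_P2 (h : Nat.card G = 504) (T : Sylow 2 G) :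
    ¬ IsCyclic (T : Subgroup G) := by
  intro hcyc
  obtain ⟨g, hg⟩ := IsCyclic.exists_ofOrder_eq_natCard (α := (T : Subgroup G))
  rw [card_P2 h T] at hg
  have h1 := orderOf_mem' h (g : G)
  rw [Subgroup.orderOf_coe, hg] at h1
  revert h1
  decide

theorem not_normal_P2 (h : Nat.card G = 504) (T : Sylow 2 G) : ¬ (T : Subgroup G).Normal :=
  sylow_not_normal (not_comm h) (by rw [h]; norm_num) T

end Cfsg.Agent.Lib.Helper99.G504
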