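import Mathlib

set_option autoImplicit false
set_option linter.unusedSectionVars false

open MulAction
open scoped Pointwise

namespace Cfsg.Agent.Lib.Helper99.Marg

universe u v

variable {G : Type v} {Ω : Type u} [Group G] [MulAction G Ω]

/-- `Y` is a Jordan complement: the pointwise fixer of `Y` is transitive on the complement. -/
def JC (G : Type v) {Ω : Type u} [Group G] [MulAction G Ω] (Y : Set Ω) : Prop :=
  ∀ a, a ∉ Y → ∀ b, b ∉ Y → ∃ g : G, (∀ y ∈ Y, g • y = y) ∧ g • a = b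

theorem JC.inter {Y₁ Y₂ : Set Ω} (h₁ : JC G Y₁) (h₂ : JC G Y₂) {ω : Ω} (hω₁ : ω ∉ Y₁)
    (hω₂ : ω ∉ Y₂) : JC G (Y₁ ∩ Y₂) := by
  have key : ∀ a, a ∉ Y₁ ∩ Y₂ → ∃ g : G, (∀ y ∈ Y₁ ∩ Y₂, g • y = y) ∧ g • a = ω := by
    intro a ha
    by_cases ha1 : a ∈ Y₁
    · have ha2 : a ∉ Y₂ := fun h => ha ⟨ha1, h⟩
      obtain ⟨g, hg, hga⟩ := h₂ a ha2 ω hω₂
      exact ⟨g, fun y hy => hg y hy.2, hga⟩
    · obtain ⟨g, hg, hga⟩ := h₁ a ha1 ω hω₁
      exact ⟨g, fun y hy => hg y hy.1, hga⟩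
  intro a ha b hb
  obtain ⟨g, hg, hga⟩ := key a ha
  obtain ⟨k, hk, hkb⟩ := key b hb
  refine ⟨k⁻¹ * g, fun y hy => ?_, ?_⟩
  · rw [mul_smul, hg y hy, inv_smul_eq_iff, hk y hy]
  · rw [mul_smul, hga, inv_smul_eq_iff, hkb]

theorem JC.smul {Y : Set Ω} (h : JC G Y) (g : G) : JC G (g • Y) := by
  intro a ha b hb
  have ha' : g⁻¹ • a ∉ Y := fun h' => ha (Set.mem_smul_set_iff_inv_smul_mem.mpr h')
  have hb' : g⁻¹ • b ∉ Y := fun h' => hb (Set.mem_smul_set_iff_inv_smul_mem.mpr h')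
  obtain ⟨k, hk, hka⟩ := h _ ha' _ hb'
  refine ⟨g * k * g⁻¹, fun y hy => ?_, ?_⟩
  · have := hk _ (Set.mem_smul_set_iff_inv_smul_mem.mp hy)
    rw [mul_smul, mul_smul, this, smul_inv_smul]
  · rw [mul_smul, mul_smul, hka, smul_inv_smul]

theorem jc_iff_isPretransitive (Y : Set Ω) :
    JC G Y ↔ IsPretransitive (fixingSubgroup G Y) (SubMulAction.ofFixingSubgroup G Y) := by
  constructor
  · intro h
    refine ⟨fun a b => ?_⟩
    have ha : (a : Ω) ∉ Y := by
      have := a.2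
      rwa [SubMulAction.mem_ofFixingSubgroup_iff] at this
    have hb : (b : Ω) ∉ Y := by
      have := b.2
      rwa [SubMulAction.mem_ofFixingSubgroup_iff] at this
    obtain ⟨g, hg, hga⟩ := h a.1 ha b.1 hb
    exact ⟨⟨g, (mem_fixingSubgroup_iff G).mpr hg⟩, Subtype.ext hga⟩
  · intro h a ha b hb
    obtain ⟨g, hg⟩ := h.exists_smul_eq
      (⟨a, (SubMulAction.mem_ofFixingSubgroup_iff G).mpr ha⟩ : SubMulAction.ofFixingSubgroup G Y)
      ⟨b, (SubMulAction.mem_ofFixingSubgroup_iff G).mpr hb⟩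
    exact ⟨g.1, (mem_fixingSubgroup_iff G).mp g.2, congrArg Subtype.val hg⟩

/-- elementary 2-transitivity -/
def T2 (G : Type v) (Ω : Type u) [Group G] [MulAction G Ω] : Prop :=
  ∀ a b c d : Ω, a ≠ b → c ≠ d → ∃ g : G, g • a = c ∧ g • b = d

theorem t2_iff : T2 G Ω ↔ IsMultiplyPretransitive G Ω 2 := by
  rw [is_two_pretransitive_iff]
  exact ⟨fun h a b c d hab hcd => h a b c d hab hcd, fun h a b c d hab hcd => h hab hcd⟩

/-- elementary 3-transitivity -/
def T3 (G : Type v) (Ω : Type u) [Group G] [MulAction G Ω] : Prop :=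
  ∀ a b c a' b' c' : Ω, a ≠ b → a ≠ c → b ≠ c → a' ≠ b' → a' ≠ c' → b' ≠ c' →
    ∃ g : G, g • a = a' ∧ g • b = b' ∧ g • c = c'

theorem t3_of_isMultiplyPretransitive (h : IsMultiplyPretransitive G Ω 3) : T3 G Ω := by
  intro a b c a' b' c' hab hac hbc hab' hac' hbc'
  have inj : ∀ x y z : Ω, x ≠ y → x ≠ z → y ≠ z → Function.Injective ![x, y, z] := by
    intro x y z hxy hxz hyz i j hij
    fin_cases i <;> fin_cases j <;> simp_all
  let e : Fin 3 ↪ Ω := ⟨![a, b, c], inj a b c hab hac hbc⟩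
  let e' : Fin 3 ↪ Ω := ⟨![a', b', c'], inj a' b' c' hab' hac' hbc'⟩
  obtain ⟨g, hg⟩ := h.exists_smul_eq e e'
  refine ⟨g, ?_, ?_, ?_⟩
  · have := DFunLike.congr_fun hg 0
    simpa [e, e'] using this
  · have := DFunLike.congr_fun hg 1
    simpa [e, e'] using this
  · have := DFunLike.congr_fun hg 2
    simpa [e, e'] using this

/-- the commutator of two elements fixes every point away from the overlap of the supports -/
theorem comm_fix {a b : G} {Sa Sb : Set Ω} (ha : ∀ x, x ∉ Sa → a • x = x)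
    (hb : ∀ x, x ∉ Sb → b • x = x) {x : Ω} (h1 : x ∉ Sa ∩ Sb) (h2 : a⁻¹ • x ∉ Sa ∩ Sb)
    (h3 : b⁻¹ • x ∉ Sa ∩ Sb) : (a * b * a⁻¹ * b⁻¹) • x = x := by
  rw [mul_smul, mul_smul, mul_smul]
  by_cases hxb : x ∈ Sb
  · have hxa : x ∉ Sa := fun h => h1 ⟨h, hxb⟩
    have hbx : b⁻¹ • x ∉ Sa := by
      intro h
      apply h3
      refine ⟨h, ?_⟩
      by_contra hn
      have := hb _ hn
      rw [smul_inv_smul] at this
      rw [← this] at h
      exact hxa h
    have e1 : a⁻¹ • b⁻¹ • x = b⁻¹ • x := by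
      rw [inv_smul_eq_iff, ha _ hbx]
    rw [e1, smul_inv_smul, ha _ hxa]
  · have e0 : b⁻¹ • x = x := by rw [inv_smul_eq_iff, hb _ hxb]
    have hax : a⁻¹ • x ∉ Sb := by
      intro h
      apply h2
      refine ⟨?_, h⟩
      by_contra hn
      have := ha _ hn
      rw [smul_inv_smul] at this
      rw [← this] at h
      exact hxb h
    rw [e0, hb _ hax, smul_inv_smul]

/-- `G` induces a 3-cycle -/
def Has3 (G : Type v) (Ω : Type u) [Group G] [MulAction G Ω] : Prop :=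
  ∃ g : G, ∃ p q r : Ω, p ≠ q ∧ q ≠ r ∧ p ≠ r ∧ g • p = q ∧ g • q = r ∧ g • r = p ∧
    ∀ x, x ≠ p → x ≠ q → x ≠ r → g • x = x

/-- `G` induces all 3-cycles -/
def All3 (G : Type v) (Ω : Type u) [Group G] [MulAction G Ω] : Prop :=
  ∀ p q r : Ω, p ≠ q → q ≠ r → p ≠ r → ∃ g : G, g • p = q ∧ g • q = r ∧ g • r = p ∧
    ∀ x, x ≠ p → x ≠ q → x ≠ r → g • x = x

/-- the commutator of two elements whose supports meet in one point is a 3-cycle -/
theorem has3_of_comm {a b : G} {Sa Sb : Set Ω} (ha : ∀ x, x ∉ Sa → a • x = x)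
    (hb : ∀ x, x ∉ Sb → b • x = x) {p : Ω} (hI : Sa ∩ Sb = {p}) (hap : a • p ≠ p)
    (hbp : b • p ≠ p) : Has3 G Ω := by
  have memI : ∀ x, x ∈ Sa → x ∈ Sb → x = p := by
    intro x h1 h2
    have : x ∈ Sa ∩ Sb := ⟨h1, h2⟩
    rw [hI] at this
    exact this
  have hapa : a • p ∈ Sa := by
    by_contra hn
    have := ha _ hn
    exact hap (smul_left_cancel a this)
  have hbpb : b • p ∈ Sb := by
    by_contra hn
    have := hb _ hn
    exact hbp (smul_left_cancel b this)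
  have hapb : a • p ∉ Sb := fun h => hap (memI _ hapa h)
  have hbpa : b • p ∉ Sa := fun h => hbp (memI _ h hbpb)
  have hainv : a⁻¹ • p ≠ p := fun h => hap (by rw [inv_smul_eq_iff] at h; exact h.symm)
  have hbinv : b⁻¹ • p ≠ p := fun h => hbp (by rw [inv_smul_eq_iff] at h; exact h.symm)
  have hainva : a⁻¹ • p ∈ Sa := by
    by_contra hn
    have := ha _ hn
    rw [smul_inv_smul] at this
    exact hainv this.symm
  have hbinvb : b⁻¹ • p ∈ Sb := by
    by_contra hn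
    have := hb _ hn
    rw [smul_inv_smul] at this
    exact hbinv this.symm
  have hainvb : a⁻¹ • p ∉ Sb := fun h => hainv (memI _ hainva h)
  have hbinva : b⁻¹ • p ∉ Sa := fun h => hbinv (memI _ h hbinvb)
  refine ⟨a * b * a⁻¹ * b⁻¹, p, a • p, b • p, fun h => hap h.symm, ?_, fun h => hbp h.symm,
    ?_, ?_, ?_, ?_⟩
  · intro h
    rw [h] at hapa
    exact hbpa hapa
  · rw [mul_smul, mul_smul, mul_smul]
    have e1 : a⁻¹ • b⁻¹ • p = b⁻¹ • p := by rw [inv_smul_eq_iff, ha _ hbinva]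
    rw [e1, smul_inv_smul]
  · rw [mul_smul, mul_smul, mul_smul]
    have e1 : b⁻¹ • a • p = a • p := by rw [inv_smul_eq_iff, hb _ hapb]
    rw [e1, inv_smul_smul, ha _ hbpa]
  · rw [mul_smul, mul_smul, mul_smul, inv_smul_smul, hb _ hainvb, smul_inv_smul]
  · intro x hx1 hx2 hx3
    apply comm_fix ha hb
    · rw [hI]; exact hx1
    · rw [hI]; intro h
      apply hx2
      rw [Set.mem_singleton_iff] at h
      rw [← h, smul_inv_smul]
    · rw [hI]; intro h
      apply hx3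
      rw [Set.mem_singleton_iff] at h
      rw [← h, smul_inv_smul]

theorem alt_le_of_has3 [Fintype Ω] [DecidableEq Ω] (hG : IsPreprimitive G Ω) (h : Has3 G Ω) :
    alternatingGroup Ω ≤ (MulAction.toPermHom G Ω).range := by
  obtain ⟨g, p, q, r, hpq, hqr, hpr, hgp, hgq, hgr, hfix⟩ := h
  have hprim : IsPreprimitive (MulAction.toPermHom G Ω).range Ω := by
    let φ : G → (MulAction.toPermHom G Ω).range :=
      fun g => ⟨MulAction.toPermHom G Ω g, ⟨g, rfl⟩⟩
    let f : Ω →ₑ[φ] Ω := { toFun := id, map_smul' := fun g x => rfl }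
    exact IsPreprimitive.of_surjective (f := f) Function.surjective_id
  apply Equiv.Perm.alternatingGroup_le_of_isPreprimitive_of_isThreeCycle_mem hprim
    (g := MulAction.toPerm g)
  · rw [← card_support_eq_three_iff]
    have : (MulAction.toPerm g : Equiv.Perm Ω).support = {p, q, r} := by
      ext x
      simp only [Equiv.Perm.mem_support, MulAction.toPerm_apply, Finset.mem_insert,
        Finset.mem_singleton]
      constructor
      · intro hx
        by_contra hn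
        push Not at hn
        exact hx (hfix x hn.1 hn.2.1 hn.2.2)
      · rintro (rfl | rfl | rfl)
        · rw [hgp]; exact hpq.symm
        · rw [hgq]; exact hqr.symm
        · rw [hgr]; exact hpr
    rw [this, Finset.card_insert_of_notMem, Finset.card_insert_of_notMem, Finset.card_singleton]
    · simpa using hqr
    · simp [hpq, hpr]
  · exact ⟨g, rfl⟩

theorem all3_of_alt [Fintype Ω] [DecidableEq Ω]
    (h : alternatingGroup Ω ≤ (MulAction.toPermHom G Ω).range) : All3 G Ω := by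
  intro p q r hpq hqr hpr
  have hmem : Equiv.swap p q * Equiv.swap q r ∈ alternatingGroup Ω := by
    rw [Equiv.Perm.mem_alternatingGroup, Equiv.Perm.sign_mul, Equiv.Perm.sign_swap hpq,
      Equiv.Perm.sign_swap hqr]
    rfl
  obtain ⟨g, hg⟩ := h hmem
  have hg' : ∀ x, g • x = (Equiv.swap p q * Equiv.swap q r) x := fun x => by rw [← hg]; rfl
  refine ⟨g, ?_, ?_, ?_, ?_⟩
  · rw [hg', Equiv.Perm.mul_apply, Equiv.swap_apply_of_ne_of_ne hpq hpr, Equiv.swap_apply_left]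
  · rw [hg', Equiv.Perm.mul_apply, Equiv.swap_apply_left,
      Equiv.swap_apply_of_ne_of_ne hpr.symm hqr.symm]
  · rw [hg', Equiv.Perm.mul_apply, Equiv.swap_apply_right, Equiv.swap_apply_right]
  · intro x hx1 hx2 hx3
    rw [hg', Equiv.Perm.mul_apply, Equiv.swap_apply_of_ne_of_ne hx2 hx3,
      Equiv.swap_apply_of_ne_of_ne hx1 hx2]

theorem all3_of_has3 [Finite Ω] (hG : IsPreprimitive G Ω) (h : Has3 G Ω) : All3 G Ω := by
  classical
  have := Fintype.ofFinite Ω
  exact all3_of_alt (alt_le_of_has3 hG h)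

/-- an embedding of `Fin k` with prescribed range -/
theorem exists_emb_range [Finite Ω] (S : Set Ω) {k : ℕ} (hS : S.ncard = k) :
    ∃ e : Fin k ↪ Ω, Set.range e = S := by
  have hc : Nat.card S = k := by rw [Nat.card_coe_set_eq, hS]
  let eq := Finite.equivFinOfCardEq hc
  refine ⟨eq.symm.toEmbedding.trans (Function.Embedding.subtype _), ?_⟩
  ext x
  constructor
  · rintro ⟨i, rfl⟩
    exact (eq.symm i).2
  · intro hx
    exact ⟨eq ⟨x, hx⟩, by simp⟩

/-- `k`-fold transitivity moves `k`-sets to `k`-sets -/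
theorem exists_smul_set_eq [Finite Ω] {k : ℕ} (h : IsMultiplyPretransitive G Ω k) (S T : Set Ω)
    (hS : S.ncard = k) (hT : T.ncard = k) : ∃ g : G, g • S = T := by
  obtain ⟨e, he⟩ := exists_emb_range S hS
  obtain ⟨f, hf⟩ := exists_emb_range T hT
  obtain ⟨g, hg⟩ := h.exists_smul_eq e f
  refine ⟨g, ?_⟩
  rw [← he, ← hf, ← hg]
  ext x
  constructor
  · rintro ⟨y, ⟨i, rfl⟩, rfl⟩
    exact ⟨i, rfl⟩
  · rintro ⟨i, rfl⟩
    exact ⟨e i, ⟨i, rfl⟩, rfl⟩

end Cfsg.Agent.Lib.Helper99.Marg
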