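import Cfsg.Agent.Lib.Helper99.MargA

set_option autoImplicit false
set_option linter.unusedSectionVars false

open MulAction
open scoped Pointwise

namespace Cfsg.Agent.Lib.Helper99.Marg

universe u v

/-- counting tool: `K` transitive on an invariant set `O`, `ω ∈ O`, `S ⊆ O`:
`#{k | k • ω ∈ S} * #O = #S * #K`. -/
theorem count_tool {K : Type*} {X : Type*} [Group K] [Finite K] [MulAction K X] [Finite X]
    (O : Set X) (hO : ∀ s ∈ O, ∀ s' ∈ O, ∃ k : K, k • s = s') (hinv : ∀ k : K, ∀ s ∈ O, k • s ∈ O)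
    (ω : X) (hω : ω ∈ O) (S : Set X) (hS : S ⊆ O) :
    {k : K | k • ω ∈ S}.ncard * O.ncard = S.ncard * Nat.card K := by
  classical
  have := Fintype.ofFinite K
  have := Fintype.ofFinite X
  set c := {k : K | k • ω = ω}.ncard with hc
  have hfib : ∀ s ∈ O, {k : K | k • ω = s}.ncard = c := by
    intro s hs
    obtain ⟨k₀, hk₀⟩ := hO ω hω s hs
    have : {k : K | k • ω = s} = (fun k => k₀ * k) '' {k : K | k • ω = ω} := by
      ext k
      simp only [Set.mem_ofPred_eq, Set.mem_image]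
      constructor
      · intro hk
        refine ⟨k₀⁻¹ * k, ?_, by group⟩
        rw [mul_smul, hk, ← hk₀, inv_smul_smul]
      · rintro ⟨k', hk', rfl⟩
        rw [mul_smul, hk', hk₀]
    rw [this, Set.ncard_image_of_injective _ (mul_right_injective k₀)]
  have hcount : ∀ T : Set X, T ⊆ O → {k : K | k • ω ∈ T}.ncard = T.ncard * c := by
    intro T hT
    have e1 : {k : K | k • ω ∈ T}.ncard
        = (Finset.univ.filter (fun k : K => k • ω ∈ T.toFinset)).card := by
      rw [← Set.ncard_coe_finset]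
      congr 1
      ext k
      simp
    rw [e1, Finset.card_eq_sum_card_fiberwise (f := fun k : K => k • ω) (t := T.toFinset)
      (fun k hk => by simpa using hk)]
    have e2 : ∀ s ∈ T.toFinset,
        ((Finset.univ.filter (fun k : K => k • ω ∈ T.toFinset)).filter
          (fun k => k • ω = s)).card = c := by
      intro s hs
      rw [← hfib s (hT (by simpa using hs)), ← Set.ncard_coe_finset]
      congr 1
      ext k
      simp only [Finset.coe_filter, Finset.mem_filter, Finset.mem_univ, true_and,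
        Set.mem_ofPred_eq]
      constructor
      · exact fun h => h.2
      · intro h
        exact ⟨by rw [h]; exact hs, h⟩
    rw [Finset.sum_congr rfl e2, Finset.sum_const, smul_eq_mul, ← Set.ncard_coe_finset,
      Set.coe_toFinset]
  have hK : Nat.card K = O.ncard * c := by
    rw [← hcount O subset_rfl, ← Set.ncard_univ]
    congr 1
    ext k
    simp only [Set.mem_univ, Set.mem_ofPred_eq, true_iff]
    exact hinv k ω hω
  rw [hcount S hS, hK]
  ring

variable {G : Type v} {Ω : Type u} [Group G] [MulAction G Ω]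

theorem t2_trans [Finite Ω] (ht2 : T2 G Ω) (hcard : 2 ≤ Nat.card Ω) (a c : Ω) :
    ∃ g : G, g • a = c := by
  have : Nontrivial Ω := Finite.one_lt_card_iff_nontrivial.mp hcard
  obtain ⟨b, hb⟩ := exists_ne a
  obtain ⟨d, hd⟩ := exists_ne c
  obtain ⟨g, hg, _⟩ := ht2 a b c d hb.symm hd.symm
  exact ⟨g, hg⟩

/-- Lemma C: in a 2-transitive group with a Jordan set of at most half the points,
the point stabilizer has only trivial blocks on the remaining points. -/
theorem lemmaC [Finite G] [Finite Ω] (ht2 : T2 G Ω) {Δ : Set Ω} (hjc : JC G Δ)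
    (hm2 : 2 ≤ Δᶜ.ncard) (hmn : 2 * Δᶜ.ncard ≤ Nat.card Ω) {α : Ω}
    (B : Set Ω) (hαB : α ∉ B)
    (hB : ∀ g : G, g • α = α → g • B = B ∨ Disjoint (g • B) B) :
    B.Subsingleton ∨ B = {α}ᶜ := by
  classical
  by_contra hcon
  push Not at hcon
  obtain ⟨hns, hne⟩ := hcon
  obtain ⟨β, hβ, γ, hγ, hβγ⟩ := hns
  have hαβ : α ≠ β := fun h => hαB (h ▸ hβ)
  have hαγ : α ≠ γ := fun h => hαB (h ▸ hγ)
  obtain ⟨δ, hδB, hδα⟩ : ∃ δ, δ ∉ B ∧ δ ≠ α := by
    by_contra hn
    push Not at hn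
    apply hne
    ext x
    simp only [Set.mem_compl_iff, Set.mem_singleton_iff]
    constructor
    · intro hx hxa
      exact hαB (hxa ▸ hx)
    · intro hx
      by_contra hxB
      exact hx (hn x hxB)
  set Γ := Δᶜ with hΓ
  set m := Γ.ncard with hm
  set n := Nat.card Ω with hn
  have hn2 : 2 ≤ n := by omega
  have hsm : ∀ g : G, (g • Γ).ncard = m := fun g => Set.ncard_smul_set g Γ
  -- (a) dichotomy
  have dich : ∀ g' : G, α ∉ g' • Γ → ∀ y, y ∈ B → y ∈ g' • Γ → ∀ x, x ∈ B → x ∉ g' • Γ →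
      g' • Γ ⊆ B := by
    intro g' hα' y hyB hy x hxB hx y' hy'
    have hjc' := hjc.smul g'
    have hcompl : g' • Γ = (g' • Δ)ᶜ := by rw [hΓ, Set.smul_set_compl]
    rw [hcompl] at hα' hy hx hy'
    obtain ⟨h, hfix, hhy⟩ := hjc' y hy y' hy'
    have hhα : h • α = α := hfix α (by simpa using hα')
    have hhx : h • x = x := hfix x (by simpa using hx)
    rcases hB h hhα with hBB | hdis
    · rw [← hBB, ← hhy]
      exact Set.smul_mem_smul_set hyB
    · exfalso
      exact Set.disjoint_left.mp hdis (by rw [← hhx]; exact Set.smul_mem_smul_set hxB) hxB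
  -- the stabilizer of β, transitive on the other points
  set K := stabilizer G β with hK
  have hKO : ∀ s ∈ ({β}ᶜ : Set Ω), ∀ s' ∈ ({β}ᶜ : Set Ω), ∃ k : K, k • s = s' := by
    intro s hs s' hs'
    obtain ⟨g, hg1, hg2⟩ := ht2 β s β s' (Ne.symm hs) (Ne.symm hs')
    exact ⟨⟨g, hg1⟩, hg2⟩
  have hKinv : ∀ k : K, ∀ s ∈ ({β}ᶜ : Set Ω), k • s ∈ ({β}ᶜ : Set Ω) := by
    intro k s hs hks
    apply hs
    have hk : (k : G) • β = β := k.2
    rw [Set.mem_singleton_iff] at hks ⊢
    have : (k : G) • s = (k : G) • β := by rw [hk]; exact hks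
    exact smul_left_cancel _ this
  have hOcard : ({β}ᶜ : Set Ω).ncard + 1 = n := by
    have := Set.ncard_add_ncard_compl ({β} : Set Ω)
    rw [Set.ncard_singleton] at this
    omega
  have hKpos : 0 < Nat.card K := Nat.card_pos
  -- (b) a translate through β avoiding α and γ
  obtain ⟨g₁, hβ1, hα1, hγ1⟩ : ∃ g₁ : G, β ∈ g₁ • Γ ∧ α ∉ g₁ • Γ ∧ γ ∉ g₁ • Γ := by
    obtain ⟨γ₀, hγ₀⟩ : Γ.Nonempty := by
      rw [← Set.ncard_pos]
      omega
    obtain ⟨g₀, hg₀⟩ := t2_trans ht2 hn2 γ₀ β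
    have hβ0 : β ∈ g₀ • Γ := by
      rw [← hg₀]
      exact Set.smul_mem_smul_set hγ₀
    set Γ' := g₀ • Γ \ {β} with hΓ'
    have hΓ'card : Γ'.ncard + 1 = m := by
      rw [hΓ', Set.ncard_sdiff_singleton_add_one hβ0 (Set.toFinite _)]
      exact hsm g₀
    have hΓ'O : Γ' ⊆ ({β}ᶜ : Set Ω) := fun x hx => hx.2
    have cα := count_tool ({β}ᶜ : Set Ω) hKO hKinv α hαβ Γ' hΓ'O
    have cγ := count_tool ({β}ᶜ : Set Ω) hKO hKinv γ (Ne.symm hβγ) Γ' hΓ'O
    by_contra hno
    push Not at hno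
    have hall : ∀ k : K, k • α ∈ Γ' ∨ k • γ ∈ Γ' := by
      intro k
      by_contra hk
      push Not at hk
      have hkβ : (k : G) • β = β := k.2
      have h1 : β ∈ ((k : G)⁻¹ * g₀) • Γ := by
        rw [mul_smul, Set.mem_smul_set_iff_inv_smul_mem, inv_inv, hkβ]
        exact hβ0
      have h2 := hno _ h1
      have hα' : α ∉ ((k : G)⁻¹ * g₀) • Γ := by
        rw [mul_smul, Set.mem_smul_set_iff_inv_smul_mem, inv_inv]
        intro hmem
        apply hk.1
        refine ⟨hmem, ?_⟩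
        intro h
        have : (k : G) • α = (k : G) • β := by rw [hkβ]; exact h
        exact hαβ (smul_left_cancel _ this)
      have hγ' := h2 hα'
      rw [mul_smul, Set.mem_smul_set_iff_inv_smul_mem, inv_inv] at hγ'
      apply hk.2
      refine ⟨hγ', ?_⟩
      intro h
      have : (k : G) • γ = (k : G) • β := by rw [hkβ]; exact h
      exact hβγ (smul_left_cancel _ this).symm
    have hcover : (Set.univ : Set K) ⊆ {k : K | k • α ∈ Γ'} ∪ {k : K | k • γ ∈ Γ'} := by
      intro k _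
      exact hall k
    have hle : Nat.card K ≤ {k : K | k • α ∈ Γ'}.ncard + {k : K | k • γ ∈ Γ'}.ncard := by
      rw [← Set.ncard_univ]
      exact (Set.ncard_le_ncard hcover (Set.toFinite _)).trans (Set.ncard_union_le _ _)
    have h5 : Nat.card K * ({β}ᶜ : Set Ω).ncard ≤ 2 * (Γ'.ncard * Nat.card K) := by
      calc Nat.card K * ({β}ᶜ : Set Ω).ncard
          ≤ ({k : K | k • α ∈ Γ'}.ncard + {k : K | k • γ ∈ Γ'}.ncard) * ({β}ᶜ : Set Ω).ncard :=
            Nat.mul_le_mul_right _ hle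
        _ = 2 * (Γ'.ncard * Nat.card K) := by rw [add_mul, cα, cγ]; ring
    have h3 : ({β}ᶜ : Set Ω).ncard ≤ 2 * Γ'.ncard := by
      by_contra hlt
      push Not at hlt
      have : 2 * (Γ'.ncard * Nat.card K) < Nat.card K * ({β}ᶜ : Set Ω).ncard := by nlinarith
      omega
    omega
  have hΓ1B : g₁ • Γ ⊆ B := dich g₁ hα1 β hβ hβ1 γ hγ hγ1
  have hBcard : m + 1 ≤ B.ncard := by
    have hsub : insert γ (g₁ • Γ) ⊆ B := Set.insert_subset hγ hΓ1B
    have := Set.ncard_le_ncard hsub (Set.toFinite _)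
    rw [Set.ncard_insert_of_notMem hγ1 (Set.toFinite _), hsm g₁] at this
    exact this
  have hBhalf : 2 * B.ncard + 1 ≤ n := by
    obtain ⟨g, hg1, hg2⟩ := ht2 α β α δ hαβ (Ne.symm hδα)
    rcases hB g hg1 with hBB | hdis
    · exfalso
      apply hδB
      rw [← hBB, ← hg2]
      exact Set.smul_mem_smul_set hβ
    · have hsub : g • B ∪ B ⊆ ({α}ᶜ : Set Ω) := by
        rintro x (hx | hx)
        · intro hxα
          rw [Set.mem_singleton_iff] at hxα
          rw [hxα, Set.mem_smul_set_iff_inv_smul_mem] at hx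
          apply hαB
          have : g⁻¹ • α = α := by rw [inv_smul_eq_iff, hg1]
          rwa [this] at hx
        · intro hxα
          rw [Set.mem_singleton_iff] at hxα
          exact hαB (hxα ▸ hx)
      have h1 := Set.ncard_le_ncard hsub (Set.toFinite _)
      rw [Set.ncard_union_eq hdis (Set.toFinite _) (Set.toFinite _), Set.ncard_smul_set] at h1
      have := Set.ncard_add_ncard_compl ({α} : Set Ω)
      rw [Set.ncard_singleton] at this
      omega
  have hc : ∀ δ', δ' ∉ B → δ' ≠ α → ∀ g₂ : G, β ∈ g₂ • Γ → δ' ∈ g₂ • Γ → α ∈ g₂ • Γ := by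
    intro δ' hδ'B hδ'α g₂ hβ2 hδ'2
    by_contra hα2
    have hex : ∃ x, x ∈ B ∧ x ∉ g₂ • Γ := by
      by_contra hn
      push Not at hn
      have hsub : B ⊆ g₂ • Γ := fun x hx => hn x hx
      have := Set.ncard_le_ncard hsub (Set.toFinite _)
      have h2 := hsm g₂
      omega
    obtain ⟨x, hxB, hx⟩ := hex
    exact hδ'B (dich g₂ hα2 β hβ hβ2 x hxB hx hδ'2)
  obtain ⟨β', hβ'1, hβ'β⟩ : ∃ β', β' ∈ g₁ • Γ ∧ β' ≠ β := by
    by_contra hn
    push Not at hn
    have hsub : g₁ • Γ ⊆ {β} := fun x hx => hn x hx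
    have := Set.ncard_le_ncard hsub (Set.toFinite _)
    rw [Set.ncard_singleton, hsm g₁] at this
    omega
  set Sg : Set Ω := (insert α B)ᶜ with hSg
  set Γ₂ : Set Ω := g₁ • Γ \ {β, β'} with hΓ₂
  have hSgO : Sg ⊆ ({β}ᶜ : Set Ω) := by
    intro x hx hxβ
    apply hx
    rw [Set.mem_singleton_iff] at hxβ
    rw [hxβ]
    exact Set.mem_insert_of_mem _ hβ
  have hΓ₂O : Γ₂ ⊆ ({β}ᶜ : Set Ω) := by
    intro x hx hxβ
    apply hx.2
    rw [Set.mem_singleton_iff] at hxβ
    rw [hxβ]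
    exact Set.mem_insert _ _
  have c1 := count_tool ({β}ᶜ : Set Ω) hKO hKinv β' hβ'β Sg hSgO
  have c2 := count_tool ({β}ᶜ : Set Ω) hKO hKinv α hαβ Γ₂ hΓ₂O
  have hsubK : (fun k : K => k⁻¹) '' {k : K | k • β' ∈ Sg} ⊆ {k : K | k • α ∈ Γ₂} := by
    rintro _ ⟨k, hk, rfl⟩
    have hkβ : (k : G) • β = β := k.2
    have hkB : (k : G) • β' ∉ B := fun h => hk (Set.mem_insert_of_mem _ h)
    have hkα : (k : G) • β' ≠ α := fun h => hk (by
      show k • β' ∈ insert α B
      rw [show k • β' = α from h]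
      exact Set.mem_insert _ _)
    have h1 : β ∈ ((k : G) * g₁) • Γ := by
      rw [mul_smul, Set.mem_smul_set_iff_inv_smul_mem]
      have : (k : G)⁻¹ • β = β := by rw [inv_smul_eq_iff, hkβ]
      rw [this]
      exact hβ1
    have h2 : (k : G) • β' ∈ ((k : G) * g₁) • Γ := by
      rw [mul_smul]
      exact Set.smul_mem_smul_set hβ'1
    have h3 := hc _ hkB hkα _ h1 h2
    rw [mul_smul, Set.mem_smul_set_iff_inv_smul_mem] at h3
    refine ⟨h3, ?_⟩
    intro hmem
    rcases hmem with h | h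
    · apply hαβ
      have : α = (k : G) • β := by rw [← h]; exact (smul_inv_smul _ _).symm
      rw [this, hkβ]
    · apply hkα
      rw [Set.mem_singleton_iff] at h
      rw [← h]
      exact smul_inv_smul _ _
  have hle : {k : K | k • β' ∈ Sg}.ncard ≤ {k : K | k • α ∈ Γ₂}.ncard := by
    rw [← Set.ncard_image_of_injective _ inv_injective]
    exact Set.ncard_le_ncard hsubK (Set.toFinite _)
  have hSgcard : Sg.ncard + B.ncard + 1 = n := by
    have := Set.ncard_add_ncard_compl (insert α B)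
    rw [Set.ncard_insert_of_notMem hαB (Set.toFinite _)] at this
    rw [hSg]
    omega
  have hΓ₂card : Γ₂.ncard + 2 = m := by
    have h1 : ({β, β'} : Set Ω) ⊆ g₁ • Γ := by
      intro x hx
      rcases hx with rfl | hx
      · exact hβ1
      · rw [Set.mem_singleton_iff] at hx
        rw [hx]
        exact hβ'1
    have := Set.ncard_sdiff_add_ncard_of_subset h1 (Set.toFinite _)
    rw [Set.ncard_pair (Ne.symm hβ'β), hsm g₁] at this
    exact this
  have h6 : Sg.ncard * Nat.card K ≤ Γ₂.ncard * Nat.card K := by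
    rw [← c1, ← c2]
    exact Nat.mul_le_mul_right _ hle
  have h4 : Sg.ncard ≤ Γ₂.ncard := Nat.le_of_mul_le_mul_right h6 hKpos
  have key : ∀ (s b g2 n m : ℕ), s + b + 1 = n → g2 + 2 = m → s ≤ g2 → 2 * b + 1 ≤ n →
      2 * m ≤ n → False := by
    intros
    omega
  exact key _ _ _ _ _ hSgcard hΓ₂card h4 hBhalf hmn

theorem isPreprimitive_stabilizer [Finite G] [Finite Ω] (ht2 : T2 G Ω) {Δ : Set Ω}
    (hjc : JC G Δ) (hm2 : 2 ≤ Δᶜ.ncard) (hmn : 2 * Δᶜ.ncard ≤ Nat.card Ω) (α : Ω) :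
    IsPreprimitive (stabilizer G α) (SubMulAction.ofStabilizer G α) := by
  have htr : IsPretransitive (stabilizer G α) (SubMulAction.ofStabilizer G α) := by
    refine ⟨fun x y => ?_⟩
    have hx : (x : Ω) ≠ α := (SubMulAction.mem_ofStabilizer_iff G α).mp x.2
    have hy : (y : Ω) ≠ α := (SubMulAction.mem_ofStabilizer_iff G α).mp y.2
    obtain ⟨g, hg1, hg2⟩ := ht2 α x α y (Ne.symm hx) (Ne.symm hy)
    exact ⟨⟨g, hg1⟩, Subtype.ext hg2⟩
  refine IsPreprimitive.mk ?_
  intro B hB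
  have key : ∀ (g : G) (hg : g ∈ stabilizer G α),
      g • (Subtype.val '' B : Set Ω) = Subtype.val '' ((⟨g, hg⟩ : stabilizer G α) • B) := by
    intro g hg
    ext x
    constructor
    · rintro ⟨_, ⟨b, hb, rfl⟩, rfl⟩
      exact ⟨(⟨g, hg⟩ : stabilizer G α) • b, Set.smul_mem_smul_set hb, rfl⟩
    · rintro ⟨_, ⟨b, hb, rfl⟩, rfl⟩
      exact ⟨b, ⟨b, hb, rfl⟩, rfl⟩
  have hB' := lemmaC ht2 hjc hm2 hmn (α := α) (Subtype.val '' B)
    (by
      rintro ⟨x, _, hx⟩
      exact (SubMulAction.mem_ofStabilizer_iff G α).mp x.2 hx)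
    (by
      intro g hg
      rw [isBlock_iff_smul_eq_or_disjoint] at hB
      rcases hB ⟨g, hg⟩ with h | h
      · left
        rw [key g hg, h]
      · right
        rw [key g hg]
        exact (Set.disjoint_image_iff Subtype.val_injective).mpr h)
  rcases hB' with h | h
  · left
    exact fun a ha b hb => Subtype.ext (h ⟨a, ha, rfl⟩ ⟨b, hb, rfl⟩)
  · right
    ext x
    simp only [Set.mem_univ, iff_true]
    have hx : (x : Ω) ∈ Subtype.val '' B := by
      rw [h]
      exact (SubMulAction.mem_ofStabilizer_iff G α).mp x.2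
    obtain ⟨y, hy, hyx⟩ := hx
    rwa [← Subtype.ext hyx]

/-- Marggraf, first part: a primitive group with a Jordan set of at most half the points
is 3-transitive. -/
theorem t3_of_jc [Finite G] [Finite Ω] (hG : IsPreprimitive G Ω) {Δ : Set Ω}
    (hjc : JC G Δ) (hm2 : 2 ≤ Δᶜ.ncard) (hmn : 2 * Δᶜ.ncard ≤ Nat.card Ω) :
    T3 G Ω := by
  classical
  have hfin : ∀ s : Set Ω, s.Finite := fun s => Set.toFinite s
  have hcard := Set.ncard_add_ncard_compl Δ
  -- 2-transitivity by Jordan's theorem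
  have hΔpos : 0 < Δ.ncard := by omega
  obtain ⟨n', hn'⟩ : ∃ n', Δ.ncard = n' + 1 := ⟨Δ.ncard - 1, by omega⟩
  have h2 : IsMultiplyPretransitive G Ω 2 :=
    hG.is_two_pretransitive hn' (by omega) ((jc_iff_isPretransitive Δ).mp hjc)
  have ht2 : T2 G Ω := t2_iff.mpr h2
  obtain ⟨α, hα⟩ : Δ.Nonempty := (Set.ncard_pos).mp hΔpos
  have hprim := isPreprimitive_stabilizer ht2 hjc hm2 hmn α
  -- the Jordan complement inside the stabilizer action
  set s' : Set (SubMulAction.ofStabilizer G α) := {x | (x : Ω) ∈ Δ} with hs'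
  have hjc' : JC (stabilizer G α) s' := by
    intro a ha b hb
    obtain ⟨g, hg, hga⟩ := hjc (a : Ω) ha (b : Ω) hb
    exact ⟨⟨g, hg α hα⟩, fun y hy => Subtype.ext (hg _ hy), Subtype.ext hga⟩
  have hcard' := SubMulAction.nat_card_ofStabilizer_add_one_eq G α
  have hs'card : s'.ncard + 1 = Δ.ncard := by
    have e1 : Subtype.val '' s' = Δ \ {α} := by
      ext x
      constructor
      · rintro ⟨y, hy, rfl⟩
        exact ⟨hy, (SubMulAction.mem_ofStabilizer_iff G α).mp y.2⟩
      · rintro ⟨hx, hxα⟩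
        exact ⟨⟨x, (SubMulAction.mem_ofStabilizer_iff G α).mpr hxα⟩, hx, rfl⟩
    rw [← Set.ncard_image_of_injective _ Subtype.val_injective, e1,
      Set.ncard_sdiff_singleton_add_one hα (hfin _)]
  have hs'2 : 2 ≤ Δ.ncard := by omega
  obtain ⟨n'', hn''⟩ : ∃ n'', s'.ncard = n'' + 1 := ⟨s'.ncard - 1, by omega⟩
  have h2' : IsMultiplyPretransitive (stabilizer G α) (SubMulAction.ofStabilizer G α) 2 :=
    hprim.is_two_pretransitive hn'' (by omega) ((jc_iff_isPretransitive s').mp hjc')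
  have : IsPretransitive G Ω := hG.toIsPretransitive
  have h3 : IsMultiplyPretransitive G Ω 3 :=
    (SubMulAction.ofStabilizer.isMultiplyPretransitive (a := α)).mpr h2'
  exact t3_of_isMultiplyPretransitive h3

end Cfsg.Agent.Lib.Helper99.Marg
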