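import Cfsg.Agent.Lib.Helper99.MargB

set_option autoImplicit false
set_option linter.unusedSectionVars false

open MulAction
open scoped Pointwise

namespace Cfsg.Agent.Lib.Helper99.Marg

universe u v

variable {G : Type v} {Ω : Type u} [Group G] [MulAction G Ω]

/-- the standing hypotheses: `Δ` is a Jordan complement whose complement has at least two
and fewer than half of the points, in a 3-transitive group -/
structure Ctx (G : Type v) (Ω : Type u) [Group G] [MulAction G Ω] (Δ : Set Ω) : Prop where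
  fin : Finite Ω
  jc : JC G Δ
  t2 : T2 G Ω
  t3 : T3 G Ω
  hm2 : 2 ≤ Δᶜ.ncard
  hmn : 2 * Δᶜ.ncard < Nat.card Ω

/-- `A` is a maximal proper Jordan complement inside `Δ`, big enough for the intersection
property -/
structure Hyp (G : Type v) {Ω : Type u} [Group G] [MulAction G Ω] (Δ A : Set Ω) : Prop where
  sub : A ⊆ Δ
  ne : A ≠ Δ
  jc : JC G A
  big : Nat.card Ω < A.ncard + 2 * Δᶜ.ncard
  max : ∀ Y : Set Ω, JC G Y → A ⊆ Y → Y ⊆ Δ → Y = A ∨ Y = Δ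

theorem Ctx.card_eq {Δ : Set Ω} (c : Ctx G Ω Δ) : Δ.ncard + Δᶜ.ncard = Nat.card Ω := by
  have := c.fin
  exact Set.ncard_add_ncard_compl Δ

theorem Ctx.exists_hyp {Δ : Set Ω} (c : Ctx G Ω Δ) : ∃ A : Set Ω, Hyp G Δ A := by
  have := c.fin
  have hcard := c.card_eq
  have hm2 := c.hm2
  have hmn := c.hmn
  obtain ⟨γ₁, γ₂, hγ₁, hγ₂, hγ⟩ := (Set.one_lt_ncard_iff (Set.toFinite _)).mp
    (show 1 < Δᶜ.ncard by omega)
  obtain ⟨δ, hδ⟩ : Δ.Nonempty := by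
    rw [← Set.ncard_pos]
    omega
  have hγ₁δ : γ₁ ≠ δ := fun h => hγ₁ (h ▸ hδ)
  obtain ⟨g, hg1, hg2⟩ := c.t2 γ₁ γ₂ γ₁ δ hγ hγ₁δ
  have hginv1 : g⁻¹ • γ₁ = γ₁ := by rw [inv_smul_eq_iff, hg1]
  have hginv2 : g⁻¹ • δ = γ₂ := by rw [inv_smul_eq_iff, hg2]
  have hγ₁g : γ₁ ∉ g • Δ := by
    rw [Set.mem_smul_set_iff_inv_smul_mem, hginv1]
    exact hγ₁
  have hδg : δ ∉ g • Δ := by
    rw [Set.mem_smul_set_iff_inv_smul_mem, hginv2]
    exact hγ₂
  set Y₀ := Δ ∩ g • Δ with hY₀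
  have hY₀jc : JC G Y₀ := c.jc.inter (c.jc.smul g) hγ₁ hγ₁g
  have hY₀ne : Y₀ ≠ Δ := by
    intro h
    have : δ ∈ Y₀ := by rw [h]; exact hδ
    exact hδg this.2
  have hY₀card : Nat.card Ω < Y₀.ncard + 2 * Δᶜ.ncard := by
    have h1 := Set.ncard_add_ncard_compl Y₀
    have h2 : Y₀ᶜ = Δᶜ ∪ g • Δᶜ := by
      rw [hY₀, Set.compl_inter, Set.smul_set_compl]
    have h3 := Set.ncard_union_add_ncard_inter Δᶜ (g • Δᶜ)
    rw [Set.ncard_smul_set] at h3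
    have h4 : 0 < (Δᶜ ∩ g • Δᶜ).ncard := by
      rw [Set.ncard_pos]
      refine ⟨γ₁, hγ₁, ?_⟩
      rw [Set.smul_set_compl]
      exact hγ₁g
    rw [h2] at h1
    omega
  let S : Set (Set Ω) := {Y | JC G Y ∧ Y₀ ⊆ Y ∧ Y ⊆ Δ ∧ Y ≠ Δ}
  have hY₀S : Y₀ ∈ S := ⟨hY₀jc, subset_rfl, Set.inter_subset_left, hY₀ne⟩
  obtain ⟨A, hY₀A, hAmax⟩ := Set.Finite.exists_le_maximal (Set.toFinite S) hY₀S
  obtain ⟨hAjc, hA0, hAΔ, hAne⟩ := hAmax.prop
  refine ⟨A, hAΔ, hAne, hAjc, ?_, ?_⟩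
  · have := Set.ncard_le_ncard hA0 (Set.toFinite _)
    omega
  · intro Y hYjc hAY hYΔ
    by_cases hY : Y = Δ
    · exact Or.inr hY
    · left
      have hYS : Y ∈ S := ⟨hYjc, hA0.trans hAY, hYΔ, hY⟩
      exact le_antisymm (hAmax.le_of_ge hYS hAY) hAY

theorem Ctx.pencil {Δ A : Set Ω} (c : Ctx G Ω Δ) (hA : Hyp G Δ A) (x : G)
    (hx : ∀ y ∈ A, x • y = y) : x • Δ = Δ ∨ x • Δ ∩ Δ = A := by
  have := c.fin
  have hcard := c.card_eq
  have hAx : A ⊆ x • Δ := by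
    intro y hy
    rw [← hx y hy]
    exact Set.smul_mem_smul_set (hA.sub hy)
  have hex : ∃ ω, ω ∉ Δ ∧ ω ∉ x • Δ := by
    by_contra hn
    push Not at hn
    have huniv : Δ ∪ x • Δ = Set.univ := by
      ext ω
      simp only [Set.mem_union, Set.mem_univ, iff_true]
      by_cases h : ω ∈ Δ
      · exact Or.inl h
      · exact Or.inr (hn ω h)
    have h1 := Set.ncard_union_add_ncard_inter Δ (x • Δ)
    rw [huniv, Set.ncard_univ, Set.ncard_smul_set] at h1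
    have h2 : A.ncard ≤ (Δ ∩ x • Δ).ncard :=
      Set.ncard_le_ncard (Set.subset_inter hA.sub hAx) (Set.toFinite _)
    have := hA.big
    omega
  obtain ⟨ω, hω1, hω2⟩ := hex
  have hjc : JC G (Δ ∩ x • Δ) := c.jc.inter (c.jc.smul x) hω1 hω2
  rcases hA.max _ hjc (Set.subset_inter hA.sub hAx) Set.inter_subset_left with h | h
  · right
    rw [Set.inter_comm]
    exact h
  · left
    have hsub : Δ ⊆ x • Δ := fun y hy => by
      have : y ∈ Δ ∩ x • Δ := by rw [h]; exact hy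
      exact this.2
    exact (Set.eq_of_subset_of_ncard_le hsub (by rw [Set.ncard_smul_set]) (Set.toFinite _)).symm

/-- the setwise stabilizer of `Δ` in the fixer of `A` is transitive on `Δ \ A` -/
theorem Ctx.stab_trans {Δ A : Set Ω} (c : Ctx G Ω Δ) (hA : Hyp G Δ A) {δ δ' : Ω}
    (hδ : δ ∈ Δ \ A) (hδ' : δ' ∈ Δ \ A) :
    ∃ x : G, (∀ y ∈ A, x • y = y) ∧ x • Δ = Δ ∧ x • δ = δ' := by
  obtain ⟨x, hx, hxδ⟩ := hA.jc δ hδ.2 δ' hδ'.2
  refine ⟨x, hx, ?_, hxδ⟩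
  rcases c.pencil hA x hx with h | h
  · exact h
  · exfalso
    have : δ' ∈ x • Δ ∩ Δ := ⟨by rw [← hxδ]; exact Set.smul_mem_smul_set hδ.1, hδ'.1⟩
    rw [h] at this
    exact hδ'.2 this

theorem Hyp.nonempty_diff {Δ A : Set Ω} (hA : Hyp G Δ A) : (Δ \ A).Nonempty := by
  by_contra hn
  rw [Set.not_nonempty_iff_eq_empty, Set.sdiff_eq_empty] at hn
  exact hA.ne (Set.Subset.antisymm hA.sub hn)

theorem Ctx.card_diff {Δ A : Set Ω} (c : Ctx G Ω Δ) (hA : Hyp G Δ A) :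
    (Δ \ A).ncard + A.ncard = Δ.ncard := by
  have := c.fin
  exact Set.ncard_sdiff_add_ncard_of_subset hA.sub (Set.toFinite _)

/-- a fixer element of `A` moving `Δ` maps `Δ \ A` into the complement of `Δ` -/
theorem Ctx.smul_diff_subset {Δ A : Set Ω} (c : Ctx G Ω Δ) (hA : Hyp G Δ A) (x : G)
    (hx : ∀ y ∈ A, x • y = y) (hxΔ : x • Δ ≠ Δ) : x • (Δ \ A) ⊆ Δᶜ := by
  rintro w ⟨w₀, hw₀, rfl⟩ hw
  rcases c.pencil hA x hx with h | h
  · exact hxΔ h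
  · have hwA : x • w₀ ∈ A := by
      rw [← h]
      exact ⟨Set.smul_mem_smul_set hw₀.1, hw⟩
    have := hx _ hwA
    have h2 : x • w₀ = w₀ := smul_left_cancel x this
    rw [h2] at hwA
    exact hw₀.2 hwA

/-- `Δ \ A` has at most half as many points as the complement of `Δ` -/
theorem Ctx.two_e_le {Δ A : Set Ω} (c : Ctx G Ω Δ) (hA : Hyp G Δ A) :
    2 * (Δ \ A).ncard ≤ Δᶜ.ncard := by
  have := c.fin
  have hcard := c.card_eq
  have hdiff := c.card_diff hA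
  have hbig := hA.big
  have hm2 := c.hm2
  have he_lt : (Δ \ A).ncard < Δᶜ.ncard := by omega
  obtain ⟨δ, hδ⟩ := hA.nonempty_diff
  obtain ⟨γ, hγ⟩ : (Δᶜ).Nonempty := by
    rw [← Set.ncard_pos]
    omega
  have hγA : γ ∉ A := fun h => hγ (hA.sub h)
  obtain ⟨x, hx, hxδ⟩ := hA.jc δ hδ.2 γ hγA
  have hxΔ : x • Δ ≠ Δ := by
    intro h
    apply hγ
    rw [← h, ← hxδ]
    exact Set.smul_mem_smul_set hδ.1
  have hW₁ := c.smul_diff_subset hA x hx hxΔ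
  obtain ⟨γ', hγ', hγ'W⟩ : ∃ γ', γ' ∈ Δᶜ ∧ γ' ∉ x • (Δ \ A) := by
    by_contra hn
    push Not at hn
    have := Set.ncard_le_ncard (fun y hy => hn y hy : Δᶜ ⊆ x • (Δ \ A)) (Set.toFinite _)
    rw [Set.ncard_smul_set] at this
    omega
  have hγ'A : γ' ∉ A := fun h => hγ' (hA.sub h)
  obtain ⟨x', hx', hx'δ⟩ := hA.jc δ hδ.2 γ' hγ'A
  have hx'Δ : x' • Δ ≠ Δ := by
    intro h
    apply hγ'
    rw [← h, ← hx'δ]
    exact Set.smul_mem_smul_set hδ.1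
  have hW₂ := c.smul_diff_subset hA x' hx' hx'Δ
  have hdisj : Disjoint (x • (Δ \ A)) (x' • (Δ \ A)) := by
    rw [Set.disjoint_left]
    rintro w ⟨w₁, hw₁, hw₁w⟩ ⟨w₂, hw₂, hw₂w⟩
    simp only at hw₁w hw₂w
    -- z := x⁻¹ * x'
    have hz : ∀ y ∈ A, (x⁻¹ * x') • y = y := by
      intro y hy
      rw [mul_smul, hx' y hy, inv_smul_eq_iff, hx y hy]
    have hzw : (x⁻¹ * x') • w₂ = w₁ := by
      rw [mul_smul, hw₂w, inv_smul_eq_iff, hw₁w]
    have hzΔ : (x⁻¹ * x') • Δ = Δ := by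
      rcases c.pencil hA _ hz with h | h
      · exact h
      · exfalso
        have : w₁ ∈ (x⁻¹ * x') • Δ ∩ Δ := ⟨by rw [← hzw]; exact Set.smul_mem_smul_set hw₂.1, hw₁.1⟩
        rw [h] at this
        exact hw₁.2 this
    have hzδ : (x⁻¹ * x') • δ ∈ Δ \ A := by
      refine ⟨by rw [← hzΔ]; exact Set.smul_mem_smul_set hδ.1, fun h => ?_⟩
      have := hz _ h
      have h2 : (x⁻¹ * x') • δ = δ := smul_left_cancel _ this
      rw [h2] at h
      exact hδ.2 h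
    apply hγ'W
    have : γ' = x • ((x⁻¹ * x') • δ) := by
      rw [mul_smul, smul_inv_smul, hx'δ]
    rw [this]
    exact Set.smul_mem_smul_set hzδ
  have hunion := Set.ncard_union_eq hdisj (Set.toFinite _) (Set.toFinite _)
  rw [Set.ncard_smul_set, Set.ncard_smul_set] at hunion
  have := Set.ncard_le_ncard (Set.union_subset hW₁ hW₂) (Set.toFinite _)
  omega

/-- case `e = 1`: Jordan's theorem gives high transitivity, and a commutator is a 3-cycle -/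
theorem Ctx.has3_of_e1 {Δ A : Set Ω} (c : Ctx G Ω Δ) (hA : Hyp G Δ A)
    (he : (Δ \ A).ncard = 1) : Has3 G Ω := by
  have := c.fin
  have hcard := c.card_eq
  have hdiff := c.card_diff hA
  have hbig := hA.big
  have hm2 := c.hm2
  have hmn := c.hmn
  obtain ⟨δ, hδ⟩ := Set.ncard_eq_one.mp he
  have hδΔ : δ ∈ Δ := by
    have : δ ∈ Δ \ A := by rw [hδ]; rfl
    exact this.1
  have hδA : δ ∉ A := by
    have : δ ∈ Δ \ A := by rw [hδ]; rfl
    exact this.2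
  have hΔA : ∀ y, y ∈ Δ → y = δ ∨ y ∈ A := by
    intro y hy
    by_cases hyA : y ∈ A
    · exact Or.inr hyA
    · left
      have : y ∈ Δ \ A := ⟨hy, hyA⟩
      rw [hδ] at this
      exact this
  -- the fixer of `A` is 2-transitive on the complement of `A`
  have h2 : IsMultiplyPretransitive (fixingSubgroup G A) (SubMulAction.ofFixingSubgroup G A) 2 := by
    rw [is_two_pretransitive_iff]
    intro a b c' d hab hcd
    have ha : (a : Ω) ∉ A := (SubMulAction.mem_ofFixingSubgroup_iff G).mp a.2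
    have hb : (b : Ω) ∉ A := (SubMulAction.mem_ofFixingSubgroup_iff G).mp b.2
    have hc' : (c' : Ω) ∉ A := (SubMulAction.mem_ofFixingSubgroup_iff G).mp c'.2
    have hd : (d : Ω) ∉ A := (SubMulAction.mem_ofFixingSubgroup_iff G).mp d.2
    obtain ⟨y₁, hy₁, hy₁a⟩ := hA.jc a ha δ hδA
    obtain ⟨y₂, hy₂, hy₂c⟩ := hA.jc c' hc' δ hδA
    have aux : ∀ (y : G) (p q : Ω), (∀ z ∈ A, y • z = z) → y • p = δ → q ∉ A → p ≠ q →
        y • q ∉ Δ := by
      intro y p q hy hyp hq hpq hmem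
      rcases hΔA _ hmem with h | h
      · exact hpq (smul_left_cancel y (hyp.trans h.symm))
      · have := hy _ h
        have h2 : y • q = q := smul_left_cancel y this
        rw [h2] at h
        exact hq h
    have hb1 : y₁ • (b : Ω) ∉ Δ := aux y₁ a b hy₁ hy₁a hb (fun h => hab (Subtype.ext h))
    have hd2 : y₂ • (d : Ω) ∉ Δ := aux y₂ c' d hy₂ hy₂c hd (fun h => hcd (Subtype.ext h))
    obtain ⟨h, hh, hhb⟩ := c.jc _ hb1 _ hd2
    refine ⟨⟨y₂⁻¹ * h * y₁, ?_⟩, Subtype.ext ?_, Subtype.ext ?_⟩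
    · rw [mem_fixingSubgroup_iff]
      intro y hy
      rw [mul_smul, mul_smul, hy₁ y hy, hh y (hA.sub hy), inv_smul_eq_iff, hy₂ y hy]
    · show (y₂⁻¹ * h * y₁) • (a : Ω) = c'
      rw [mul_smul, mul_smul, hy₁a, hh δ hδΔ, inv_smul_eq_iff, hy₂c]
    · show (y₂⁻¹ * h * y₁) • (b : Ω) = d
      rw [mul_smul, mul_smul, hhb, inv_smul_smul]
  have hprimA := isPreprimitive_of_is_two_pretransitive h2
  have hG : IsPreprimitive G Ω := isPreprimitive_of_is_two_pretransitive (t2_iff.mp c.t2)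
  obtain ⟨n', hn'⟩ : ∃ n', A.ncard = n' + 1 := ⟨A.ncard - 1, by omega⟩
  have hmp : IsMultiplyPreprimitive G Ω (n' + 2) :=
    hG.isMultiplyPreprimitive hn' (by omega) hprimA
  have hmt : IsMultiplyPretransitive G Ω (n' + 2) := inferInstance
  have hm : IsMultiplyPretransitive G Ω Δᶜ.ncard :=
    isMultiplyPretransitive_of_le (n := n' + 2) (by omega) (by omega)
  -- a translate of the Jordan set meeting it in exactly one point
  obtain ⟨γ₁, γ₂, hγ₁, hγ₂, hγ⟩ := (Set.one_lt_ncard_iff (Set.toFinite _)).mp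
    (show 1 < Δᶜ.ncard by omega)
  obtain ⟨D, hDΔ, hDcard⟩ := Set.exists_subset_card_eq (s := Δ) (n := Δᶜ.ncard - 1) (by omega)
  have hγ₁D : γ₁ ∉ D := fun h => hγ₁ (hDΔ h)
  have hΓ'card : (insert γ₁ D).ncard = Δᶜ.ncard := by
    rw [Set.ncard_insert_of_notMem hγ₁D (Set.toFinite _), hDcard]
    omega
  obtain ⟨g, hg⟩ := exists_smul_set_eq hm Δᶜ (insert γ₁ D) rfl hΓ'card
  have hgc : (g • Δ)ᶜ = insert γ₁ D := by rw [← Set.smul_set_compl, hg]
  have hI : Δᶜ ∩ (g • Δ)ᶜ = {γ₁} := by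
    rw [hgc]
    ext y
    simp only [Set.mem_inter_iff, Set.mem_compl_iff, Set.mem_insert_iff, Set.mem_singleton_iff]
    constructor
    · rintro ⟨hy, rfl | hyD⟩
      · rfl
      · exact absurd (hDΔ hyD) hy
    · rintro rfl
      exact ⟨hγ₁, Or.inl rfl⟩
  obtain ⟨a, ha, haγ⟩ := c.jc γ₁ hγ₁ γ₂ hγ₂
  obtain ⟨γ', hγ', hγ'ne⟩ : ∃ γ', γ' ∈ (g • Δ)ᶜ ∧ γ' ≠ γ₁ := by
    rw [hgc]
    have := Set.exists_ne_of_one_lt_ncard (show 1 < (insert γ₁ D).ncard by omega) γ₁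
    exact this
  have hγ₁g : γ₁ ∈ (g • Δ)ᶜ := by rw [hgc]; exact Set.mem_insert _ _
  obtain ⟨b, hb, hbγ⟩ := (c.jc.smul g) γ₁ hγ₁g γ' hγ'
  exact has3_of_comm (Sa := Δᶜ) (Sb := (g • Δ)ᶜ)
    (fun x hx => ha x (by simpa using hx)) (fun x hx => hb x (by simpa using hx)) hI
    (by rw [haγ]; exact hγ.symm) (by rw [hbγ]; exact hγ'ne)

end Cfsg.Agent.Lib.Helper99.Marg
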