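import Cfsg.Agent.Lib.Helper99.MargC

set_option autoImplicit false
set_option linter.unusedSectionVars false

open MulAction
open scoped Pointwise

namespace Cfsg.Agent.Lib.Helper99.Marg

universe u v

variable {G : Type v} {Ω : Type u} [Group G] [MulAction G Ω]

theorem eq_of_subset_smul [Finite Ω] {Δ : Set Ω} {g : G} (h : Δ ⊆ g • Δ) : g • Δ = Δ :=
  (Set.eq_of_subset_of_ncard_le h (by rw [Set.ncard_smul_set]) (Set.toFinite _)).symm

/-- two translates of `Δ` with a big intersection leave a common point outside -/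
theorem Ctx.exists_outside {Δ : Set Ω} (c : Ctx G Ω Δ) (g : G)
    (hbig : Nat.card Ω < (Δ ∩ g • Δ).ncard + 2 * Δᶜ.ncard) : ∃ ω, ω ∉ Δ ∧ ω ∉ g • Δ := by
  have := c.fin
  have hcard := c.card_eq
  by_contra hn
  push Not at hn
  have huniv : Δ ∪ g • Δ = Set.univ := by
    ext ω
    simp only [Set.mem_union, Set.mem_univ, iff_true]
    by_cases h : ω ∈ Δ
    · exact Or.inl h
    · exact Or.inr (hn ω h)
  have h1 := Set.ncard_union_add_ncard_inter Δ (g • Δ)
  rw [huniv, Set.ncard_univ, Set.ncard_smul_set] at h1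
  omega

/-- chain lemma: a translate with a big intersection can be moved back to `Δ` by an element
fixing the intersection pointwise -/
theorem Ctx.chain {Δ : Set Ω} (c : Ctx G Ω Δ) :
    ∀ (k : ℕ) (g : G), (Δ \ g • Δ).ncard ≤ k →
      Nat.card Ω < (Δ ∩ g • Δ).ncard + 2 * Δᶜ.ncard →
      ∃ z : G, (∀ y ∈ Δ ∩ g • Δ, z • y = y) ∧ (z * g) • Δ = Δ := by
  have := c.fin
  have hcard := c.card_eq
  intro k
  induction k with
  | zero =>
    intro g hk _
    have hsub : Δ ⊆ g • Δ := by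
      have h0 : (Δ \ g • Δ).ncard = 0 := Nat.le_zero.mp hk
      rw [Set.ncard_eq_zero (Set.toFinite _), Set.sdiff_eq_empty] at h0
      exact h0
    refine ⟨1, fun y _ => one_smul _ _, ?_⟩
    rw [one_mul]
    exact eq_of_subset_smul hsub
  | succ k ih =>
    intro g hk hbig
    by_cases hsub : Δ ⊆ g • Δ
    · refine ⟨1, fun y _ => one_smul _ _, ?_⟩
      rw [one_mul]
      exact eq_of_subset_smul hsub
    · obtain ⟨q, hqΔ, hqg⟩ := Set.not_subset.mp hsub
      have hsub' : ¬ g • Δ ⊆ Δ := by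
        intro h
        have := Set.eq_of_subset_of_ncard_le h (by rw [Set.ncard_smul_set]) (Set.toFinite _)
        exact hsub (by rw [this])
      obtain ⟨p, hpg, hpΔ⟩ := Set.not_subset.mp hsub'
      obtain ⟨ω, hω1, hω2⟩ := c.exists_outside g hbig
      have hjc : JC G (Δ ∩ g • Δ) := c.jc.inter (c.jc.smul g) hω1 hω2
      obtain ⟨y, hy, hyp⟩ := hjc p (fun h => hpΔ h.1) q (fun h => hqg h.2)
      have hsub1 : insert q (Δ ∩ g • Δ) ⊆ Δ ∩ (y * g) • Δ := by
        intro w hw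
        rcases Set.mem_insert_iff.mp hw with rfl | hw
        · refine ⟨hqΔ, ?_⟩
          rw [mul_smul, ← hyp]
          exact Set.smul_mem_smul_set hpg
        · refine ⟨hw.1, ?_⟩
          rw [mul_smul, ← hy w hw]
          exact Set.smul_mem_smul_set hw.2
      have hcard1 : (Δ ∩ g • Δ).ncard + 1 ≤ (Δ ∩ (y * g) • Δ).ncard := by
        have := Set.ncard_le_ncard hsub1 (Set.toFinite _)
        rwa [Set.ncard_insert_of_notMem (fun h => hqg h.2) (Set.toFinite _)] at this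
      have hd1 := Set.ncard_inter_add_ncard_sdiff_eq_ncard Δ (g • Δ) (Set.toFinite _)
      have hd2 := Set.ncard_inter_add_ncard_sdiff_eq_ncard Δ ((y * g) • Δ) (Set.toFinite _)
      obtain ⟨z', hz', hz'Δ⟩ := ih (y * g) (by omega) (by omega)
      refine ⟨z' * y, fun w hw => ?_, ?_⟩
      · rw [mul_smul, hy w hw]
        exact hz' w (hsub1 (Set.mem_insert_of_mem _ hw))
      · rw [mul_assoc]
        exact hz'Δ

/-- the setwise stabilizer of `Δ` is 2-transitive on `Δ` -/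
theorem Ctx.stab_t2 {Δ : Set Ω} (c : Ctx G Ω Δ) {x₁ x₂ x₁' x₂' : Ω} (h₁ : x₁ ∈ Δ)
    (h₂ : x₂ ∈ Δ) (h₁' : x₁' ∈ Δ) (h₂' : x₂' ∈ Δ) (hne : x₁ ≠ x₂) (hne' : x₁' ≠ x₂') :
    ∃ x : G, x • Δ = Δ ∧ x • x₁ = x₁' ∧ x • x₂ = x₂' := by
  have := c.fin
  have hcard := c.card_eq
  have hm2 := c.hm2
  obtain ⟨γ, hγ⟩ : (Δᶜ).Nonempty := by
    rw [← Set.ncard_pos]
    omega
  have hγ' : γ ∉ Δ := hγ
  obtain ⟨g, hg1, hg2, hg3⟩ := c.t3 x₁ x₂ γ x₁' x₂' γ hne (fun h => hγ' (h ▸ h₁))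
    (fun h => hγ' (h ▸ h₂)) hne' (fun h => hγ' (h ▸ h₁')) (fun h => hγ' (h ▸ h₂'))
  have hγg : γ ∉ g • Δ := by
    rw [Set.mem_smul_set_iff_inv_smul_mem]
    have : g⁻¹ • γ = γ := by rw [inv_smul_eq_iff, hg3]
    rw [this]
    exact hγ'
  have hbig : Nat.card Ω < (Δ ∩ g • Δ).ncard + 2 * Δᶜ.ncard := by
    have h1 := Set.ncard_add_ncard_compl (Δ ∩ g • Δ)
    have h2 : (Δ ∩ g • Δ)ᶜ = Δᶜ ∪ g • Δᶜ := by
      rw [Set.compl_inter, Set.smul_set_compl]
    have h3 := Set.ncard_union_add_ncard_inter Δᶜ (g • Δᶜ)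
    rw [Set.ncard_smul_set] at h3
    have h4 : 0 < (Δᶜ ∩ g • Δᶜ).ncard := by
      rw [Set.ncard_pos]
      refine ⟨γ, hγ, ?_⟩
      rw [Set.smul_set_compl]
      exact hγg
    rw [h2] at h1
    omega
  obtain ⟨z, hz, hzΔ⟩ := c.chain _ g le_rfl hbig
  refine ⟨z * g, hzΔ, ?_, ?_⟩
  · rw [mul_smul, hg1]
    exact hz _ ⟨h₁', by rw [← hg1]; exact Set.smul_mem_smul_set h₁⟩
  · rw [mul_smul, hg2]
    exact hz _ ⟨h₂', by rw [← hg2]; exact Set.smul_mem_smul_set h₂⟩

/-- hyperplanes are transported by the stabilizer of `Δ` -/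
theorem Hyp.smul {Δ A : Set Ω} (hA : Hyp G Δ A) {x : G} (hx : x • Δ = Δ) :
    Hyp G Δ (x • A) := by
  refine ⟨?_, ?_, hA.jc.smul x, ?_, ?_⟩
  · rw [← hx]
    exact Set.smul_set_mono hA.sub
  · intro h
    rw [← hx] at h
    exact hA.ne (smul_left_cancel x h)
  · rw [Set.ncard_smul_set]
    exact hA.big
  · intro Y hY hAY hYΔ
    have hx' : x⁻¹ • Δ = Δ := by rw [inv_smul_eq_iff, hx]
    have h1 : A ⊆ x⁻¹ • Y := Set.smul_set_subset_iff_subset_inv_smul_set.mp hAY
    have h2 : x⁻¹ • Y ⊆ Δ := by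
      rw [← hx']
      exact Set.smul_set_mono hYΔ
    rcases hA.max _ (hY.smul x⁻¹) h1 h2 with h | h
    · left
      rw [← h, smul_inv_smul]
    · right
      rw [← hx'] at h
      exact smul_left_cancel _ h

/-- the stabilizer of `Δ` induces every 3-cycle on `Δ` -/
def All3On (G : Type v) {Ω : Type u} [Group G] [MulAction G Ω] (Δ : Set Ω) : Prop :=
  ∀ p q r : Ω, p ∈ Δ → q ∈ Δ → r ∈ Δ → p ≠ q → q ≠ r → p ≠ r →
    ∃ x : G, x • Δ = Δ ∧ x • p = q ∧ x • q = r ∧ x • r = p ∧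
      ∀ y ∈ Δ, y ≠ p → y ≠ q → y ≠ r → x • y = y

/-- with all 3-cycles and `e ≥ 2`, the stabilizer of `Δ` is transitive on the subsets of `Δ`
of the size of `A` -/
theorem all3On_swap [Finite Ω] {Δ : Set Ω} (hall : All3On G Δ) (a : ℕ)
    (he : a + 2 ≤ Δ.ncard) (T : Set Ω) (hTΔ : T ⊆ Δ) (hT : T.ncard = a) :
    ∀ (k : ℕ) (S : Set Ω), S ⊆ Δ → S.ncard = a → (S \ T).ncard ≤ k →
      ∃ x : G, x • Δ = Δ ∧ x • S = T := by
  intro k
  induction k with
  | zero =>
    intro S _ hS hk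
    have hsub : S ⊆ T := by
      have h0 : (S \ T).ncard = 0 := Nat.le_zero.mp hk
      rw [Set.ncard_eq_zero (Set.toFinite _), Set.sdiff_eq_empty] at h0
      exact h0
    have : S = T := Set.eq_of_subset_of_ncard_le hsub (by omega) (Set.toFinite _)
    exact ⟨1, one_smul _ _, by rw [one_smul, this]⟩
  | succ k ih =>
    intro S hSΔ hS hk
    by_cases hsub : S ⊆ T
    · have : S = T := Set.eq_of_subset_of_ncard_le hsub (by omega) (Set.toFinite _)
      exact ⟨1, one_smul _ _, by rw [one_smul, this]⟩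
    · obtain ⟨y, hyS, hyT⟩ := Set.not_subset.mp hsub
      have hsub' : ¬ T ⊆ S := by
        intro h
        have : T = S := Set.eq_of_subset_of_ncard_le h (by omega) (Set.toFinite _)
        exact hsub (by rw [this])
      obtain ⟨z, hzT, hzS⟩ := Set.not_subset.mp hsub'
      have hzΔ : z ∈ Δ := hTΔ hzT
      have hd := Set.ncard_sdiff_add_ncard_of_subset hSΔ (Set.toFinite _)
      obtain ⟨w, hw, hwz⟩ := Set.exists_ne_of_one_lt_ncard
        (show 1 < (Δ \ S).ncard by omega) z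
      have hyz : y ≠ z := fun h => hzS (h ▸ hyS)
      have hyw : y ≠ w := fun h => hw.2 (h ▸ hyS)
      obtain ⟨x, hxΔ, hxy, hxz, hxw, hxfix⟩ :=
        hall y z w (hSΔ hyS) hzΔ hw.1 hyz hwz.symm hyw
      have hS'Δ : x • S ⊆ Δ := by
        rw [← hxΔ]
        exact Set.smul_set_mono hSΔ
      have hsub2 : x • S \ T ⊆ (S \ T) \ {y} := by
        rintro v ⟨⟨v₀, hv₀, rfl⟩, hvT⟩
        simp only at hvT
        by_cases hv₀y : v₀ = y
        · rw [hv₀y, hxy] at hvT
          exact absurd hzT hvT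
        · have hfix : x • v₀ = v₀ := hxfix v₀ (hSΔ hv₀) hv₀y (fun h => hzS (h ▸ hv₀))
            (fun h => hw.2 (h ▸ hv₀))
          simp only
          rw [hfix] at hvT ⊢
          exact ⟨⟨hv₀, hvT⟩, hv₀y⟩
      have hlt : (x • S \ T).ncard ≤ k := by
        have h1 := Set.ncard_le_ncard hsub2 (Set.toFinite _)
        have h2 := Set.ncard_sdiff_singleton_add_one (show y ∈ S \ T from ⟨hyS, hyT⟩)
          (Set.toFinite _)
        omega
      obtain ⟨x', hx'Δ, hx'S⟩ := ih (x • S) hS'Δ (by rw [Set.ncard_smul_set, hS]) hlt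
      exact ⟨x' * x, by rw [mul_smul, hxΔ, hx'Δ], by rw [mul_smul, hx'S]⟩

/-- every subset of `Δ` of the size of `A` is a hyperplane -/
theorem Ctx.allHyp {Δ A : Set Ω} (c : Ctx G Ω Δ) (hA : Hyp G Δ A) (hall : All3On G Δ)
    (he : 2 ≤ (Δ \ A).ncard) (T : Set Ω) (hTΔ : T ⊆ Δ) (hT : T.ncard = A.ncard) :
    Hyp G Δ T := by
  have := c.fin
  have hdiff := c.card_diff hA
  obtain ⟨x, hxΔ, hxA⟩ := all3On_swap hall A.ncard (by omega) T hTΔ hT _ A hA.sub rfl le_rfl
  rw [← hxA]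
  exact hA.smul hxΔ

/-- two distinct translates of `Δ` meet in at most `|A|` points -/
theorem Ctx.star3 {Δ A : Set Ω} (c : Ctx G Ω Δ) (hA : Hyp G Δ A) (hall : All3On G Δ)
    (he : 2 ≤ (Δ \ A).ncard) (g : G) (hg : g • Δ ≠ Δ) : (Δ ∩ g • Δ).ncard ≤ A.ncard := by
  have := c.fin
  by_contra hn
  push Not at hn
  have hbigA := hA.big
  obtain ⟨ω, hω1, hω2⟩ := c.exists_outside g (by omega)
  have hjc : JC G (Δ ∩ g • Δ) := c.jc.inter (c.jc.smul g) hω1 hω2
  obtain ⟨T, hTsub, hTcard⟩ := Set.exists_subset_card_eq (s := Δ ∩ g • Δ) (n := A.ncard)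
    (by omega)
  have hT : Hyp G Δ T := c.allHyp hA hall he T (hTsub.trans Set.inter_subset_left) hTcard
  rcases hT.max _ hjc hTsub Set.inter_subset_left with h | h
  · rw [h] at hn
    omega
  · apply hg
    apply eq_of_subset_smul
    intro y hy
    have : y ∈ Δ ∩ g • Δ := by rw [h]; exact hy
    exact this.2

/-- two distinct translates of `Δ` meet in at most `|A|` points, general form -/
theorem Ctx.star3' {Δ A : Set Ω} (c : Ctx G Ω Δ) (hA : Hyp G Δ A) (hall : All3On G Δ)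
    (he : 2 ≤ (Δ \ A).ncard) (g₁ g₂ : G) (hg : g₁ • Δ ≠ g₂ • Δ) :
    (g₁ • Δ ∩ g₂ • Δ).ncard ≤ A.ncard := by
  have h1 : g₁ • Δ ∩ g₂ • Δ = g₁ • (Δ ∩ (g₁⁻¹ * g₂) • Δ) := by
    rw [Set.smul_set_inter, mul_smul, smul_inv_smul]
  rw [h1, Set.ncard_smul_set]
  apply c.star3 hA hall he
  intro h
  apply hg
  rw [mul_smul, inv_smul_eq_iff] at h
  exact h.symm

/-- a counting lemma: sets through a common base with pairwise intersections in the base -/
theorem count_lemma [Finite Ω] (Y : Set Ω) (D : Ω → Set Ω) (k : ℕ)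
    (hD : ∀ y ∈ Y, k ≤ (D y \ Y).ncard)
    (hdisj : ∀ y ∈ Y, ∀ y' ∈ Y, y ≠ y' → D y ∩ D y' ⊆ Y) :
    Y.ncard * k + Y.ncard ≤ Nat.card Ω := by
  classical
  have := Fintype.ofFinite Ω
  let s : Finset Ω := Y.toFinset
  let t : Ω → Finset Ω := fun y => (D y \ Y).toFinset
  have hs : ∀ y, y ∈ s ↔ y ∈ Y := fun y => Set.mem_toFinset
  have h1 : (s.biUnion t).card = ∑ u ∈ s, (t u).card := by
    apply Finset.card_biUnion
    intro y hy y' hy' hne
    rw [Function.onFun, Finset.disjoint_left]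
    intro w hw hw'
    simp only [t, Set.mem_toFinset] at hw hw'
    exact hw.2 (hdisj y ((hs y).mp hy) y' ((hs y').mp hy') hne ⟨hw.1, hw'.1⟩)
  have h2 : s.card * k ≤ ∑ u ∈ s, (t u).card := by
    have := Finset.card_nsmul_le_sum s (fun u => (t u).card) k (fun y hy => by
      have := hD y ((hs y).mp hy)
      rwa [Set.ncard_eq_toFinset_card'] at this)
    simpa using this
  have h3 : s.biUnion t ⊆ Finset.univ \ s := by
    intro w hw
    rw [Finset.mem_biUnion] at hw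
    obtain ⟨y, _, hw⟩ := hw
    simp only [t, Set.mem_toFinset] at hw
    rw [Finset.mem_sdiff]
    exact ⟨Finset.mem_univ _, fun h => hw.2 ((hs w).mp h)⟩
  have h4 := Finset.card_le_card h3
  have h5 : (Finset.univ \ s).card = Fintype.card Ω - s.card := by
    rw [Finset.card_sdiff_of_subset (Finset.subset_univ s), Finset.card_univ]
  have h6 : s.card = Y.ncard := (Set.ncard_eq_toFinset_card' Y).symm
  have h7 : s.card ≤ Fintype.card Ω := Finset.card_le_univ s
  rw [Nat.card_eq_fintype_card, ← h6]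
  omega

/-- the case `e ≥ 2` is impossible when the stabilizer of `Δ` induces all 3-cycles on `Δ` -/
theorem Ctx.false_of_all3On {Δ A : Set Ω} (c : Ctx G Ω Δ) (hA : Hyp G Δ A)
    (hall : All3On G Δ) (he : 2 ≤ (Δ \ A).ncard) : False := by
  have := c.fin
  have hcard := c.card_eq
  have hdiff := c.card_diff hA
  have hbigA := hA.big
  have hm2 := c.hm2
  have hmn := c.hmn
  have h2e := c.two_e_le hA
  obtain ⟨δ, hδ⟩ := hA.nonempty_diff
  obtain ⟨x₀, hx₀⟩ : (Δᶜ).Nonempty := by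
    rw [← Set.ncard_pos]
    omega
  have hx₀' : x₀ ∉ Δ := hx₀
  -- the base
  have hSΔ : insert δ A ⊆ Δ := Set.insert_subset hδ.1 hA.sub
  have hScard : (insert δ A).ncard = A.ncard + 1 :=
    Set.ncard_insert_of_notMem hδ.2 (Set.toFinite _)
  have hx₀S : x₀ ∉ insert δ A := fun h => hx₀' (hSΔ h)
  have hYcard : (insert x₀ (insert δ A)).ncard = A.ncard + 2 := by
    rw [Set.ncard_insert_of_notMem hx₀S (Set.toFinite _), hScard]
  -- no translate contains the base
  have hN : ∀ g : G, ¬ insert x₀ (insert δ A) ⊆ g • Δ := by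
    intro g hsub
    by_cases hg : g • Δ = Δ
    · rw [hg] at hsub
      exact hx₀' (hsub (Set.mem_insert _ _))
    · have h1 := c.star3 hA hall he g hg
      have h2 : insert δ A ⊆ Δ ∩ g • Δ :=
        Set.subset_inter hSΔ ((Set.subset_insert _ _).trans hsub)
      have := Set.ncard_le_ncard h2 (Set.toFinite _)
      omega
  -- the translates
  have hex : ∀ y, ∃ g : G, y ∈ insert x₀ (insert δ A) →
      insert x₀ (insert δ A) \ {y} ⊆ g • Δ := by
    intro y
    by_cases hy : y ∈ insert x₀ (insert δ A)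
    · rcases Set.mem_insert_iff.mp hy with rfl | hyS
      · refine ⟨1, fun _ => ?_⟩
        rw [one_smul]
        rintro w ⟨hw, hwy⟩
        rcases Set.mem_insert_iff.mp hw with h | h
        · exact absurd h hwy
        · exact hSΔ h
      · have hTΔ : insert δ A \ {y} ⊆ Δ := Set.sdiff_subset.trans hSΔ
        have hTcard : (insert δ A \ {y}).ncard = A.ncard := by
          have := Set.ncard_sdiff_singleton_add_one hyS (Set.toFinite _)
          omega
        have hT : Hyp G Δ (insert δ A \ {y}) := c.allHyp hA hall he _ hTΔ hTcard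
        obtain ⟨u, hu, huy⟩ := hT.jc y (fun h => h.2 rfl) x₀ (fun h => hx₀S h.1)
        refine ⟨u, fun _ => ?_⟩
        rintro w ⟨hw, hwy⟩
        rcases Set.mem_insert_iff.mp hw with h | h
        · rw [h, ← huy]
          exact Set.smul_mem_smul_set (hSΔ hyS)
        · rw [← hu w ⟨h, hwy⟩]
          exact Set.smul_mem_smul_set (hSΔ h)
    · exact ⟨1, fun h => absurd h hy⟩
  choose gf hgf using hex
  have hynot : ∀ y ∈ insert x₀ (insert δ A), y ∉ gf y • Δ := by
    intro y hy hmem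
    apply hN (gf y)
    intro w hw
    by_cases hwy : w = y
    · rw [hwy]; exact hmem
    · exact hgf y hy ⟨hw, hwy⟩
  have hdist : ∀ y ∈ insert x₀ (insert δ A), ∀ y' ∈ insert x₀ (insert δ A), y ≠ y' →
      gf y • Δ ≠ gf y' • Δ := by
    intro y hy y' hy' hne heq
    apply hynot y hy
    rw [heq]
    exact hgf y' hy' ⟨hy, hne⟩
  have hcount := count_lemma (insert x₀ (insert δ A)) (fun y => gf y • Δ) ((Δ \ A).ncard - 1)
    (by
      intro y hy
      show (Δ \ A).ncard - 1 ≤ (gf y • Δ \ insert x₀ (insert δ A)).ncard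
      have h1 := Set.ncard_inter_add_ncard_sdiff_eq_ncard (gf y • Δ) (insert x₀ (insert δ A))
        (Set.toFinite _)
      rw [Set.ncard_smul_set] at h1
      have h2 : gf y • Δ ∩ insert x₀ (insert δ A) ⊆ insert x₀ (insert δ A) \ {y} := by
        rintro w ⟨hw1, hw2⟩
        exact ⟨hw2, fun h => hynot y hy (h ▸ hw1)⟩
      have h3 := Set.ncard_le_ncard h2 (Set.toFinite _)
      have h4 := Set.ncard_sdiff_singleton_add_one hy (Set.toFinite _)
      omega)
    (by
      intro y hy y' hy' hne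
      show gf y • Δ ∩ gf y' • Δ ⊆ insert x₀ (insert δ A)
      have h1 := c.star3' hA hall he (gf y) (gf y') (hdist y hy y' hy' hne)
      have h2 : (insert x₀ (insert δ A) \ {y}) \ {y'} ⊆ gf y • Δ ∩ gf y' • Δ := by
        rintro w ⟨⟨hw, hwy⟩, hwy'⟩
        exact ⟨hgf y hy ⟨hw, hwy⟩, hgf y' hy' ⟨hw, hwy'⟩⟩
      have h3 := Set.ncard_sdiff_singleton_add_one hy (Set.toFinite _)
      have h4 := Set.ncard_sdiff_singleton_add_one
        (show y' ∈ insert x₀ (insert δ A) \ {y} from ⟨hy', fun h => hne h.symm⟩) (Set.toFinite _)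
      have h5 : (insert x₀ (insert δ A) \ {y}) \ {y'} = gf y • Δ ∩ gf y' • Δ :=
        Set.eq_of_subset_of_ncard_le h2 (by omega) (Set.toFinite _)
      rw [← h5]
      exact Set.sdiff_subset.trans Set.sdiff_subset)
  rw [hYcard] at hcount
  -- arithmetic
  obtain ⟨e', he'⟩ : ∃ e', (Δ \ A).ncard = e' + 2 := ⟨(Δ \ A).ncard - 2, by omega⟩
  obtain ⟨m', hm'⟩ : ∃ m', Δᶜ.ncard = 2 * (e' + 2) + m' := ⟨Δᶜ.ncard - 2 * (e' + 2), by omega⟩
  obtain ⟨n', hn'⟩ : ∃ n', Nat.card Ω = 2 * Δᶜ.ncard + 1 + n' :=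
    ⟨Nat.card Ω - (2 * Δᶜ.ncard + 1), by omega⟩
  have ha : A.ncard = e' + 3 + m' + n' := by omega
  rw [he', ha, hn', hm'] at hcount
  have h9 : e' + 2 - 1 = e' + 1 := by omega
  rw [h9] at hcount
  nlinarith [Nat.zero_le (e' * e'), Nat.zero_le (e' * m'), Nat.zero_le (e' * n'),
    Nat.zero_le e', Nat.zero_le m', Nat.zero_le n']

end Cfsg.Agent.Lib.Helper99.Marg
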