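import Cfsg.Agent.Lib.Helper99.MargD

set_option autoImplicit false
set_option linter.unusedSectionVars false

open MulAction
open scoped Pointwise

namespace Cfsg.Agent.Lib.Helper99.Marg

universe u v

/-- the setwise stabilizer of `Δ` acting on `Δ` -/
def stabSub (G : Type v) {Ω : Type u} [Group G] [MulAction G Ω] (Δ : Set Ω) :
    SubMulAction (stabilizer G Δ) Ω where
  carrier := Δ
  smul_mem' := fun k x hx => by
    have h : (k : G) • Δ = Δ := mem_stabilizer_iff.mp k.2
    have h2 : (k : G) • x ∈ (k : G) • Δ := Set.smul_mem_smul_set hx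
    rw [h] at h2
    exact h2

theorem mem_stabSub {G : Type v} {Ω : Type u} [Group G] [MulAction G Ω] (Δ : Set Ω) (x : Ω) :
    x ∈ stabSub G Δ ↔ x ∈ Δ := Iff.rfl

/-- Marggraf's theorem: a primitive group with a Jordan set of at least two and fewer than
half of the points induces a 3-cycle -/
theorem has3_of_jc : ∀ (n : ℕ) (G : Type v) (Ω : Type u) [Group G] [Finite G] [MulAction G Ω]
    [Finite Ω], Nat.card Ω = n → IsPreprimitive G Ω → ∀ Δ : Set Ω, JC G Δ → 2 ≤ Δᶜ.ncard →
      2 * Δᶜ.ncard < n → Has3 G Ω := by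
  intro n
  induction n using Nat.strong_induction_on with
  | _ n ih =>
    intro G Ω _ _ _ _ hn hG Δ hjc hm2 hmn
    have hcard := Set.ncard_add_ncard_compl Δ
    have hT3 : T3 G Ω := t3_of_jc hG hjc hm2 (by omega)
    obtain ⟨n', hn'⟩ : ∃ n', Δ.ncard = n' + 1 := ⟨Δ.ncard - 1, by omega⟩
    have h2 : IsMultiplyPretransitive G Ω 2 :=
      hG.is_two_pretransitive hn' (by omega) ((jc_iff_isPretransitive Δ).mp hjc)
    have hT2 : T2 G Ω := t2_iff.mpr h2
    have c : Ctx G Ω Δ := ⟨inferInstance, hjc, hT2, hT3, hm2, by omega⟩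
    obtain ⟨A, hA⟩ := c.exists_hyp
    have hdiff := c.card_diff hA
    have h2e := c.two_e_le hA
    have hepos : 0 < (Δ \ A).ncard := (Set.ncard_pos).mpr hA.nonempty_diff
    by_cases he1 : (Δ \ A).ncard = 1
    · exact c.has3_of_e1 hA he1
    · exfalso
      have he : 2 ≤ (Δ \ A).ncard := by omega
      apply c.false_of_all3On hA _ he
      -- the stabilizer of `Δ` acting on `Δ`
      have hcardS : Nat.card (stabSub G Δ) = Δ.ncard := Nat.card_coe_set_eq Δ
      have h2S : IsMultiplyPretransitive (stabilizer G Δ) (stabSub G Δ) 2 := by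
        rw [is_two_pretransitive_iff]
        intro a b a' b' hab hab'
        obtain ⟨x, hxΔ, hxa, hxb⟩ := c.stab_t2 a.2 b.2 a'.2 b'.2
          (fun h => hab (Subtype.ext h)) (fun h => hab' (Subtype.ext h))
        exact ⟨⟨x, mem_stabilizer_iff.mpr hxΔ⟩, Subtype.ext hxa, Subtype.ext hxb⟩
      have hprimS : IsPreprimitive (stabilizer G Δ) (stabSub G Δ) :=
        isPreprimitive_of_is_two_pretransitive h2S
      set A' : Set (stabSub G Δ) := {x | (x : Ω) ∈ A} with hA'
      have hjc' : JC (stabilizer G Δ) A' := by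
        intro a ha b hb
        obtain ⟨x, hx, hxΔ, hxa⟩ := c.stab_trans hA (δ := (a : Ω)) (δ' := (b : Ω))
          ⟨a.2, ha⟩ ⟨b.2, hb⟩
        exact ⟨⟨x, mem_stabilizer_iff.mpr hxΔ⟩, fun y hy => Subtype.ext (hx _ hy),
          Subtype.ext hxa⟩
      have hA'c : A'ᶜ.ncard = (Δ \ A).ncard := by
        have e1 : Subtype.val '' A'ᶜ = Δ \ A := by
          ext x
          constructor
          · rintro ⟨y, hy, rfl⟩
            exact ⟨y.2, hy⟩
          · rintro ⟨hx, hxA⟩
            exact ⟨⟨x, hx⟩, hxA, rfl⟩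
        rw [← Set.ncard_image_of_injective _ Subtype.val_injective, e1]
      have hK : Has3 (stabilizer G Δ) (stabSub G Δ) :=
        ih Δ.ncard (by omega) (stabilizer G Δ) (stabSub G Δ) hcardS hprimS A' hjc'
          (by rw [hA'c]; exact he) (by rw [hA'c]; omega)
      have hall := all3_of_has3 hprimS hK
      intro p q r hp hq hr hpq hqr hpr
      obtain ⟨k, hkp, hkq, hkr, hkfix⟩ := hall ⟨p, hp⟩ ⟨q, hq⟩ ⟨r, hr⟩
        (fun h => hpq (congrArg Subtype.val h)) (fun h => hqr (congrArg Subtype.val h))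
        (fun h => hpr (congrArg Subtype.val h))
      refine ⟨(k : G), mem_stabilizer_iff.mp k.2, congrArg Subtype.val hkp,
        congrArg Subtype.val hkq, congrArg Subtype.val hkr, fun y hy hyp hyq hyr => ?_⟩
      exact congrArg Subtype.val (hkfix ⟨y, hy⟩ (fun h => hyp (congrArg Subtype.val h))
        (fun h => hyq (congrArg Subtype.val h)) (fun h => hyr (congrArg Subtype.val h)))

end Cfsg.Agent.Lib.Helper99.Marg
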