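import Cfsg.Agent.Lib.Helper99.MargE

set_option autoImplicit false
set_option linter.unusedSectionVars false

open MulAction
open scoped Pointwise

namespace Cfsg.Agent.Lib.Helper99.Marg

universe u v w

/-- the size of a preimage under a map with fibers of constant size -/
theorem ncard_preimage_of_fibers {Ω : Type u} {S : Type w} [Finite Ω] [Finite S] (π : Ω → S)
    (b : ℕ) (hb : ∀ s, (π ⁻¹' {s}).ncard = b) (T : Set S) :
    (π ⁻¹' T).ncard = b * T.ncard := by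
  classical
  have := Fintype.ofFinite Ω
  have := Fintype.ofFinite S
  rw [Set.ncard_eq_toFinset_card' (π ⁻¹' T), Set.ncard_eq_toFinset_card' T]
  rw [Finset.card_eq_sum_card_fiberwise (f := π) (t := T.toFinset)
    (fun x hx => by simpa using hx)]
  rw [Finset.sum_const_nat (m := b), mul_comm]
  intro c hc
  have h1 := hb c
  rw [Set.ncard_eq_toFinset_card'] at h1
  rw [← h1]
  congr 1
  ext x
  simp only [Finset.mem_filter, Set.mem_toFinset, Set.mem_preimage, Set.mem_singleton_iff]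
  constructor
  · exact fun h => h.2
  · intro h
    refine ⟨?_, h⟩
    rw [h]
    exact Set.mem_toFinset.mp hc

/-- a Jordan set as in Marggraf's theorem is incompatible with a faithful primitive quotient
action with nontrivial fibers -/
theorem false_of_fibration {G : Type v} {Ω : Type u} {S : Type w} [Group G] [Finite G]
    [MulAction G Ω] [Finite Ω] [MulAction G S] [Finite S] (π : Ω → S)
    (hπ : ∀ (g : G) (x : Ω), π (g • x) = g • π x) (hsurj : Function.Surjective π)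
    (hfaith : ∀ g : G, (∀ s : S, g • s = s) → g = 1)
    (hfib : ∀ s : S, ∃ x x' : Ω, x ≠ x' ∧ π x = s ∧ π x' = s)
    (hprim : IsPreprimitive G S) (Δ : Set Ω) (hjc : JC G Δ) (hm2 : 2 ≤ Δᶜ.ncard)
    (hmn : 2 * Δᶜ.ncard < Nat.card Ω) : False := by
  classical
  obtain ⟨γ₁, γ₂, hγ₁, hγ₂, hγ⟩ := (Set.one_lt_ncard_iff (Set.toFinite _)).mp
    (show 1 < Δᶜ.ncard by omega)
  have hγ₁' : γ₁ ∉ Δ := hγ₁
  have hγ₂' : γ₂ ∉ Δ := hγ₂
  have hpres : ∀ h : G, (∀ y ∈ Δ, h • y = y) → ∀ z, z ∉ Δ → h • z ∉ Δ := by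
    intro h hh z hz hmem
    have h1 := hh _ hmem
    have h2 : h • z = z := smul_left_cancel h h1
    rw [h2] at hmem
    exact hz hmem
  have hna : ¬ ∃ c : S, ∀ x, x ∉ Δ → π x = c := by
    rintro ⟨c, hc⟩
    obtain ⟨h, hh, hhγ⟩ := hjc γ₁ hγ₁' γ₂ hγ₂'
    have h1 : h = 1 := by
      apply hfaith
      intro s
      obtain ⟨z, rfl⟩ := hsurj s
      rw [← hπ]
      by_cases hz : z ∈ Δ
      · rw [hh z hz]
      · rw [hc z hz, hc _ (hpres h hh z hz)]
    rw [h1, one_smul] at hhγ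
    exact hγ hhγ
  have hunion : ∀ x y, π x = π y → x ∉ Δ → y ∉ Δ := by
    intro x y hxy hx hy
    apply hna
    refine ⟨π y, fun z hz => ?_⟩
    obtain ⟨h, hh, hhx⟩ := hjc x hx z hz
    rw [← hhx, hπ, hxy, ← hπ, hh y hy]
  set Γ' : Set S := π '' Δᶜ with hΓ'
  have hΔiff : ∀ z, z ∈ Δ ↔ π z ∉ Γ' := by
    intro z
    constructor
    · rintro hz ⟨y, hy, hyz⟩
      exact hunion y z hyz hy hz
    · intro hz
      by_contra hn
      exact hz ⟨z, hn, rfl⟩
  have hjc' : JC G Γ'ᶜ := by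
    intro a ha b hb
    have ha' : a ∈ Γ' := not_not.mp ha
    have hb' : b ∈ Γ' := not_not.mp hb
    obtain ⟨x, hx, rfl⟩ := ha'
    obtain ⟨y, hy, rfl⟩ := hb'
    obtain ⟨h, hh, hhx⟩ := hjc x hx y hy
    refine ⟨h, fun s hs => ?_, by rw [← hπ, hhx]⟩
    obtain ⟨z, rfl⟩ := hsurj s
    rw [← hπ, hh z ((hΔiff z).mpr hs)]
  have htr := hprim.toIsPretransitive
  have hfibsmul : ∀ (g : G) (s : S), π ⁻¹' {g • s} = g • (π ⁻¹' {s}) := by
    intro g s
    ext x
    rw [Set.mem_smul_set_iff_inv_smul_mem]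
    simp only [Set.mem_preimage, Set.mem_singleton_iff]
    rw [hπ, inv_smul_eq_iff]
  have huni : ∀ s, (π ⁻¹' {s}).ncard = (π ⁻¹' {π γ₁}).ncard := by
    intro s
    obtain ⟨g, rfl⟩ := exists_smul_eq G (π γ₁) s
    rw [hfibsmul, Set.ncard_smul_set]
  have hcΓ : Δᶜ.ncard = (π ⁻¹' {π γ₁}).ncard * Γ'.ncard := by
    have h1 : Δᶜ = π ⁻¹' Γ' := by
      ext z
      simp only [Set.mem_compl_iff, Set.mem_preimage]
      rw [hΔiff, not_not]
    rw [h1]
    exact ncard_preimage_of_fibers π _ huni Γ'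
  have hcΩ : Nat.card Ω = (π ⁻¹' {π γ₁}).ncard * Nat.card S := by
    have h1 := ncard_preimage_of_fibers π _ huni Set.univ
    rwa [Set.preimage_univ, Set.ncard_univ, Set.ncard_univ] at h1
  have hr2 : 2 ≤ Γ'.ncard := by
    by_contra hn
    push Not at hn
    apply hna
    refine ⟨π γ₁, fun x hx => ?_⟩
    by_contra hne
    have h1 : 1 < Γ'.ncard := (Set.one_lt_ncard_iff (Set.toFinite _)).mpr
      ⟨π x, π γ₁, ⟨x, hx, rfl⟩, ⟨γ₁, hγ₁, rfl⟩, hne⟩
    omega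
  have hrk : 2 * Γ'.ncard < Nat.card S := by
    rw [hcΓ, hcΩ] at hmn
    have h1 : (π ⁻¹' {π γ₁}).ncard * (2 * Γ'.ncard) < (π ⁻¹' {π γ₁}).ncard * Nat.card S := by
      calc (π ⁻¹' {π γ₁}).ncard * (2 * Γ'.ncard)
          = 2 * ((π ⁻¹' {π γ₁}).ncard * Γ'.ncard) := by ring
        _ < _ := hmn
    exact Nat.lt_of_mul_lt_mul_left h1
  have hcc : Γ'ᶜᶜ = Γ' := compl_compl Γ'
  have h3 : Has3 G S := has3_of_jc (Nat.card S) G S rfl hprim Γ'ᶜ hjc'
    (by rw [hcc]; exact hr2) (by rw [hcc]; exact hrk)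
  have hFS := Fintype.ofFinite S
  have halt := alt_le_of_has3 hprim h3
  have hmt : IsMultiplyPretransitive G S (Nat.card S - 2) := by
    refine ⟨fun x y => ?_⟩
    obtain ⟨σ, hσ⟩ := (alternatingGroup.isMultiplyPretransitive S).exists_smul_eq x y
    obtain ⟨g, hg⟩ := halt σ.2
    refine ⟨g, ?_⟩
    ext i
    have h1 := DFunLike.congr_fun hσ i
    rw [← h1]
    show g • x i = (σ : Equiv.Perm S) (x i)
    rw [← hg]
    rfl
  have hm : IsMultiplyPretransitive G S Γ'.ncard :=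
    isMultiplyPretransitive_of_le (n := Nat.card S - 2) (by omega) (by omega)
  have hcardS := Set.ncard_add_ncard_compl Γ'
  obtain ⟨p, q, hp, hq, hpq⟩ := (Set.one_lt_ncard_iff (Set.toFinite _)).mp
    (show 1 < Γ'.ncard by omega)
  obtain ⟨D, hDsub, hDcard⟩ := Set.exists_subset_card_eq (s := Γ'ᶜ) (n := Γ'.ncard - 1)
    (by omega)
  have hpD : p ∉ D := fun h => hDsub h hp
  have hTcard : (insert p D).ncard = Γ'.ncard := by
    rw [Set.ncard_insert_of_notMem hpD (Set.toFinite _), hDcard]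
    omega
  obtain ⟨g, hg⟩ := exists_smul_set_eq hm Γ' (insert p D) rfl hTcard
  have hI : ∀ s, s ∈ Γ' → s ∈ g • Γ' → s = p := by
    intro s hs hs'
    rw [hg] at hs'
    rcases Set.mem_insert_iff.mp hs' with h | h
    · exact h
    · exact absurd hs (hDsub h)
  have hpg : p ∈ g • Γ' := by rw [hg]; exact Set.mem_insert _ _
  have hgΔiff : ∀ z, z ∈ g • Δ ↔ π z ∉ g • Γ' := by
    intro z
    rw [Set.mem_smul_set_iff_inv_smul_mem, Set.mem_smul_set_iff_inv_smul_mem, hΔiff, hπ]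
  obtain ⟨x, x', hxx', hx, hx'⟩ := hfib p
  obtain ⟨y, hy⟩ := hsurj q
  have hxΔ : x ∉ Δ := fun h => (hΔiff x).mp h (by rw [hx]; exact hp)
  have hyΔ : y ∉ Δ := fun h => (hΔiff y).mp h (by rw [hy]; exact hq)
  obtain ⟨h₁, hh₁, hh₁x⟩ := hjc x hxΔ y hyΔ
  have hxg : x ∉ g • Δ := fun h => (hgΔiff x).mp h (by rw [hx]; exact hpg)
  have hx'g : x' ∉ g • Δ := fun h => (hgΔiff x').mp h (by rw [hx']; exact hpg)
  obtain ⟨h₂, hh₂, hh₂x⟩ := (hjc.smul g) x hxg x' hx'g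
  have hA1 : ∀ s, s ∉ Γ' → h₁ • s = s := by
    intro s hs
    obtain ⟨z, rfl⟩ := hsurj s
    rw [← hπ, hh₁ z ((hΔiff z).mpr hs)]
  have hA2 : ∀ s, s ∈ Γ' → h₁ • s ∈ Γ' := by
    intro s hs
    by_contra hn
    have h1 := hA1 _ hn
    have h2 : h₁ • s = s := smul_left_cancel h₁ h1
    rw [h2] at hn
    exact hn hs
  have hB1 : ∀ s, s ∉ g • Γ' → h₂ • s = s := by
    intro s hs
    obtain ⟨z, rfl⟩ := hsurj s
    rw [← hπ, hh₂ z ((hgΔiff z).mpr hs)]
  have hB2 : h₂ • p = p := by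
    have h1 : h₂ • π x = π x' := by rw [← hπ, hh₂x]
    rw [hx, hx'] at h1
    exact h1
  have hB3 : ∀ s, s ∈ Γ' → h₂ • s = s := by
    intro s hs
    by_cases hsg : s ∈ g • Γ'
    · rw [hI s hs hsg]
      exact hB2
    · exact hB1 s hsg
  have hB4 : ∀ s, s ∉ Γ' → h₂ • s ∉ Γ' := by
    intro s hs hn
    have h1 := hB3 _ hn
    have h2 : h₂ • s = s := smul_left_cancel h₂ h1
    rw [h2] at hn
    exact hs hn
  have hcomm : h₁ * h₂ = h₂ * h₁ := by
    have h1 : (h₂ * h₁)⁻¹ * (h₁ * h₂) = 1 := by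
      apply hfaith
      intro s
      rw [mul_smul, inv_smul_eq_iff, mul_smul, mul_smul]
      by_cases hs : s ∈ Γ'
      · rw [hB3 s hs, hB3 _ (hA2 s hs)]
      · rw [hA1 s hs, hA1 _ (hB4 s hs)]
    exact (inv_mul_eq_one.mp h1).symm
  have hyg : y ∈ g • Δ := by
    rw [hgΔiff, hy]
    intro h
    exact hpq (hI q hq h).symm
  have e1 : (h₁ * h₂) • x = h₁ • x' := by rw [mul_smul, hh₂x]
  have e2 : (h₂ * h₁) • x = h₁ • x := by rw [mul_smul, hh₁x, hh₂ y hyg]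
  rw [hcomm, e2] at e1
  exact hxx' (smul_left_cancel h₁ e1)

/-- a quasiprimitive group with a Jordan set as in Marggraf's theorem is primitive -/
theorem isPreprimitive_of_quasi {G : Type v} {Ω : Type u} [Group G] [Finite G] [MulAction G Ω]
    [Finite Ω] (hqp : ∀ N : Subgroup G, N.Normal → N ≠ ⊥ → IsPretransitive ↥N Ω)
    (Δ : Set Ω) (hjc : JC G Δ) (hm2 : 2 ≤ Δᶜ.ncard) (hmn : 2 * Δᶜ.ncard < Nat.card Ω) :
    IsPreprimitive G Ω := by
  obtain ⟨γ₁, γ₂, hγ₁, hγ₂, hγ⟩ := (Set.one_lt_ncard_iff (Set.toFinite _)).mp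
    (show 1 < Δᶜ.ncard by omega)
  obtain ⟨h₀, hh₀, hh₀γ⟩ := hjc γ₁ hγ₁ γ₂ hγ₂
  have hh₀1 : h₀ ≠ 1 := by
    rintro rfl
    rw [one_smul] at hh₀γ
    exact hγ hh₀γ
  have htop : (⊤ : Subgroup G) ≠ ⊥ := by
    intro h
    have h1 : h₀ ∈ (⊥ : Subgroup G) := by rw [← h]; exact Subgroup.mem_top _
    exact hh₀1 (Subgroup.mem_bot.mp h1)
  have htr : IsPretransitive G Ω := by
    have h1 := hqp ⊤ inferInstance htop
    refine ⟨fun x y => ?_⟩
    obtain ⟨g, hg⟩ := exists_smul_eq (⊤ : Subgroup G) x y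
    exact ⟨g.1, hg⟩
  have hnt : Nontrivial Ω := ⟨⟨γ₁, γ₂, hγ⟩⟩
  rw [← isCoatom_stabilizer_iff_preprimitive G γ₁]
  by_contra hnc
  have hstop : stabilizer G γ₁ ≠ ⊤ := by
    intro h
    obtain ⟨g, hg⟩ := exists_smul_eq G γ₁ γ₂
    have h1 : g ∈ stabilizer G γ₁ := by rw [h]; exact Subgroup.mem_top _
    rw [mem_stabilizer_iff] at h1
    exact hγ (h1.symm.trans hg)
  obtain ⟨M, hM, hle⟩ := (eq_top_or_exists_le_coatom (stabilizer G γ₁)).resolve_left hstop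
  have hlt : stabilizer G γ₁ < M := lt_of_le_of_ne hle (fun h => hnc (h ▸ hM))
  obtain ⟨m, hmM, hmst⟩ := SetLike.exists_of_lt hlt
  have hex : ∀ x : Ω, ∃ a : G, a • γ₁ = x := fun x => exists_smul_eq G γ₁ x
  choose rep hrep using hex
  let π : Ω → G ⧸ M := fun x => (rep x : G ⧸ M)
  have hπ0 : ∀ g : G, π (g • γ₁) = (g : G ⧸ M) := by
    intro g
    show ((rep (g • γ₁) : G) : G ⧸ M) = (g : G ⧸ M)
    rw [QuotientGroup.eq]
    apply hle
    rw [mem_stabilizer_iff, mul_smul, inv_smul_eq_iff, hrep]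
  have hπ : ∀ (g : G) (x : Ω), π (g • x) = g • π x := by
    intro g x
    obtain ⟨a, rfl⟩ := exists_smul_eq G γ₁ x
    rw [← mul_smul, hπ0, hπ0]
    rfl
  have hsurj : Function.Surjective π := by
    intro s
    obtain ⟨g, rfl⟩ := QuotientGroup.mk_surjective s
    exact ⟨g • γ₁, hπ0 g⟩
  have hMtop : ∃ g : G, g ∉ M := by
    by_contra hn
    push Not at hn
    exact hM.1 (eq_top_iff.mpr (fun g _ => hn g))
  obtain ⟨g₁, hg₁⟩ := hMtop
  have hπ1 : π γ₁ = ((1 : G) : G ⧸ M) := by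
    have h1 := hπ0 1
    rwa [one_smul] at h1
  have hne : π (g₁ • γ₁) ≠ π γ₁ := by
    rw [hπ0, hπ1]
    intro h
    rw [QuotientGroup.eq] at h
    apply hg₁
    have h1 := M.inv_mem h
    simpa using h1
  have hfaith : ∀ g : G, (∀ s : G ⧸ M, g • s = s) → g = 1 := by
    intro g hg
    by_contra hg1
    have hN : (MulAction.toPermHom G (G ⧸ M)).ker ≠ ⊥ := by
      intro h
      have h1 : g ∈ (MulAction.toPermHom G (G ⧸ M)).ker := by
        rw [MonoidHom.mem_ker]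
        ext s
        exact hg s
      rw [h] at h1
      exact hg1 (Subgroup.mem_bot.mp h1)
    have h2 := hqp _ (MonoidHom.normal_ker _) hN
    obtain ⟨k, hk⟩ := exists_smul_eq (MulAction.toPermHom G (G ⧸ M)).ker γ₁ (g₁ • γ₁)
    apply hne
    rw [← hk]
    have hk' : ∀ s : G ⧸ M, (k : G) • s = s := by
      intro s
      have h3 := k.2
      rw [MonoidHom.mem_ker] at h3
      exact congrArg (fun σ : Equiv.Perm (G ⧸ M) => σ s) h3
    show π ((k : G) • γ₁) = π γ₁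
    rw [hπ, hk']
  have hfib : ∀ s : G ⧸ M, ∃ x x' : Ω, x ≠ x' ∧ π x = s ∧ π x' = s := by
    intro s
    obtain ⟨g, rfl⟩ := QuotientGroup.mk_surjective s
    refine ⟨g • γ₁, (g * m) • γ₁, ?_, hπ0 g, ?_⟩
    · intro h
      rw [mul_smul] at h
      have h1 := smul_left_cancel g h
      exact hmst (mem_stabilizer_iff.mpr h1.symm)
    · rw [hπ0, QuotientGroup.eq]
      simpa using hmM
  have hprim : IsPreprimitive G (G ⧸ M) := by
    have hnt' : Nontrivial (G ⧸ M) := ⟨⟨_, _, hne⟩⟩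
    rw [← isCoatom_stabilizer_iff_preprimitive G ((1 : G) : G ⧸ M), stabilizer_quotient]
    exact hM
  exact false_of_fibration π hπ hsurj hfaith hfib hprim Δ hjc hm2 hmn

end Cfsg.Agent.Lib.Helper99.Marg
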