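import Mathlib
import Cfsg.Agent.Lib.Helper99.SylAct
import Cfsg.Agent.Lib.Helper99.N17a

set_option autoImplicit false
set_option linter.style.haveILetI false
set_option linter.unusedSectionVars false
set_option linter.unusedVariables false

namespace Cfsg.Agent.Lib.Helper99.N17
open Subgroup MulAction Cfsg.Agent.Lib.Helper99.SylAct

universe u

variable {G : Type u} [Group G] [Finite G]

lemma card_inf_mul (h35 : Nat.card (Sylow 17 G) = 35) (P Q : Sylow 17 G) (hPQ : P ≠ Q) :
    Nat.card ((P : Subgroup G) ⊓ Q : Subgroup G) * 17 = Nat.card P := by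
  have h1 := Subgroup.card_mul_index (((P : Subgroup G) ⊓ Q).subgroupOf P)
  have h2 : (((P : Subgroup G) ⊓ Q).subgroupOf P).index = 17 := relIndex_inf h35 P Q hPQ
  rw [h2, Nat.card_congr (Subgroup.subgroupOfEquivOfLe (inf_le_left : (P : Subgroup G) ⊓ Q ≤ P)).toEquiv] at h1
  exact h1

lemma exists_ne (h35 : Nat.card (Sylow 17 G) = 35) (P : Sylow 17 G) : ∃ Q : Sylow 17 G, Q ≠ P := by
  haveI : Finite (Sylow 17 G) := Nat.finite_of_card_ne_zero (by rw [h35]; norm_num)
  by_contra hcon
  push Not at hcon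
  haveI : Subsingleton (Sylow 17 G) := ⟨fun a b => (hcon a).trans (hcon b).symm⟩
  have := Finite.card_le_one_iff_subsingleton.mpr this
  omega

/-- the number of Sylow 17-subgroups containing a nontrivial intersection is 8 -/
lemma card_fix (h35 : Nat.card (Sylow 17 G) = 35) (hker : ker17 G = ⊥) (E : Subgroup G)
    (hE : IsPGroup 17 E) (hE1 : E ≠ ⊥) (P Q : Sylow 17 G) (hPQ : P ≠ Q) (hEP : E ≤ P) (hEQ : E ≤ Q) :
    Nat.card {R : Sylow 17 G // E ≤ R} = 18 := by
  haveI : Finite (Sylow 17 G) := Nat.finite_of_card_ne_zero (by rw [h35]; norm_num)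
  have h1 := hE.card_modEq_card_fixedPoints (Sylow 17 G)
  have h2 : Nat.card (fixedPoints E (Sylow 17 G)) = Nat.card {R : Sylow 17 G // E ≤ R} := by
    apply Nat.card_congr
    apply Equiv.subtypeEquivRight
    intro R
    exact hE.sylow_mem_fixedPoints_iff
  rw [h2, h35] at h1
  -- at least 2
  have hge : 2 ≤ Nat.card {R : Sylow 17 G // E ≤ R} := by
    have : Nontrivial {R : Sylow 17 G // E ≤ R} :=
      ⟨⟨⟨P, hEP⟩, ⟨Q, hEQ⟩, fun h => hPQ (congrArg Subtype.val h)⟩⟩
    exact Finite.one_lt_card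
  -- not everything
  have hlt : Nat.card {R : Sylow 17 G // E ≤ R} < 35 := by
    have hle : Nat.card {R : Sylow 17 G // E ≤ R} ≤ 35 := by
      rw [← h35]; exact Finite.card_subtype_le _
    rcases Nat.lt_or_ge (Nat.card {R : Sylow 17 G // E ≤ R}) 35 with h | h
    · exact h
    · exfalso
      have heq : Nat.card {R : Sylow 17 G // E ≤ R} = Nat.card (Sylow 17 G) := by omega
      have hall : ∀ R : Sylow 17 G, E ≤ R := by
        intro R
        by_contra hR
        have := Finite.card_subtype_lt (p := fun R : Sylow 17 G => E ≤ R) hR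
        omega
      apply hE1
      rw [eq_bot_iff, ← hker]
      intro g hg
      rw [mem_ker17]
      intro R
      exact le_normalizer (hall R hg)
  have h3 : Nat.card {R : Sylow 17 G // E ≤ R} % 17 = 1 := by
    have := h1.symm
    unfold Nat.ModEq at this
    omega
  omega

lemma caseA (h35 : Nat.card (Sylow 17 G) = 35) (hker : ker17 G = ⊥)
    (hcard : ∃ P : Sylow 17 G, Nat.card P ≠ 17) : False := by
  classical
  haveI : Finite (Sylow 17 G) := Nat.finite_of_card_ne_zero (by rw [h35]; norm_num)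
  letI : Fintype (Sylow 17 G) := Fintype.ofFinite _
  obtain ⟨P₀, hP₀⟩ := hcard
  -- common cardinality
  have hsame : ∀ P : Sylow 17 G, Nat.card P = Nat.card P₀ := by
    intro P
    rw [P.card_eq_multiplicity, P₀.card_eq_multiplicity]
  obtain ⟨Q₀, hQ₀⟩ := exists_ne h35 P₀
  have hc := card_inf_mul h35 P₀ Q₀ hQ₀.symm
  set c := Nat.card ((P₀ : Subgroup G) ⊓ Q₀ : Subgroup G) with hcdef
  have hc1 : 1 < c := by
    have hpos : 0 < c := Nat.card_pos
    rcases Nat.lt_or_ge 1 c with h | h
    · exact h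
    · exfalso
      have : c = 1 := by omega
      rw [this] at hc
      exact hP₀ hc.symm
  have hcard_inf : ∀ P Q : Sylow 17 G, P ≠ Q → Nat.card ((P : Subgroup G) ⊓ Q : Subgroup G) = c := by
    intro P Q hPQ
    have := card_inf_mul h35 P Q hPQ
    rw [hsame P] at this
    omega
  let f : Sylow 17 G × Sylow 17 G → Subgroup G := fun x => (x.1 : Subgroup G) ⊓ x.2
  let pairs : Finset (Sylow 17 G × Sylow 17 G) := (Finset.univ : Finset (Sylow 17 G)).offDiag
  have hpairs : pairs.card = 1190 := by
    rw [Finset.offDiag_card, Finset.card_univ, ← Nat.card_eq_fintype_card, h35]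
  have hfib := Finset.card_eq_sum_card_fiberwise (f := f) (s := pairs) (t := pairs.image f)
    (fun x hx => Finset.mem_image_of_mem f hx)
  have hterm : ∀ E ∈ pairs.image f, (pairs.filter fun a => f a = E).card = 306 := by
    intro E hE
    obtain ⟨⟨P, Q⟩, hPQ, rfl⟩ := Finset.mem_image.mp hE
    have hPQ' : P ≠ Q := by simpa [pairs] using hPQ
    have hEcard : Nat.card ((P : Subgroup G) ⊓ Q : Subgroup G) = c := hcard_inf P Q hPQ'
    have hE1 : (P : Subgroup G) ⊓ Q ≠ ⊥ := by
      intro h
      rw [h, Subgroup.card_bot] at hEcard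
      omega
    have h8 := card_fix h35 hker ((P : Subgroup G) ⊓ Q) (P.2.to_inf_left) hE1 P Q hPQ' inf_le_left
      inf_le_right
    have hset : (pairs.filter fun a => f a = f (P, Q)) =
        ((Finset.univ : Finset (Sylow 17 G)).filter fun R : Sylow 17 G => (P : Subgroup G) ⊓ Q ≤ (R : Subgroup G)).offDiag := by
      ext ⟨R₁, R₂⟩
      simp only [Finset.mem_filter, Finset.mem_offDiag, Finset.mem_univ, true_and, pairs, f]
      constructor
      · rintro ⟨hne, heq⟩
        exact ⟨heq ▸ inf_le_left, heq ▸ inf_le_right, hne⟩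
      · rintro ⟨h1, h2, hne⟩
        refine ⟨hne, ?_⟩
        symm
        apply Subgroup.eq_of_le_of_card_ge (le_inf h1 h2)
        rw [hEcard, hcard_inf R₁ R₂ hne]
    rw [hset, Finset.offDiag_card]
    have h8' : ((Finset.univ : Finset (Sylow 17 G)).filter fun R : Sylow 17 G => (P : Subgroup G) ⊓ Q ≤ (R : Subgroup G)).card = 18 := by
      rw [← h8, Nat.card_eq_fintype_card, Fintype.card_subtype]
    rw [h8']
  rw [Finset.sum_congr rfl hterm, Finset.sum_const, hpairs] at hfib
  simp only [smul_eq_mul] at hfib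
  omega

end Cfsg.Agent.Lib.Helper99.N17
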