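import Mathlib
import Cfsg.Agent.Lib.Helper99.SylAct
import Cfsg.Agent.Lib.Helper99.N17b

set_option autoImplicit false
set_option linter.style.haveILetI false
set_option linter.unusedSectionVars false
set_option linter.unusedVariables false

namespace Cfsg.Agent.Lib.Helper99.N17
open Subgroup MulAction Cfsg.Agent.Lib.Helper99.SylAct

universe u

variable {G : Type u} [Group G] [Finite G]

/-- Case B: trivial intersections -/
lemma inf_eq_bot (h35 : Nat.card (Sylow 17 G) = 35) (h17 : ∀ P : Sylow 17 G, Nat.card P = 17)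
    (P Q : Sylow 17 G) (hPQ : P ≠ Q) : (P : Subgroup G) ⊓ Q = ⊥ := by
  have h := card_inf_mul h35 P Q hPQ
  rw [h17 P] at h
  exact Subgroup.eq_bot_of_card_eq _ (by omega)

/-- a subgroup of the normalizer of `P` does not move `P` into another orbit -/
lemma not_mem_orbit (H : Subgroup G) (P Q : Sylow 17 G) (hH : H ≤ normalizer (P : Set G))
    (hPQ : P ≠ Q) : P ∉ orbit H Q := by
  rintro ⟨x, hx⟩
  apply hPQ
  have h1 : (x⁻¹ : H) • P = P := by
    rw [Subgroup.smul_def, Sylow.smul_eq_iff_mem_normalizer]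
    exact hH (x⁻¹).2
  have hx' : x • Q = P := hx
  calc P = (x⁻¹ : H) • P := h1.symm
    _ = (x⁻¹ : H) • (x • Q) := by rw [hx']
    _ = Q := inv_smul_smul x Q

/-- the orbit partition -/
lemma orbit_partition (h35 : Nat.card (Sylow 17 G) = 35) (P Q Q' : Sylow 17 G) (hQ : P ≠ Q)
    (hQ' : P ≠ Q') (hQQ' : Q' ∉ orbit (P : Subgroup G) Q) (R : Sylow 17 G) :
    R = P ∨ R ∈ orbit (P : Subgroup G) Q ∨ R ∈ orbit (P : Subgroup G) Q' := by
  haveI : Finite (Sylow 17 G) := Nat.finite_of_card_ne_zero (by rw [h35]; norm_num)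
  have hA := orbit_card h35 P Q hQ
  have hB := orbit_card h35 P Q' hQ'
  have hPA := not_mem_orbit (P : Subgroup G) P Q le_normalizer hQ
  have hPB := not_mem_orbit (P : Subgroup G) P Q' le_normalizer hQ'
  have hdisj : Disjoint (orbit (P : Subgroup G) Q) (orbit (P : Subgroup G) Q') := by
    rw [Set.disjoint_left]
    intro S hSA hSB
    apply hQQ'
    rw [← MulAction.orbit_eq_iff] at hSA hSB
    rw [← hSA, hSB]
    exact MulAction.mem_orbit_self Q'
  have hdisj2 : Disjoint ({P} : Set (Sylow 17 G)) (orbit (P : Subgroup G) Q ∪ orbit (P : Subgroup G) Q') := by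
    rw [Set.disjoint_singleton_left]
    rintro (h | h)
    · exact hPA h
    · exact hPB h
  have hcard : (({P} : Set (Sylow 17 G)) ∪ (orbit (P : Subgroup G) Q ∪ orbit (P : Subgroup G) Q')).ncard = 35 := by
    rw [Set.ncard_union_eq hdisj2, Set.ncard_union_eq hdisj, Set.ncard_singleton, hA, hB]
  have huniv := (Set.eq_univ_iff_ncard _).mpr (hcard.trans h35.symm)
  have hR : R ∈ (({P} : Set (Sylow 17 G)) ∪ (orbit (P : Subgroup G) Q ∪ orbit (P : Subgroup G) Q')) := by
    rw [huniv]; trivial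
  rcases hR with h | h | h
  · exact Or.inl h
  · exact Or.inr (Or.inl h)
  · exact Or.inr (Or.inr h)

/-- there is a point outside `{P} ∪ orbit` -/
lemma exists_other (h35 : Nat.card (Sylow 17 G) = 35) (P Q : Sylow 17 G) (hQ : P ≠ Q) :
    ∃ Q' : Sylow 17 G, P ≠ Q' ∧ Q' ∉ orbit (P : Subgroup G) Q := by
  haveI : Finite (Sylow 17 G) := Nat.finite_of_card_ne_zero (by rw [h35]; norm_num)
  by_contra hcon
  push Not at hcon
  have hA := orbit_card h35 P Q hQ
  have hsub : (Set.univ : Set (Sylow 17 G)) ⊆ insert P (orbit (P : Subgroup G) Q) := by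
    intro R _
    by_cases hR : P = R
    · exact Or.inl hR.symm
    · exact Or.inr (hcon R hR)
  have h1 := Set.ncard_le_ncard hsub (Set.toFinite _)
  have h2 := Set.ncard_insert_le P (orbit (P : Subgroup G) Q)
  rw [Set.ncard_univ, h35] at h1
  omega

end Cfsg.Agent.Lib.Helper99.N17
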