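import Mathlib
import Cfsg.Agent.Lib.Helper99.SylAct
import Cfsg.Agent.Lib.Helper99.SylAct2

/-!
Cyclic Sylow 2-subgroups and groups without normal subgroups (helper99).
-/

set_option autoImplicit false
set_option linter.style.haveILetI false
set_option linter.unusedSectionVars false

namespace Cfsg.Agent.Lib.Helper99.SylAct

open Subgroup MulAction

universe u

variable {G : Type u} [Group G] [Finite G]

/-- a subgroup normalizing a subgroup `H` of prime order and meeting `C(H)` trivially is cyclic -/
theorem isCyclic_of_normalizes_prime (H K : Subgroup G) {q : ℕ} [Fact q.Prime]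
    (hH : Nat.card H = q) (hK : K ≤ normalizer (H : Set G))
    (hKC : K ⊓ centralizer (H : Set G) = ⊥) : IsCyclic K := by
  haveI : IsCyclic H := isCyclic_of_prime_card hH
  haveI : Fact (Nat.card H).Prime := by rw [hH]; infer_instance
  haveI : IsCyclic (MulAut H) :=
    (MulEquiv.isCyclic (IsCyclic.mulAutMulEquiv H)).mpr inferInstance
  let φ : K →* MulAut H := H.normalizerMonoidHom.comp (Subgroup.inclusion hK)
  have hφ : Function.Injective φ := by
    rw [← MonoidHom.ker_eq_bot_iff, eq_bot_iff]
    intro x hx
    have h1 : Subgroup.inclusion hK x ∈ H.normalizerMonoidHom.ker := hx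
    rw [normalizerMonoidHom_ker, mem_subgroupOf] at h1
    have h2 : (x : G) ∈ K ⊓ centralizer (H : Set G) := ⟨x.2, h1⟩
    rw [hKC, mem_bot] at h2
    rw [mem_bot]
    exact Subtype.ext h2
  exact isCyclic_of_injective φ hφ

/-- a group without proper nontrivial normal subgroups has no cyclic Sylow 2-subgroup
(unless it is that subgroup) -/
theorem cyclic_sylow_two_contra (hsimple : ∀ M : Subgroup G, M.Normal → M = ⊥ ∨ M = ⊤)
    (K : Subgroup G) (hK : IsCyclic K) (k : ℕ) (hk : 0 < k) (hcard : Nat.card K = 2 ^ k)
    (hG : ¬ 2 ^ (k + 1) ∣ Nat.card G) (hne : Nat.card G ≠ 2 ^ k) : False := by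
  haveI : Fact (Nat.Prime 2) := ⟨Nat.prime_two⟩
  have hne0 : Nat.card G ≠ 0 := Nat.card_pos.ne'
  have hdvd : 2 ^ k ∣ Nat.card G := hcard ▸ Subgroup.card_subgroup_dvd_card K
  have hfac : (Nat.card G).factorization 2 = k := by
    have h1 := (Nat.prime_two.pow_dvd_iff_le_factorization hne0).mp hdvd
    have h2 := (Nat.prime_two.pow_dvd_iff_le_factorization (k := k + 1) hne0).not.mp hG
    omega
  let S : Sylow 2 G := Sylow.ofCard K (by rw [hcard, hfac])
  have hScoe : (S : Subgroup G) = K := Sylow.coe_ofCard K _
  have hScyc : IsCyclic (S : Subgroup G) := by rw [hScoe]; exact hK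
  have hmin : (Nat.card G).minFac = 2 := by
    rw [Nat.minFac_eq_two_iff]
    exact dvd_trans (dvd_pow_self 2 hk.ne') hdvd
  have hNC : normalizer (S : Set G) ≤ centralizer (S : Set G) :=
    hScyc.normalizer_le_centralizer hmin
  have hScard : Nat.card (S : Subgroup G) = 2 ^ k := by rw [hScoe, hcard]
  rcases burnside_of_simple hsimple S hNC with h | h
  · have : Nat.card (S : Subgroup G) = 1 := by rw [h, Subgroup.card_bot]
    rw [hScard] at this
    have h2 : 2 ≤ 2 ^ k := Nat.le_self_pow hk.ne' 2
    omega
  · have : Nat.card (S : Subgroup G) = Nat.card G := by rw [h, Subgroup.card_top]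
    rw [hScard] at this
    exact hne this.symm

end Cfsg.Agent.Lib.Helper99.SylAct
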