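import Mathlib
import Cfsg.Agent.Lib.Helper99.SylAct
import Cfsg.Agent.Lib.Helper99.SylAct2
import Cfsg.Agent.Lib.Helper99.SylAct3
import Cfsg.Agent.Lib.Helper99.N17e

set_option autoImplicit false
set_option linter.style.haveILetI false
set_option linter.unusedSectionVars false
set_option linter.unusedVariables false

namespace Cfsg.Agent.Lib.Helper99.N17
open Subgroup MulAction Cfsg.Agent.Lib.Helper99.SylAct

universe u

variable {G : Type u} [Group G] [Finite G]

/-- a Sylow subgroup that is neither trivial nor everything -/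
lemma sylow_ne {p : ℕ} (S : Sylow p G) (h1 : Nat.card S ≠ 1) (h2 : Nat.card S ≠ Nat.card G) :
    ¬ ((S : Subgroup G) = ⊥ ∨ (S : Subgroup G) = ⊤) := by
  rintro (h | h)
  · apply h1
    have : Nat.card (S : Subgroup G) = Nat.card (⊥ : Subgroup G) := by rw [h]
    rw [this, Subgroup.card_bot]
  · apply h2
    have : Nat.card (S : Subgroup G) = Nat.card (⊤ : Subgroup G) := by rw [h]
    rw [this, Subgroup.card_top]

/-- the case `|C(P)| = 34`: an involution centralizing `P` is an odd permutation -/
lemma case_c2 (h35 : Nat.card (Sylow 17 G) = 35) (hker : ker17 G = ⊥)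
    (h17 : ∀ P : Sylow 17 G, Nat.card P = 17)
    (hsimple : ∀ M : Subgroup G, M.Normal → M = ⊥ ∨ M = ⊤) (P : Sylow 17 G)
    (hc : Nat.card (centralizer (P : Set G)) = 34) : False := by
  classical
  haveI : Finite (Sylow 17 G) := Nat.finite_of_card_ne_zero (by rw [h35]; norm_num)
  letI : Fintype (Sylow 17 G) := Fintype.ofFinite _
  haveI : Fact (Nat.Prime 2) := ⟨Nat.prime_two⟩
  obtain ⟨t, ht⟩ := exists_prime_orderOf_dvd_card' (G := centralizer (P : Set G)) 2
    (by rw [hc]; norm_num)
  have ht' : orderOf (t : G) = 2 := by rw [Subgroup.orderOf_coe, ht]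
  let sgn : G →* ℤˣ := (Equiv.Perm.sign).comp (MulAction.toPermHom G (Sylow 17 G))
  rcases hsimple sgn.ker (MonoidHom.normal_ker sgn) with h | h
  · have hinj : Function.Injective sgn := (MonoidHom.ker_eq_bot_iff sgn).mp h
    have hle : Nat.card G ≤ Nat.card ℤˣ := Nat.card_le_card_of_injective sgn hinj
    have h2 : Nat.card ℤˣ = 2 := by
      rw [Nat.card_eq_fintype_card]; rfl
    obtain ⟨d, hd, hG⟩ := card_cases h35 hker h17
    have hdpos : 0 < d := Nat.pos_of_dvd_of_pos hd (by norm_num)
    omega
  · have h1 : sgn (t : G) = 1 := by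
      have : (t : G) ∈ sgn.ker := by rw [h]; trivial
      exact this
    set σ : Equiv.Perm (Sylow 17 G) := MulAction.toPermHom G (Sylow 17 G) (t : G) with hσ
    have hsign : Equiv.Perm.sign σ = 1 := h1
    have hσ2 : σ ^ 2 = 1 := by rw [hσ, ← map_pow, ← ht', pow_orderOf_eq_one, map_one]
    have hfix : ∀ R : Sylow 17 G, σ R = R ↔ R = P := by
      intro R
      show (t : G) • R = R ↔ R = P
      rw [Sylow.smul_eq_iff_mem_normalizer]
      constructor
      · intro hR
        by_contra hne
        have hmem : (t : G) ∈ centralizer (P : Set G) ⊓ normalizer (R : Set G) := ⟨t.2, hR⟩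
        rw [centralizer_inf_normalizer h35 hker h17 P R (Ne.symm hne), mem_bot] at hmem
        rw [hmem, orderOf_one] at ht'
        omega
      · rintro rfl
        exact centralizer_le_normalizer _ t.2
    have hsupp : σ.support = Finset.univ.erase P := by
      ext R
      simp [Equiv.Perm.mem_support, hfix]
    have hsuppcard : σ.support.card = 34 := by
      rw [hsupp, Finset.card_erase_of_mem (Finset.mem_univ _), Finset.card_univ,
        ← Nat.card_eq_fintype_card, h35]
    have hσne : σ ≠ 1 := by
      intro h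
      rw [h] at hsuppcard
      simp at hsuppcard
    have hord : orderOf σ = 2 := orderOf_eq_prime hσ2 hσne
    obtain ⟨n, hn⟩ := Equiv.Perm.cycleType_prime_order (σ := σ) (by rw [hord]; exact Nat.prime_two)
    rw [hord] at hn
    have hsum := Equiv.Perm.sum_cycleType σ
    rw [hn, hsuppcard] at hsum
    simp only [Multiset.sum_replicate, smul_eq_mul] at hsum
    have hn6 : n = 16 := by omega
    rw [Equiv.Perm.sign_of_cycleType, hn, hn6] at hsign
    simp only [Multiset.sum_replicate, Multiset.card_replicate, smul_eq_mul] at hsign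
    revert hsign
    decide

/-- the case `|C(P)| = 17` -/
lemma case_c1 (h35 : Nat.card (Sylow 17 G) = 35) (hker : ker17 G = ⊥)
    (h17 : ∀ P : Sylow 17 G, Nat.card P = 17)
    (hsimple : ∀ M : Subgroup G, M.Normal → M = ⊥ ∨ M = ⊤) (P : Sylow 17 G)
    (hc : Nat.card (centralizer (P : Set G)) = 17) : False := by
  haveI : Fact (Nat.Prime 2) := ⟨Nat.prime_two⟩
  have hd := relIndex_dvd_sixteen h17 P
  have hcard := card_eq h35 P
  rw [hc] at hcard
  have hd' : (centralizer (P : Set G)).relIndex (normalizer (P : Set G)) ∣ 2 ^ 4 := by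
    norm_num
    exact hd
  obtain ⟨k, hk4, hk⟩ := (Nat.dvd_prime_pow Nat.prime_two (m := 4)).mp hd'
  rw [hk] at hcard
  rcases Nat.eq_zero_or_pos k with hk0 | hkpos
  · -- N(P) = C(P): Burnside
    rw [hk0, pow_zero] at hk
    have hG : Nat.card G = 595 := by rw [hcard, hk0]; norm_num
    rw [Subgroup.relIndex_eq_one] at hk
    refine sylow_ne P ?_ ?_ (burnside_of_simple hsimple P hk)
    · rw [h17 P]; norm_num
    · rw [h17 P, hG]; norm_num
  · -- a Sylow 2-subgroup of N(P) is cyclic and Sylow in G
    have hN : Nat.card (normalizer (P : Set G)) = 17 * 2 ^ k := by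
      have h3 := Subgroup.relIndex_mul_index (centralizer_le_normalizer (P : Set G))
      have h4 := Subgroup.card_mul_index (centralizer (P : Set G))
      have h2 := Subgroup.card_mul_index (normalizer (P : Set G))
      rw [hk] at h3
      rw [hc] at h4
      have hpos : 0 < (normalizer (P : Set G)).index := by
        rw [← Sylow.card_eq_index_normalizer, h35]; norm_num
      have : Nat.card (normalizer (P : Set G)) * (normalizer (P : Set G)).index =
          17 * 2 ^ k * (normalizer (P : Set G)).index := by
        rw [h2, mul_assoc, h3, h4]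
      exact Nat.eq_of_mul_eq_mul_right hpos this
    obtain ⟨S₀⟩ : Nonempty (Sylow 2 (normalizer (P : Set G))) := inferInstance
    have hnd : ¬ 2 ^ (k + 1) ∣ 17 * 2 ^ k := by
      rw [pow_succ, mul_comm 17]
      intro h
      have := (Nat.mul_dvd_mul_iff_left (pow_pos (by norm_num : 0 < 2) k)).mp h
      omega
    have hS₀ : Nat.card S₀ = 2 ^ k :=
      card_sylow_eq_pow S₀ k (by rw [hN]; exact Dvd.intro_left _ rfl) (by rw [hN]; exact hnd)
    let K : Subgroup G := (S₀ : Subgroup (normalizer (P : Set G))).map (Subgroup.subtype _)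
    have hKcard : Nat.card K = 2 ^ k := by
      rw [← hS₀]
      exact Subgroup.card_map_of_injective (Subgroup.subtype_injective _)
    have hKN : K ≤ normalizer (P : Set G) := by
      rintro _ ⟨x, _, rfl⟩
      exact x.2
    have hKC : K ⊓ centralizer (P : Set G) = ⊥ := by
      apply Subgroup.eq_bot_of_card_eq
      have h1 := Subgroup.card_dvd_of_le (inf_le_left : K ⊓ centralizer (P : Set G) ≤ K)
      have h2 := Subgroup.card_dvd_of_le
        (inf_le_right : K ⊓ centralizer (P : Set G) ≤ centralizer (P : Set G))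
      rw [hKcard] at h1
      rw [hc] at h2
      have hcop : Nat.Coprime (2 ^ k) 17 := Nat.Coprime.pow_left k (by norm_num)
      exact Nat.eq_one_of_dvd_coprimes hcop h1 h2
    have hKcyc : IsCyclic K :=
      isCyclic_of_normalizes_prime (P : Subgroup G) K (h17 P) hKN hKC
    refine cyclic_sylow_two_contra hsimple K hKcyc k hkpos hKcard ?_ ?_
    · rw [hcard]
      intro h
      have h2 : 2 ^ (k + 1) ∣ 35 * 17 * 2 ^ k := by
        rw [mul_assoc]; exact h
      rw [pow_succ, mul_comm (35 * 17)] at h2
      have := (Nat.mul_dvd_mul_iff_left (pow_pos (by norm_num : 0 < 2) k)).mp h2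
      omega
    · rw [hcard]
      have : 0 < 2 ^ k := pow_pos (by norm_num) k
      intro h
      nlinarith

/-- a minimal counterexample does not exist -/
theorem contradiction (h35 : Nat.card (Sylow 17 G) = 35) (hmin : MinHyp G) : False := by
  haveI : Finite (Sylow 17 G) := Nat.finite_of_card_ne_zero (by rw [h35]; norm_num)
  have hker := ker17_eq_bot h35 hmin
  have h17 : ∀ P : Sylow 17 G, Nat.card P = 17 := by
    intro P
    by_contra h
    exact caseA h35 hker ⟨P, h⟩
  have hsimple := normal_eq_bot_or_top h35 hmin hker h17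
  obtain ⟨P⟩ : Nonempty (Sylow 17 G) := inferInstance
  rcases card_centralizer h35 hker h17 P with hc | hc
  · exact case_c1 h35 hker h17 hsimple P hc
  · exact case_c2 h35 hker h17 hsimple P hc

/-- no finite group has exactly 35 Sylow 17-subgroups -/
theorem card_sylow17_ne_35 (n : ℕ) :
    ∀ (G : Type u) [Group G] [Finite G], Nat.card G = n → Nat.card (Sylow 17 G) ≠ 35 := by
  induction n using Nat.strong_induction_on with
  | _ n ih =>
    intro G _ _ hn h35
    exact contradiction h35 (fun H _ _ hlt => ih (Nat.card H) (hn ▸ hlt) H rfl)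

end Cfsg.Agent.Lib.Helper99.N17
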