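import Mathlib
import Cfsg.Agent.S4303

/-!
Reduction for `n_3 = 22` (helper99): a finite group with exactly 22 Sylow 3-subgroups yields a
finite simple group (in the same universe) with exactly 22 Sylow 3-subgroups.
-/

set_option autoImplicit false
set_option linter.style.haveILetI false
set_option linter.unusedSectionVars false
set_option linter.unusedVariables false

namespace Cfsg.Agent.Lib.Helper99.N3e

universe u

lemma list_prod_eq_one (l : List ℕ) (h : ∀ m ∈ l, m = 1) : l.prod = 1 := by
  induction l with
  | nil => simp
  | cons a t ih =>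
    rw [List.prod_cons, h a (by simp), ih (fun m hm => h m (by simp [hm])), mul_one]

/-- a finite group with exactly 22 Sylow 3-subgroups yields a finite simple group with exactly
22 Sylow 3-subgroups -/
theorem exists_simple_22 {G : Type u} [Group G] [Finite G] (h22 : Nat.card (Sylow 3 G) = 22) :
    ∃ (S : Type u) (_ : Group S) (_ : Finite S), IsSimpleGroup S ∧
      Nat.card (Sylow 3 S) = 22 := by
  haveI : Fact (Nat.Prime 3) := ⟨by norm_num⟩
  obtain ⟨l, hprod, hl⟩ := Cfsg.Agent.S4303.result (G := G) 3
  rw [h22] at hprod
  by_contra hcon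
  have hall : ∀ m ∈ l, m = 1 := by
    intro m hm
    have hdvd : m ∣ 22 := by rw [← hprod]; exact List.dvd_prod hm
    have hle : m ≤ 22 := Nat.le_of_dvd (by norm_num) hdvd
    rcases hl m hm with ⟨hpp, hmod⟩ | ⟨S, hS1, hS2, hS3, hS4⟩
    · have h22' : m ≠ 22 := by
        rintro rfl
        have : ¬ IsPrimePow 22 := by
          rw [isPrimePow_nat_iff_bounded]
          decide
        exact this hpp
      interval_cases m <;> omega
    · have hmod : m % 3 = 1 := by
        rw [hS4]
        exact card_sylow_modEq_one 3 S
      have h22' : m ≠ 22 := by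
        rintro rfl
        exact hcon ⟨S, hS1, hS2, hS3, hS4.symm⟩
      interval_cases m <;> omega
  rw [list_prod_eq_one l hall] at hprod
  omega

end Cfsg.Agent.Lib.Helper99.N3e
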