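import Mathlib
import Cfsg.Agent.Lib.Helper99.SylAct
import Cfsg.Agent.Lib.Helper99.N5a

set_option autoImplicit false
set_option linter.style.haveILetI false
set_option linter.unusedSectionVars false
set_option linter.unusedVariables false

namespace Cfsg.Agent.Lib.Helper99.N5
open Subgroup MulAction Cfsg.Agent.Lib.Helper99.SylAct

universe u

variable {G : Type u} [Group G] [Finite G]

/-- membership in a conjugate Sylow subgroup -/
theorem mem_smul_sylow {p : ℕ} (S : Sylow p G) (x d : G) :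
    d ∈ ((x • S : Sylow p G) : Subgroup G) ↔ x⁻¹ * d * x ∈ (S : Subgroup G) := by
  rw [Sylow.coe_subgroup_smul, Subgroup.mem_pointwise_smul_iff_inv_smul_mem]
  simp [MulAut.smul_def]

/-- a subgroup of the normalizer of `P` does not move `P` into another orbit -/
lemma not_mem_orbit (H : Subgroup G) (P Q : Sylow 5 G) (hH : H ≤ normalizer (P : Set G))
    (hPQ : P ≠ Q) : P ∉ orbit H Q := by
  rintro ⟨x, hx⟩
  apply hPQ
  have h1 : (x⁻¹ : H) • P = P := by
    rw [Subgroup.smul_def, Sylow.smul_eq_iff_mem_normalizer]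
    exact hH (x⁻¹).2
  have hx' : x • Q = P := hx
  calc P = (x⁻¹ : H) • P := h1.symm
    _ = (x⁻¹ : H) • (x • Q) := by rw [hx']
    _ = Q := inv_smul_smul x Q

/-- the number of Sylow 5-subgroups containing a 5-subgroup is `1` mod `5` -/
lemma card_fix_mod (h21 : Nat.card (Sylow 5 G) = 21) (E : Subgroup G) (hE : IsPGroup 5 E) :
    Nat.card {R : Sylow 5 G // E ≤ R} % 5 = 1 := by
  haveI : Finite (Sylow 5 G) := Nat.finite_of_card_ne_zero (by rw [h21]; norm_num)
  have h1 := hE.card_modEq_card_fixedPoints (Sylow 5 G)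
  have h2 : Nat.card (fixedPoints E (Sylow 5 G)) = Nat.card {R : Sylow 5 G // E ≤ R} := by
    apply Nat.card_congr
    apply Equiv.subtypeEquivRight
    intro R
    exact hE.sylow_mem_fixedPoints_iff
  rw [h2, h21] at h1
  have := h1.symm
  unfold Nat.ModEq at this
  omega

/-- all Sylow 5-subgroups have order 5 -/
lemma card5 (h21 : Nat.card (Sylow 5 G) = 21) (hker : ker5 G = ⊥) (P₀ : Sylow 5 G) :
    Nat.card P₀ = 5 := by
  classical
  haveI : Finite (Sylow 5 G) := Nat.finite_of_card_ne_zero (by rw [h21]; norm_num)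
  letI : Fintype (Sylow 5 G) := Fintype.ofFinite _
  by_contra hP₀
  have hsame : ∀ P : Sylow 5 G, Nat.card P = Nat.card P₀ := by
    intro P
    rw [P.card_eq_multiplicity, P₀.card_eq_multiplicity]
  obtain ⟨Q₀, hQ₀⟩ := exists_ne h21 P₀
  have hc := card_inf_mul h21 P₀ Q₀ hQ₀.symm
  set E : Subgroup G := (P₀ : Subgroup G) ⊓ Q₀ with hEdef
  set c := Nat.card E with hcdef
  have hc1 : 1 < c := by
    have hpos : 0 < c := Nat.card_pos
    rcases Nat.lt_or_ge 1 c with h | h
    · exact h
    · exfalso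
      have : c = 1 := by omega
      rw [this] at hc
      exact hP₀ hc.symm
  have hcard_inf : ∀ P Q : Sylow 5 G, P ≠ Q →
      Nat.card ((P : Subgroup G) ⊓ Q : Subgroup G) = c := by
    intro P Q hPQ
    have := card_inf_mul h21 P Q hPQ
    rw [hsame P] at this
    omega
  have hE1 : E ≠ ⊥ := by
    intro h
    have : c = 1 := by rw [hcdef, h, Subgroup.card_bot]
    omega
  have hEp : IsPGroup 5 E := P₀.2.to_inf_left
  -- the Sylow subgroups containing E
  let FixE : Finset (Sylow 5 G) := Finset.univ.filter (fun R : Sylow 5 G => E ≤ (R : Subgroup G))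
  have hFixcard : FixE.card = Nat.card {R : Sylow 5 G // E ≤ R} := by
    rw [Nat.card_eq_fintype_card, Fintype.card_subtype]
  have hFix6 : 6 ≤ FixE.card := by
    have h1 := card_fix_mod h21 E hEp
    rw [← hFixcard] at h1
    have h2 : 1 < FixE.card := by
      rw [Finset.one_lt_card]
      refine ⟨P₀, ?_, Q₀, ?_, hQ₀.symm⟩
      · simp only [FixE, Finset.mem_filter, Finset.mem_univ, true_and]; exact inf_le_left
      · simp only [FixE, Finset.mem_filter, Finset.mem_univ, true_and]; exact inf_le_right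
    omega
  obtain ⟨R₀, hR₀⟩ : ∃ R₀ : Sylow 5 G, ¬ E ≤ (R₀ : Subgroup G) := by
    by_contra hall
    push Not at hall
    apply hE1
    rw [eq_bot_iff, ← hker]
    intro g hg
    rw [mem_ker5]
    intro R
    exact le_normalizer (hall R hg)
  have hminfac : (Nat.card (R₀ : Subgroup G)).minFac = 5 := by
    obtain ⟨k, hk⟩ := R₀.2.exists_card_eq
    have hk0 : k ≠ 0 := by
      rintro rfl
      rw [pow_zero] at hk
      have := hsame R₀
      rw [hk] at this
      omega
    rw [hk]
    exact Nat.Prime.pow_minFac (by norm_num) hk0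
  have key : ∀ S ∈ FixE, ∀ S' ∈ FixE, S' ∈ orbit (R₀ : Subgroup G) S → S' = S := by
    intro S hS S' hS' hmem
    by_contra hne
    simp only [FixE, Finset.mem_filter, Finset.mem_univ, true_and] at hS hS'
    obtain ⟨x, hx⟩ := hmem
    have hx' : (x : G) • S = S' := hx
    have hSR : R₀ ≠ S := fun h => hR₀ (h ▸ hS)
    have hSS' : E = (S : Subgroup G) ⊓ S' :=
      Subgroup.eq_of_le_of_card_ge (le_inf hS hS') (by rw [hcard_inf S S' (Ne.symm hne)])
    have hnorm : (((R₀ : Subgroup G) ⊓ S).subgroupOf R₀).Normal :=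
      Subgroup.normal_of_index_eq_minFac_card (by rw [hminfac]; exact relIndex_inf h21 R₀ S hSR)
    have hD : (R₀ : Subgroup G) ⊓ S ≤ (S' : Subgroup G) := by
      intro d hd
      rw [← hx', mem_smul_sylow]
      have hd' : (⟨d, hd.1⟩ : (R₀ : Subgroup G)) ∈ ((R₀ : Subgroup G) ⊓ S).subgroupOf R₀ := by
        rw [mem_subgroupOf]; exact hd
      have h2 := hnorm.conj_mem _ hd' x⁻¹
      rw [mem_subgroupOf] at h2
      have h3 : (x : G)⁻¹ * d * (x : G) ∈ (R₀ : Subgroup G) ⊓ S := by
        simpa using h2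
      exact h3.2
    have hDE : (R₀ : Subgroup G) ⊓ S ≤ E := by
      rw [hSS']
      exact le_inf inf_le_right hD
    have hDeq : (R₀ : Subgroup G) ⊓ S = E :=
      Subgroup.eq_of_le_of_card_ge hDE (by rw [hcard_inf R₀ S hSR])
    exact hR₀ (hDeq ▸ inf_le_left)
  -- counting
  have hdisj : ∀ S ∈ FixE, ∀ S' ∈ FixE, S ≠ S' →
      Disjoint (Set.toFinite (orbit (R₀ : Subgroup G) S)).toFinset
        (Set.toFinite (orbit (R₀ : Subgroup G) S')).toFinset := by
    intro S hS S' hS' hne
    rw [Finset.disjoint_left]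
    intro T hT hT'
    rw [Set.Finite.mem_toFinset] at hT hT'
    apply hne
    symm
    apply key S hS S' hS'
    rw [← MulAction.orbit_eq_iff] at hT hT'
    rw [← hT, hT']
    exact MulAction.mem_orbit_self S'
  have hcardU := Finset.card_biUnion hdisj
  have hsum : ∑ S ∈ FixE, (Set.toFinite (orbit (R₀ : Subgroup G) S)).toFinset.card
      = ∑ S ∈ FixE, 5 := by
    apply Finset.sum_congr rfl
    intro S hS
    simp only [FixE, Finset.mem_filter, Finset.mem_univ, true_and] at hS
    have hSR : R₀ ≠ S := fun h => hR₀ (h ▸ hS)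
    rw [← Set.ncard_eq_toFinset_card, orbit_card h21 R₀ S hSR]
  have hsub : FixE.biUnion (fun S => (Set.toFinite (orbit (R₀ : Subgroup G) S)).toFinset)
      ⊆ Finset.univ.erase R₀ := by
    intro T hT
    rw [Finset.mem_biUnion] at hT
    obtain ⟨S, hS, hT⟩ := hT
    simp only [FixE, Finset.mem_filter, Finset.mem_univ, true_and] at hS
    have hSR : R₀ ≠ S := fun h => hR₀ (h ▸ hS)
    rw [Set.Finite.mem_toFinset] at hT
    rw [Finset.mem_erase]
    refine ⟨?_, Finset.mem_univ _⟩
    rintro rfl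
    exact not_mem_orbit (T : Subgroup G) T S le_normalizer hSR hT
  have hle := Finset.card_le_card hsub
  rw [hcardU, hsum, Finset.sum_const, Finset.card_erase_of_mem (Finset.mem_univ _),
    Finset.card_univ, ← Nat.card_eq_fintype_card, h21] at hle
  simp only [smul_eq_mul] at hle
  omega

/-- trivial intersections -/
lemma inf_eq_bot (h21 : Nat.card (Sylow 5 G) = 21) (hker : ker5 G = ⊥)
    (P Q : Sylow 5 G) (hPQ : P ≠ Q) : (P : Subgroup G) ⊓ Q = ⊥ := by
  have h := card_inf_mul h21 P Q hPQ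
  rw [card5 h21 hker P] at h
  exact Subgroup.eq_bot_of_card_eq _ (by omega)

/-- elements of a Sylow 5-subgroup have 5th power 1 -/
lemma pow_five (h21 : Nat.card (Sylow 5 G) = 21) (hker : ker5 G = ⊥) (P : Sylow 5 G) {y : G}
    (hy : y ∈ (P : Subgroup G)) : y ^ 5 = 1 := by
  have h := pow_card_eq_one' (G := (P : Subgroup G)) (x := ⟨y, hy⟩)
  rw [card5 h21 hker P] at h
  exact congrArg Subtype.val h

/-- a Sylow 5-subgroup is abelian -/
lemma sylow_le_centralizer (h21 : Nat.card (Sylow 5 G) = 21) (hker : ker5 G = ⊥)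
    (P : Sylow 5 G) : (P : Subgroup G) ≤ centralizer (P : Set G) := by
  haveI : IsCyclic (P : Subgroup G) := isCyclic_of_prime_card (card5 h21 hker P)
  exact le_centralizer_iff_isMulCommutative.mpr IsCyclic.isMulCommutative

/-- an element of `P` normalizing another Sylow subgroup is trivial -/
lemma eq_one_of_mem_normalizer (h21 : Nat.card (Sylow 5 G) = 21) (hker : ker5 G = ⊥)
    (P Q : Sylow 5 G) (hPQ : P ≠ Q) {x : G} (hx : x ∈ (P : Subgroup G))
    (hxQ : x ∈ normalizer (Q : Set G)) : x = 1 := by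
  have h1 : x ^ 5 ^ 1 = 1 := by rw [pow_one]; exact pow_five h21 hker P hx
  have h2 : x ∈ (Q : Subgroup G) := mem_sylow_of_pow_eq_one Q 1 h1 hxQ
  have h3 : x ∈ (P : Subgroup G) ⊓ Q := ⟨hx, h2⟩
  rwa [inf_eq_bot h21 hker P Q hPQ, mem_bot] at h3

end Cfsg.Agent.Lib.Helper99.N5
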