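import Mathlib
import Cfsg.Agent.Lib.Helper99.SylAct
import Cfsg.Agent.Lib.Helper99.N5b

set_option autoImplicit false
set_option linter.style.haveILetI false
set_option linter.unusedSectionVars false
set_option linter.unusedVariables false

namespace Cfsg.Agent.Lib.Helper99.N5
open Subgroup MulAction Cfsg.Agent.Lib.Helper99.SylAct

universe u

variable {G : Type u} [Group G] [Finite G]

/-- the Sylow 5-subgroups normalized by `g` -/
def Fx (g : G) : Set (Sylow 5 G) := {R | g ∈ normalizer (R : Set G)}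

/-- the number of Sylow 5-subgroups normalized by `g` -/
noncomputable def fx (g : G) : ℕ := (Fx g).ncard

lemma mem_Fx {g : G} {R : Sylow 5 G} : R ∈ Fx g ↔ g • R = R := by
  rw [Sylow.smul_eq_iff_mem_normalizer]; rfl

lemma mem_Fx' {g : G} {R : Sylow 5 G} : R ∈ Fx g ↔ g ∈ normalizer (R : Set G) := Iff.rfl

/-- if `a` centralizes `P` and normalizes `Q`, it normalizes every `P`-conjugate of `Q` -/
lemma fix_orbit (P Q R : Sylow 5 G) {a : G} (haC : a ∈ centralizer (P : Set G))
    (haQ : a ∈ normalizer (Q : Set G)) (hR : R ∈ orbit (P : Subgroup G) Q) :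
    a ∈ normalizer (R : Set G) := by
  obtain ⟨x, rfl⟩ := hR
  rw [← Sylow.smul_eq_iff_mem_normalizer] at haQ ⊢
  have hcomm : a * (x : G) = (x : G) * a := (haC (x : G) x.2).symm
  show a • ((x : G) • Q) = (x : G) • Q
  rw [smul_smul, hcomm, mul_smul, haQ]

/-- an element of `C(P)` of order prime to 5 that preserves a `P`-orbit fixes it pointwise -/
lemma fix_of_mem_orbit (h21 : Nat.card (Sylow 5 G) = 21) (hker : ker5 G = ⊥) (P Q' : Sylow 5 G)
    (hPQ' : P ≠ Q') {a : G} (haC : a ∈ centralizer (P : Set G)) (h5 : ¬ 5 ∣ orderOf a)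
    (h : a • Q' ∈ orbit (P : Subgroup G) Q') : a ∈ normalizer (Q' : Set G) := by
  obtain ⟨y, hy⟩ := h
  have hy' : (y : G) • Q' = a • Q' := hy
  have hpow : ∀ k : ℕ, a ^ k • Q' = (y : G) ^ k • Q' := by
    intro k
    induction k with
    | zero => simp
    | succ k ih =>
      have hc : a ^ k * (y : G) = (y : G) * a ^ k :=
        ((pow_mem haC k) (y : G) y.2).symm
      rw [pow_succ, mul_smul, ← hy', smul_smul, hc, mul_smul, ih, smul_smul, ← pow_succ']
  have hyn : (y : G) ^ orderOf a = 1 := by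
    have h2 := hpow (orderOf a)
    rw [pow_orderOf_eq_one, one_smul] at h2
    have h3 : (y : G) ^ orderOf a ∈ normalizer (Q' : Set G) :=
      Sylow.smul_eq_iff_mem_normalizer.mp h2.symm
    exact eq_one_of_mem_normalizer h21 hker P Q' hPQ' (pow_mem y.2 _) h3
  have hy1 : (y : G) = 1 := by
    have h := pow_gcd_eq_one.mpr ⟨hyn, pow_five h21 hker P y.2⟩
    have hcop : Nat.gcd (orderOf a) 5 = 1 :=
      Nat.Coprime.symm ((Nat.Prime.coprime_iff_not_dvd (by norm_num)).mpr h5)
    rwa [hcop, pow_one] at h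
  rw [← Sylow.smul_eq_iff_mem_normalizer, ← hy', hy1, one_smul]

/-- elements of `C(P) ∩ N(Q)` have order prime to 5 -/
lemma not_dvd_order (h21 : Nat.card (Sylow 5 G) = 21) (hker : ker5 G = ⊥) (P Q : Sylow 5 G)
    (hPQ : P ≠ Q) {a : G} (haC : a ∈ centralizer (P : Set G))
    (haQ : a ∈ normalizer (Q : Set G)) : ¬ 5 ∣ orderOf a := by
  rintro ⟨m, hm⟩
  have haP : a ∈ normalizer (P : Set G) := centralizer_le_normalizer _ haC
  have hb5 : (a ^ m) ^ 5 ^ 1 = 1 := by
    rw [pow_one, ← pow_mul, mul_comm, ← hm, pow_orderOf_eq_one]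
  have hbP : a ^ m ∈ (P : Subgroup G) := mem_sylow_of_pow_eq_one P 1 hb5 (pow_mem haP m)
  have hb : a ^ m = 1 := eq_one_of_mem_normalizer h21 hker P Q hPQ hbP (pow_mem haQ m)
  have hdvd := orderOf_dvd_of_pow_eq_one hb
  have hpos : 0 < orderOf a := orderOf_pos a
  have hmpos : 0 < m := by
    rcases Nat.eq_zero_or_pos m with h | h
    · rw [h] at hm; omega
    · exact h
  have := Nat.le_of_dvd hmpos hdvd
  omega

/-- a `P`-invariant set of Sylow subgroups not containing `P` has size divisible by 5 -/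
lemma dvd_ncard_of_invariant (h21 : Nat.card (Sylow 5 G) = 21) (P : Sylow 5 G)
    (T : Set (Sylow 5 G)) (hT : ∀ R ∈ T, ∀ x ∈ (P : Subgroup G), x • R ∈ T) (hP : P ∉ T) :
    5 ∣ T.ncard := by
  haveI : Finite (Sylow 5 G) := Nat.finite_of_card_ne_zero (by rw [h21]; norm_num)
  let T' : SubMulAction (P : Subgroup G) (Sylow 5 G) :=
    { carrier := T
      smul_mem' := fun x R hR => hT R hR x x.2 }
  have h1 := P.2.card_modEq_card_fixedPoints T'
  have h2 : Nat.card (fixedPoints (P : Subgroup G) T') = 0 := by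
    rw [Nat.card_eq_zero]
    left
    constructor
    rintro ⟨⟨R, hR⟩, hfix⟩
    have hPR : (P : Subgroup G) ≤ normalizer (R : Set G) := by
      intro x hx
      rw [← Sylow.smul_eq_iff_mem_normalizer]
      have := hfix ⟨x, hx⟩
      exact congrArg Subtype.val this
    have hle := le_sylow_of_le_normalizer P.2 R hPR
    have hPReq : R = P := Sylow.ext (P.3 R.2 hle)
    exact hP (hPReq ▸ hR)
  rw [h2] at h1
  have h3 : Nat.card T' = T.ncard := rfl
  rw [h3] at h1
  exact (Nat.modEq_zero_iff_dvd).mp h1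

/-- `P ∈ Fx a` for `a ∈ N(P)` -/
lemma self_mem_Fx (P : Sylow 5 G) {a : G} (ha : a ∈ normalizer (P : Set G)) : P ∈ Fx a := ha

/-- the number of fixed points of an element of `C(P)` is `1` mod `5` -/
lemma fx_mod_five (h21 : Nat.card (Sylow 5 G) = 21) (P : Sylow 5 G) {a : G}
    (haC : a ∈ centralizer (P : Set G)) : fx a % 5 = 1 := by
  haveI : Finite (Sylow 5 G) := Nat.finite_of_card_ne_zero (by rw [h21]; norm_num)
  have haP : a ∈ normalizer (P : Set G) := centralizer_le_normalizer _ haC
  have h1 : 5 ∣ (Fx a \ {P}).ncard := by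
    apply dvd_ncard_of_invariant h21 P
    · rintro R ⟨hR, hRP⟩ x hx
      refine ⟨?_, ?_⟩
      · rw [mem_Fx] at hR ⊢
        have hcomm : a * x = x * a := (haC x hx).symm
        rw [smul_smul, hcomm, mul_smul, hR]
      · intro h
        apply hRP
        rw [Set.mem_singleton_iff] at h ⊢
        have hxP : x • P = P := Sylow.smul_eq_iff_mem_normalizer.mpr (le_normalizer hx)
        rw [← hxP] at h
        exact smul_left_cancel x h
    · simp
  have h2 : (Fx a \ {P}).ncard = (Fx a).ncard - 1 := Set.ncard_sdiff_singleton_of_mem haP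
  have h3 : 0 < (Fx a).ncard := (Set.ncard_pos (Set.toFinite _)).mpr ⟨P, haP⟩
  unfold fx
  omega

/-- a nontrivial element does not normalize all Sylow 5-subgroups -/
lemma fx_lt (h21 : Nat.card (Sylow 5 G) = 21) (hker : ker5 G = ⊥) {a : G} (ha : a ≠ 1) :
    fx a < 21 := by
  haveI : Finite (Sylow 5 G) := Nat.finite_of_card_ne_zero (by rw [h21]; norm_num)
  have hle : fx a ≤ 21 := by
    unfold fx
    rw [← h21, ← Set.ncard_univ]
    exact Set.ncard_le_ncard (Set.subset_univ _) (Set.toFinite _)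
  rcases Nat.lt_or_ge (fx a) 21 with h | h
  · exact h
  · exfalso
    apply ha
    have heq : (Fx a).ncard = Nat.card (Sylow 5 G) := by unfold fx at hle h; omega
    have huniv := (Set.eq_univ_iff_ncard (Fx a)).mpr heq
    have hmem : a ∈ ker5 G := by
      rw [mem_ker5]
      intro R
      have : R ∈ Fx a := by rw [huniv]; trivial
      exact this
    rwa [hker, mem_bot] at hmem

/-- fixed points of an element of prime order -/
lemma fx_mod_prime (h21 : Nat.card (Sylow 5 G) = 21) {b : G} {r : ℕ} (hr : r.Prime)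
    (hb : orderOf b = r) : fx b % r = 21 % r := by
  haveI : Finite (Sylow 5 G) := Nat.finite_of_card_ne_zero (by rw [h21]; norm_num)
  haveI : Fact r.Prime := ⟨hr⟩
  have hp : IsPGroup r (zpowers b) :=
    IsPGroup.of_card (n := 1) (by rw [Nat.card_zpowers, hb, pow_one])
  have h1 := hp.card_modEq_card_fixedPoints (Sylow 5 G)
  have h2 : fixedPoints (zpowers b) (Sylow 5 G) = Fx b := by
    ext R
    rw [mem_fixedPoints, mem_Fx]
    constructor
    · intro h
      exact h ⟨b, mem_zpowers b⟩
    · rintro h ⟨y, hy⟩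
      obtain ⟨k, rfl⟩ := mem_zpowers_iff.mp hy
      show (b ^ k) • R = R
      have hmem : b ∈ stabilizer G R := h
      exact zpow_mem hmem k
  rw [h2, h21, Nat.card_coe_set_eq] at h1
  exact h1.symm

/-- fixed points of a power -/
lemma fx_le_pow (h21 : Nat.card (Sylow 5 G) = 21) (a : G) (k : ℕ) : fx a ≤ fx (a ^ k) := by
  haveI : Finite (Sylow 5 G) := Nat.finite_of_card_ne_zero (by rw [h21]; norm_num)
  apply Set.ncard_le_ncard _ (Set.toFinite _)
  intro R hR
  exact pow_mem (show a ∈ normalizer (R : Set G) from hR) k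

/-- no element of order 7 centralizes a Sylow 5-subgroup -/
lemma no_order_seven (h21 : Nat.card (Sylow 5 G) = 21) (hker : ker5 G = ⊥) (P : Sylow 5 G)
    {z : G} (hz : z ∈ centralizer (P : Set G)) : orderOf z ≠ 7 := by
  intro h7
  have h1 := fx_mod_five h21 P hz
  have h2 := fx_mod_prime h21 (by norm_num : Nat.Prime 7) h7
  have h3 : fx z < 21 := by
    apply fx_lt h21 hker
    rintro rfl
    rw [orderOf_one] at h7
    omega
  omega

/-- `7` does not divide the order of the centralizer of a Sylow 5-subgroup -/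
lemma not_seven_dvd_centralizer (h21 : Nat.card (Sylow 5 G) = 21) (hker : ker5 G = ⊥)
    (P : Sylow 5 G) : ¬ 7 ∣ Nat.card (centralizer (P : Set G)) := by
  intro h
  haveI : Fact (Nat.Prime 7) := ⟨by norm_num⟩
  obtain ⟨z, hz⟩ := exists_prime_orderOf_dvd_card' 7 h
  exact no_order_seven h21 hker P z.2 (by rw [Subgroup.orderOf_coe, hz])

end Cfsg.Agent.Lib.Helper99.N5
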