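import Mathlib
import Cfsg.Agent.Lib.Helper99.SylAct
import Cfsg.Agent.Lib.Helper99.SylAct2
import Cfsg.Agent.Lib.Helper99.N5c

set_option autoImplicit false
set_option linter.style.haveILetI false
set_option linter.unusedSectionVars false
set_option linter.unusedVariables false

namespace Cfsg.Agent.Lib.Helper99.N5
open Subgroup MulAction Cfsg.Agent.Lib.Helper99.SylAct

universe u

variable {G : Type u} [Group G] [Finite G]

instance fact7 : Fact (Nat.Prime 7) := ⟨by norm_num⟩

/-- `|N(P) : C(P)|` divides 4 -/
lemma relIndex_dvd_four (h21 : Nat.card (Sylow 5 G) = 21) (hker : ker5 G = ⊥) (P : Sylow 5 G) :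
    (centralizer (P : Set G)).relIndex (normalizer (P : Set G)) ∣ 4 := by
  have hH : IsCyclic (P : Subgroup G) := isCyclic_of_prime_card (card5 h21 hker P)
  have key := Subgroup.card_dvd_of_injective _
    (QuotientGroup.kerLift_injective (P : Subgroup G).normalizerMonoidHom)
  rw [normalizerMonoidHom_ker, ← index, ← relIndex] at key
  rw [hH.card_mulAut, card5 h21 hker P, Nat.totient_prime (by norm_num)] at key
  exact key

/-- the order of `G` -/
lemma card_eq (h21 : Nat.card (Sylow 5 G) = 21) (P : Sylow 5 G) :
    Nat.card G = 21 * (Nat.card (centralizer (P : Set G)) *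
      (centralizer (P : Set G)).relIndex (normalizer (P : Set G))) := by
  have h1 := Sylow.card_eq_index_normalizer P
  rw [h21] at h1
  have h2 := Subgroup.card_mul_index (normalizer (P : Set G))
  have h3 := Subgroup.relIndex_mul_index (centralizer_le_normalizer (P : Set G))
  have h4 := Subgroup.card_mul_index (centralizer (P : Set G))
  rw [← h1] at h2
  have h5 : Nat.card (normalizer (P : Set G)) = Nat.card (centralizer (P : Set G)) *
      (centralizer (P : Set G)).relIndex (normalizer (P : Set G)) := by
    have hpos : 0 < (normalizer (P : Set G)).index := by rw [← h1]; norm_num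
    have : Nat.card (normalizer (P : Set G)) * (normalizer (P : Set G)).index
        = Nat.card (centralizer (P : Set G)) *
      (centralizer (P : Set G)).relIndex (normalizer (P : Set G)) *
        (normalizer (P : Set G)).index := by
      rw [mul_assoc, h3, h4, ← h1, h2]
    exact Nat.eq_of_mul_eq_mul_right hpos this
  rw [← h5, ← h2, mul_comm]

/-- the order of the normalizer -/
lemma card_normalizer (h21 : Nat.card (Sylow 5 G) = 21) (P : Sylow 5 G) :
    Nat.card (normalizer (P : Set G)) = Nat.card (centralizer (P : Set G)) *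
      (centralizer (P : Set G)).relIndex (normalizer (P : Set G)) := by
  have h1 := Sylow.card_eq_index_normalizer P
  rw [h21] at h1
  have h2 := Subgroup.card_mul_index (normalizer (P : Set G))
  have h3 := card_eq h21 P
  rw [← h1, h3] at h2
  omega

/-- Sylow 7-subgroups have order 7 -/
lemma card_sylow7 (h21 : Nat.card (Sylow 5 G) = 21) (hker : ker5 G = ⊥) (F : Sylow 7 G) :
    Nat.card F = 7 := by
  haveI : Finite (Sylow 5 G) := Nat.finite_of_card_ne_zero (by rw [h21]; norm_num)
  obtain ⟨P⟩ : Nonempty (Sylow 5 G) := inferInstance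
  have h1 := card_eq h21 P
  have h2 := relIndex_dvd_four h21 hker P
  have h3 := not_seven_dvd_centralizer h21 hker P
  have h7 : 7 ^ 1 ∣ Nat.card G := by
    rw [h1]; exact Dvd.dvd.mul_right (by norm_num) _
  have h49 : ¬ 7 ^ (1 + 1) ∣ Nat.card G := by
    rw [h1]
    intro h
    apply h3
    generalize (centralizer (P : Set G)).relIndex (normalizer (P : Set G)) = d at h h2
    generalize Nat.card (centralizer (P : Set G)) = c at h
    have hd : d ≤ 4 := Nat.le_of_dvd (by norm_num) h2
    have h' : 7 ∣ (3 * d) * c := by
      obtain ⟨k, hk⟩ := h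
      have h7k : 7 * (3 * d * c) = 7 * (7 * k) := by
        have h49' : (7 : ℕ) ^ (1 + 1) = 49 := by norm_num
        rw [h49'] at hk
        linarith
      exact ⟨k, Nat.eq_of_mul_eq_mul_left (by norm_num) h7k⟩
    have hcop : Nat.Coprime 7 (3 * d) := by
      interval_cases d <;> first | decide | (exfalso; revert h2; decide)
    exact hcop.dvd_of_dvd_mul_left h'
  have := card_sylow_eq_pow F 1 h7 h49
  simpa using this

/-- `5` does not divide the order of the normalizer of a Sylow 7-subgroup -/
lemma not_five_dvd_normalizer7 (h21 : Nat.card (Sylow 5 G) = 21) (hker : ker5 G = ⊥)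
    (F : Sylow 7 G) : ¬ 5 ∣ Nat.card (normalizer (F : Set G)) := by
  intro h5N
  have hF7 := card_sylow7 h21 hker F
  obtain ⟨y, hy⟩ := exists_prime_orderOf_dvd_card' 5 h5N
  have hy' : orderOf (y : G) = 5 := by rw [Subgroup.orderOf_coe, hy]
  have hYcard : Nat.card (zpowers (y : G)) = 5 := by rw [Nat.card_zpowers, hy']
  have hYN : zpowers (y : G) ≤ normalizer (F : Set G) := zpowers_le.mpr y.2
  have hYC : zpowers (y : G) ≤ centralizer (F : Set G) := by
    apply le_centralizer_of_coprime (F : Subgroup G) _ (isCyclic_of_prime_card hF7) hYN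
    rw [hYcard, hF7, Nat.totient_prime (by norm_num)]
    decide
  have hYp : IsPGroup 5 (zpowers (y : G)) :=
    IsPGroup.of_card (n := 1) (by rw [hYcard]; norm_num)
  obtain ⟨R, hR⟩ := hYp.exists_le_sylow
  have hYR : zpowers (y : G) = R :=
    Subgroup.eq_of_le_of_card_ge hR (by rw [hYcard, card5 h21 hker R])
  have hFC : (F : Subgroup G) ≤ centralizer (R : Set G) := by
    have h0 : (R : Subgroup G) ≤ centralizer ((F : Subgroup G) : Set G) := hYR ▸ hYC
    exact Subgroup.le_centralizer_iff.mp h0
  have hdvd := Subgroup.card_dvd_of_le hFC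
  rw [hF7] at hdvd
  exact not_seven_dvd_centralizer h21 hker R hdvd

/-- `G` has no proper nontrivial normal subgroup -/
lemma normal_eq_bot_or_top (h21 : Nat.card (Sylow 5 G) = 21) (hmin : MinHyp G)
    (hker : ker5 G = ⊥) (M : Subgroup G) (hM : M.Normal) : M = ⊥ ∨ M = ⊤ := by
  haveI : Finite (Sylow 5 G) := Nat.finite_of_card_ne_zero (by rw [h21]; norm_num)
  obtain ⟨P⟩ : Nonempty (Sylow 5 G) := inferInstance
  have hs : (orbit M P).ncard = (normalizer (P : Set G)).relIndex M := ncard_orbit_subgroup M P
  have hs21 : (normalizer (P : Set G)).relIndex M ∣ 21 := by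
    have := relIndex_dvd_index_of_normal_right (normalizer (P : Set G)) M
    rwa [← Sylow.card_eq_index_normalizer, h21] at this
  have hs5 : (orbit M P).ncard % 5 = 1 := by
    have h1 : 5 ∣ (orbit M P \ {P}).ncard := by
      apply dvd_ncard_of_invariant h21 P
      · rintro R ⟨hR, hRP⟩ x hx
        refine ⟨?_, ?_⟩
        · obtain ⟨m, rfl⟩ := hR
          refine ⟨⟨x * m * x⁻¹, hM.conj_mem m m.2 x⟩, ?_⟩
          show (x * m * x⁻¹) • P = x • ((m : G) • P)
          have hxP : x⁻¹ • P = P := by
            rw [Sylow.smul_eq_iff_mem_normalizer]; exact le_normalizer (inv_mem hx)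
          rw [mul_smul, mul_smul, hxP]
        · intro h
          apply hRP
          rw [Set.mem_singleton_iff] at h ⊢
          have hxP : x • P = P := Sylow.smul_eq_iff_mem_normalizer.mpr (le_normalizer hx)
          rw [← hxP] at h
          exact smul_left_cancel x h
      · simp
    have h2 : (orbit M P \ {P}).ncard = (orbit M P).ncard - 1 :=
      Set.ncard_sdiff_singleton_of_mem (mem_orbit_self P)
    have h3 : 0 < (orbit M P).ncard := (Set.ncard_pos (Set.toFinite _)).mpr ⟨P, mem_orbit_self P⟩
    omega
  rw [hs] at hs5
  have hs' : (normalizer (P : Set G)).relIndex M = 1 ∨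
      (normalizer (P : Set G)).relIndex M = 21 := by
    generalize (normalizer (P : Set G)).relIndex M = s at hs5 hs21
    have hle : s ≤ 21 := Nat.le_of_dvd (by norm_num) hs21
    interval_cases s <;> revert hs21 <;> revert hs5 <;> decide
  rcases hs' with h1 | h21'
  · left
    rw [Subgroup.relIndex_eq_one] at h1
    rw [eq_bot_iff, ← hker]
    intro m hm
    rw [mem_ker5]
    intro R
    obtain ⟨g, rfl⟩ := MulAction.exists_smul_eq G P R
    rw [← Sylow.smul_eq_iff_mem_normalizer]
    have h2 : (g⁻¹ * m * g) • P = P := by
      rw [Sylow.smul_eq_iff_mem_normalizer]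
      apply h1
      have := hM.conj_mem m hm g⁻¹
      simpa using this
    calc m • g • P = g • (g⁻¹ * m * g) • P := by simp [mul_smul]
      _ = g • P := by rw [h2]
  · by_cases hPM : (P : Subgroup G) ≤ M
    · right
      have hc := card_sylow_subgroup M P hPM
      rw [h21'] at hc
      by_contra hne
      exact hmin M (card_lt_of_ne_top M hne) hc
    · exfalso
      have hP5 := card5 h21 hker P
      have hPM' : (P : Subgroup G) ⊓ M = ⊥ := by
        have hdvd := Subgroup.card_dvd_of_le (inf_le_left : (P : Subgroup G) ⊓ M ≤ P)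
        rw [hP5] at hdvd
        rcases (Nat.dvd_prime (by norm_num)).mp hdvd with h | h
        · exact Subgroup.eq_bot_of_card_eq _ h
        · exfalso; apply hPM
          have : (P : Subgroup G) ⊓ M = P :=
            Subgroup.eq_of_le_of_card_ge inf_le_left (by rw [h, hP5])
          exact inf_eq_left.mp this
      have htop : M ⊔ (P : Subgroup G) = ⊤ := by
        by_contra hne
        have hc := card_sylow_subgroup_eq_orbit (M ⊔ (P : Subgroup G)) P le_sup_right
        have h21'' : (orbit (M ⊔ (P : Subgroup G) : Subgroup G) P).ncard = 21 := by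
          apply le_antisymm
          · rw [← h21, ← Set.ncard_univ]
            exact Set.ncard_le_ncard (Set.subset_univ _) (Set.toFinite _)
          · rw [← h21', ← hs]
            apply Set.ncard_le_ncard _ (Set.toFinite _)
            rintro _ ⟨m, rfl⟩
            exact ⟨⟨m, (le_sup_left : M ≤ M ⊔ (P : Subgroup G)) m.2⟩, rfl⟩
        rw [h21''] at hc
        exact hmin _ (card_lt_of_ne_top _ hne) hc
      have hidx : M.index = 5 := by
        have h1 := Subgroup.relIndex_sup_right (K := M) (H := (P : Subgroup G))
        rw [sup_comm, htop, Subgroup.relIndex_top_right] at h1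
        rw [h1, ← Subgroup.inf_relIndex_right, inf_comm, hPM', Subgroup.relIndex_bot_left, hP5]
      obtain ⟨F⟩ : Nonempty (Sylow 7 G) := inferInstance
      have hF7 : Nat.card F = 7 := card_sylow7 h21 hker F
      have hFM : (F : Subgroup G) ≤ M := by
        rw [← Subgroup.relIndex_eq_one]
        have h1 : M.relIndex F ∣ 5 := by
          have h0 := Subgroup.relIndex_dvd_index_of_normal M (F : Subgroup G)
          rwa [hidx] at h0
        have h2 : M.relIndex F ∣ 7 := by
          have h0 := Subgroup.relIndex_dvd_card M (F : Subgroup G)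
          rwa [hF7] at h0
        have := Nat.dvd_gcd h1 h2
        simpa using this
      have hfr := Sylow.normalizer_sup_eq_top' F hFM
      have h5N : 5 ∣ Nat.card (normalizer (F : Set G)) := by
        have h1 := Subgroup.relIndex_sup_right (K := M) (H := normalizer (F : Set G))
        rw [hfr, Subgroup.relIndex_top_right, hidx] at h1
        rw [h1]
        exact Subgroup.relIndex_dvd_card _ _
      exact not_five_dvd_normalizer7 h21 hker F h5N

end Cfsg.Agent.Lib.Helper99.N5
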