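import Mathlib
import Cfsg.Agent.Lib.Helper99.SylAct
import Cfsg.Agent.Lib.Helper99.SylAct2
import Cfsg.Agent.Lib.Helper99.N5d

set_option autoImplicit false
set_option linter.style.haveILetI false
set_option linter.unusedSectionVars false
set_option linter.unusedVariables false

namespace Cfsg.Agent.Lib.Helper99.N5
open Subgroup MulAction Cfsg.Agent.Lib.Helper99.SylAct

universe u

variable {G : Type u} [Group G] [Finite G]

/-- the order of `G` is at least 21 -/
lemma card_ge (h21 : Nat.card (Sylow 5 G) = 21) : 21 ≤ Nat.card G := by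
  haveI : Finite (Sylow 5 G) := Nat.finite_of_card_ne_zero (by rw [h21]; norm_num)
  obtain ⟨P⟩ : Nonempty (Sylow 5 G) := inferInstance
  have h1 := Sylow.card_eq_index_normalizer P
  rw [h21] at h1
  have h2 := Subgroup.card_mul_index (normalizer (P : Set G))
  rw [← h1] at h2
  have h3 : 0 < Nat.card (normalizer (P : Set G)) := Nat.card_pos
  nlinarith

/-- an involution has `1` mod `4` fixed points (no subgroup of index 2) -/
lemma fx_involution_mod_four (h21 : Nat.card (Sylow 5 G) = 21) (hker : ker5 G = ⊥)
    (hsimple : ∀ M : Subgroup G, M.Normal → M = ⊥ ∨ M = ⊤) {t : G} (ht : orderOf t = 2) :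
    fx t % 4 = 1 := by
  classical
  haveI : Finite (Sylow 5 G) := Nat.finite_of_card_ne_zero (by rw [h21]; norm_num)
  letI : Fintype (Sylow 5 G) := Fintype.ofFinite _
  let sgn : G →* ℤˣ := (Equiv.Perm.sign).comp (MulAction.toPermHom G (Sylow 5 G))
  rcases hsimple sgn.ker (MonoidHom.normal_ker sgn) with h | h
  · exfalso
    have hinj : Function.Injective sgn := (MonoidHom.ker_eq_bot_iff sgn).mp h
    have hle : Nat.card G ≤ Nat.card ℤˣ := Nat.card_le_card_of_injective sgn hinj
    have h2 : Nat.card ℤˣ = 2 := by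
      rw [Nat.card_eq_fintype_card]; rfl
    have hG := card_ge h21
    omega
  · have h1 : sgn t = 1 := by
      have : t ∈ sgn.ker := by rw [h]; trivial
      exact this
    set σ : Equiv.Perm (Sylow 5 G) := MulAction.toPermHom G (Sylow 5 G) t with hσ
    have hsign : Equiv.Perm.sign σ = 1 := h1
    have hσ2 : σ ^ 2 = 1 := by rw [hσ, ← map_pow, ← ht, pow_orderOf_eq_one, map_one]
    have ht1 : t ≠ 1 := by
      rintro rfl
      rw [orderOf_one] at ht
      omega
    have hfx : fx t < 21 := fx_lt h21 hker ht1
    have hsupp : σ.support.card + fx t = 21 := by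
      have h3 : (Fx t).ncard = (Finset.univ.filter (fun R : Sylow 5 G => σ R = R)).card := by
        rw [Set.ncard_eq_toFinset_card']
        congr 1
        ext R
        simp only [Set.mem_toFinset, Finset.mem_filter, Finset.mem_univ, true_and]
        exact mem_Fx
      have h4 : σ.support = Finset.univ.filter (fun R : Sylow 5 G => ¬ σ R = R) := by
        ext R
        simp [Equiv.Perm.mem_support]
      unfold fx
      rw [h3, h4, add_comm, Finset.card_filter_add_card_filter_not, Finset.card_univ,
        ← Nat.card_eq_fintype_card, h21]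
    have hσne : σ ≠ 1 := by
      intro h
      rw [h] at hsupp
      simp at hsupp
      omega
    have hord : orderOf σ = 2 := orderOf_eq_prime hσ2 hσne
    obtain ⟨n, hn⟩ := Equiv.Perm.cycleType_prime_order (σ := σ) (by rw [hord]; exact Nat.prime_two)
    rw [hord] at hn
    have hsum := Equiv.Perm.sum_cycleType σ
    rw [hn] at hsum
    simp only [Multiset.sum_replicate, smul_eq_mul] at hsum
    rw [Equiv.Perm.sign_of_cycleType, hn] at hsign
    simp only [Multiset.sum_replicate, Multiset.card_replicate, smul_eq_mul] at hsign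
    have heven : Even ((n + 1) * 2 + (n + 1)) :=
      (neg_one_pow_eq_one_iff_even (by decide)).mp hsign
    obtain ⟨k, hk⟩ := heven
    omega

/-- at least two fixed points -/
lemma two_le_fx (h21 : Nat.card (Sylow 5 G) = 21) (P Q : Sylow 5 G) (hPQ : P ≠ Q) {a : G}
    (haP : a ∈ normalizer (P : Set G)) (haQ : a ∈ normalizer (Q : Set G)) : 2 ≤ fx a := by
  haveI : Finite (Sylow 5 G) := Nat.finite_of_card_ne_zero (by rw [h21]; norm_num)
  have hsub : ({P, Q} : Set (Sylow 5 G)) ⊆ Fx a := by
    rintro R (rfl | rfl)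
    · exact haP
    · exact haQ
  have := Set.ncard_le_ncard hsub (Set.toFinite _)
  rwa [Set.ncard_pair hPQ] at this

/-- an involution centralizing `P` normalizes no other Sylow 5-subgroup -/
lemma fx_involution_centralizer (h21 : Nat.card (Sylow 5 G) = 21) (hker : ker5 G = ⊥)
    (hsimple : ∀ M : Subgroup G, M.Normal → M = ⊥ ∨ M = ⊤) (P : Sylow 5 G) {t : G}
    (htC : t ∈ centralizer (P : Set G)) (ht : orderOf t = 2) : fx t = 1 := by
  have h1 := fx_involution_mod_four h21 hker hsimple ht
  have h2 := fx_mod_five h21 P htC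
  have h3 : fx t < 21 := by
    apply fx_lt h21 hker
    rintro rfl
    rw [orderOf_one] at ht
    omega
  omega

/-- an element of `N(P)` outside `C(P)` commutes with no nontrivial element of `P` -/
lemma eq_one_of_commute (h21 : Nat.card (Sylow 5 G) = 21) (hker : ker5 G = ⊥) (P : Sylow 5 G)
    {g : G} (hgC : g ∉ centralizer (P : Set G)) {x : G} (hx : x ∈ (P : Subgroup G))
    (hcomm : g * x = x * g) : x = 1 := by
  have hP5 := card5 h21 hker P
  have hdvd := Subgroup.card_dvd_of_le
    (inf_le_left : (P : Subgroup G) ⊓ centralizer ({g} : Set G) ≤ P)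
  rw [hP5] at hdvd
  rcases (Nat.dvd_prime (by norm_num)).mp hdvd with h | h
  · have hbot := Subgroup.eq_bot_of_card_eq _ h
    have hmem : x ∈ (P : Subgroup G) ⊓ centralizer ({g} : Set G) := by
      refine ⟨hx, ?_⟩
      show x ∈ centralizer ({g} : Set G)
      rw [mem_centralizer_iff]
      intro h hh
      rw [Set.mem_singleton_iff] at hh
      rw [hh]
      exact hcomm
    rwa [hbot, mem_bot] at hmem
  · exfalso
    apply hgC
    have heq : (P : Subgroup G) ⊓ centralizer ({g} : Set G) = P :=
      Subgroup.eq_of_le_of_card_ge inf_le_left (by rw [h, hP5])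
    have hle : (P : Subgroup G) ≤ centralizer ({g} : Set G) := inf_eq_left.mp heq
    intro y hy
    have := hle hy
    rw [mem_centralizer_iff] at this
    exact (this g rfl).symm

/-- an element of `N(P)` outside `C(P)` has at most 5 fixed points -/
lemma fx_le_five (h21 : Nat.card (Sylow 5 G) = 21) (hker : ker5 G = ⊥) (P : Sylow 5 G)
    {g : G} (hgN : g ∈ normalizer (P : Set G)) (hgC : g ∉ centralizer (P : Set G)) :
    fx g ≤ 5 := by
  haveI : Finite (Sylow 5 G) := Nat.finite_of_card_ne_zero (by rw [h21]; norm_num)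
  let f : ↥(P : Subgroup G) × ↥(Fx g \ ({P} : Set (Sylow 5 G))) →
      ↥(({P} : Set (Sylow 5 G))ᶜ) := fun z =>
    ⟨(z.1 : G) • (z.2 : Sylow 5 G), by
      rw [Set.mem_compl_iff, Set.mem_singleton_iff]
      intro h
      have hxP : (z.1 : G) • P = P :=
        Sylow.smul_eq_iff_mem_normalizer.mpr (le_normalizer z.1.2)
      have h' : (z.1 : G) • (z.2 : Sylow 5 G) = (z.1 : G) • P := h.trans hxP.symm
      exact z.2.2.2 (Set.mem_singleton_iff.mpr (smul_left_cancel _ h'))⟩
  have hf : Function.Injective f := by
    rintro ⟨x, R, hR, hRP⟩ ⟨x', R', hR', hRP'⟩ h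
    have h' : (x : G) • R = (x' : G) • R' := congrArg Subtype.val h
    -- R' = z • R with z = x'⁻¹ x
    have hz : R' = ((x' : G)⁻¹ * (x : G)) • R := by
      rw [mul_smul, h', inv_smul_smul]
    set z : G := (x' : G)⁻¹ * (x : G) with hzdef
    have hzP : z ∈ (P : Subgroup G) := mul_mem (inv_mem x'.2) x.2
    have hRP1 : P ≠ R := fun h => hRP (by rw [Set.mem_singleton_iff]; exact h.symm)
    -- g z g⁻¹ = z
    have hgR : g • R = R := mem_Fx.mp hR
    have hgR' : g • R' = R' := mem_Fx.mp hR'
    have h1 : (z⁻¹ * (g * z * g⁻¹)) • R = R := by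
      have : g⁻¹ • R = R := by
        rw [← hgR, inv_smul_smul, hgR]
      rw [mul_smul, mul_smul, mul_smul, this, ← hz, hgR', hz, inv_smul_smul]
    have h2 : z⁻¹ * (g * z * g⁻¹) ∈ (P : Subgroup G) := by
      apply mul_mem (inv_mem hzP)
      exact (hgN z).mp hzP
    have h3 : z⁻¹ * (g * z * g⁻¹) = 1 :=
      eq_one_of_mem_normalizer h21 hker P R hRP1 h2 (Sylow.smul_eq_iff_mem_normalizer.mp h1)
    have h4 : g * z = z * g := by
      have : g * z * g⁻¹ = z := by
        have := congrArg (fun w => z * w) h3
        simpa using this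
      calc g * z = g * z * g⁻¹ * g := by group
        _ = z * g := by rw [this]
    have hz1 : z = 1 := eq_one_of_commute h21 hker P hgC hzP h4
    have hRR' : R' = R := by rw [hz, hz1, one_smul]
    have hxx' : x = x' := by
      have : (x' : G)⁻¹ * (x : G) = 1 := hz1
      have h5 : (x : G) = (x' : G) := by
        have := congrArg (fun w => (x' : G) * w) this
        simpa using this
      exact Subtype.ext h5
    subst hRR'
    subst hxx'
    rfl
  have hcard := Nat.card_le_card_of_injective f hf
  rw [Nat.card_prod, card5 h21 hker P, Nat.card_coe_set_eq, Nat.card_coe_set_eq,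
    Set.ncard_compl, Set.ncard_singleton, h21,
    Set.ncard_sdiff_singleton_of_mem (show P ∈ Fx g from hgN)] at hcard
  unfold fx
  omega

/-- involutions have 1 or 5 fixed points -/
lemma fx_involution (h21 : Nat.card (Sylow 5 G) = 21) (hker : ker5 G = ⊥)
    (hsimple : ∀ M : Subgroup G, M.Normal → M = ⊥ ∨ M = ⊤) {t : G} (ht : orderOf t = 2) :
    fx t = 1 ∨ fx t = 5 := by
  haveI : Finite (Sylow 5 G) := Nat.finite_of_card_ne_zero (by rw [h21]; norm_num)
  have h1 := fx_involution_mod_four h21 hker hsimple ht
  have hpos : 0 < (Fx t).ncard := by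
    have : 0 < fx t := by omega
    exact this
  obtain ⟨R, hR⟩ := (Set.ncard_pos (Set.toFinite _)).mp hpos
  by_cases hC : t ∈ centralizer (R : Set G)
  · left
    exact fx_involution_centralizer h21 hker hsimple R hC ht
  · have := fx_le_five h21 hker R hR hC
    omega

end Cfsg.Agent.Lib.Helper99.N5
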