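import Mathlib
import Cfsg.Agent.Lib.Helper99.SylAct
import Cfsg.Agent.Lib.Helper99.SylAct2
import Cfsg.Agent.Lib.Helper99.N5e

set_option autoImplicit false
set_option linter.style.haveILetI false
set_option linter.unusedSectionVars false
set_option linter.unusedVariables false

namespace Cfsg.Agent.Lib.Helper99.N5
open Subgroup MulAction Cfsg.Agent.Lib.Helper99.SylAct

universe u

variable {G : Type u} [Group G] [Finite G]

lemma prime_arith {r f : ℕ} (hr : r.Prime) (h5 : r ≠ 5) (h2 : r ≠ 2)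
    (hf : f = 6 ∨ f = 11 ∨ f = 16) (h : f % r = 21 % r) : f = 6 := by
  rcases hf with rfl | rfl | rfl
  · rfl
  · exfalso
    have hd : r ∣ 21 - 11 := (Nat.modEq_iff_dvd' (by norm_num)).mp h
    have hd' : r ∣ 2 * 5 := hd
    rcases (Nat.Prime.dvd_mul hr).mp hd' with h' | h'
    · exact h2 ((Nat.prime_dvd_prime_iff_eq hr Nat.prime_two).mp h')
    · exact h5 ((Nat.prime_dvd_prime_iff_eq hr Nat.prime_five).mp h')
  · exfalso
    have hd : r ∣ 21 - 16 := (Nat.modEq_iff_dvd' (by norm_num)).mp h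
    exact h5 ((Nat.prime_dvd_prime_iff_eq hr Nat.prime_five).mp hd)

/-- a nontrivial element of `C(P) ∩ N(Q)` has exactly 6 fixed points -/
lemma fx_eq_six (h21 : Nat.card (Sylow 5 G) = 21) (hker : ker5 G = ⊥)
    (hsimple : ∀ M : Subgroup G, M.Normal → M = ⊥ ∨ M = ⊤) (P Q : Sylow 5 G) (hPQ : P ≠ Q)
    {a : G} (haC : a ∈ centralizer (P : Set G)) (haQ : a ∈ normalizer (Q : Set G))
    (ha : a ≠ 1) : fx a = 6 := by
  have haP : a ∈ normalizer (P : Set G) := centralizer_le_normalizer _ haC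
  have h1 := fx_mod_five h21 P haC
  have h2 := two_le_fx h21 P Q hPQ haP haQ
  have h3 := fx_lt h21 hker ha
  have hord : orderOf a ≠ 1 := by rwa [Ne, orderOf_eq_one_iff]
  have hrp : (orderOf a).minFac.Prime := Nat.minFac_prime hord
  have hrd : (orderOf a).minFac ∣ orderOf a := Nat.minFac_dvd _
  obtain ⟨r, hr⟩ : ∃ r, r = (orderOf a).minFac := ⟨_, rfl⟩
  rw [← hr] at hrp hrd
  obtain ⟨b, hb⟩ : ∃ b, b = a ^ (orderOf a / r) := ⟨_, rfl⟩
  have hbo : orderOf b = r := by
    rw [hb]; exact orderOf_pow_orderOf_div (orderOf_pos a).ne' hrd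
  have hbC : b ∈ centralizer (P : Set G) := by rw [hb]; exact pow_mem haC _
  have hbQ : b ∈ normalizer (Q : Set G) := by rw [hb]; exact pow_mem haQ _
  have hb1 : b ≠ 1 := by
    intro h
    rw [h, orderOf_one] at hbo
    exact hrp.one_lt.ne hbo
  have h4 : fx a ≤ fx b := by rw [hb]; exact fx_le_pow h21 a (orderOf a / r)
  have h5 := fx_mod_five h21 P hbC
  have h6 := fx_lt h21 hker hb1
  have h7 := fx_mod_prime h21 hrp hbo
  have hr5 : r ≠ 5 := by
    intro h
    exact not_dvd_order h21 hker P Q hPQ haC haQ (h ▸ hrd)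
  have hr2 : r ≠ 2 := by
    intro h
    have := fx_involution_centralizer h21 hker hsimple P hbC (hbo.trans h)
    omega
  have hcases : fx b = 6 ∨ fx b = 11 ∨ fx b = 16 := by omega
  have h8 := prime_arith hrp hr5 hr2 hcases h7
  omega

/-- `C(P) ∩ N(Q)` has odd order -/
lemma card_inf_odd (h21 : Nat.card (Sylow 5 G) = 21) (hker : ker5 G = ⊥)
    (hsimple : ∀ M : Subgroup G, M.Normal → M = ⊥ ∨ M = ⊤) (P Q : Sylow 5 G) (hPQ : P ≠ Q) :
    ¬ 2 ∣ Nat.card ↥(centralizer (P : Set G) ⊓ normalizer (Q : Set G)) := by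
  intro h
  obtain ⟨t, ht⟩ := exists_prime_orderOf_dvd_card' 2 h
  have htC : (t : G) ∈ centralizer (P : Set G) := t.2.1
  have htQ : (t : G) ∈ normalizer (Q : Set G) := t.2.2
  have ho : orderOf (t : G) = 2 := by rw [Subgroup.orderOf_coe, ht]
  have h1 := fx_involution_centralizer h21 hker hsimple P htC ho
  have h2 := two_le_fx h21 P Q hPQ (centralizer_le_normalizer _ htC) htQ
  omega

/-- `C(P) ∩ N(Q)` has order at most 4 -/
lemma card_inf_le (h21 : Nat.card (Sylow 5 G) = 21) (hker : ker5 G = ⊥)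
    (hsimple : ∀ M : Subgroup G, M.Normal → M = ⊥ ∨ M = ⊤) (P Q : Sylow 5 G) (hPQ : P ≠ Q) :
    Nat.card ↥(centralizer (P : Set G) ⊓ normalizer (Q : Set G)) ≤ 4 := by
  haveI : Finite (Sylow 5 G) := Nat.finite_of_card_ne_zero (by rw [h21]; norm_num)
  have hPn : P ∉ orbit (P : Subgroup G) Q := not_mem_orbit (P : Subgroup G) P Q le_normalizer hPQ
  have hc1 : (insert P (orbit (P : Subgroup G) Q)).ncard = 6 := by
    rw [Set.ncard_insert_of_notMem hPn (Set.toFinite _), orbit_card h21 P Q hPQ]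
  have hex : ∃ R₁ : Sylow 5 G, R₁ ≠ P ∧ R₁ ∉ orbit (P : Subgroup G) Q := by
    by_contra hcon
    push Not at hcon
    have hsub : (Set.univ : Set (Sylow 5 G)) ⊆ insert P (orbit (P : Subgroup G) Q) := by
      intro R _
      by_cases hR : R = P
      · left; exact hR
      · right; exact hcon R hR
    have h1 := Set.ncard_le_ncard hsub (Set.toFinite _)
    rw [Set.ncard_univ, h21, hc1] at h1
    omega
  obtain ⟨R₁, hR₁P, hR₁⟩ := hex
  let f : ↥(P : Subgroup G) × ↥(centralizer (P : Set G) ⊓ normalizer (Q : Set G)) →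
      ↥(({P} : Set (Sylow 5 G))ᶜ) := fun z =>
    ⟨(z.1 : G) • ((z.2 : G) • R₁), by
      rw [Set.mem_compl_iff, Set.mem_singleton_iff]
      intro h
      have hxP : ((z.1 : G) * (z.2 : G)) • P = P :=
        Sylow.smul_eq_iff_mem_normalizer.mpr
          (mul_mem (le_normalizer z.1.2) (centralizer_le_normalizer _ z.2.2.1))
      have h' : ((z.1 : G) * (z.2 : G)) • R₁ = ((z.1 : G) * (z.2 : G)) • P := by
        rw [mul_smul, h, hxP]
      exact hR₁P (smul_left_cancel _ h')⟩
  have hf : Function.Injective f := by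
    rintro ⟨x, a, haC0, haQ0⟩ ⟨x', a', haC0', haQ0'⟩ h
    have haC : a ∈ centralizer (P : Set G) := haC0
    have haQ : a ∈ normalizer (Q : Set G) := haQ0
    have haC' : a' ∈ centralizer (P : Set G) := haC0'
    have haQ' : a' ∈ normalizer (Q : Set G) := haQ0'
    have h' : (x : G) • (a • R₁) = (x' : G) • (a' • R₁) := congrArg Subtype.val h
    obtain ⟨z, hzdef⟩ : ∃ z : G, z = (x' : G)⁻¹ * (x : G) := ⟨_, rfl⟩
    have hzP : z ∈ (P : Subgroup G) := by rw [hzdef]; exact mul_mem (inv_mem x'.2) x.2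
    obtain ⟨b, hbdef⟩ : ∃ b : G, b = a'⁻¹ * a := ⟨_, rfl⟩
    have hbC : b ∈ centralizer (P : Set G) := by rw [hbdef]; exact mul_mem (inv_mem haC') haC
    have hbQ : b ∈ normalizer (Q : Set G) := by rw [hbdef]; exact mul_mem (inv_mem haQ') haQ
    have h1 : z • (b • R₁) = R₁ := by
      have hc : z * a'⁻¹ = a'⁻¹ * z := (inv_mem haC') z hzP
      calc z • (b • R₁) = (z * a'⁻¹ * a) • R₁ := by rw [hbdef, smul_smul, mul_assoc]
        _ = (a'⁻¹ * z * a) • R₁ := by rw [hc]
        _ = a'⁻¹ • ((x' : G)⁻¹ • ((x : G) • (a • R₁))) := by rw [hzdef]; simp only [mul_smul]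
        _ = R₁ := by rw [h', inv_smul_smul, inv_smul_smul]
    have h2 : b • R₁ ∈ orbit (P : Subgroup G) R₁ :=
      ⟨⟨z⁻¹, inv_mem hzP⟩, inv_smul_eq_iff.mpr h1.symm⟩
    have hb5 : ¬ 5 ∣ orderOf b := not_dvd_order h21 hker P Q hPQ hbC hbQ
    have hbR₁ : b ∈ normalizer (R₁ : Set G) :=
      fix_of_mem_orbit h21 hker P R₁ (Ne.symm hR₁P) hbC hb5 h2
    have hb1 : b = 1 := by
      by_contra hne
      have h6 := fx_eq_six h21 hker hsimple P Q hPQ hbC hbQ hne
      have hsub : insert R₁ (insert P (orbit (P : Subgroup G) Q)) ⊆ Fx b := by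
        rintro R (rfl | rfl | hR)
        · exact hbR₁
        · exact centralizer_le_normalizer _ hbC
        · exact fix_orbit P Q R hbC hbQ hR
      have hc2 : (insert R₁ (insert P (orbit (P : Subgroup G) Q))).ncard = 7 := by
        rw [Set.ncard_insert_of_notMem _ (Set.toFinite _), hc1]
        rintro (h | h)
        · exact hR₁P h
        · exact hR₁ h
      have := Set.ncard_le_ncard hsub (Set.toFinite _)
      unfold fx at h6
      omega
    have haa' : a = a' := by
      have : a'⁻¹ * a = 1 := by rw [← hbdef]; exact hb1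
      exact (inv_mul_eq_one.mp this).symm
    subst haa'
    have h3 : z • (a • R₁) = a • R₁ := by
      rw [hzdef, mul_smul, h', inv_smul_smul]
    have hne : P ≠ a • R₁ := by
      intro h
      have haP : a • P = P :=
        Sylow.smul_eq_iff_mem_normalizer.mpr (centralizer_le_normalizer _ haC)
      have : a • P = a • R₁ := by rw [haP]; exact h
      exact hR₁P (smul_left_cancel a this).symm
    have hz1 : z = 1 := eq_one_of_mem_normalizer h21 hker P (a • R₁) hne hzP
      (Sylow.smul_eq_iff_mem_normalizer.mp h3)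
    have hxx' : x = x' := by
      have : (x' : G)⁻¹ * (x : G) = 1 := by rw [← hzdef]; exact hz1
      exact Subtype.ext (inv_mul_eq_one.mp this).symm
    subst hxx'
    rfl
  have hcard := Nat.card_le_card_of_injective f hf
  rw [Nat.card_prod, card5 h21 hker P, Nat.card_coe_set_eq, Set.ncard_compl,
    Set.ncard_singleton, h21] at hcard
  omega

/-- `C(P) ∩ N(Q)` has order 1 or 3 -/
lemma card_inf_cases (h21 : Nat.card (Sylow 5 G) = 21) (hker : ker5 G = ⊥)
    (hsimple : ∀ M : Subgroup G, M.Normal → M = ⊥ ∨ M = ⊤) (P Q : Sylow 5 G) (hPQ : P ≠ Q) :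
    Nat.card ↥(centralizer (P : Set G) ⊓ normalizer (Q : Set G)) = 1 ∨
    Nat.card ↥(centralizer (P : Set G) ⊓ normalizer (Q : Set G)) = 3 := by
  have h1 := card_inf_le h21 hker hsimple P Q hPQ
  have h2 := card_inf_odd h21 hker hsimple P Q hPQ
  have h3 : 0 < Nat.card ↥(centralizer (P : Set G) ⊓ normalizer (Q : Set G)) := Nat.card_pos
  omega

/-- orbit-stabilizer for `C(P)` acting on the Sylow 5-subgroups -/
lemma orbit_centralizer (P Q : Sylow 5 G) :
    (orbit ↥(centralizer (P : Set G)) Q).ncard *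
      Nat.card ↥(centralizer (P : Set G) ⊓ normalizer (Q : Set G)) =
    Nat.card (centralizer (P : Set G)) := by
  rw [ncard_orbit_subgroup, ← Subgroup.inf_relIndex_right, inf_comm]
  have h1 := Subgroup.card_mul_index
    ((centralizer (P : Set G) ⊓ normalizer (Q : Set G)).subgroupOf (centralizer (P : Set G)))
  rw [Nat.card_congr (Subgroup.subgroupOfEquivOfLe
    (inf_le_left : centralizer (P : Set G) ⊓ normalizer (Q : Set G) ≤ _)).toEquiv] at h1
  rw [mul_comm]
  exact h1

/-- the `C(P)`-orbit of `Q ≠ P` has size divisible by 5 -/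
lemma five_dvd_orbit_centralizer (h21 : Nat.card (Sylow 5 G) = 21) (hker : ker5 G = ⊥)
    (P Q : Sylow 5 G) (hPQ : P ≠ Q) : 5 ∣ (orbit ↥(centralizer (P : Set G)) Q).ncard := by
  apply dvd_ncard_of_invariant h21 P
  · rintro R ⟨c, rfl⟩ x hx
    refine ⟨⟨x, sylow_le_centralizer h21 hker P hx⟩ * c, ?_⟩
    show ((⟨x, sylow_le_centralizer h21 hker P hx⟩ : ↥(centralizer (P : Set G))) * c) • Q =
      x • (c • Q)
    rw [mul_smul]
    rfl
  · exact not_mem_orbit (centralizer (P : Set G)) P Q (centralizer_le_normalizer _) hPQ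

/-- the `C(P)`-orbit of `Q ≠ P` has size at most 20 -/
lemma orbit_centralizer_le (h21 : Nat.card (Sylow 5 G) = 21) (P Q : Sylow 5 G) (hPQ : P ≠ Q) :
    (orbit ↥(centralizer (P : Set G)) Q).ncard ≤ 20 := by
  haveI : Finite (Sylow 5 G) := Nat.finite_of_card_ne_zero (by rw [h21]; norm_num)
  have hsub : orbit ↥(centralizer (P : Set G)) Q ⊆ ({P} : Set (Sylow 5 G))ᶜ := by
    intro R hR
    rw [Set.mem_compl_iff, Set.mem_singleton_iff]
    rintro rfl
    exact not_mem_orbit _ R Q (centralizer_le_normalizer _) hPQ hR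
  have := Set.ncard_le_ncard hsub (Set.toFinite _)
  rwa [Set.ncard_compl, Set.ncard_singleton, h21] at this

/-- summary: `|C(P)| = k * a` with `k ∈ {5,10,15,20}` the orbit size and `a ∈ {1,3}` -/
lemma orbit_cases (h21 : Nat.card (Sylow 5 G) = 21) (hker : ker5 G = ⊥) (P Q : Sylow 5 G)
    (hPQ : P ≠ Q) :
    (orbit ↥(centralizer (P : Set G)) Q).ncard = 5 ∨
    (orbit ↥(centralizer (P : Set G)) Q).ncard = 10 ∨
    (orbit ↥(centralizer (P : Set G)) Q).ncard = 15 ∨
    (orbit ↥(centralizer (P : Set G)) Q).ncard = 20 := by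
  haveI : Finite (Sylow 5 G) := Nat.finite_of_card_ne_zero (by rw [h21]; norm_num)
  have h1 := five_dvd_orbit_centralizer h21 hker P Q hPQ
  have h2 := orbit_centralizer_le h21 P Q hPQ
  have h3 : 0 < (orbit ↥(centralizer (P : Set G)) Q).ncard :=
    (Set.ncard_pos (Set.toFinite _)).mpr ⟨Q, mem_orbit_self Q⟩
  omega

end Cfsg.Agent.Lib.Helper99.N5
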