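import Mathlib
import Cfsg.Agent.Lib.Helper99.SylAct

set_option autoImplicit false
set_option linter.style.haveILetI false
set_option linter.unusedSectionVars false
set_option linter.unusedVariables false

namespace Cfsg.Agent.Lib.Helper99.N7
open Subgroup MulAction Cfsg.Agent.Lib.Helper99.SylAct

universe u

variable {G : Type u} [Group G] [Finite G]

instance fact7 : Fact (Nat.Prime 7) := ⟨by norm_num⟩

/-- kernel of the action on Sylow 7-subgroups -/
def ker7 (G : Type u) [Group G] : Subgroup G := (MulAction.toPermHom G (Sylow 7 G)).ker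

instance ker7_normal : (ker7 G).Normal := by
  unfold ker7; infer_instance

lemma mem_ker7 {g : G} : g ∈ ker7 G ↔ ∀ P : Sylow 7 G, g ∈ normalizer (P : Set G) := by
  unfold ker7
  rw [MonoidHom.mem_ker]
  constructor
  · intro h P
    rw [← Sylow.smul_eq_iff_mem_normalizer]
    have := congrArg (fun σ : Equiv.Perm (Sylow 7 G) => σ P) h
    simpa using this
  · intro h
    ext P
    simp only [MulAction.toPermHom_apply, MulAction.toPerm_apply, Equiv.Perm.coe_one, id_eq]
    rw [Sylow.smul_eq_iff_mem_normalizer.mpr (h P)]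

/-- the minimality hypothesis -/
def MinHyp (G : Type u) [Group G] : Prop :=
  ∀ (H : Type u) [Group H] [Finite H], Nat.card H < Nat.card G → Nat.card (Sylow 7 H) ≠ 15

lemma ker7_eq_bot (h15 : Nat.card (Sylow 7 G) = 15) (hmin : MinHyp G) : ker7 G = ⊥ := by
  by_contra hne
  have hlt : Nat.card (G ⧸ ker7 G) < Nat.card G := by
    have h1 := Subgroup.card_eq_card_quotient_mul_card_subgroup (ker7 G)
    have h2 : 1 < Nat.card (ker7 G) := (Subgroup.one_lt_card_iff_ne_bot _).mpr hne
    have h3 : 0 < Nat.card (G ⧸ ker7 G) := Nat.card_pos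
    nlinarith
  apply hmin (G ⧸ ker7 G) hlt
  rw [← h15]
  symm
  have hsurj := QuotientGroup.mk'_surjective (ker7 G)
  refine Nat.card_congr (Equiv.ofBijective (Sylow.mapSurjective hsurj) ⟨?_, Sylow.mapSurjective_surjective hsurj 7⟩)
  intro P Q hPQ
  have h1 : (P : Subgroup G).map (QuotientGroup.mk' (ker7 G)) = (Q : Subgroup G).map (QuotientGroup.mk' (ker7 G)) := by
    have := congrArg (fun R : Sylow 7 (G ⧸ ker7 G) => (R : Subgroup (G ⧸ ker7 G))) hPQ
    simpa using this
  have h2 : (P : Subgroup G) ⊔ ker7 G = (Q : Subgroup G) ⊔ ker7 G := by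
    have := congrArg (Subgroup.comap (QuotientGroup.mk' (ker7 G))) h1
    rwa [Subgroup.comap_map_eq, Subgroup.comap_map_eq, QuotientGroup.ker_mk'] at this
  have h3 : (Q : Subgroup G) ≤ normalizer (P : Set G) := by
    calc (Q : Subgroup G) ≤ (Q : Subgroup G) ⊔ ker7 G := le_sup_left
      _ = (P : Subgroup G) ⊔ ker7 G := h2.symm
      _ ≤ normalizer (P : Set G) := sup_le le_normalizer (fun g hg => mem_ker7.mp hg P)
  have h4 : (Q : Subgroup G) ≤ P := le_sylow_of_le_normalizer Q.2 P h3
  exact Sylow.ext (Q.3 P.2 h4)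

/-- distinct Sylow 7-subgroups: orbit of `Q` under `P` has 7 elements -/
lemma orbit_card (h15 : Nat.card (Sylow 7 G) = 15) (P Q : Sylow 7 G) (hPQ : P ≠ Q) :
    (orbit (P : Subgroup G) Q).ncard = 7 := by
  haveI : Finite (Sylow 7 G) := Nat.finite_of_card_ne_zero (by rw [h15]; norm_num)
  obtain ⟨n, hn⟩ := P.2.card_orbit Q
  rw [Nat.card_coe_set_eq] at hn
  have hPnot : P ∉ orbit (P : Subgroup G) Q := by
    rintro ⟨x, hx⟩
    apply hPQ
    have h1 : (x⁻¹ : (P : Subgroup G)) • P = P := by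
      rw [Subgroup.smul_def, Sylow.smul_eq_iff_mem_normalizer]
      exact le_normalizer (x⁻¹).2
    have hx' : x • Q = P := hx
    calc P = (x⁻¹ : (P : Subgroup G)) • P := h1.symm
      _ = (x⁻¹ : (P : Subgroup G)) • (x • Q) := by rw [hx']
      _ = Q := inv_smul_smul x Q
  have hle : (orbit (P : Subgroup G) Q).ncard ≤ 14 := by
    have h1 : orbit (P : Subgroup G) Q ⊆ ({P} : Set (Sylow 7 G))ᶜ := by
      intro R hR
      rw [Set.mem_compl_iff, Set.mem_singleton_iff]
      rintro rfl
      exact hPnot hR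
    have h2 := Set.ncard_le_ncard h1 (Set.toFinite _)
    rw [Set.ncard_compl ({P} : Set (Sylow 7 G)), Set.ncard_singleton, h15] at h2
    exact h2
  have hne1 : (orbit (P : Subgroup G) Q).ncard ≠ 1 := by
    intro h1
    rw [ncard_orbit_subgroup, Subgroup.relIndex_eq_one] at h1
    exact hPQ (Sylow.ext (P.3 Q.2 (le_sylow_of_le_normalizer P.2 Q h1))).symm
  rw [hn] at hle hne1 ⊢
  rcases n with _ | _ | n
  · simp at hne1
  · simp
  · exfalso
    have : 7 ^ 2 ≤ 7 ^ (n + 1 + 1) := Nat.pow_le_pow_right (by norm_num) (by omega)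
    omega

lemma relIndex_inf (h15 : Nat.card (Sylow 7 G) = 15) (P Q : Sylow 7 G) (hPQ : P ≠ Q) :
    ((P : Subgroup G) ⊓ Q).relIndex P = 7 := by
  have h := orbit_card h15 P Q hPQ
  rw [ncard_orbit_subgroup, ← Subgroup.inf_relIndex_right, inf_comm,
    P.2.inf_normalizer_sylow Q] at h
  exact h

end Cfsg.Agent.Lib.Helper99.N7
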