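import Mathlib
import Cfsg.Agent.Lib.Helper99.SylAct
import Cfsg.Agent.Lib.Helper99.N7c

set_option autoImplicit false
set_option linter.style.haveILetI false
set_option linter.unusedSectionVars false
set_option linter.unusedVariables false

namespace Cfsg.Agent.Lib.Helper99.N7
open Subgroup MulAction Cfsg.Agent.Lib.Helper99.SylAct

universe u

variable {G : Type u} [Group G] [Finite G]

/-- if `a` centralizes `P` and normalizes `Q`, it normalizes every `P`-conjugate of `Q` -/
lemma fix_orbit (P Q R : Sylow 7 G) {a : G} (haC : a ∈ centralizer (P : Set G))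
    (haQ : a ∈ normalizer (Q : Set G)) (hR : R ∈ orbit (P : Subgroup G) Q) :
    a ∈ normalizer (R : Set G) := by
  obtain ⟨x, rfl⟩ := hR
  rw [← Sylow.smul_eq_iff_mem_normalizer] at haQ ⊢
  have hcomm : a * (x : G) = (x : G) * a := (haC (x : G) x.2).symm
  show a • ((x : G) • Q) = (x : G) • Q
  rw [smul_smul, hcomm, mul_smul, haQ]

/-- elements of a Sylow 7-subgroup of order 7 have 7th power 1 -/
lemma pow_seven (h7 : ∀ P : Sylow 7 G, Nat.card P = 7) (P : Sylow 7 G) {y : G}
    (hy : y ∈ (P : Subgroup G)) : y ^ 7 = 1 := by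
  have h := pow_card_eq_one' (G := (P : Subgroup G)) (x := ⟨y, hy⟩)
  rw [h7 P] at h
  exact congrArg Subtype.val h

/-- the centralizer of `P` acts freely on the other Sylow 7-subgroups -/
lemma centralizer_inf_normalizer (h15 : Nat.card (Sylow 7 G) = 15) (hker : ker7 G = ⊥)
    (h7 : ∀ P : Sylow 7 G, Nat.card P = 7) (P Q : Sylow 7 G) (hPQ : P ≠ Q) :
    centralizer (P : Set G) ⊓ normalizer (Q : Set G) = ⊥ := by
  rw [eq_bot_iff]
  rintro a ⟨haC, haQ⟩
  have haC' : a ∈ centralizer (P : Set G) := haC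
  have haQ' : a ∈ normalizer (Q : Set G) := haQ
  have haP : a ∈ normalizer (P : Set G) := centralizer_le_normalizer _ haC'
  obtain ⟨Q', hPQ', hQ'⟩ := exists_other h15 P Q hPQ
  have h1 : a • Q' ∈ orbit (P : Subgroup G) Q' := by
    rcases orbit_partition h15 P Q Q' hPQ hPQ' hQ' (a • Q') with h | h | h
    · exfalso
      have : a • Q' = a • P := by rw [h, Sylow.smul_eq_iff_mem_normalizer.mpr haP]
      exact hPQ' (smul_left_cancel a this).symm
    · exfalso
      have h2 := fix_orbit P Q (a • Q') haC' haQ' h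
      rw [← Sylow.smul_eq_iff_mem_normalizer] at h2
      have h3 : a • Q' = Q' := smul_left_cancel a h2
      exact hQ' (h3 ▸ h)
    · exact h
  obtain ⟨y, hy⟩ := h1
  have hy' : (y : G) • Q' = a • Q' := hy
  have hpow : ∀ k : ℕ, a ^ k • Q' = (y : G) ^ k • Q' := by
    intro k
    induction k with
    | zero => simp
    | succ k ih =>
      have hc : a ^ k * (y : G) = (y : G) * a ^ k :=
        ((pow_mem haC' k) (y : G) y.2).symm
      rw [pow_succ, mul_smul, ← hy', smul_smul, hc, mul_smul, ih, smul_smul, ← pow_succ']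
  -- order of a is prime to 7
  have hn7 : ¬ 7 ∣ orderOf a := by
    rintro ⟨m, hm⟩
    have hb7 : (a ^ m) ^ 7 ^ 1 = 1 := by
      rw [pow_one, ← pow_mul, mul_comm, ← hm, pow_orderOf_eq_one]
    have hbQ : a ^ m ∈ (Q : Subgroup G) := mem_sylow_of_pow_eq_one Q 1 hb7 (pow_mem haQ' m)
    have hbP : a ^ m ∈ (P : Subgroup G) := mem_sylow_of_pow_eq_one P 1 hb7 (pow_mem haP m)
    have hb : a ^ m ∈ (P : Subgroup G) ⊓ Q := ⟨hbP, hbQ⟩
    rw [inf_eq_bot h15 h7 P Q hPQ, mem_bot] at hb
    have hdvd := orderOf_dvd_of_pow_eq_one hb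
    have hpos : 0 < orderOf a := orderOf_pos a
    have hmpos : 0 < m := by
      rcases Nat.eq_zero_or_pos m with h | h
      · rw [h] at hm; omega
      · exact h
    have := Nat.le_of_dvd hmpos hdvd
    omega
  have hyn : (y : G) ^ orderOf a = 1 := by
    have h2 := hpow (orderOf a)
    rw [pow_orderOf_eq_one, one_smul] at h2
    have h3 : (y : G) ^ orderOf a ∈ normalizer (Q' : Set G) :=
      Sylow.smul_eq_iff_mem_normalizer.mp h2.symm
    have h4 : ((y : G) ^ orderOf a) ^ 7 ^ 1 = 1 := by
      rw [pow_one, ← pow_mul, mul_comm, pow_mul, pow_seven h7 P y.2, one_pow]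
    have h5 : (y : G) ^ orderOf a ∈ (Q' : Subgroup G) := mem_sylow_of_pow_eq_one Q' 1 h4 h3
    have h6 : (y : G) ^ orderOf a ∈ (P : Subgroup G) ⊓ Q' := ⟨pow_mem y.2 _, h5⟩
    rwa [inf_eq_bot h15 h7 P Q' hPQ', mem_bot] at h6
  have hy1 : (y : G) = 1 := by
    have h := pow_gcd_eq_one.mpr ⟨hyn, pow_seven h7 P y.2⟩
    have hcop : Nat.gcd (orderOf a) 7 = 1 :=
      Nat.Coprime.symm ((Nat.Prime.coprime_iff_not_dvd (by norm_num)).mpr hn7)
    rwa [hcop, pow_one] at h
  have haQ'' : a ∈ normalizer (Q' : Set G) := by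
    rw [← Sylow.smul_eq_iff_mem_normalizer, ← hy', hy1, one_smul]
  have hmem : a ∈ ker7 G := by
    rw [mem_ker7]
    intro R
    rcases orbit_partition h15 P Q Q' hPQ hPQ' hQ' R with h | h | h
    · rw [h]; exact haP
    · exact fix_orbit P Q R haC' haQ' h
    · exact fix_orbit P Q' R haC' haQ'' h
  rwa [hker] at hmem

/-- a Sylow 7-subgroup of order 7 is abelian -/
lemma sylow_le_centralizer (h7 : ∀ P : Sylow 7 G, Nat.card P = 7) (P : Sylow 7 G) :
    (P : Subgroup G) ≤ centralizer (P : Set G) := by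
  haveI : IsCyclic (P : Subgroup G) := isCyclic_of_prime_card (h7 P)
  exact le_centralizer_iff_isMulCommutative.mpr IsCyclic.isMulCommutative

/-- the centralizer has order at most 14 -/
lemma card_centralizer_le (h15 : Nat.card (Sylow 7 G) = 15) (hker : ker7 G = ⊥)
    (h7 : ∀ P : Sylow 7 G, Nat.card P = 7) (P : Sylow 7 G) :
    Nat.card (centralizer (P : Set G)) ≤ 14 := by
  haveI : Finite (Sylow 7 G) := Nat.finite_of_card_ne_zero (by rw [h15]; norm_num)
  obtain ⟨Q, hQ⟩ := exists_ne h15 P
  have h1 := ncard_orbit_subgroup (centralizer (P : Set G)) Q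
  rw [← Subgroup.inf_relIndex_right, inf_comm, centralizer_inf_normalizer h15 hker h7 P Q hQ.symm,
    Subgroup.relIndex_bot_left] at h1
  rw [← h1]
  have hsub : orbit (centralizer (P : Set G)) Q ⊆ ({P} : Set (Sylow 7 G))ᶜ := by
    intro R hR
    rw [Set.mem_compl_iff, Set.mem_singleton_iff]
    rintro rfl
    exact not_mem_orbit (centralizer (R : Set G)) R Q (centralizer_le_normalizer _) hQ.symm hR
  have h2 := Set.ncard_le_ncard hsub (Set.toFinite _)
  rw [Set.ncard_compl ({P} : Set (Sylow 7 G)), Set.ncard_singleton, h15] at h2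
  exact h2

/-- the centralizer has order 7 or 14 -/
lemma card_centralizer (h15 : Nat.card (Sylow 7 G) = 15) (hker : ker7 G = ⊥)
    (h7 : ∀ P : Sylow 7 G, Nat.card P = 7) (P : Sylow 7 G) :
    Nat.card (centralizer (P : Set G)) = 7 ∨ Nat.card (centralizer (P : Set G)) = 14 := by
  have h1 := card_centralizer_le h15 hker h7 P
  have h2 := Subgroup.card_dvd_of_le (sylow_le_centralizer h7 P)
  rw [h7 P] at h2
  have h3 : 0 < Nat.card (centralizer (P : Set G)) := Nat.card_pos
  obtain ⟨k, hk⟩ := h2
  have : k = 1 ∨ k = 2 := by omega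
  rcases this with rfl | rfl
  · left; omega
  · right; omega

/-- generic: `N(H)/C(H)` embeds in `Aut H` for cyclic `H` -/
lemma relIndex_centralizer_normalizer_dvd (H : Subgroup G) (hH : IsCyclic H) :
    (centralizer (H : Set G)).relIndex (normalizer (H : Set G)) ∣ Nat.totient (Nat.card H) := by
  have key := Subgroup.card_dvd_of_injective _ (QuotientGroup.kerLift_injective H.normalizerMonoidHom)
  rw [normalizerMonoidHom_ker, ← index, ← relIndex] at key
  rwa [hH.card_mulAut] at key

/-- `|N(P) : C(P)|` divides 6 -/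
lemma relIndex_dvd_six (h7 : ∀ P : Sylow 7 G, Nat.card P = 7) (P : Sylow 7 G) :
    (centralizer (P : Set G)).relIndex (normalizer (P : Set G)) ∣ 6 := by
  have h := relIndex_centralizer_normalizer_dvd (P : Subgroup G) (isCyclic_of_prime_card (h7 P))
  rw [h7 P] at h
  have h6 : Nat.totient 7 = 6 := by
    rw [Nat.totient_prime (by norm_num)]
  rwa [h6] at h

/-- the order of `G` -/
lemma card_eq (h15 : Nat.card (Sylow 7 G) = 15) (P : Sylow 7 G) :
    Nat.card G = 15 * (Nat.card (centralizer (P : Set G)) *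
      (centralizer (P : Set G)).relIndex (normalizer (P : Set G))) := by
  have h1 := Sylow.card_eq_index_normalizer P
  rw [h15] at h1
  have h2 := Subgroup.card_mul_index (normalizer (P : Set G))
  have h3 := Subgroup.relIndex_mul_index (centralizer_le_normalizer (P : Set G))
  have h4 := Subgroup.card_mul_index (centralizer (P : Set G))
  rw [← h1] at h2
  have h5 : Nat.card (normalizer (P : Set G)) = Nat.card (centralizer (P : Set G)) *
      (centralizer (P : Set G)).relIndex (normalizer (P : Set G)) := by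
    have hpos : 0 < (normalizer (P : Set G)).index := by rw [← h1]; norm_num
    have : Nat.card (normalizer (P : Set G)) * (normalizer (P : Set G)).index
        = Nat.card (centralizer (P : Set G)) *
      (centralizer (P : Set G)).relIndex (normalizer (P : Set G)) * (normalizer (P : Set G)).index := by
      rw [mul_assoc, h3, h4, ← h1, h2]
    exact Nat.eq_of_mul_eq_mul_right hpos this
  rw [← h5, ← h2, mul_comm]

end Cfsg.Agent.Lib.Helper99.N7
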