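import Mathlib
import Cfsg.Agent.Lib.Helper99.SylAct
import Cfsg.Agent.Lib.Helper99.SylAct2
import Cfsg.Agent.Lib.Helper99.N7d

set_option autoImplicit false
set_option linter.style.haveILetI false
set_option linter.unusedSectionVars false
set_option linter.unusedVariables false

namespace Cfsg.Agent.Lib.Helper99.N7
open Subgroup MulAction Cfsg.Agent.Lib.Helper99.SylAct

universe u

variable {G : Type u} [Group G] [Finite G]

instance fact5 : Fact (Nat.Prime 5) := ⟨by norm_num⟩

/-- the possible orders of `G` -/
lemma card_cases (h15 : Nat.card (Sylow 7 G) = 15) (hker : ker7 G = ⊥)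
    (h7 : ∀ P : Sylow 7 G, Nat.card P = 7) :
    Nat.card G = 105 ∨ Nat.card G = 210 ∨ Nat.card G = 315 ∨ Nat.card G = 630 ∨
      Nat.card G = 420 ∨ Nat.card G = 1260 := by
  haveI : Finite (Sylow 7 G) := Nat.finite_of_card_ne_zero (by rw [h15]; norm_num)
  obtain ⟨P⟩ : Nonempty (Sylow 7 G) := inferInstance
  have h1 := card_eq h15 P
  have h2 := card_centralizer h15 hker h7 P
  have h3 := relIndex_dvd_six h7 P
  generalize (centralizer (P : Set G)).relIndex (normalizer (P : Set G)) = d at h1 h3
  have hd : d ≤ 6 := Nat.le_of_dvd (by norm_num) h3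
  interval_cases d <;> rcases h2 with h2 | h2 <;> rw [h2] at h1 <;> revert h3 <;> omega

/-- Sylow 5-subgroups have order 5 -/
lemma card_sylow5 (h15 : Nat.card (Sylow 7 G) = 15) (hker : ker7 G = ⊥)
    (h7 : ∀ P : Sylow 7 G, Nat.card P = 7) (F : Sylow 5 G) : Nat.card F = 5 := by
  have h := card_cases h15 hker h7
  have := card_sylow_eq_pow F 1 (by rcases h with h | h | h | h | h | h <;> rw [h] <;> norm_num)
    (by rcases h with h | h | h | h | h | h <;> rw [h] <;> norm_num)
  simpa using this

/-- `G` has no proper nontrivial normal subgroup -/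
lemma normal_eq_bot_or_top (h15 : Nat.card (Sylow 7 G) = 15) (hmin : MinHyp G)
    (hker : ker7 G = ⊥) (h7 : ∀ P : Sylow 7 G, Nat.card P = 7) (M : Subgroup G)
    (hM : M.Normal) : M = ⊥ ∨ M = ⊤ := by
  haveI : Finite (Sylow 7 G) := Nat.finite_of_card_ne_zero (by rw [h15]; norm_num)
  obtain ⟨P⟩ : Nonempty (Sylow 7 G) := inferInstance
  have hs : (orbit M P).ncard = (normalizer (P : Set G)).relIndex M := ncard_orbit_subgroup M P
  have hs15 : (normalizer (P : Set G)).relIndex M ∣ 15 := by
    have := relIndex_dvd_index_of_normal_right (normalizer (P : Set G)) M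
    rwa [← Sylow.card_eq_index_normalizer, h15] at this
  have hs7 : (orbit M P).ncard = 1 ∨ 7 ≤ (orbit M P).ncard := by
    by_cases h : ∃ R ∈ orbit M P, R ≠ P
    · right
      obtain ⟨R, hR, hRP⟩ := h
      have hsub : orbit (P : Subgroup G) R ⊆ orbit M P := by
        rintro _ ⟨x, rfl⟩
        obtain ⟨m, rfl⟩ := hR
        refine ⟨⟨(x : G) * m * (x : G)⁻¹, hM.conj_mem m m.2 x⟩, ?_⟩
        show ((x : G) * m * (x : G)⁻¹) • P = (x : G) • ((m : G) • P)
        have hxP : (x : G)⁻¹ • P = P := by
          rw [Sylow.smul_eq_iff_mem_normalizer]; exact le_normalizer (inv_mem x.2)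
        rw [mul_smul, mul_smul, hxP]
      have := Set.ncard_le_ncard hsub (Set.toFinite _)
      rwa [orbit_card h15 P R hRP.symm] at this
    · left
      push Not at h
      have : orbit M P = {P} := Set.eq_singleton_iff_unique_mem.mpr ⟨mem_orbit_self P, h⟩
      rw [this, Set.ncard_singleton]
  rw [hs] at hs7
  have hs' : (normalizer (P : Set G)).relIndex M = 1 ∨
      (normalizer (P : Set G)).relIndex M = 15 := by
    generalize (normalizer (P : Set G)).relIndex M = s at hs7 hs15
    have hle : s ≤ 15 := Nat.le_of_dvd (by norm_num) hs15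
    interval_cases s <;> revert hs15 <;> revert hs7 <;> decide
  rcases hs' with h1 | h15'
  · left
    rw [Subgroup.relIndex_eq_one] at h1
    rw [eq_bot_iff, ← hker]
    intro m hm
    rw [mem_ker7]
    intro R
    obtain ⟨g, rfl⟩ := MulAction.exists_smul_eq G P R
    rw [← Sylow.smul_eq_iff_mem_normalizer]
    have h2 : (g⁻¹ * m * g) • P = P := by
      rw [Sylow.smul_eq_iff_mem_normalizer]
      apply h1
      have := hM.conj_mem m hm g⁻¹
      simpa using this
    calc m • g • P = g • (g⁻¹ * m * g) • P := by simp [mul_smul]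
      _ = g • P := by rw [h2]
  · by_cases hPM : (P : Subgroup G) ≤ M
    · right
      have hc := card_sylow_subgroup M P hPM
      rw [h15'] at hc
      by_contra hne
      exact hmin M (card_lt_of_ne_top M hne) hc
    · exfalso
      have hPM' : (P : Subgroup G) ⊓ M = ⊥ := by
        have hdvd := Subgroup.card_dvd_of_le (inf_le_left : (P : Subgroup G) ⊓ M ≤ P)
        rw [h7 P] at hdvd
        rcases (Nat.dvd_prime (by norm_num)).mp hdvd with h | h
        · exact Subgroup.eq_bot_of_card_eq _ h
        · exfalso; apply hPM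
          have : (P : Subgroup G) ⊓ M = P :=
            Subgroup.eq_of_le_of_card_ge inf_le_left (by rw [h, h7 P])
          exact inf_eq_left.mp this
      have htop : M ⊔ (P : Subgroup G) = ⊤ := by
        by_contra hne
        have hc := card_sylow_subgroup_eq_orbit (M ⊔ (P : Subgroup G)) P le_sup_right
        have h15'' : (orbit (M ⊔ (P : Subgroup G) : Subgroup G) P).ncard = 15 := by
          apply le_antisymm
          · rw [← h15, ← Set.ncard_univ]
            exact Set.ncard_le_ncard (Set.subset_univ _) (Set.toFinite _)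
          · rw [← h15', ← hs]
            apply Set.ncard_le_ncard _ (Set.toFinite _)
            rintro _ ⟨m, rfl⟩
            exact ⟨⟨m, (le_sup_left : M ≤ M ⊔ (P : Subgroup G)) m.2⟩, rfl⟩
        rw [h15''] at hc
        exact hmin _ (card_lt_of_ne_top _ hne) hc
      have hidx : M.index = 7 := by
        have h1 := Subgroup.relIndex_sup_right (K := M) (H := (P : Subgroup G))
        rw [sup_comm, htop, Subgroup.relIndex_top_right] at h1
        rw [h1, ← Subgroup.inf_relIndex_right, inf_comm, hPM', Subgroup.relIndex_bot_left, h7 P]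
      obtain ⟨F⟩ : Nonempty (Sylow 5 G) := inferInstance
      have hF5 : Nat.card F = 5 := card_sylow5 h15 hker h7 F
      have hFM : (F : Subgroup G) ≤ M := by
        rw [← Subgroup.relIndex_eq_one]
        have h1 : M.relIndex F ∣ 7 := by
          have h0 := Subgroup.relIndex_dvd_index_of_normal M (F : Subgroup G)
          rwa [hidx] at h0
        have h2 : M.relIndex F ∣ 5 := by
          have h0 := Subgroup.relIndex_dvd_card M (F : Subgroup G)
          rwa [hF5] at h0
        have := Nat.dvd_gcd h1 h2
        simpa using this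
      have hfr := Sylow.normalizer_sup_eq_top' F hFM
      have h7N : 7 ∣ Nat.card (normalizer (F : Set G)) := by
        have h1 := Subgroup.relIndex_sup_right (K := M) (H := normalizer (F : Set G))
        rw [hfr, Subgroup.relIndex_top_right, hidx] at h1
        rw [h1]
        exact Subgroup.relIndex_dvd_card _ _
      obtain ⟨y, hy⟩ := exists_prime_orderOf_dvd_card' 7 h7N
      have hy' : orderOf (y : G) = 7 := by rw [Subgroup.orderOf_coe, hy]
      have hYcard : Nat.card (zpowers (y : G)) = 7 := by rw [Nat.card_zpowers, hy']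
      have hYN : zpowers (y : G) ≤ normalizer (F : Set G) := zpowers_le.mpr y.2
      have hYC : zpowers (y : G) ≤ centralizer (F : Set G) := by
        apply le_centralizer_of_coprime (F : Subgroup G) _ (isCyclic_of_prime_card hF5) hYN
        rw [hYcard, hF5, Nat.totient_prime (by norm_num)]
        decide
      have hYp : IsPGroup 7 (zpowers (y : G)) := IsPGroup.of_card (n := 1) (by rw [hYcard]; norm_num)
      obtain ⟨R, hR⟩ := hYp.exists_le_sylow
      have hYR : zpowers (y : G) = R :=
        Subgroup.eq_of_le_of_card_ge hR (by rw [hYcard, h7 R])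
      have hFC : (F : Subgroup G) ≤ centralizer (R : Set G) := by
        have h0 : (R : Subgroup G) ≤ centralizer ((F : Subgroup G) : Set G) := hYR ▸ hYC
        exact Subgroup.le_centralizer_iff.mp h0
      have hdvd := Subgroup.card_dvd_of_le hFC
      rw [hF5] at hdvd
      rcases card_centralizer h15 hker h7 R with h | h <;> rw [h] at hdvd <;> omega

end Cfsg.Agent.Lib.Helper99.N7
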