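import Mathlib
import Cfsg.Agent.Lib.Helper99.SylAct
import Cfsg.Agent.Lib.Helper99.SylAct2
import Cfsg.Agent.Lib.Helper99.N7e

set_option autoImplicit false
set_option linter.style.haveILetI false
set_option linter.unusedSectionVars false
set_option linter.unusedVariables false

namespace Cfsg.Agent.Lib.Helper99.N7
open Subgroup MulAction Cfsg.Agent.Lib.Helper99.SylAct

universe u

variable {G : Type u} [Group G] [Finite G]

/-- a Sylow subgroup that is neither trivial nor everything -/
lemma sylow_ne {p : ℕ} (S : Sylow p G) (h1 : Nat.card S ≠ 1) (h2 : Nat.card S ≠ Nat.card G) :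
    ¬ ((S : Subgroup G) = ⊥ ∨ (S : Subgroup G) = ⊤) := by
  rintro (h | h)
  · apply h1
    have : Nat.card (S : Subgroup G) = Nat.card (⊥ : Subgroup G) := by rw [h]
    rw [this, Subgroup.card_bot]
  · apply h2
    have : Nat.card (S : Subgroup G) = Nat.card (⊤ : Subgroup G) := by rw [h]
    rw [this, Subgroup.card_top]

/-- the case `|C(P)| = 14`: an involution centralizing `P` is an odd permutation -/
lemma case_c2 (h15 : Nat.card (Sylow 7 G) = 15) (hker : ker7 G = ⊥)
    (h7 : ∀ P : Sylow 7 G, Nat.card P = 7)
    (hsimple : ∀ M : Subgroup G, M.Normal → M = ⊥ ∨ M = ⊤) (P : Sylow 7 G)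
    (hc : Nat.card (centralizer (P : Set G)) = 14) : False := by
  classical
  haveI : Finite (Sylow 7 G) := Nat.finite_of_card_ne_zero (by rw [h15]; norm_num)
  letI : Fintype (Sylow 7 G) := Fintype.ofFinite _
  haveI : Fact (Nat.Prime 2) := ⟨Nat.prime_two⟩
  obtain ⟨t, ht⟩ := exists_prime_orderOf_dvd_card' (G := centralizer (P : Set G)) 2
    (by rw [hc]; norm_num)
  have ht' : orderOf (t : G) = 2 := by rw [Subgroup.orderOf_coe, ht]
  let sgn : G →* ℤˣ := (Equiv.Perm.sign).comp (MulAction.toPermHom G (Sylow 7 G))
  rcases hsimple sgn.ker (MonoidHom.normal_ker sgn) with h | h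
  · have hinj : Function.Injective sgn := (MonoidHom.ker_eq_bot_iff sgn).mp h
    have hle : Nat.card G ≤ Nat.card ℤˣ := Nat.card_le_card_of_injective sgn hinj
    have h2 : Nat.card ℤˣ = 2 := by
      rw [Nat.card_eq_fintype_card]; rfl
    have hG := card_cases h15 hker h7
    omega
  · have h1 : sgn (t : G) = 1 := by
      have : (t : G) ∈ sgn.ker := by rw [h]; trivial
      exact this
    set σ : Equiv.Perm (Sylow 7 G) := MulAction.toPermHom G (Sylow 7 G) (t : G) with hσ
    have hsign : Equiv.Perm.sign σ = 1 := h1
    have hσ2 : σ ^ 2 = 1 := by rw [hσ, ← map_pow, ← ht', pow_orderOf_eq_one, map_one]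
    have hfix : ∀ R : Sylow 7 G, σ R = R ↔ R = P := by
      intro R
      show (t : G) • R = R ↔ R = P
      rw [Sylow.smul_eq_iff_mem_normalizer]
      constructor
      · intro hR
        by_contra hne
        have hmem : (t : G) ∈ centralizer (P : Set G) ⊓ normalizer (R : Set G) := ⟨t.2, hR⟩
        rw [centralizer_inf_normalizer h15 hker h7 P R (Ne.symm hne), mem_bot] at hmem
        rw [hmem, orderOf_one] at ht'
        omega
      · rintro rfl
        exact centralizer_le_normalizer _ t.2
    have hsupp : σ.support = Finset.univ.erase P := by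
      ext R
      simp [Equiv.Perm.mem_support, hfix]
    have hsuppcard : σ.support.card = 14 := by
      rw [hsupp, Finset.card_erase_of_mem (Finset.mem_univ _), Finset.card_univ,
        ← Nat.card_eq_fintype_card, h15]
    have hσne : σ ≠ 1 := by
      intro h
      rw [h] at hsuppcard
      simp at hsuppcard
    have hord : orderOf σ = 2 := orderOf_eq_prime hσ2 hσne
    obtain ⟨n, hn⟩ := Equiv.Perm.cycleType_prime_order (σ := σ) (by rw [hord]; exact Nat.prime_two)
    rw [hord] at hn
    have hsum := Equiv.Perm.sum_cycleType σ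
    rw [hn, hsuppcard] at hsum
    simp only [Multiset.sum_replicate, smul_eq_mul] at hsum
    have hn6 : n = 6 := by omega
    rw [Equiv.Perm.sign_of_cycleType, hn, hn6] at hsign
    simp only [Multiset.sum_replicate, Multiset.card_replicate, smul_eq_mul] at hsign
    revert hsign
    decide

/-- a group without normal subgroups whose order is `2 mod 4` has order 2 -/
lemma two_case (hsimple : ∀ M : Subgroup G, M.Normal → M = ⊥ ∨ M = ⊤) (h2 : 2 ∣ Nat.card G)
    (h4 : ¬ 4 ∣ Nat.card G) (hne : Nat.card G ≠ 2) : False := by
  haveI : Fact (Nat.Prime 2) := ⟨Nat.prime_two⟩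
  obtain ⟨S⟩ : Nonempty (Sylow 2 G) := inferInstance
  have hS : Nat.card S = 2 := by
    have := card_sylow_eq_pow S 1 (by simpa using h2) (by simpa using h4)
    simpa using this
  have hNC : normalizer (S : Set G) ≤ centralizer (S : Set G) := by
    apply normalizer_le_centralizer_of_coprime (S : Subgroup G) (isCyclic_of_prime_card hS)
    rw [hS, Nat.totient_two]
    exact Nat.coprime_one_right _
  refine sylow_ne S ?_ ?_ (burnside_of_simple hsimple S hNC)
  · rw [hS]; norm_num
  · rw [hS]; exact fun h => hne h.symm

/-- a group of order 315 has a proper nontrivial normal subgroup -/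
lemma five_case (hsimple : ∀ M : Subgroup G, M.Normal → M = ⊥ ∨ M = ⊤)
    (h315 : Nat.card G = 315) : False := by
  obtain ⟨F⟩ : Nonempty (Sylow 5 G) := inferInstance
  have hF : Nat.card F = 5 := by
    have := card_sylow_eq_pow F 1 (by rw [h315]; norm_num) (by rw [h315]; norm_num)
    simpa using this
  have hidx : (F : Subgroup G).index = 63 := by
    have := Subgroup.card_mul_index (F : Subgroup G)
    rw [hF, h315] at this
    omega
  have hmod := card_sylow_modEq_one 5 G
  have hdvd := Sylow.card_dvd_index F
  rw [hidx] at hdvd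
  have hn := Sylow.card_eq_index_normalizer F
  have hcases : Nat.card (Sylow 5 G) = 1 ∨ Nat.card (Sylow 5 G) = 21 := by
    generalize Nat.card (Sylow 5 G) = n at hmod hdvd
    have hle : n ≤ 63 := Nat.le_of_dvd (by norm_num) hdvd
    unfold Nat.ModEq at hmod
    interval_cases n <;> omega
  rcases hcases with h1 | h21
  · rw [h1] at hn
    have htop : normalizer (F : Set G) = ⊤ := Subgroup.index_eq_one.mp hn.symm
    have hnorm : (F : Subgroup G).Normal :=
      (Subgroup.normalizer_eq_top_iff (H := (F : Subgroup G))).mp htop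
    exact sylow_ne F (by rw [hF]; norm_num) (by rw [hF, h315]; norm_num) (hsimple _ hnorm)
  · rw [h21] at hn
    have hN : Nat.card (normalizer (F : Set G)) = 15 := by
      have := Subgroup.card_mul_index (normalizer (F : Set G))
      rw [← hn, h315] at this
      omega
    have hNC : normalizer (F : Set G) ≤ centralizer (F : Set G) := by
      apply normalizer_le_centralizer_of_coprime (F : Subgroup G) (isCyclic_of_prime_card hF)
      have hN' : Nat.card (normalizer ((F : Subgroup G) : Set G)) = 15 := hN
      rw [hN', hF, Nat.totient_prime (by norm_num)]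
      decide
    exact sylow_ne F (by rw [hF]; norm_num) (by rw [hF, h315]; norm_num)
      (burnside_of_simple hsimple F hNC)

/-- the case `|C(P)| = 7` -/
lemma case_c1 (h15 : Nat.card (Sylow 7 G) = 15) (hker : ker7 G = ⊥)
    (h7 : ∀ P : Sylow 7 G, Nat.card P = 7)
    (hsimple : ∀ M : Subgroup G, M.Normal → M = ⊥ ∨ M = ⊤) (P : Sylow 7 G)
    (hc : Nat.card (centralizer (P : Set G)) = 7) : False := by
  have hd := relIndex_dvd_six h7 P
  have hcard := card_eq h15 P
  rw [hc] at hcard
  have hd6 : (centralizer (P : Set G)).relIndex (normalizer (P : Set G)) ≤ 6 :=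
    Nat.le_of_dvd (by norm_num) hd
  have hcases : (centralizer (P : Set G)).relIndex (normalizer (P : Set G)) = 1 ∨
      Nat.card G = 210 ∨ Nat.card G = 630 ∨ Nat.card G = 315 := by
    generalize (centralizer (P : Set G)).relIndex (normalizer (P : Set G)) = d at hd hcard hd6
    interval_cases d <;> omega
  rcases hcases with h1 | h210 | h630 | h315
  · have hG : Nat.card G = 105 := by rw [hcard, h1]
    rw [Subgroup.relIndex_eq_one] at h1
    refine sylow_ne P ?_ ?_ (burnside_of_simple hsimple P h1)
    · rw [h7 P]; norm_num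
    · rw [h7 P, hG]; norm_num
  · exact two_case hsimple (by rw [h210]; norm_num) (by rw [h210]; norm_num)
      (by rw [h210]; norm_num)
  · exact two_case hsimple (by rw [h630]; norm_num) (by rw [h630]; norm_num)
      (by rw [h630]; norm_num)
  · exact five_case hsimple h315

/-- a minimal counterexample does not exist -/
theorem contradiction (h15 : Nat.card (Sylow 7 G) = 15) (hmin : MinHyp G) : False := by
  haveI : Finite (Sylow 7 G) := Nat.finite_of_card_ne_zero (by rw [h15]; norm_num)
  have hker := ker7_eq_bot h15 hmin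
  have h7 : ∀ P : Sylow 7 G, Nat.card P = 7 := by
    intro P
    by_contra h
    exact caseA h15 hker ⟨P, h⟩
  have hsimple := normal_eq_bot_or_top h15 hmin hker h7
  obtain ⟨P⟩ : Nonempty (Sylow 7 G) := inferInstance
  rcases card_centralizer h15 hker h7 P with hc | hc
  · exact case_c1 h15 hker h7 hsimple P hc
  · exact case_c2 h15 hker h7 hsimple P hc

/-- no finite group has exactly 15 Sylow 7-subgroups -/
theorem card_sylow7_ne_15 (n : ℕ) :
    ∀ (G : Type u) [Group G] [Finite G], Nat.card G = n → Nat.card (Sylow 7 G) ≠ 15 := by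
  induction n using Nat.strong_induction_on with
  | _ n ih =>
    intro G _ _ hn h15
    exact contradiction h15 (fun H _ _ hlt => ih (Nat.card H) (hn ▸ hlt) H rfl)

end Cfsg.Agent.Lib.Helper99.N7
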