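import Mathlib
import Cfsg.Agent.Lib.Helper99.SylAct
import Cfsg.Agent.Lib.Helper99.SylAct2
import Cfsg.Agent.Lib.Helper99.N7f
import Cfsg.Agent.Lib.Helper99.N5f

set_option autoImplicit false
set_option linter.style.haveILetI false
set_option linter.unusedSectionVars false
set_option linter.unusedVariables false

namespace Cfsg.Agent.Lib.Helper99.N5
open Subgroup MulAction Cfsg.Agent.Lib.Helper99.SylAct

universe u

variable {G : Type u} [Group G] [Finite G]

lemma dvd_four_cases {d : ℕ} (h : d ∣ 4) (h1 : d ≠ 1) : d = 2 ∨ d = 4 := by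
  have := Nat.le_of_dvd (by norm_num) h
  interval_cases d <;> simp_all

lemma arith_cases {c d n7 e : ℕ}
    (hc : c = 1 ∨ c = 2 ∨ c = 3 ∨ c = 4 ∨ c = 6 ∨ c = 9 ∨ c = 12)
    (hd : d = 2 ∨ d = 4) (h : n7 * e = 15 * (c * d)) (hmod : n7 % 7 = 1) (hne : n7 ≠ 15)
    (h5 : 5 ∣ n7) (he : e ≠ 1) : c = 4 ∨ c = 6 ∨ c = 12 := by
  obtain ⟨m, rfl⟩ := h5
  have h' : m * e = 3 * (c * d) := by
    have : 5 * (m * e) = 5 * (3 * (c * d)) := by linarith
    exact Nat.eq_of_mul_eq_mul_left (by norm_num) this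
  have h7 : m % 7 = 3 := by omega
  have hm3 : m ≠ 3 := by omega
  rcases hc with rfl | rfl | rfl | rfl | rfl | rfl | rfl <;> rcases hd with rfl | rfl <;>
    first
    | omega
    | (exfalso
       have hm : m ≤ 144 := by
         have := Nat.le_of_dvd (by norm_num) (Dvd.intro e h')
         omega
       interval_cases m <;> omega)

/-- facts on the Sylow 7-subgroups -/
lemma sylow7_facts (h21 : Nat.card (Sylow 5 G) = 21) (hker : ker5 G = ⊥)
    (hsimple : ∀ M : Subgroup G, M.Normal → M = ⊥ ∨ M = ⊤) (P : Sylow 5 G) :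
    ∃ e : ℕ, e ≠ 1 ∧ Nat.card (Sylow 7 G) * e = 3 * (Nat.card (centralizer (P : Set G)) *
      (centralizer (P : Set G)).relIndex (normalizer (P : Set G))) ∧
      5 ∣ Nat.card (Sylow 7 G) := by
  obtain ⟨F⟩ : Nonempty (Sylow 7 G) := inferInstance
  have hF := card_sylow7 h21 hker F
  have h1 := Sylow.card_eq_index_normalizer F
  have h2 := Subgroup.card_mul_index (normalizer (F : Set G))
  have h3 := card_eq h21 P
  have h4 : Nat.card (F : Subgroup G) ∣ Nat.card (normalizer (F : Set G)) :=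
    Subgroup.card_dvd_of_le le_normalizer
  rw [hF] at h4
  obtain ⟨e, he⟩ := h4
  refine ⟨e, ?_, ?_, ?_⟩
  · rintro rfl
    have hNF : (F : Subgroup G) = normalizer (F : Set G) :=
      Subgroup.eq_of_le_of_card_ge le_normalizer (by rw [he, hF])
    have hcyc : IsCyclic (F : Subgroup G) := isCyclic_of_prime_card hF
    have hle : (F : Subgroup G) ≤ centralizer (F : Set G) :=
      le_centralizer_iff_isMulCommutative.mpr IsCyclic.isMulCommutative
    have hb := burnside_of_simple hsimple F (by rw [← hNF]; exact hle)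
    rcases hb with hb | hb
    · rw [hb, Subgroup.card_bot] at hF
      omega
    · have h7 : Nat.card G = 7 := by rw [← hF, hb, Subgroup.card_top]
      have := card_ge h21
      omega
  · rw [← h1, he, h3] at h2
    linarith
  · have h5G : 5 ∣ Nat.card G := by
      rw [← card5 h21 hker P]; exact Subgroup.card_subgroup_dvd_card _
    rw [← h2, ← h1] at h5G
    rcases (Nat.Prime.dvd_mul (by norm_num)).mp h5G with h | h
    · exact absurd h (not_five_dvd_normalizer7 h21 hker F)
    · exact h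

/-- `N(P) ≠ C(P)` -/
lemma relIndex_ne_one (h21 : Nat.card (Sylow 5 G) = 21) (hker : ker5 G = ⊥)
    (hsimple : ∀ M : Subgroup G, M.Normal → M = ⊥ ∨ M = ⊤) (P : Sylow 5 G) :
    (centralizer (P : Set G)).relIndex (normalizer (P : Set G)) ≠ 1 := by
  intro h
  have hle : normalizer (P : Set G) ≤ centralizer (P : Set G) := Subgroup.relIndex_eq_one.mp h
  have hP := card5 h21 hker P
  rcases burnside_of_simple hsimple P hle with hb | hb
  · rw [hb, Subgroup.card_bot] at hP
    omega
  · have h5 : Nat.card G = 5 := by rw [← hP, hb, Subgroup.card_top]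
    have := card_ge h21
    omega

/-- the order of `C(P)` is 20, 30 or 60 -/
lemma card_centralizer_cases (h21 : Nat.card (Sylow 5 G) = 21) (hker : ker5 G = ⊥)
    (hsimple : ∀ M : Subgroup G, M.Normal → M = ⊥ ∨ M = ⊤) (P : Sylow 5 G) :
    Nat.card (centralizer (P : Set G)) = 20 ∨ Nat.card (centralizer (P : Set G)) = 30 ∨
    Nat.card (centralizer (P : Set G)) = 60 := by
  haveI : Finite (Sylow 5 G) := Nat.finite_of_card_ne_zero (by rw [h21]; norm_num)
  obtain ⟨Q, hQ⟩ := exists_ne h21 P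
  have hPQ : P ≠ Q := Ne.symm hQ
  have hk := orbit_cases h21 hker P Q hPQ
  have ha := card_inf_cases h21 hker hsimple P Q hPQ
  have hka := orbit_centralizer P Q
  obtain ⟨e, he1, he, h5⟩ := sylow7_facts h21 hker hsimple P
  have hmod : Nat.card (Sylow 7 G) % 7 = 1 := card_sylow_modEq_one 7 G
  have hne : Nat.card (Sylow 7 G) ≠ 15 :=
    Cfsg.Agent.Lib.Helper99.N7.card_sylow7_ne_15 (Nat.card G) G rfl
  have hd := dvd_four_cases (relIndex_dvd_four h21 hker P) (relIndex_ne_one h21 hker hsimple P)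
  have hc : ∃ c, Nat.card (centralizer (P : Set G)) = 5 * c ∧
      (c = 1 ∨ c = 2 ∨ c = 3 ∨ c = 4 ∨ c = 6 ∨ c = 9 ∨ c = 12) := by
    refine ⟨Nat.card (centralizer (P : Set G)) / 5, ?_, ?_⟩ <;>
    · rcases ha with ha | ha <;> rw [ha] at hka <;> rcases hk with hk | hk | hk | hk <;>
        rw [hk] at hka <;> omega
  obtain ⟨c, hCc, hc⟩ := hc
  have key := arith_cases hc hd (by rw [he, hCc]; ring) hmod hne h5 he1
  rcases key with rfl | rfl | rfl <;> omega

/-- if `|C(P)|` is 20 or 60 then `C(P)` is transitive on the other Sylow 5-subgroups -/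
lemma orbit_eq_twenty (h21 : Nat.card (Sylow 5 G) = 21) (hker : ker5 G = ⊥)
    (hsimple : ∀ M : Subgroup G, M.Normal → M = ⊥ ∨ M = ⊤) (P Q : Sylow 5 G) (hPQ : P ≠ Q)
    (hC : Nat.card (centralizer (P : Set G)) = 20 ∨ Nat.card (centralizer (P : Set G)) = 60) :
    (orbit ↥(centralizer (P : Set G)) Q).ncard = 20 := by
  have hk := orbit_cases h21 hker P Q hPQ
  have ha := card_inf_cases h21 hker hsimple P Q hPQ
  have hka := orbit_centralizer P Q
  rcases ha with ha | ha <;> rw [ha] at hka <;> rcases hk with hk | hk | hk | hk <;>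
    rw [hk] at hka <;> omega

/-- if `|C(P)| = 30` then orbits have size 10 and two-point stabilizers order 3 -/
lemma orbit_eq_ten (h21 : Nat.card (Sylow 5 G) = 21) (hker : ker5 G = ⊥)
    (hsimple : ∀ M : Subgroup G, M.Normal → M = ⊥ ∨ M = ⊤) (P Q : Sylow 5 G) (hPQ : P ≠ Q)
    (hC : Nat.card (centralizer (P : Set G)) = 30) :
    (orbit ↥(centralizer (P : Set G)) Q).ncard = 10 ∧
    Nat.card ↥(centralizer (P : Set G) ⊓ normalizer (Q : Set G)) = 3 := by
  have hk := orbit_cases h21 hker P Q hPQ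
  have ha := card_inf_cases h21 hker hsimple P Q hPQ
  have hka := orbit_centralizer P Q
  rcases ha with ha | ha <;> rw [ha] at hka <;> rcases hk with hk | hk | hk | hk <;>
    rw [hk] at hka <;> omega

end Cfsg.Agent.Lib.Helper99.N5
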