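import Mathlib
import Cfsg.Agent.Lib.Helper99.SylAct
import Cfsg.Agent.Lib.Helper99.SylAct2
import Cfsg.Agent.Lib.Helper99.N5g

set_option autoImplicit false
set_option linter.style.haveILetI false
set_option linter.unusedSectionVars false
set_option linter.unusedVariables false

namespace Cfsg.Agent.Lib.Helper99.N5
open Subgroup MulAction Cfsg.Agent.Lib.Helper99.SylAct

universe u

variable {G : Type u} [Group G] [Finite G]

/-- the centralizer of a Sylow 5-subgroup does not have order 30 -/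
lemma centralizer_ne_thirty (h21 : Nat.card (Sylow 5 G) = 21) (hker : ker5 G = ⊥)
    (hsimple : ∀ M : Subgroup G, M.Normal → M = ⊥ ∨ M = ⊤) (P : Sylow 5 G) :
    Nat.card (centralizer (P : Set G)) ≠ 30 := by
  intro hC
  haveI : Finite (Sylow 5 G) := Nat.finite_of_card_ne_zero (by rw [h21]; norm_num)
  obtain ⟨Q, hQ⟩ := exists_ne h21 P
  have hPQ : P ≠ Q := Ne.symm hQ
  obtain ⟨hk, ha⟩ := orbit_eq_ten h21 hker hsimple P Q hPQ hC
  have h2 : 2 ∣ Nat.card (centralizer (P : Set G)) := by rw [hC]; norm_num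
  obtain ⟨t', ht'⟩ := exists_prime_orderOf_dvd_card' 2 h2
  obtain ⟨t, htt⟩ : ∃ t : G, t = (t' : G) := ⟨_, rfl⟩
  have htC : t ∈ centralizer (P : Set G) := by rw [htt]; exact t'.2
  have hto : orderOf t = 2 := by rw [htt, Subgroup.orderOf_coe, ht']
  clear htt ht' t'
  have hfxt := fx_involution_centralizer h21 hker hsimple P htC hto
  obtain ⟨Q₂, hQ₂⟩ : ∃ Q₂ : Sylow 5 G, Q₂ = (t : G) • Q := ⟨_, rfl⟩
  have hPQ₂ : P ≠ Q₂ := by
    intro h
    have htP : (t : G) • P = P :=
      Sylow.smul_eq_iff_mem_normalizer.mpr (centralizer_le_normalizer _ htC)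
    have : (t : G) • P = (t : G) • Q := by rw [htP, h, hQ₂]
    exact hPQ (smul_left_cancel _ this)
  have hQ₂n : Q₂ ∉ orbit (P : Subgroup G) Q := by
    intro h
    have h5 : ¬ 5 ∣ orderOf (t : G) := by rw [hto]; norm_num
    have := fix_of_mem_orbit h21 hker P Q hPQ htC h5 (hQ₂ ▸ h)
    have h2 := two_le_fx h21 P Q hPQ (centralizer_le_normalizer _ htC) this
    omega
  have hsub : orbit (P : Subgroup G) Q ∪ orbit (P : Subgroup G) Q₂ ⊆
      orbit ↥(centralizer (P : Set G)) Q := by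
    rintro R (⟨x, rfl⟩ | ⟨x, rfl⟩)
    · exact ⟨⟨x, sylow_le_centralizer h21 hker P x.2⟩, rfl⟩
    · refine ⟨⟨x, sylow_le_centralizer h21 hker P x.2⟩ * ⟨t, htC⟩, ?_⟩
      show ((⟨x, sylow_le_centralizer h21 hker P x.2⟩ : ↥(centralizer (P : Set G))) *
        ⟨t, htC⟩) • Q = (x : G) • Q₂
      rw [mul_smul, hQ₂]
      rfl
  have hdisj : Disjoint (orbit (P : Subgroup G) Q) (orbit (P : Subgroup G) Q₂) := by
    rw [Set.disjoint_left]
    intro R hR hR2
    apply hQ₂n
    have e1 := MulAction.orbit_eq_iff.mpr hR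
    have e2 := MulAction.orbit_eq_iff.mpr hR2
    rw [← e1, e2]
    exact mem_orbit_self Q₂
  have hcard : (orbit (P : Subgroup G) Q ∪ orbit (P : Subgroup G) Q₂).ncard = 10 := by
    rw [Set.ncard_union_eq hdisj (Set.toFinite _) (Set.toFinite _), orbit_card h21 P Q hPQ,
      orbit_card h21 P Q₂ hPQ₂]
  have heq : orbit (P : Subgroup G) Q ∪ orbit (P : Subgroup G) Q₂ =
      orbit ↥(centralizer (P : Set G)) Q :=
    Set.eq_of_subset_of_ncard_le hsub (by rw [hcard, hk]) (Set.toFinite _)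
  have hA : 1 < Nat.card ↥(centralizer (P : Set G) ⊓ normalizer (Q : Set G)) := by
    rw [ha]; norm_num
  obtain ⟨a, haA, ha1⟩ := (Subgroup.nontrivial_iff_exists_ne_one _).mp
    ((Subgroup.one_lt_card_iff_ne_bot _).mp hA |> (Subgroup.nontrivial_iff_ne_bot _).mpr)
  have haC : a ∈ centralizer (P : Set G) := haA.1
  have haQ : a ∈ normalizer (Q : Set G) := haA.2
  have h6 := fx_eq_six h21 hker hsimple P Q hPQ haC haQ ha1
  have hmem : a • Q₂ ∈ orbit ↥(centralizer (P : Set G)) Q := by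
    refine ⟨⟨a, haC⟩ * ⟨t, htC⟩, ?_⟩
    show ((⟨a, haC⟩ : ↥(centralizer (P : Set G))) * ⟨t, htC⟩) • Q = a • Q₂
    rw [mul_smul, hQ₂]
    rfl
  rw [← heq] at hmem
  have haQ₂ : a ∈ normalizer (Q₂ : Set G) := by
    rcases hmem with hmem | hmem
    · exfalso
      have hfix := fix_orbit P Q _ haC haQ hmem
      rw [← Sylow.smul_eq_iff_mem_normalizer] at hfix
      have : a • Q₂ = Q₂ := smul_left_cancel _ hfix
      rw [this] at hmem
      exact hQ₂n hmem
    · exact fix_of_mem_orbit h21 hker P Q₂ hPQ₂ haC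
        (not_dvd_order h21 hker P Q hPQ haC haQ) hmem
  have hPn : P ∉ orbit (P : Subgroup G) Q :=
    not_mem_orbit (P : Subgroup G) P Q le_normalizer hPQ
  have hc1 : (insert P (orbit (P : Subgroup G) Q)).ncard = 6 := by
    rw [Set.ncard_insert_of_notMem hPn (Set.toFinite _), orbit_card h21 P Q hPQ]
  have hsub7 : insert Q₂ (insert P (orbit (P : Subgroup G) Q)) ⊆ Fx a := by
    intro R hR
    rcases hR with hR | hR | hR
    · rw [hR]; exact haQ₂
    · rw [hR]; exact centralizer_le_normalizer _ haC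
    · exact fix_orbit P Q R haC haQ hR
  have hc2 : (insert Q₂ (insert P (orbit (P : Subgroup G) Q))).ncard = 7 := by
    rw [Set.ncard_insert_of_notMem _ (Set.toFinite _), hc1]
    rintro (h | h)
    · exact hPQ₂ h.symm
    · exact hQ₂n h
  have := Set.ncard_le_ncard hsub7 (Set.toFinite _)
  unfold fx at h6
  omega

end Cfsg.Agent.Lib.Helper99.N5
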