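import Mathlib
import Cfsg.Agent.Lib.Helper99.SylAct
import Cfsg.Agent.Lib.Helper99.SylAct2
import Cfsg.Agent.Lib.Helper99.N5h

set_option autoImplicit false
set_option linter.style.haveILetI false
set_option linter.unusedSectionVars false
set_option linter.unusedVariables false

namespace Cfsg.Agent.Lib.Helper99.N5
open Subgroup MulAction Cfsg.Agent.Lib.Helper99.SylAct

universe u

variable {G : Type u} [Group G] [Finite G]

lemma orderOf_conj' (g t : G) : orderOf (g * t * g⁻¹) = orderOf t := by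
  rw [← MulAut.conj_apply, MulEquiv.orderOf_eq]

lemma conj_mem_normalizer {g t : G} {R : Sylow 5 G} (h : t ∈ normalizer (R : Set G)) :
    g * t * g⁻¹ ∈ normalizer ((g • R : Sylow 5 G) : Set G) := by
  rw [← Sylow.smul_eq_iff_mem_normalizer] at h ⊢
  rw [smul_smul, inv_mul_cancel_right, mul_smul, h]

lemma fx_conj_le (h21 : Nat.card (Sylow 5 G) = 21) (g t : G) : fx t ≤ fx (g * t * g⁻¹) := by
  haveI : Finite (Sylow 5 G) := Nat.finite_of_card_ne_zero (by rw [h21]; norm_num)
  apply Set.ncard_le_ncard_of_injOn (fun R : Sylow 5 G => g • R)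
  · intro R hR
    exact conj_mem_normalizer hR
  · intro R _ R' _ h
    exact smul_left_cancel g h

lemma fx_conj (h21 : Nat.card (Sylow 5 G) = 21) (g t : G) : fx (g * t * g⁻¹) = fx t := by
  apply le_antisymm _ (fx_conj_le h21 g t)
  have h := fx_conj_le h21 g⁻¹ (g * t * g⁻¹)
  have e : g⁻¹ * (g * t * g⁻¹) * g⁻¹⁻¹ = t := by group
  rwa [e] at h

/-- a set of elements closed under conjugation by `P` and missing `C(P)` has size divisible
by 5 -/
lemma dvd_ncard_of_conj_invariant (P : Sylow 5 G) (T : Set G)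
    (hT : ∀ t ∈ T, ∀ x ∈ (P : Subgroup G), x * t * x⁻¹ ∈ T)
    (hC : ∀ t ∈ T, t ∉ centralizer (P : Set G)) : 5 ∣ T.ncard := by
  letI act : MulAction ↥(P : Subgroup G) ↥T :=
    { smul := fun x t => ⟨(x : G) * t * (x : G)⁻¹, hT t t.2 x x.2⟩
      one_smul := fun t => Subtype.ext (by
        show ((1 : ↥(P : Subgroup G)) : G) * t * ((1 : ↥(P : Subgroup G)) : G)⁻¹ = t
        simp)
      mul_smul := fun x y t => Subtype.ext (by
        show ((x * y : ↥(P : Subgroup G)) : G) * t * ((x * y : ↥(P : Subgroup G)) : G)⁻¹ =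
          (x : G) * ((y : G) * t * (y : G)⁻¹) * (x : G)⁻¹
        simp [mul_assoc]) }
  have h1 := P.2.card_modEq_card_fixedPoints ↥T
  have h2 : Nat.card (fixedPoints ↥(P : Subgroup G) ↥T) = 0 := by
    rw [Nat.card_eq_zero]
    left
    constructor
    rintro ⟨⟨t, ht⟩, hfix⟩
    apply hC t ht
    rw [mem_centralizer_iff]
    intro x hx
    have h3 := hfix ⟨x, hx⟩
    have h4 : x * t * x⁻¹ = t := congrArg Subtype.val h3
    calc x * t = x * t * x⁻¹ * x := by group
      _ = t * x := by rw [h4]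
  rw [h2, Nat.card_coe_set_eq] at h1
  exact (Nat.modEq_zero_iff_dvd).mp h1

/-- the involutions normalizing two given Sylow 5-subgroups -/
def Inv2 (R R' : Sylow 5 G) : Set G :=
  {t | orderOf t = 2 ∧ t ∈ normalizer (R : Set G) ∧ t ∈ normalizer (R' : Set G)}

lemma inv2_conj_le (g : G) (R R' : Sylow 5 G) :
    (Inv2 R R').ncard ≤ (Inv2 (g • R) (g • R')).ncard := by
  apply Set.ncard_le_ncard_of_injOn (fun t : G => g * t * g⁻¹)
  · rintro t ⟨h1, h2, h3⟩
    exact ⟨by rw [orderOf_conj', h1], conj_mem_normalizer h2, conj_mem_normalizer h3⟩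
  · intro t _ t' _ h
    have h' : g * t * g⁻¹ = g * t' * g⁻¹ := h
    exact mul_left_cancel (mul_right_cancel h')

lemma inv2_conj (g : G) (R R' : Sylow 5 G) :
    (Inv2 (g • R) (g • R')).ncard = (Inv2 R R').ncard := by
  apply le_antisymm _ (inv2_conj_le g R R')
  have h := inv2_conj_le g⁻¹ (g • R) (g • R')
  rwa [inv_smul_smul, inv_smul_smul] at h

lemma inv2_symm (R R' : Sylow 5 G) : Inv2 R R' = Inv2 R' R := by
  ext t
  constructor <;> rintro ⟨h1, h2, h3⟩ <;> exact ⟨h1, h3, h2⟩

/-- an involution of `N(P)` outside `C(P)` inverts `P` -/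
lemma inverts (h21 : Nat.card (Sylow 5 G) = 21) (hker : ker5 G = ⊥) (P : Sylow 5 G) {t : G}
    (htN : t ∈ normalizer (P : Set G)) (htC : t ∉ centralizer (P : Set G))
    (ht2 : orderOf t = 2) {x : G} (hx : x ∈ (P : Subgroup G)) : t * x * t⁻¹ = x⁻¹ := by
  have htt : t * t = 1 := by
    have := pow_orderOf_eq_one t
    rwa [ht2, pow_two] at this
  have hinv : t⁻¹ = t := inv_eq_of_mul_eq_one_right htt
  have hy : t * x * t⁻¹ ∈ (P : Subgroup G) := (htN x).mp hx
  have hc : x * (t * x * t⁻¹) = (t * x * t⁻¹) * x :=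
    (sylow_le_centralizer h21 hker P hy) x hx
  have hyP : x * (t * x * t⁻¹) ∈ (P : Subgroup G) := mul_mem hx hy
  have hcomm : t * (x * (t * x * t⁻¹)) = (x * (t * x * t⁻¹)) * t := by
    rw [hinv] at hc ⊢
    calc t * (x * (t * x * t)) = t * (t * x * t * x) := by rw [hc]
      _ = (t * t) * x * t * x := by simp only [mul_assoc]
      _ = x * (t * x * (t * t)) := by rw [htt]; simp only [mul_assoc, one_mul, mul_one]
      _ = x * (t * x * t) * t := by simp only [mul_assoc]
  have h1 := eq_one_of_commute h21 hker P htC hyP hcomm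
  exact (eq_inv_of_mul_eq_one_right h1)

/-- there are at most three involutions normalizing two given Sylow 5-subgroups -/
lemma inv2_le (h21 : Nat.card (Sylow 5 G) = 21) (hker : ker5 G = ⊥)
    (hsimple : ∀ M : Subgroup G, M.Normal → M = ⊥ ∨ M = ⊤) (P Q : Sylow 5 G) (hPQ : P ≠ Q) :
    (Inv2 P Q).ncard ≤ 3 := by
  have hnotC : ∀ t ∈ Inv2 P Q, t ∉ centralizer (P : Set G) := by
    rintro t ⟨h1, h2, h3⟩ hC
    have h4 := fx_involution_centralizer h21 hker hsimple P hC h1
    have h5 := two_le_fx h21 P Q hPQ h2 h3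
    omega
  by_cases hne : (Inv2 P Q).Nonempty
  · obtain ⟨t₀, ht₀⟩ := hne
    have h1 : (Inv2 P Q).ncard ≤
        ((centralizer (P : Set G) ⊓ normalizer (Q : Set G) : Subgroup G) : Set G).ncard := by
      apply Set.ncard_le_ncard_of_injOn (fun t : G => t₀ * t)
      · intro t ht
        refine ⟨?_, mul_mem ht₀.2.2 ht.2.2⟩
        show t₀ * t ∈ centralizer (P : Set G)
        rw [mem_centralizer_iff]
        intro x hx
        have e1 := inverts h21 hker P ht.2.1 (hnotC t ht) ht.1 hx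
        have e2 := inverts h21 hker P ht₀.2.1 (hnotC t₀ ht₀) ht₀.1 (inv_mem hx)
        rw [inv_inv] at e2
        have e1' : t * x = x⁻¹ * t := by
          calc t * x = t * x * t⁻¹ * t := by group
            _ = x⁻¹ * t := by rw [e1]
        have e2' : t₀ * x⁻¹ = x * t₀ := by
          calc t₀ * x⁻¹ = t₀ * x⁻¹ * t₀⁻¹ * t₀ := by group
            _ = x * t₀ := by rw [e2]
        calc x * (t₀ * t) = (x * t₀) * t := by rw [mul_assoc]
          _ = t₀ * x⁻¹ * t := by rw [e2']
          _ = t₀ * (x⁻¹ * t) := by rw [mul_assoc]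
          _ = t₀ * (t * x) := by rw [e1']
          _ = t₀ * t * x := by rw [mul_assoc]
      · intro t _ t' _ h
        exact mul_left_cancel h
    have h2 : ((centralizer (P : Set G) ⊓ normalizer (Q : Set G) : Subgroup G) : Set G).ncard =
        Nat.card ↥(centralizer (P : Set G) ⊓ normalizer (Q : Set G)) :=
      (Nat.card_coe_set_eq _).symm
    have h3 := card_inf_cases h21 hker hsimple P Q hPQ
    omega
  · rw [Set.not_nonempty_iff_eq_empty] at hne
    rw [hne, Set.ncard_empty]
    omega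

/-- orbit-stabilizer for a subgroup acting on the Sylow 5-subgroups -/
lemma orbit_mul_card (H : Subgroup G) (Q : Sylow 5 G) :
    (orbit ↥H Q).ncard * Nat.card ↥(H ⊓ normalizer (Q : Set G)) = Nat.card H := by
  rw [ncard_orbit_subgroup, ← Subgroup.inf_relIndex_right, inf_comm]
  have h1 := Subgroup.card_mul_index ((H ⊓ normalizer (Q : Set G)).subgroupOf H)
  rw [Nat.card_congr (Subgroup.subgroupOfEquivOfLe
    (inf_le_left : H ⊓ normalizer (Q : Set G) ≤ _)).toEquiv] at h1
  rw [mul_comm]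
  exact h1

lemma orbit_subset_compl (H : Subgroup G) (P Q : Sylow 5 G) (hH : H ≤ normalizer (P : Set G))
    (hPQ : P ≠ Q) : orbit ↥H Q ⊆ ({P} : Set (Sylow 5 G))ᶜ := by
  intro R hR
  rw [Set.mem_compl_iff, Set.mem_singleton_iff]
  rintro rfl
  exact not_mem_orbit _ R Q hH hPQ hR

end Cfsg.Agent.Lib.Helper99.N5
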