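import Mathlib
import Cfsg.Agent.Lib.Helper99.SylAct
import Cfsg.Agent.Lib.Helper99.SylAct2
import Cfsg.Agent.Lib.Helper99.N5i

set_option autoImplicit false
set_option linter.style.haveILetI false
set_option linter.unusedSectionVars false
set_option linter.unusedVariables false

namespace Cfsg.Agent.Lib.Helper99.N5
open Subgroup MulAction Cfsg.Agent.Lib.Helper99.SylAct

universe u

variable {G : Type u} [Group G] [Finite G]

/-- transitivity of `C(P)` on the other Sylow 5-subgroups -/
lemma exists_centralizer_smul (h21 : Nat.card (Sylow 5 G) = 21) (hker : ker5 G = ⊥)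
    (hsimple : ∀ M : Subgroup G, M.Normal → M = ⊥ ∨ M = ⊤)
    (hC : ∀ P : Sylow 5 G, Nat.card (centralizer (P : Set G)) = 20 ∨
      Nat.card (centralizer (P : Set G)) = 60)
    (P Q R : Sylow 5 G) (hPQ : P ≠ Q) (hPR : P ≠ R) :
    ∃ c ∈ centralizer (P : Set G), c • Q = R := by
  haveI : Finite (Sylow 5 G) := Nat.finite_of_card_ne_zero (by rw [h21]; norm_num)
  have hk := orbit_eq_twenty h21 hker hsimple P Q hPQ (hC P)
  have hsub := orbit_subset_compl (centralizer (P : Set G)) P Q (centralizer_le_normalizer _) hPQ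
  have heq : orbit ↥(centralizer (P : Set G)) Q = ({P} : Set (Sylow 5 G))ᶜ :=
    Set.eq_of_subset_of_ncard_le hsub
      (by rw [hk, Set.ncard_compl, Set.ncard_singleton, h21]) (Set.toFinite _)
  have hR : R ∈ orbit ↥(centralizer (P : Set G)) Q := by
    rw [heq, Set.mem_compl_iff, Set.mem_singleton_iff]
    exact fun h => hPR h.symm
  obtain ⟨c, hc⟩ := hR
  exact ⟨(c : G), c.2, hc⟩

lemma inv2_const (h21 : Nat.card (Sylow 5 G) = 21) (hker : ker5 G = ⊥)
    (hsimple : ∀ M : Subgroup G, M.Normal → M = ⊥ ∨ M = ⊤)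
    (hC : ∀ P : Sylow 5 G, Nat.card (centralizer (P : Set G)) = 20 ∨
      Nat.card (centralizer (P : Set G)) = 60)
    (R R' R₂ R₂' : Sylow 5 G) (h : R ≠ R') (h₂ : R₂ ≠ R₂') :
    (Inv2 R R').ncard = (Inv2 R₂ R₂').ncard := by
  have step : ∀ A B B' : Sylow 5 G, A ≠ B → A ≠ B' →
      (Inv2 A B).ncard = (Inv2 A B').ncard := by
    intro A B B' hAB hAB'
    obtain ⟨c, hc, hcB⟩ := exists_centralizer_smul h21 hker hsimple hC A B B' hAB hAB'
    have hcA : c • A = A :=
      Sylow.smul_eq_iff_mem_normalizer.mpr (centralizer_le_normalizer _ hc)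
    have := inv2_conj c A B
    rw [hcA, hcB] at this
    exact this.symm
  by_cases hRR₂ : R = R₂
  · subst hRR₂
    exact step R R' R₂' h h₂
  · rw [step R R' R₂ h hRR₂, inv2_symm R R₂, step R₂ R R₂' (Ne.symm hRR₂) h₂]

lemma inv2_pos (h21 : Nat.card (Sylow 5 G) = 21) (hker : ker5 G = ⊥)
    (hsimple : ∀ M : Subgroup G, M.Normal → M = ⊥ ∨ M = ⊤)
    (hC : ∀ P : Sylow 5 G, Nat.card (centralizer (P : Set G)) = 20 ∨
      Nat.card (centralizer (P : Set G)) = 60)
    (P Q : Sylow 5 G) (hPQ : P ≠ Q) : 0 < (Inv2 P Q).ncard := by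
  haveI : Finite (Sylow 5 G) := Nat.finite_of_card_ne_zero (by rw [h21]; norm_num)
  have h1 := orbit_mul_card (normalizer (P : Set G)) Q
  have h2 := card_normalizer h21 P
  have hd := dvd_four_cases (relIndex_dvd_four h21 hker P) (relIndex_ne_one h21 hker hsimple P)
  have hk : (orbit ↥(normalizer (P : Set G)) Q).ncard = 20 := by
    apply le_antisymm
    · have hsub := orbit_subset_compl (normalizer (P : Set G)) P Q le_rfl hPQ
      have := Set.ncard_le_ncard hsub (Set.toFinite _)
      rwa [Set.ncard_compl, Set.ncard_singleton, h21] at this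
    · rw [← orbit_eq_twenty h21 hker hsimple P Q hPQ (hC P)]
      apply Set.ncard_le_ncard _ (Set.toFinite _)
      rintro R ⟨c, rfl⟩
      exact ⟨⟨(c : G), centralizer_le_normalizer _ c.2⟩, rfl⟩
  rw [hk, h2] at h1
  have h2dvd : 2 ∣ Nat.card ↥(normalizer (P : Set G) ⊓ normalizer (Q : Set G)) := by
    rcases hC P with h | h <;> rw [h] at h1 <;> rcases hd with h' | h' <;> rw [h'] at h1 <;>
      omega
  obtain ⟨t, ht⟩ := exists_prime_orderOf_dvd_card' 2 h2dvd
  rw [Set.ncard_pos (Set.toFinite _)]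
  exact ⟨(t : G), by rw [Subgroup.orderOf_coe, ht], t.2.1, t.2.2⟩

/-- double counting of (involution, pair of fixed points) -/
lemma double_count (h21 : Nat.card (Sylow 5 G) = 21) (hker : ker5 G = ⊥)
    (hsimple : ∀ M : Subgroup G, M.Normal → M = ⊥ ∨ M = ⊤) (ι : ℕ)
    (hι : ∀ R R' : Sylow 5 G, R ≠ R' → (Inv2 R R').ncard = ι) :
    20 * {t : G | orderOf t = 2 ∧ fx t = 5}.ncard = 420 * ι := by
  classical
  haveI : Finite (Sylow 5 G) := Nat.finite_of_card_ne_zero (by rw [h21]; norm_num)
  letI : Fintype (Sylow 5 G) := Fintype.ofFinite _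
  letI : Fintype G := Fintype.ofFinite G
  let A : Finset G := Finset.univ.filter (fun t => orderOf t = 2 ∧ fx t = 5)
  let B : Finset (Sylow 5 G × Sylow 5 G) := (Finset.univ : Finset (Sylow 5 G)).offDiag
  let r : G → Sylow 5 G × Sylow 5 G → Prop := fun t p => t • p.1 = p.1 ∧ t • p.2 = p.2
  have key := Finset.sum_card_bipartiteAbove_eq_sum_card_bipartiteBelow (s := A) (t := B) r
  have hL : ∀ t ∈ A, (B.bipartiteAbove r t).card = 20 := by
    intro t ht
    have ht' : orderOf t = 2 ∧ fx t = 5 := by simpa [A] using ht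
    have hfix : (Finset.univ.filter (fun R : Sylow 5 G => t • R = R)).card = fx t := by
      unfold fx
      rw [Set.ncard_eq_toFinset_card']
      congr 1
      ext R
      simp [mem_Fx]
    have hset : B.bipartiteAbove r t =
        (Finset.univ.filter (fun R : Sylow 5 G => t • R = R)).offDiag := by
      ext ⟨R, R'⟩
      simp only [Finset.mem_bipartiteAbove, B, r, Finset.mem_offDiag, Finset.mem_univ, true_and,
        Finset.mem_filter]
      tauto
    rw [hset, Finset.offDiag_card, hfix, ht'.2]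
  have hR : ∀ p ∈ B, (A.bipartiteBelow r p).card = ι := by
    rintro ⟨R, R'⟩ hp
    have hne : R ≠ R' := by simpa [B] using hp
    rw [← hι R R' hne, Set.ncard_eq_toFinset_card']
    congr 1
    ext t
    simp only [Finset.mem_bipartiteBelow, Finset.mem_filter, A, Finset.mem_univ, true_and,
      Set.mem_toFinset, r]
    constructor
    · rintro ⟨⟨h2, _⟩, h3, h4⟩
      exact ⟨h2, Sylow.smul_eq_iff_mem_normalizer.mp h3, Sylow.smul_eq_iff_mem_normalizer.mp h4⟩
    · rintro ⟨h2, h3, h4⟩
      refine ⟨⟨h2, ?_⟩, Sylow.smul_eq_iff_mem_normalizer.mpr h3,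
        Sylow.smul_eq_iff_mem_normalizer.mpr h4⟩
      have e1 := fx_involution h21 hker hsimple h2
      have e2 := two_le_fx h21 R R' hne h3 h4
      omega
  rw [Finset.sum_congr rfl hL, Finset.sum_congr rfl hR, Finset.sum_const, Finset.sum_const,
    smul_eq_mul, smul_eq_mul] at key
  have hB : B.card = 420 := by
    show ((Finset.univ : Finset (Sylow 5 G)).offDiag).card = 420
    rw [Finset.offDiag_card, Finset.card_univ, ← Nat.card_eq_fintype_card, h21]
  have hA : A.card = {t : G | orderOf t = 2 ∧ fx t = 5}.ncard := by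
    rw [Set.ncard_eq_toFinset_card']
    congr 1
    ext t
    simp [A]
  rw [hB, hA] at key
  omega

/-- the case where every `C(P)` is transitive on the other Sylow 5-subgroups -/
theorem two_transitive_contra (h21 : Nat.card (Sylow 5 G) = 21) (hker : ker5 G = ⊥)
    (hsimple : ∀ M : Subgroup G, M.Normal → M = ⊥ ∨ M = ⊤)
    (hC : ∀ P : Sylow 5 G, Nat.card (centralizer (P : Set G)) = 20 ∨
      Nat.card (centralizer (P : Set G)) = 60) : False := by
  haveI : Finite (Sylow 5 G) := Nat.finite_of_card_ne_zero (by rw [h21]; norm_num)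
  obtain ⟨P⟩ : Nonempty (Sylow 5 G) := inferInstance
  obtain ⟨Q, hQ⟩ := exists_ne h21 P
  have hPQ : P ≠ Q := Ne.symm hQ
  have h1 := inv2_pos h21 hker hsimple hC P Q hPQ
  have h2 := inv2_le h21 hker hsimple P Q hPQ
  have h3 := double_count h21 hker hsimple (Inv2 P Q).ncard
    (fun R R' h => inv2_const h21 hker hsimple hC R R' P Q h hPQ)
  have h4 : 5 ∣ {t : G | orderOf t = 2 ∧ fx t = 5}.ncard := by
    apply dvd_ncard_of_conj_invariant P
    · rintro t ⟨ht1, ht2⟩ x hx
      exact ⟨by rw [orderOf_conj', ht1], by rw [fx_conj h21, ht2]⟩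
    · rintro t ⟨ht1, ht2⟩ htC
      have := fx_involution_centralizer h21 hker hsimple P htC ht1
      omega
  omega

theorem contradiction (h21 : Nat.card (Sylow 5 G) = 21) (hmin : MinHyp G) : False := by
  have hker := ker5_eq_bot h21 hmin
  have hsimple : ∀ M : Subgroup G, M.Normal → M = ⊥ ∨ M = ⊤ :=
    fun M hM => normal_eq_bot_or_top h21 hmin hker M hM
  have hC : ∀ P : Sylow 5 G, Nat.card (centralizer (P : Set G)) = 20 ∨
      Nat.card (centralizer (P : Set G)) = 60 := by
    intro P
    rcases card_centralizer_cases h21 hker hsimple P with h | h | h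
    · left; exact h
    · exact absurd h (centralizer_ne_thirty h21 hker hsimple P)
    · right; exact h
  exact two_transitive_contra h21 hker hsimple hC

/-- no finite group has exactly 21 Sylow 5-subgroups -/
theorem card_sylow5_ne_21 (n : ℕ) :
    ∀ (G : Type u) [Group G] [Finite G], Nat.card G = n → Nat.card (Sylow 5 G) ≠ 21 := by
  induction n using Nat.strong_induction_on with
  | _ n ih =>
    intro G _ _ hn h21
    apply contradiction h21
    intro H _ _ hlt
    exact ih (Nat.card H) (hn ▸ hlt) H rfl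

end Cfsg.Agent.Lib.Helper99.N5
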