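import Cfsg.Agent.S3993
import Cfsg.Agent.Lib.Helper99.NseA

/-!
# The same-order counts of a finite group form a `Model` (helper99)
-/

set_option autoImplicit false
set_option linter.unusedSectionVars false

namespace Cfsg.Agent.Lib.Helper99.Nse

open Finset

/-- number of elements of order `m` -/
noncomputable def cnt (G : Type*) [Group G] (m : ℕ) : ℕ := Nat.card {g : G // orderOf g = m}

variable {G : Type*} [Group G] [Finite G]

theorem cnt_ne_zero_iff {m : ℕ} : cnt G m ≠ 0 ↔ ∃ g : G, orderOf g = m := by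
  unfold cnt
  rw [Nat.card_ne_zero]
  constructor
  · rintro ⟨⟨g, hg⟩, _⟩
    exact ⟨g, hg⟩
  · rintro ⟨g, hg⟩
    exact ⟨⟨⟨g, hg⟩⟩, inferInstance⟩

theorem cnt_eq_card_filter [Fintype G] [DecidableEq G] (m : ℕ) :
    cnt G m = (Finset.univ.filter (fun g : G => orderOf g = m)).card := by
  unfold cnt
  rw [Nat.card_eq_fintype_card, Fintype.card_subtype]

theorem cnt_one : cnt G 1 = 1 := by
  unfold cnt
  rw [Nat.card_eq_one_iff_unique]
  refine ⟨⟨fun a b => ?_⟩, ⟨⟨1, orderOf_one⟩⟩⟩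
  ext
  rw [orderOf_eq_one_iff.mp a.2, orderOf_eq_one_iff.mp b.2]

theorem totient_dvd_cnt (m : ℕ) : Nat.totient m ∣ cnt G m := by
  have h := Cfsg.Agent.S3993.dvd_card_of_totient (G := G) {x : G | orderOf x = m} (Nat.totient m)
    (fun x y hxy hx => by
      simp only [Set.mem_ofPred_eq] at hx ⊢
      rw [← Nat.card_zpowers, ← hxy, Nat.card_zpowers, hx])
    (fun x hx => by
      simp only [Set.mem_ofPred_eq] at hx
      rw [hx])
  exact h

theorem sum_cnt_eq (m : ℕ) (hm : m ≠ 0) :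
    ∑ d ∈ m.divisors, cnt G d = Nat.card {g : G // g ^ m = 1} := by
  classical
  let _ := Fintype.ofFinite G
  rw [Nat.card_eq_fintype_card, Fintype.card_subtype,
    Finset.sum_congr rfl (fun d _ => cnt_eq_card_filter d)]
  convert sum_card_orderOf_eq_card_pow_eq_one (G := G) hm

theorem cnt_frob (m : ℕ) (hm : m ∣ Nat.card G) : m ∣ ∑ d ∈ m.divisors, cnt G d := by
  have hm0 : m ≠ 0 := by
    rintro rfl
    exact Nat.card_pos.ne' (Nat.eq_zero_of_zero_dvd hm)
  rw [sum_cnt_eq m hm0]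
  exact Cfsg.Agent.S3993.result m hm

theorem cnt_total : ∑ d ∈ (Nat.card G).divisors, cnt G d = Nat.card G := by
  rw [sum_cnt_eq _ Nat.card_pos.ne']
  exact Nat.card_congr
    { toFun := fun g => g.1
      invFun := fun g => ⟨g, pow_card_eq_one'⟩
      left_inv := fun g => rfl
      right_inv := fun g => rfl }

theorem cnt_down (m d : ℕ) (h : cnt G m ≠ 0) (hd : d ∣ m) : cnt G d ≠ 0 := by
  rw [cnt_ne_zero_iff] at h ⊢
  obtain ⟨g, rfl⟩ := h
  exact ⟨g ^ (orderOf g / d), orderOf_pow_orderOf_div (orderOf_pos g).ne' hd⟩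

theorem cnt_dvd (m : ℕ) (h : cnt G m ≠ 0) : m ∣ Nat.card G := by
  rw [cnt_ne_zero_iff] at h
  obtain ⟨g, rfl⟩ := h
  exact orderOf_dvd_natCard g

theorem model_of_image (V : List ℕ)
    (hV : (cnt G '' Set.range (orderOf : G → ℕ)) = {v | v ∈ V}) :
    Model (Nat.card G) (cnt G) V where
  pos := Nat.card_pos
  one := cnt_one
  tot := totient_dvd_cnt
  frob := cnt_frob
  total := cnt_total
  down := cnt_down
  dvd := cnt_dvd
  mem := fun m hm => by
    have h1 : cnt G m ∈ (cnt G '' Set.range (orderOf : G → ℕ)) := by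
      obtain ⟨g, hg⟩ := cnt_ne_zero_iff.mp hm
      exact ⟨m, ⟨g, hg⟩, rfl⟩
    rw [hV] at h1
    exact h1
  attained := fun v hv => by
    have h1 : v ∈ (cnt G '' Set.range (orderOf : G → ℕ)) := by
      rw [hV]
      exact hv
    obtain ⟨m, ⟨g, hg⟩, rfl⟩ := h1
    exact ⟨cnt_ne_zero_iff.mpr ⟨g, hg⟩, m, rfl⟩

end Cfsg.Agent.Lib.Helper99.Nse
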