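import Cfsg.Agent.Lib.Helper99.NseC

/-!
# Same-order counts of A₄ and A₅ (helper99)
-/

set_option autoImplicit false
set_option linter.unusedSectionVars false

namespace Cfsg.Agent.Lib.Helper99.Nse

open Finset Equiv

theorem cntA (n m : ℕ) : cnt (alternatingGroup (Fin n)) m =
    (Finset.univ.filter (fun σ : Perm (Fin n) => Perm.sign σ = 1 ∧ orderOf σ = m)).card := by
  unfold cnt
  have e : {g : alternatingGroup (Fin n) // orderOf g = m} ≃
      {σ : Perm (Fin n) // Perm.sign σ = 1 ∧ orderOf σ = m} :=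
    { toFun := fun g => ⟨g.1.1, Equiv.Perm.mem_alternatingGroup.mp g.1.2, by
        rw [Subgroup.orderOf_coe]; exact g.2⟩
      invFun := fun σ => ⟨⟨σ.1, Equiv.Perm.mem_alternatingGroup.mpr σ.2.1⟩, by
        rw [← Subgroup.orderOf_coe]; exact σ.2.2⟩
      left_inv := fun g => rfl
      right_inv := fun σ => rfl }
  rw [Nat.card_congr e, Nat.card_eq_fintype_card, Fintype.card_subtype]

theorem orderOf_eq_four_iff {M : Type*} [Monoid M] (x : M) :
    orderOf x = 4 ↔ x ^ 4 = 1 ∧ x ^ 2 ≠ 1 := by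
  constructor
  · intro h
    refine ⟨by rw [← h, pow_orderOf_eq_one], fun h2 => ?_⟩
    have := orderOf_dvd_of_pow_eq_one h2
    rw [h] at this
    omega
  · rintro ⟨h4, h2⟩
    have : Fact (Nat.Prime 2) := ⟨Nat.prime_two⟩
    exact orderOf_eq_prime_pow (p := 2) (n := 1) (by simpa using h2) (by simpa using h4)

theorem cntA_prime (n p : ℕ) [Fact p.Prime] : cnt (alternatingGroup (Fin n)) p =
    (Finset.univ.filter (fun σ : Perm (Fin n) => Perm.sign σ = 1 ∧ σ ^ p = 1 ∧ σ ≠ 1)).card := by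
  rw [cntA]
  congr 1
  apply Finset.filter_congr
  intro σ _
  rw [orderOf_eq_prime_iff]

theorem cntA_four (n : ℕ) : cnt (alternatingGroup (Fin n)) 4 =
    (Finset.univ.filter (fun σ : Perm (Fin n) => Perm.sign σ = 1 ∧ σ ^ 4 = 1 ∧ σ ^ 2 ≠ 1)).card := by
  rw [cntA]
  congr 1
  apply Finset.filter_congr
  intro σ _
  rw [orderOf_eq_four_iff]

/-! ### A₄ -/

set_option maxRecDepth 100000 in
theorem d4_2 : (Finset.univ.filter (fun σ : Perm (Fin 4) =>
    Perm.sign σ = 1 ∧ σ ^ 2 = 1 ∧ σ ≠ 1)).card = 3 := by decide +kernel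

set_option maxRecDepth 100000 in
theorem d4_3 : (Finset.univ.filter (fun σ : Perm (Fin 4) =>
    Perm.sign σ = 1 ∧ σ ^ 3 = 1 ∧ σ ≠ 1)).card = 8 := by decide +kernel

set_option maxRecDepth 100000 in
theorem d4_all : ∀ σ : Perm (Fin 4), Perm.sign σ = 1 → σ ^ 2 = 1 ∨ σ ^ 3 = 1 := by
  decide +kernel

theorem orderOf_dvd_prime_cases {M : Type*} [Monoid M] (x : M) (p : ℕ) (hp : p.Prime)
    (h : x ^ p = 1) : orderOf x = 1 ∨ orderOf x = p :=
  (Nat.dvd_prime hp).mp (orderOf_dvd_of_pow_eq_one h)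

theorem nse4 : (cnt (alternatingGroup (Fin 4)) '' Set.range (orderOf : alternatingGroup (Fin 4) → ℕ))
    = {v | v ∈ [1, 3, 8]} := by
  have : Fact (Nat.Prime 2) := ⟨Nat.prime_two⟩
  have : Fact (Nat.Prime 3) := ⟨Nat.prime_three⟩
  have c2 : cnt (alternatingGroup (Fin 4)) 2 = 3 := by rw [cntA_prime, d4_2]
  have c3 : cnt (alternatingGroup (Fin 4)) 3 = 8 := by rw [cntA_prime, d4_3]
  ext v
  constructor
  · rintro ⟨m, ⟨g, rfl⟩, rfl⟩
    have hg := d4_all g.1 (Equiv.Perm.mem_alternatingGroup.mp g.2)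
    rw [← Subgroup.orderOf_coe]
    rcases hg with hg | hg
    · rcases orderOf_dvd_prime_cases _ 2 Nat.prime_two hg with h | h <;> rw [h]
      · simp [cnt_one]
      · simp [c2]
    · rcases orderOf_dvd_prime_cases _ 3 Nat.prime_three hg with h | h <;> rw [h]
      · simp [cnt_one]
      · simp [c3]
  · intro hv
    simp only [Set.mem_ofPred_eq, List.mem_cons, List.not_mem_nil, or_false] at hv
    rcases hv with rfl | rfl | rfl
    · exact ⟨1, ⟨1, orderOf_one⟩, cnt_one⟩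
    · exact ⟨2, cnt_ne_zero_iff.mp (by rw [c2]; norm_num), c2⟩
    · exact ⟨3, cnt_ne_zero_iff.mp (by rw [c3]; norm_num), c3⟩

/-! ### A₅ -/

set_option maxRecDepth 100000 in
theorem d5_2 : (Finset.univ.filter (fun σ : Perm (Fin 5) =>
    Perm.sign σ = 1 ∧ σ ^ 2 = 1 ∧ σ ≠ 1)).card = 15 := by decide +kernel

set_option maxRecDepth 100000 in
theorem d5_3 : (Finset.univ.filter (fun σ : Perm (Fin 5) =>
    Perm.sign σ = 1 ∧ σ ^ 3 = 1 ∧ σ ≠ 1)).card = 20 := by decide +kernel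

set_option maxRecDepth 100000 in
theorem d5_5 : (Finset.univ.filter (fun σ : Perm (Fin 5) =>
    Perm.sign σ = 1 ∧ σ ^ 5 = 1 ∧ σ ≠ 1)).card = 24 := by decide +kernel

set_option maxRecDepth 100000 in
theorem d5_all : ∀ σ : Perm (Fin 5), Perm.sign σ = 1 → σ ^ 2 = 1 ∨ σ ^ 3 = 1 ∨ σ ^ 5 = 1 := by
  decide +kernel

theorem nse5 : (cnt (alternatingGroup (Fin 5)) '' Set.range (orderOf : alternatingGroup (Fin 5) → ℕ))
    = {v | v ∈ [1, 15, 20, 24]} := by
  have : Fact (Nat.Prime 2) := ⟨Nat.prime_two⟩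
  have : Fact (Nat.Prime 3) := ⟨Nat.prime_three⟩
  have : Fact (Nat.Prime 5) := ⟨Nat.prime_five⟩
  have c2 : cnt (alternatingGroup (Fin 5)) 2 = 15 := by rw [cntA_prime, d5_2]
  have c3 : cnt (alternatingGroup (Fin 5)) 3 = 20 := by rw [cntA_prime, d5_3]
  have c5 : cnt (alternatingGroup (Fin 5)) 5 = 24 := by rw [cntA_prime, d5_5]
  ext v
  constructor
  · rintro ⟨m, ⟨g, rfl⟩, rfl⟩
    have hg := d5_all g.1 (Equiv.Perm.mem_alternatingGroup.mp g.2)
    rw [← Subgroup.orderOf_coe]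
    rcases hg with hg | hg | hg
    · rcases orderOf_dvd_prime_cases _ 2 Nat.prime_two hg with h | h <;> rw [h]
      · simp [cnt_one]
      · simp [c2]
    · rcases orderOf_dvd_prime_cases _ 3 Nat.prime_three hg with h | h <;> rw [h]
      · simp [cnt_one]
      · simp [c3]
    · rcases orderOf_dvd_prime_cases _ 5 Nat.prime_five hg with h | h <;> rw [h]
      · simp [cnt_one]
      · simp [c5]
  · intro hv
    simp only [Set.mem_ofPred_eq, List.mem_cons, List.not_mem_nil, or_false] at hv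
    rcases hv with rfl | rfl | rfl | rfl
    · exact ⟨1, ⟨1, orderOf_one⟩, cnt_one⟩
    · exact ⟨2, cnt_ne_zero_iff.mp (by rw [c2]; norm_num), c2⟩
    · exact ⟨3, cnt_ne_zero_iff.mp (by rw [c3]; norm_num), c3⟩
    · exact ⟨5, cnt_ne_zero_iff.mp (by rw [c5]; norm_num), c5⟩

end Cfsg.Agent.Lib.Helper99.Nse
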