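import Cfsg.Agent.Lib.Helper99.NseD

/-!
# Same-order counts of A₆ (helper99)
-/

set_option autoImplicit false
set_option linter.unusedSectionVars false

namespace Cfsg.Agent.Lib.Helper99.Nse

open Finset Equiv

set_option maxRecDepth 100000 in
theorem d6_2 : (Finset.univ.filter (fun σ : Perm (Fin 6) =>
    Perm.sign σ = 1 ∧ σ ^ 2 = 1 ∧ σ ≠ 1)).card = 45 := by decide +kernel

set_option maxRecDepth 100000 in
theorem d6_3 : (Finset.univ.filter (fun σ : Perm (Fin 6) =>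
    Perm.sign σ = 1 ∧ σ ^ 3 = 1 ∧ σ ≠ 1)).card = 80 := by decide +kernel

set_option maxRecDepth 100000 in
theorem d6_4 : (Finset.univ.filter (fun σ : Perm (Fin 6) =>
    Perm.sign σ = 1 ∧ σ ^ 4 = 1 ∧ σ ^ 2 ≠ 1)).card = 90 := by decide +kernel

set_option maxRecDepth 100000 in
theorem d6_5 : (Finset.univ.filter (fun σ : Perm (Fin 6) =>
    Perm.sign σ = 1 ∧ σ ^ 5 = 1 ∧ σ ≠ 1)).card = 144 := by decide +kernel

set_option maxRecDepth 100000 in
theorem d6_all : ∀ σ : Perm (Fin 6), Perm.sign σ = 1 → σ ^ 4 = 1 ∨ σ ^ 3 = 1 ∨ σ ^ 5 = 1 := by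
  decide +kernel

theorem orderOf_dvd_four_cases {M : Type*} [Monoid M] (x : M) (h : x ^ 4 = 1) :
    orderOf x = 1 ∨ orderOf x = 2 ∨ orderOf x = 4 := by
  have h1 : orderOf x ∣ 2 ^ 2 := orderOf_dvd_of_pow_eq_one h
  obtain ⟨k, hk, hk2⟩ := (Nat.dvd_prime_pow Nat.prime_two).mp h1
  interval_cases k <;> simp [hk2]

theorem nse6 : (cnt (alternatingGroup (Fin 6)) '' Set.range (orderOf : alternatingGroup (Fin 6) → ℕ))
    = {v | v ∈ [1, 45, 80, 90, 144]} := by
  have : Fact (Nat.Prime 2) := ⟨Nat.prime_two⟩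
  have : Fact (Nat.Prime 3) := ⟨Nat.prime_three⟩
  have : Fact (Nat.Prime 5) := ⟨Nat.prime_five⟩
  have c2 : cnt (alternatingGroup (Fin 6)) 2 = 45 := by rw [cntA_prime, d6_2]
  have c3 : cnt (alternatingGroup (Fin 6)) 3 = 80 := by rw [cntA_prime, d6_3]
  have c4 : cnt (alternatingGroup (Fin 6)) 4 = 90 := by rw [cntA_four, d6_4]
  have c5 : cnt (alternatingGroup (Fin 6)) 5 = 144 := by rw [cntA_prime, d6_5]
  ext v
  constructor
  · rintro ⟨m, ⟨g, rfl⟩, rfl⟩
    have hg := d6_all g.1 (Equiv.Perm.mem_alternatingGroup.mp g.2)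
    rw [← Subgroup.orderOf_coe]
    rcases hg with hg | hg | hg
    · rcases orderOf_dvd_four_cases _ hg with h | h | h <;> rw [h]
      · simp [cnt_one]
      · simp [c2]
      · simp [c4]
    · rcases orderOf_dvd_prime_cases _ 3 Nat.prime_three hg with h | h <;> rw [h]
      · simp [cnt_one]
      · simp [c3]
    · rcases orderOf_dvd_prime_cases _ 5 Nat.prime_five hg with h | h <;> rw [h]
      · simp [cnt_one]
      · simp [c5]
  · intro hv
    simp only [Set.mem_ofPred_eq, List.mem_cons, List.not_mem_nil, or_false] at hv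
    rcases hv with rfl | rfl | rfl | rfl | rfl
    · exact ⟨1, ⟨1, orderOf_one⟩, cnt_one⟩
    · exact ⟨2, cnt_ne_zero_iff.mp (by rw [c2]; norm_num), c2⟩
    · exact ⟨3, cnt_ne_zero_iff.mp (by rw [c3]; norm_num), c3⟩
    · exact ⟨4, cnt_ne_zero_iff.mp (by rw [c4]; norm_num), c4⟩
    · exact ⟨5, cnt_ne_zero_iff.mp (by rw [c5]; norm_num), c5⟩

end Cfsg.Agent.Lib.Helper99.Nse
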