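import Cfsg.Agent.S0228
import Cfsg.Agent.S0494
import Cfsg.Agent.S0497
import Cfsg.Agent.Lib.Helper99.NseB
import Cfsg.Agent.Lib.Helper99.NseE

/-!
# Groups with the same-order counts of A₄, A₅, A₆ (helper99)
-/

set_option autoImplicit false
set_option linter.unusedSectionVars false

namespace Cfsg.Agent.Lib.Helper99.Nse

open Finset

/-! ### reading off values from a model of known order -/

theorem mem_or_zero {N : ℕ} {s : ℕ → ℕ} {V : List ℕ} (h : Model N s V) (m : ℕ) :
    s m = 0 ∨ s m ∈ V := by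
  by_cases h0 : s m = 0
  · exact Or.inl h0
  · exact Or.inr (h.mem m h0)

theorem sum_divs {N : ℕ} {s : ℕ → ℕ} {V : List ℕ} (h : Model N s V) :
    ((divs N).map s).sum = N := by
  rw [← List.sum_toFinset s ((divs_sorted N).imp (fun h => h.ne))]
  have h3 : (divs N).toFinset = N.divisors := by
    ext k
    rw [List.mem_toFinset, mem_divs h.pos, Nat.mem_divisors]
    exact ⟨fun hk => ⟨hk, h.pos.ne'⟩, fun hk => hk.1⟩
  rw [h3, h.total]

theorem frob_prime {N : ℕ} {s : ℕ → ℕ} {V : List ℕ} (h : Model N s V) (p : ℕ) (hp : p.Prime)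
    (hpN : p ∣ N) : p ∣ 1 + s p := by
  have h1 := h.frob p hpN
  rwa [Nat.Prime.divisors hp, Finset.sum_pair hp.one_lt.ne, h.one] at h1

theorem frob4 {N : ℕ} {s : ℕ → ℕ} {V : List ℕ} (h : Model N s V) (hN : 4 ∣ N) :
    4 ∣ 1 + s 2 + s 4 := by
  have h1 := h.frob 4 hN
  rw [show Nat.divisors 4 = {1, 2, 4} from by decide] at h1
  simp [Finset.sum_insert, h.one] at h1
  omega

theorem frob8 {N : ℕ} {s : ℕ → ℕ} {V : List ℕ} (h : Model N s V) (hN : 8 ∣ N) :
    8 ∣ 1 + s 2 + s 4 + s 8 := by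
  have h1 := h.frob 8 hN
  rw [show Nat.divisors 8 = {1, 2, 4, 8} from by decide] at h1
  simp [Finset.sum_insert, h.one] at h1
  omega

theorem sub_sum_le {N : ℕ} {s : ℕ → ℕ} {V : List ℕ} (h : Model N s V) (l : List ℕ)
    (hl : l.Sublist (divs N)) : (l.map s).sum ≤ N := by
  have h1 := List.Sublist.sum_le_sum (List.Sublist.map s hl) (fun a _ => Nat.zero_le a)
  rwa [sum_divs h] at h1

theorem vals12 {s : ℕ → ℕ} (h : Model 12 s [1, 3, 8]) : s 3 = 8 ∧ s 6 = 0 := by
  have e3 := mem_or_zero h 3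
  have e6 := mem_or_zero h 6
  simp only [List.mem_cons, List.not_mem_nil, or_false] at e3 e6
  have f2 := frob_prime h 2 Nat.prime_two (by norm_num)
  have f3 := frob_prime h 3 Nat.prime_three (by norm_num)
  have t6 := h.tot 6
  rw [show Nat.totient 6 = 2 from by decide] at t6
  have tt := sub_sum_le h [1, 2, 3, 6] (by decide +kernel)
  simp only [List.map_cons, List.map_nil, List.sum_cons, List.sum_nil, h.one] at tt
  have h3 : s 3 = 8 := by clear e6 tt t6 f2; omega
  refine ⟨h3, ?_⟩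
  clear e3 f3
  omega

theorem vals60 {s : ℕ → ℕ} (h : Model 60 s [1, 15, 20, 24]) :
    s 3 = 20 ∧ s 5 = 24 ∧ s 10 = 0 ∧ s 15 = 0 := by
  have e2 := mem_or_zero h 2
  have e3 := mem_or_zero h 3
  have e4 := mem_or_zero h 4
  have e5 := mem_or_zero h 5
  simp only [List.mem_cons, List.not_mem_nil, or_false] at e2 e3 e4 e5
  have f2 := frob_prime h 2 Nat.prime_two (by norm_num)
  have f3 := frob_prime h 3 Nat.prime_three (by norm_num)
  have f5 := frob_prime h 5 Nat.prime_five (by norm_num)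
  have f4 := frob4 h (by norm_num)
  have t4 := h.tot 4
  rw [show Nat.totient 4 = 2 from by decide] at t4
  have tt := sub_sum_le h [1, 2, 3, 5, 10, 15] (by decide +kernel)
  simp only [List.map_cons, List.map_nil, List.sum_cons, List.sum_nil, h.one] at tt
  have h3 : s 3 = 20 := by clear e2 e4 e5 tt f2 f5 f4 t4; omega
  have h5 : s 5 = 24 := by clear e2 e3 e4 tt f2 f3 f4 t4; omega
  have h2 : s 2 = 15 := by clear e3 e5 tt f3 f5; omega
  clear e2 e3 e4 e5 f2 f3 f5 f4 t4
  refine ⟨h3, h5, ?_, ?_⟩ <;> omega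

theorem vals360 {s : ℕ → ℕ} (h : Model 360 s [1, 45, 80, 90, 144]) :
    s 3 = 80 ∧ s 5 = 144 ∧ s 10 = 0 ∧ s 15 = 0 := by
  have e2 := mem_or_zero h 2
  have e3 := mem_or_zero h 3
  have e4 := mem_or_zero h 4
  have e5 := mem_or_zero h 5
  have e8 := mem_or_zero h 8
  simp only [List.mem_cons, List.not_mem_nil, or_false] at e2 e3 e4 e5 e8
  have f2 := frob_prime h 2 Nat.prime_two (by norm_num)
  have f3 := frob_prime h 3 Nat.prime_three (by norm_num)
  have f5 := frob_prime h 5 Nat.prime_five (by norm_num)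
  have f4 := frob4 h (by norm_num)
  have f8 := frob8 h (by norm_num)
  have t4 := h.tot 4
  rw [show Nat.totient 4 = 2 from by decide] at t4
  have t8 := h.tot 8
  rw [show Nat.totient 8 = 4 from by decide] at t8
  have tt := sub_sum_le h [1, 2, 3, 4, 5, 10, 15] (by decide +kernel)
  simp only [List.map_cons, List.map_nil, List.sum_cons, List.sum_nil, h.one] at tt
  have h3 : s 3 = 80 := by clear e2 e4 e5 e8 tt f2 f5 f4 f8 t4 t8; omega
  have h5 : s 5 = 144 := by clear e2 e3 e4 e8 tt f2 f3 f4 f8 t4 t8; omega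
  have h24 : s 2 = 45 ∧ s 4 = 90 := by clear e3 e5 tt f3 f5; omega
  clear e2 e3 e4 e5 e8 f2 f3 f5 f4 f8 t4 t8
  refine ⟨h3, h5, ?_, ?_⟩ <;> omega

/-! ### group theory -/

variable {G : Type*} [Group G] [Finite G]

theorem iso_A4 (hG : Nat.card G = 12) (h3 : cnt G 3 ≠ 0) (h6 : cnt G 6 = 0) :
    Nonempty (G ≃* alternatingGroup (Fin 4)) := by
  apply Cfsg.Agent.S0228.result hG
  intro z hz hzc
  obtain ⟨x, hx⟩ := cnt_ne_zero_iff.mp h3
  have hc : Commute z x := (Subgroup.mem_center_iff.mp hzc x).symm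
  have h1 := hc.orderOf_mul_eq_mul_orderOf_of_coprime (by rw [hz, hx]; decide)
  rw [hz, hx] at h1
  exact (cnt_ne_zero_iff.mpr ⟨z * x, h1⟩) h6

/-- in a normal subgroup of order divisible by `p` (with `p² ∤ |G|`) lie all elements of order `p` -/
theorem mem_normal_of_orderOf_eq {p : ℕ} [Fact p.Prime] (K : Subgroup G) [K.Normal]
    (hpK : p ∣ Nat.card K) (hp2 : ¬ p ^ 2 ∣ Nat.card G) (x : G) (hx : orderOf x = p) : x ∈ K := by
  have hp : p.Prime := Fact.out
  obtain ⟨y, hy⟩ := exists_prime_orderOf_dvd_card' p hpK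
  have hy' : orderOf (y : G) = p := by rw [Subgroup.orderOf_coe]; exact hy
  have key : ∀ z : G, orderOf z = p → ∃ P : Sylow p G, (P : Subgroup G) = Subgroup.zpowers z := by
    intro z hz
    have hpg : IsPGroup p (Subgroup.zpowers z) :=
      IsPGroup.of_card (n := 1) (by rw [Nat.card_zpowers, hz, pow_one])
    obtain ⟨P, hP⟩ := hpg.exists_le_sylow
    refine ⟨P, ?_⟩
    obtain ⟨n, hn⟩ := IsPGroup.iff_card.mp P.2
    have h1 : p ∣ Nat.card P := by
      have := Subgroup.card_dvd_of_le hP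
      rwa [Nat.card_zpowers, hz] at this
    have h2 : n = 1 := by
      have hn1 : n ≠ 0 := by
        rintro rfl
        rw [hn, pow_zero] at h1
        exact hp.one_lt.ne' (Nat.dvd_one.mp h1)
      have hn2 : n < 2 := by
        by_contra hge
        push Not at hge
        apply hp2
        calc p ^ 2 ∣ p ^ n := pow_dvd_pow p hge
          _ ∣ Nat.card G := hn ▸ Subgroup.card_subgroup_dvd_card (P : Subgroup G)
      omega
    symm
    apply Subgroup.eq_of_le_of_card_ge hP
    rw [hn, h2, pow_one, Nat.card_zpowers, hz]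
  obtain ⟨P, hP⟩ := key x hx
  obtain ⟨Q, hQ⟩ := key (y : G) hy'
  obtain ⟨g, hg⟩ := MulAction.exists_smul_eq G P Q
  have hxP : x ∈ (P : Subgroup G) := by rw [hP]; exact Subgroup.mem_zpowers x
  have h1 : g * x * g⁻¹ ∈ (Q : Subgroup G) := by
    rw [← hg, Sylow.coe_subgroup_smul, Subgroup.mem_pointwise_smul_iff_inv_smul_mem]
    simpa [MulAut.smul_def, mul_assoc] using hxP
  have h2 : g * x * g⁻¹ ∈ K := by
    rw [hQ] at h1
    exact (Subgroup.zpowers_le.mpr y.2) h1
  have h3 := Subgroup.Normal.conj_mem (inferInstance : K.Normal) _ h2 g⁻¹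
  simpa [mul_assoc] using h3

/-- conjugation by an element of prime order `p`: invariant sets have as many elements as
fixed points, modulo `p` -/
theorem card_modEq_of_conj_invariant {p : ℕ} [Fact p.Prime] (y : G) (hy : orderOf y = p)
    (X : Set G) (hX : ∀ x ∈ X, y * x * y⁻¹ ∈ X) :
    Nat.card X ≡ Nat.card {x : G // x ∈ X ∧ y * x = x * y} [MOD p] := by
  classical
  let _ := Fintype.ofFinite X
  let f : Function.End X := fun x => ⟨y * x.1 * y⁻¹, hX x.1 x.2⟩
  have hfpow : ∀ (k : ℕ) (x : X), ((f ^ k) x).1 = y ^ k * x.1 * (y ^ k)⁻¹ := by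
    intro k
    induction k with
    | zero =>
      intro x
      rw [pow_zero, pow_zero, one_mul, inv_one, mul_one]
      rfl
    | succ k ih =>
      intro x
      rw [pow_succ']
      show y * ((f ^ k) x).1 * y⁻¹ = _
      rw [ih x, pow_succ']
      group
  have hf : f ^ p ^ 1 = 1 := by
    funext x
    apply Subtype.ext
    rw [pow_one, hfpow, ← hy, pow_orderOf_eq_one, one_mul, inv_one, mul_one]
    rfl
  have h1 := Equiv.Perm.card_fixedPoints_modEq (p := p) (n := 1) (f := f) hf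
  rw [← Nat.card_eq_fintype_card, ← Nat.card_eq_fintype_card] at h1
  have e : Function.fixedPoints f ≃ {x : G // x ∈ X ∧ y * x = x * y} :=
    { toFun := fun x => ⟨x.1.1, x.1.2, by
        have h2 : f x.1 = x.1 := x.2
        have h3 : y * x.1.1 * y⁻¹ = x.1.1 := congrArg Subtype.val h2
        rw [mul_inv_eq_iff_eq_mul] at h3
        exact h3⟩
      invFun := fun x => ⟨⟨x.1, x.2.1⟩, by
        show f ⟨x.1, x.2.1⟩ = ⟨x.1, x.2.1⟩
        apply Subtype.ext
        show y * x.1 * y⁻¹ = x.1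
        rw [mul_inv_eq_iff_eq_mul]
        exact x.2.2⟩
      left_inv := fun x => rfl
      right_inv := fun x => rfl }
  rw [← Nat.card_congr e]
  exact h1

/-- an invariant set containing `1` on which only `1` is fixed has `≡ 1` elements -/
theorem card_modEq_one {p : ℕ} [Fact p.Prime] (y : G) (hy : orderOf y = p)
    (X : Set G) (hX : ∀ x ∈ X, y * x * y⁻¹ ∈ X) (h1 : (1 : G) ∈ X)
    (hfix : ∀ x ∈ X, y * x = x * y → x = 1) : Nat.card X ≡ 1 [MOD p] := by
  have h2 : Nat.card {x : G // x ∈ X ∧ y * x = x * y} = 1 := by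
    rw [Nat.card_eq_one_iff_unique]
    refine ⟨⟨fun a b => ?_⟩, ⟨⟨1, h1, by simp⟩⟩⟩
    ext
    rw [hfix a.1 a.2.1 a.2.2, hfix b.1 b.2.1 b.2.2]
  have h3 := card_modEq_of_conj_invariant y hy X hX
  rw [h2] at h3
  exact h3

/-- a nontrivial element of `K` commuting with an element of order `p ∤ |K|` gives an element
of order `p * r` -/
theorem exists_cnt_of_commute {p : ℕ} [Fact p.Prime] (K : Subgroup G) (hpK : ¬ p ∣ Nat.card K)
    (y k : G) (hy : orderOf y = p) (hk : k ∈ K) (hk1 : k ≠ 1) (hc : y * k = k * y) :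
    ∃ r, r.Prime ∧ r ∣ Nat.card K ∧ r ≠ p ∧ cnt G (p * r) ≠ 0 := by
  have hp : p.Prime := Fact.out
  have hn1 : orderOf k ≠ 1 := fun h => hk1 (orderOf_eq_one_iff.mp h)
  have hr : (orderOf k).minFac.Prime := Nat.minFac_prime hn1
  have hrd : (orderOf k).minFac ∣ orderOf k := Nat.minFac_dvd _
  have hkK : orderOf k ∣ Nat.card K := by
    have := orderOf_dvd_natCard (⟨k, hk⟩ : K)
    rwa [Subgroup.orderOf_mk] at this
  have hrK : (orderOf k).minFac ∣ Nat.card K := hrd.trans hkK
  have hrp : (orderOf k).minFac ≠ p := by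
    intro h
    rw [h] at hrK
    exact hpK hrK
  refine ⟨(orderOf k).minFac, hr, hrK, hrp, ?_⟩
  have h1 : orderOf (k ^ (orderOf k / (orderOf k).minFac)) = (orderOf k).minFac :=
    orderOf_pow_orderOf_div (orderOf_pos k).ne' hrd
  have hc' : Commute y (k ^ (orderOf k / (orderOf k).minFac)) := Commute.pow_right hc _
  have h2 := hc'.orderOf_mul_eq_mul_orderOf_of_coprime (by
    rw [hy, h1]
    exact (Nat.coprime_primes hp hr).mpr (Ne.symm hrp))
  rw [hy, h1] at h2
  exact cnt_ne_zero_iff.mpr ⟨_, h2⟩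

theorem prime_dvd_360 {r : ℕ} (hr : r.Prime) (h : r ∣ 360) : r = 2 ∨ r = 3 ∨ r = 5 := by
  have h1 : r ∣ 2 ^ 3 * (3 ^ 2 * 5) := by norm_num; exact h
  rcases (Nat.Prime.dvd_mul hr).mp h1 with h2 | h2
  · exact Or.inl ((Nat.prime_dvd_prime_iff_eq hr Nat.prime_two).mp (hr.dvd_of_dvd_pow h2))
  · rcases (Nat.Prime.dvd_mul hr).mp h2 with h3 | h3
    · exact Or.inr (Or.inl ((Nat.prime_dvd_prime_iff_eq hr Nat.prime_three).mp
        (hr.dvd_of_dvd_pow h3)))
    · exact Or.inr (Or.inr ((Nat.prime_dvd_prime_iff_eq hr Nat.prime_five).mp h3))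

/-- counting: the elements of order `a` and of order `b` inside a subgroup -/
theorem cnt_add_le (K : Subgroup G) (a b : ℕ) (hab : a ≠ b) (ha1 : a ≠ 1) (hb1 : b ≠ 1)
    (ha : ∀ x : G, orderOf x = a → x ∈ K) (hb : ∀ x : G, orderOf x = b → x ∈ K) :
    cnt G a + cnt G b + 1 ≤ Nat.card K := by
  classical
  let _ := Fintype.ofFinite G
  rw [cnt_eq_card_filter, cnt_eq_card_filter]
  have h1 : Nat.card K = (Finset.univ.filter (fun g : G => g ∈ K)).card := by
    rw [Nat.card_eq_fintype_card, Fintype.card_subtype]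
  rw [h1]
  have hd1 : Disjoint (Finset.univ.filter (fun g : G => orderOf g = a))
      (Finset.univ.filter (fun g : G => orderOf g = b)) := by
    rw [Finset.disjoint_filter]
    intro g _ h2 h3
    exact hab (h2.symm.trans h3)
  have hd2 : Disjoint (Finset.univ.filter (fun g : G => orderOf g = a) ∪
      Finset.univ.filter (fun g : G => orderOf g = b)) ({1} : Finset G) := by
    rw [Finset.disjoint_singleton_right, Finset.mem_union, Finset.mem_filter, Finset.mem_filter]
    rintro (⟨_, h2⟩ | ⟨_, h2⟩)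
    · rw [orderOf_one] at h2; exact ha1 h2.symm
    · rw [orderOf_one] at h2; exact hb1 h2.symm
  rw [← Finset.card_union_of_disjoint hd1, ← Finset.card_singleton (1 : G),
    ← Finset.card_union_of_disjoint hd2]
  apply Finset.card_le_card
  intro g hg
  simp only [Finset.mem_union, Finset.mem_filter, Finset.mem_univ, true_and,
    Finset.mem_singleton] at hg ⊢
  rcases hg with (hg | hg) | hg
  · exact ha g hg
  · exact hb g hg
  · rw [hg]; exact K.one_mem

end Cfsg.Agent.Lib.Helper99.Nse
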