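import Cfsg.Agent.Lib.Helper99.NseF

/-!
# Groups with the same-order counts of A₅, A₆ are simple; the three isomorphisms (helper99)
-/

set_option autoImplicit false
set_option linter.unusedSectionVars false

namespace Cfsg.Agent.Lib.Helper99.Nse

variable {G : Type*} [Group G] [Finite G]

theorem cnt_le (K : Subgroup G) (a : ℕ) (ha1 : a ≠ 1) (ha : ∀ x : G, orderOf x = a → x ∈ K) :
    cnt G a + 1 ≤ Nat.card K := by
  classical
  let _ := Fintype.ofFinite G
  rw [cnt_eq_card_filter]
  have h1 : Nat.card K = (Finset.univ.filter (fun g : G => g ∈ K)).card := by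
    rw [Nat.card_eq_fintype_card, Fintype.card_subtype]
  rw [h1]
  have hd2 : Disjoint (Finset.univ.filter (fun g : G => orderOf g = a)) ({1} : Finset G) := by
    rw [Finset.disjoint_singleton_right, Finset.mem_filter]
    rintro ⟨_, h2⟩
    rw [orderOf_one] at h2
    exact ha1 h2.symm
  rw [← Finset.card_singleton (1 : G), ← Finset.card_union_of_disjoint hd2]
  apply Finset.card_le_card
  intro g hg
  simp only [Finset.mem_union, Finset.mem_filter, Finset.mem_univ, true_and,
    Finset.mem_singleton] at hg ⊢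
  rcases hg with hg | hg
  · exact ha g hg
  · rw [hg]; exact K.one_mem

theorem exists_count (K : Subgroup G) [K.Normal] (y : G) (hy : orderOf y = 5)
    (hfix : ∀ k ∈ K, y * k = k * y → k = 1) (m : ℕ) (hm : m ∣ Nat.card K) (hodd : ¬ 2 ∣ m)
    (h2 : 2 ∣ Nat.card K) : ∃ t, m ∣ t ∧ t < Nat.card K ∧ t ≡ 1 [MOD 5] := by
  have : Fact (Nat.Prime 5) := ⟨Nat.prime_five⟩
  have : Fact (Nat.Prime 2) := ⟨Nat.prime_two⟩
  let T : Set G := {k | k ∈ K ∧ k ^ m = 1}
  refine ⟨Nat.card T, ?_, ?_, ?_⟩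
  · have e : T ≃ {k : K // k ^ m = 1} :=
      { toFun := fun x => ⟨⟨x.1, x.2.1⟩, Subtype.ext (by
          rw [Subgroup.coe_pow, Subgroup.coe_one]; exact x.2.2)⟩
        invFun := fun k => ⟨k.1.1, k.1.2, by
          have h3 := congrArg Subtype.val k.2
          rw [Subgroup.coe_pow, Subgroup.coe_one] at h3
          exact h3⟩
        left_inv := fun x => rfl
        right_inv := fun k => rfl }
    rw [Nat.card_congr e]
    exact Cfsg.Agent.S3993.result m hm
  · obtain ⟨z, hz⟩ := exists_prime_orderOf_dvd_card' 2 h2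
    have hzT : (z : G) ∉ T := by
      rintro ⟨_, hzm⟩
      have h3 : orderOf (z : G) ∣ m := orderOf_dvd_of_pow_eq_one hzm
      rw [Subgroup.orderOf_coe, hz] at h3
      exact hodd h3
    have hsub : T ⊂ (K : Set G) := ⟨fun x hx => hx.1, fun h => hzT (h z.2)⟩
    have h4 := Set.ncard_lt_ncard hsub (Set.toFinite _)
    rw [← Nat.card_coe_set_eq, ← Nat.card_coe_set_eq] at h4
    exact h4
  · apply card_modEq_one y hy T
    · rintro x ⟨hxK, hxm⟩
      exact ⟨Subgroup.Normal.conj_mem inferInstance x hxK y, by rw [conj_pow, hxm]; group⟩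
    · exact ⟨K.one_mem, one_pow m⟩
    · exact fun x hx hc => hfix x hx.1 hc

theorem simple_of_counts (N c3 c5 : ℕ)
    (hN : (N = 60 ∧ c3 = 20 ∧ c5 = 24) ∨ (N = 360 ∧ c3 = 80 ∧ c5 = 144))
    (hG : Nat.card G = N) (h3 : cnt G 3 = c3) (h5 : cnt G 5 = c5) (h10 : cnt G 10 = 0)
    (h15 : cnt G 15 = 0) : IsSimpleGroup G := by
  have : Fact (Nat.Prime 5) := ⟨Nat.prime_five⟩
  have hN360 : N ∣ 360 := by rcases hN with ⟨rfl, _⟩ | ⟨rfl, _⟩ <;> norm_num
  have h25 : ¬ 5 ^ 2 ∣ Nat.card G := by
    rw [hG]; rcases hN with ⟨rfl, _⟩ | ⟨rfl, _⟩ <;> norm_num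
  have h5N : 5 ∣ Nat.card G := by
    rw [hG]; rcases hN with ⟨rfl, _⟩ | ⟨rfl, _⟩ <;> norm_num
  have hnt : Nontrivial G := by
    rw [← Finite.one_lt_card_iff_nontrivial, hG]
    rcases hN with ⟨rfl, _⟩ | ⟨rfl, _⟩ <;> norm_num
  refine { exists_pair_ne := hnt.exists_pair_ne, eq_bot_or_eq_top_of_normal := ?_ }
  intro K hK
  have hKN : Nat.card K ∣ N := hG ▸ Subgroup.card_subgroup_dvd_card K
  obtain ⟨y, hy⟩ := exists_prime_orderOf_dvd_card' 5 h5N
  by_cases h5K : 5 ∣ Nat.card K
  · right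
    have hmem5 : ∀ x : G, orderOf x = 5 → x ∈ K :=
      fun x hx => mem_normal_of_orderOf_eq K h5K h25 x hx
    have hb1 := cnt_le K 5 (by norm_num) hmem5
    rw [h5] at hb1
    obtain ⟨j, hj⟩ := hKN
    have hj12 : j = 1 ∨ j = 2 := by
      have hj0 : j ≠ 0 := by
        rintro rfl
        rcases hN with ⟨rfl, _⟩ | ⟨rfl, _⟩ <;> simp at hj
      have hj3 : j < 3 := by
        by_contra hge
        push Not at hge
        rcases hN with ⟨rfl, rfl, rfl⟩ | ⟨rfl, rfl, rfl⟩ <;> nlinarith
      omega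
    rcases hj12 with rfl | rfl
    · apply (Subgroup.card_eq_iff_eq_top K).mp
      omega
    · exfalso
      have hidx : K.index = 2 := by
        have h6 := K.card_mul_index
        rw [hG, hj] at h6
        have hKpos : 0 < Nat.card K := Nat.card_pos
        exact Nat.eq_of_mul_eq_mul_left hKpos h6
      have hmem3 : ∀ x : G, orderOf x = 3 → x ∈ K := by
        intro x hx
        have hx3 : x ^ 3 = 1 := by rw [← hx, pow_orderOf_eq_one]
        have h6 : x * x ∈ K := Subgroup.mul_self_mem_of_index_two hidx x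
        have h7 : (x * x) * (x * x) ∈ K := K.mul_mem h6 h6
        have h8 : (x * x) * (x * x) = x ^ 3 * x := by simp [pow_succ, mul_assoc]
        rw [h8, hx3, one_mul] at h7
        exact h7
      have hb2 := cnt_add_le K 3 5 (by norm_num) (by norm_num) (by norm_num) hmem3 hmem5
      rw [h3, h5] at hb2
      rcases hN with ⟨rfl, rfl, rfl⟩ | ⟨rfl, rfl, rfl⟩ <;> omega
  · left
    have hfix : ∀ k ∈ K, y * k = k * y → k = 1 := by
      intro k hk hc
      by_contra hk1
      obtain ⟨r, hr, hrK, hr5, hcnt⟩ := exists_cnt_of_commute K h5K y k hy hk hk1 hc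
      have hr360 : r ∣ 360 := (hrK.trans hKN).trans hN360
      rcases prime_dvd_360 hr hr360 with rfl | rfl | rfl
      · exact hcnt h10
      · exact hcnt h15
      · exact hr5 rfl
    have hinv : ∀ x ∈ (K : Set G), y * x * y⁻¹ ∈ (K : Set G) := fun x hx => hK.conj_mem x hx y
    have hmod : Nat.card K ≡ 1 [MOD 5] := card_modEq_one y hy (K : Set G) hinv K.one_mem hfix
    have hmod' : Nat.card K % 5 = 1 := hmod
    have hcases : Nat.card K = 1 ∨ Nat.card K = 6 ∨ Nat.card K = 36 := by
      have hd : Nat.card K ∈ divs 360 := (mem_divs (by norm_num)).mpr (hKN.trans hN360)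
      rw [show divs 360 = [1, 2, 3, 4, 5, 6, 8, 9, 10, 12, 15, 18, 20, 24, 30, 36, 40, 45,
        60, 72, 90, 120, 180, 360] from by decide +kernel] at hd
      simp only [List.mem_cons, List.not_mem_nil, or_false] at hd
      clear hmod hinv hfix hy h5K hKN hN h3 h5 h10 h15 hG
      omega
    rcases hcases with h1 | h6 | h36
    · exact Subgroup.eq_bot_of_card_eq K h1
    · exfalso
      obtain ⟨t, hmt, hlt, hmodt⟩ := exists_count K y hy hfix 3 (by rw [h6]; norm_num)
        (by norm_num) (by rw [h6]; norm_num)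
      rw [h6] at hlt
      have hmodt' : t % 5 = 1 := hmodt
      omega
    · exfalso
      obtain ⟨t, hmt, hlt, hmodt⟩ := exists_count K y hy hfix 9 (by rw [h36]; norm_num)
        (by norm_num) (by rw [h36]; norm_num)
      rw [h36] at hlt
      have hmodt' : t % 5 = 1 := hmodt
      omega

theorem iso_of_nse4 (h : cnt G '' Set.range (orderOf : G → ℕ) =
    cnt (alternatingGroup (Fin 4)) '' Set.range (orderOf : alternatingGroup (Fin 4) → ℕ)) :
    Nonempty (G ≃* alternatingGroup (Fin 4)) := by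
  rw [nse4] at h
  have hm := model_of_image (G := G) [1, 3, 8] h
  have hcard := card_A4 hm
  rw [hcard] at hm
  obtain ⟨h3, h6⟩ := vals12 hm
  exact iso_A4 hcard (by rw [h3]; norm_num) h6

theorem iso_of_nse5 (h : cnt G '' Set.range (orderOf : G → ℕ) =
    cnt (alternatingGroup (Fin 5)) '' Set.range (orderOf : alternatingGroup (Fin 5) → ℕ)) :
    Nonempty (G ≃* alternatingGroup (Fin 5)) := by
  rw [nse5] at h
  have hm := model_of_image (G := G) [1, 15, 20, 24] h
  have hcard := card_A5 hm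
  rw [hcard] at hm
  obtain ⟨h3, h5, h10, h15⟩ := vals60 hm
  have := simple_of_counts (G := G) 60 20 24 (Or.inl ⟨rfl, rfl, rfl⟩) hcard h3 h5 h10 h15
  exact Cfsg.Agent.S0494.result hcard

theorem iso_of_nse6 (h : cnt G '' Set.range (orderOf : G → ℕ) =
    cnt (alternatingGroup (Fin 6)) '' Set.range (orderOf : alternatingGroup (Fin 6) → ℕ)) :
    Nonempty (G ≃* alternatingGroup (Fin 6)) := by
  rw [nse6] at h
  have hm := model_of_image (G := G) [1, 45, 80, 90, 144] h
  have hcard := card_A6 hm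
  rw [hcard] at hm
  obtain ⟨h3, h5, h10, h15⟩ := vals360 hm
  have := simple_of_counts (G := G) 360 80 144 (Or.inr ⟨rfl, rfl, rfl⟩) hcard h3 h5 h10 h15
  exact Cfsg.Agent.S0497.result hcard

end Cfsg.Agent.Lib.Helper99.Nse
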