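import Mathlib
import Cfsg.Agent.Lib.Helper99.PSL2pF

/-!
Recognition of `PSL(2,p)`, part G (helper99): the case `p ≡ 1 mod 4`.  If the two-point stabilizer
`H0` of a representation on the projective line has even order `d = (p-1)/2`, then some element
acts as `x ↦ -1/x`.  No simplicity is needed here: the double coset decomposition with respect
to the point stabilizer yields a functional equation for the element swapping `0` and `∞`.
-/

set_option autoImplicit false
set_option linter.unusedSectionVars false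

namespace Cfsg.Agent.Lib.Helper99.PSL2p

open Subgroup

variable {p : ℕ} [Fact p.Prime] {G : Type*} [Group G] (R : Rep p G)

namespace Rep

theorem pi_c_val_some (y i : ZMod p) : R.π (R.c ^ y.val) (some i) = some (i + y) := by
  rw [pi_c_pow_some, ZMod.natCast_zmod_val]

/-- an element fixing `∞` is a translation times an element of `H0` -/
theorem exists_eq_of_fix {g : G} (hg : R.π g none = none) :
    ∃ j : ZMod p, ∃ h ∈ R.H0, g = R.c ^ j.val * h := by
  have hy : R.π g (some 0) ≠ none := by
    intro h
    rw [← hg] at h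
    exact absurd ((R.π g).injective h) (by simp)
  obtain ⟨i, hi⟩ := Option.ne_none_iff_exists'.mp hy
  refine ⟨i, (R.c ^ i.val)⁻¹ * g, ⟨?_, ?_⟩, by group⟩
  · rw [pi_mul, hg]
    exact R.pi_inv_eq (R.pi_c_pow_none _)
  · rw [pi_mul, hi]
    exact R.pi_inv_eq (R.pi_c_val i)

variable [Finite G]

/-- for `d` even some element of `G` acts as `x ↦ -1/x` -/
theorem exists_tau_of_even (d : ℕ) (hd : p = 2 * d + 1) (heven : Even d)
    (hH : Nat.card R.H0 = d) : ∃ t' : G, R.π t' = tau p := by
  have hp : p.Prime := Fact.out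
  have hd0 : 0 < d := by
    rcases Nat.eq_zero_or_pos d with h | h
    · subst h
      exact absurd hp (by rw [hd]; decide)
    · exact h
  have h2ne : (2 : ZMod p) ≠ 0 := by
    intro h
    have h2 : ((2 : ℕ) : ZMod p) = 0 := by exact_mod_cast h
    rw [ZMod.natCast_eq_zero_iff] at h2
    have := Nat.le_of_dvd (by norm_num) h2
    omega
  have hneg1ne : (-1 : ZMod p) ≠ 1 := by
    intro h
    apply h2ne
    have : (2 : ZMod p) = 1 - (-1) := by ring
    rw [this, h, sub_self]
  obtain ⟨t, ht1, ht2⟩ := R.two_trans (x := some 0) (y := none) (by simp)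
  have hf1 : ∀ i : ZMod p, i ≠ 0 → ∃ j : ZMod p, j ≠ 0 ∧ R.π t (some i) = some j := by
    intro i hi
    have hne : R.π t (some i) ≠ none := by
      intro h
      rw [← ht1] at h
      exact hi (Option.some.inj ((R.π t).injective h))
    obtain ⟨j, hj⟩ := Option.ne_none_iff_exists'.mp hne
    refine ⟨j, ?_, hj⟩
    rintro rfl
    rw [← ht2] at hj
    exact absurd ((R.π t).injective hj) (by simp)
  choose! f hf0 hf using hf1
  have hfinj : ∀ i j : ZMod p, i ≠ 0 → j ≠ 0 → f i = f j → i = j := by
    intro i j hi hj hij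
    have h1 : R.π t (some i) = R.π t (some j) := by rw [hf i hi, hf j hj, hij]
    exact Option.some.inj ((R.π t).injective h1)
  have hnorm : ∀ h ∈ R.H0, t * h * t⁻¹ ∈ R.H0 := by
    intro h hh
    constructor
    · rw [pi_mul, pi_mul, R.pi_inv_eq ht1, hh.2, ht1]
    · rw [pi_mul, pi_mul, R.pi_inv_eq ht2, hh.1, ht2]
  have hfm : ∀ h ∈ R.H0, ∀ u : ZMod p, u ≠ 0 →
      f (R.mval h * u) = R.mval (t * h * t⁻¹) * f u := by
    intro h hh u hu
    have hmu : R.mval h * u ≠ 0 := mul_ne_zero (R.mval_ne_zero hh) hu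
    have e1 : t * h = (t * h * t⁻¹) * t := by group
    have h1 : R.π (t * h) (some u) = some (f (R.mval h * u)) := by
      rw [pi_mul, R.pi_H0 hh, hf _ hmu]
    have h2 : R.π ((t * h * t⁻¹) * t) (some u) = some (R.mval (t * h * t⁻¹) * f u) := by
      rw [pi_mul, hf u hu, R.pi_H0 (hnorm h hh)]
    rw [e1, h2] at h1
    exact (Option.some.inj h1).symm
  -- the element acting as `-1`
  obtain ⟨z, hz, hzm⟩ := R.exists_mval_eq d hd0 hH (-1) (Even.neg_one_pow heven)
  have hzz : z * z = 1 := by
    apply R.eq_one_of_mval (R.H0.mul_mem hz hz)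
    rw [R.mval_mul hz hz, hzm]
    ring
  have hz' : R.mval (t * z * t⁻¹) = -1 := by
    have h1 : R.mval (t * z * t⁻¹) * R.mval (t * z * t⁻¹) = 1 := by
      rw [← R.mval_mul (hnorm z hz) (hnorm z hz)]
      have : t * z * t⁻¹ * (t * z * t⁻¹) = 1 := by
        have e : t * z * t⁻¹ * (t * z * t⁻¹) = t * (z * z) * t⁻¹ := by group
        rw [e, hzz]
        group
      rw [this, mval_one]
    have h2 : R.mval (t * z * t⁻¹) ≠ 1 := by
      intro h
      have h3 := R.eq_one_of_mval (hnorm z hz) h
      have h4 : z = 1 := by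
        have e : z = t⁻¹ * (t * z * t⁻¹) * t := by group
        rw [e, h3]
        group
      rw [h4, mval_one] at hzm
      exact hneg1ne hzm.symm
    have h3 : (R.mval (t * z * t⁻¹) - 1) * (R.mval (t * z * t⁻¹) + 1) = 0 := by
      have : (R.mval (t * z * t⁻¹) - 1) * (R.mval (t * z * t⁻¹) + 1)
          = R.mval (t * z * t⁻¹) * R.mval (t * z * t⁻¹) - 1 := by ring
      rw [this, h1, sub_self]
    rcases mul_eq_zero.mp h3 with h4 | h4
    · exact absurd (sub_eq_zero.mp h4) h2
    · exact eq_neg_of_add_eq_zero_left h4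
  have hfodd : ∀ u : ZMod p, u ≠ 0 → f (-u) = -f u := by
    intro u hu
    have := hfm z hz u hu
    rwa [hzm, hz', neg_one_mul, neg_one_mul] at this
  -- the square of `t`
  have httmem : t * t ∈ R.H0 := ⟨by rw [pi_mul, ht2, ht1], by rw [pi_mul, ht1, ht2]⟩
  obtain ⟨μ, hμdef⟩ : ∃ μ : ZMod p, μ = R.mval (t * t) := ⟨_, rfl⟩
  have hμ0 : μ ≠ 0 := by rw [hμdef]; exact R.mval_ne_zero httmem
  have hff : ∀ u : ZMod p, u ≠ 0 → f (f u) = μ * u := by
    intro u hu
    have h1 := R.pi_H0 httmem u
    rw [pi_mul, hf u hu, hf _ (hf0 u hu), ← hμdef] at h1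
    exact Option.some.inj h1
  -- the functional equation from the double coset decomposition
  have key : ∀ w : ZMod p, w ≠ 0 → (∃ h ∈ R.H0, R.mval h = -(f w / w)) ∧
      ∀ x : ZMod p, x ≠ 0 → x + w ≠ 0 →
        f (f x + f w) = μ * w - (μ * w / f w) * f (x + w) := by
    intro w hw
    have hfw : f w ≠ 0 := hf0 w hw
    -- the element `g = t c^(f w) t`
    have hg_none : R.π (t * R.c ^ (f w).val * t) none = some (μ * w) := by
      rw [pi_mul, pi_mul, ht2, R.pi_c_val_some, zero_add, hf _ hfw, hff w hw]
    have hb : R.π (t⁻¹ * (R.c ^ (μ * w).val)⁻¹ * (t * R.c ^ (f w).val * t)) none = none := by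
      rw [pi_mul, pi_mul, hg_none, R.pi_inv_eq (R.pi_c_val (μ * w))]
      exact R.pi_inv_eq ht2
    obtain ⟨j, h, hh, hdec⟩ := R.exists_eq_of_fix hb
    have hdec' : t * R.c ^ (f w).val * t = R.c ^ (μ * w).val * t * R.c ^ j.val * h := by
      have e : t * R.c ^ (f w).val * t = R.c ^ (μ * w).val * t *
          (t⁻¹ * (R.c ^ (μ * w).val)⁻¹ * (t * R.c ^ (f w).val * t)) := by group
      rw [e, hdec]
      group
    have hm0 : R.mval h ≠ 0 := R.mval_ne_zero hh
    -- evaluate at `0`
    have hj : j = -f w := by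
      have h1 : R.π (t * R.c ^ (f w).val * t) (some 0) = some 0 := by
        rw [pi_mul, pi_mul, ht1, R.pi_c_pow_none, ht2]
      rw [hdec', pi_mul, pi_mul, pi_mul, hh.2, R.pi_c_val_some, zero_add] at h1
      have hj0 : j ≠ 0 := by
        rintro rfl
        rw [ht1, R.pi_c_pow_none] at h1
        exact absurd h1 (by simp)
      rw [hf j hj0, R.pi_c_val_some] at h1
      have h2 : f j + μ * w = 0 := Option.some.inj h1
      have h3 : f j = f (-f w) := by
        rw [hfodd _ hfw, hff w hw]
        exact eq_neg_of_add_eq_zero_left h2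
      exact hfinj j (-f w) hj0 (neg_ne_zero.mpr hfw) h3
    -- evaluate at `-w`
    have hm : R.mval h * w = -f w := by
      have h1 : R.π (t * R.c ^ (f w).val * t) (some (-w)) = none := by
        rw [pi_mul, pi_mul, hf _ (neg_ne_zero.mpr hw), R.pi_c_val_some, hfodd w hw,
          neg_add_cancel, ht1]
      rw [hdec', pi_mul, pi_mul, pi_mul, R.pi_H0 hh, R.pi_c_val_some] at h1
      by_contra hne
      have hne' : R.mval h * -w + j ≠ 0 := by
        intro h0
        apply hne
        rw [hj] at h0
        linear_combination -h0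
      rw [hf _ hne', R.pi_c_val_some] at h1
      exact absurd h1 (by simp)
    have hm' : R.mval h = -(f w / w) := by
      field_simp
      linear_combination hm
    have hmt : R.mval (t * h * t⁻¹) = -(μ * w / f w) := by
      have h1 := hfm h hh w hw
      rw [hm, hfodd _ hfw, hff w hw] at h1
      field_simp
      linear_combination -h1
    refine ⟨⟨h, hh, hm'⟩, ?_⟩
    intro x hx hxw
    have hsum : f x + f w ≠ 0 := by
      intro h0
      have h1 : f x = f (-w) := by
        rw [hfodd w hw]
        exact eq_neg_of_add_eq_zero_left h0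
      have h2 := hfinj x (-w) hx (neg_ne_zero.mpr hw) h1
      apply hxw
      rw [h2, neg_add_cancel]
    have h1 : R.π (t * R.c ^ (f w).val * t) (some x) = some (f (f x + f w)) := by
      rw [pi_mul, pi_mul, hf x hx, R.pi_c_val_some, hf _ hsum]
    have harg : R.mval h * x + j = R.mval h * (x + w) := by
      rw [hj]
      linear_combination -hm
    have harg0 : R.mval h * (x + w) ≠ 0 := mul_ne_zero hm0 hxw
    rw [hdec', pi_mul, pi_mul, pi_mul, R.pi_H0 hh, R.pi_c_val_some, harg, hf _ harg0,
      R.pi_c_val_some, hfm h hh _ hxw, hmt] at h1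
    have h2 := Option.some.inj h1
    rw [← h2]
    ring
  -- the symmetric form
  have hstar : ∀ x w : ZMod p, x ≠ 0 → w ≠ 0 → x + w ≠ 0 →
      f (x + w) * (x / f x - w / f w) = x - w := by
    intro x w hx hw hxw
    have h1 := (key w hw).2 x hx hxw
    have h2 := (key x hx).2 w hw (by rwa [add_comm])
    rw [add_comm (f w) (f x), add_comm w x, h1] at h2
    have hfx := hf0 x hx
    have hfw := hf0 w hw
    have h3 : μ * (f (x + w) * (x / f x - w / f w)) = μ * (x - w) := by
      field_simp
      field_simp at h2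
      linear_combination h2
    exact mul_left_cancel₀ hμ0 h3
  have ha0 : f 1 ≠ 0 := hf0 1 one_ne_zero
  -- the recursion
  have hrec : ∀ w : ZMod p, w ≠ 0 → w ≠ 1 →
      w / f w = (w - 1) / f (w - 1) + (2 * w - 1) / f 1 := by
    intro w hw hw1
    have hw1' : w - 1 ≠ 0 := sub_ne_zero.mpr hw1
    have h1 := hstar (1 - w) w (by intro h; apply hw1'; linear_combination -h) hw
      (by rw [sub_add_cancel]; exact one_ne_zero)
    rw [sub_add_cancel] at h1
    have h2 : f (1 - w) = -f (w - 1) := by
      rw [← hfodd _ hw1']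
      congr 1
      ring
    rw [h2] at h1
    have hfw := hf0 w hw
    have hfw1 := hf0 _ hw1'
    field_simp
    field_simp at h1
    linear_combination -h1
  have hnat : ∀ n : ℕ, 1 ≤ n → n < p → ((n : ZMod p)) / f n = (n : ZMod p) ^ 2 / f 1 := by
    intro n hn1 hnp
    induction n with
    | zero => omega
    | succ n ih =>
      rcases Nat.eq_zero_or_pos n with h0 | hpos
      · subst h0
        simp
      · have hn0 : (n : ZMod p) ≠ 0 := by
          intro h
          rw [ZMod.natCast_eq_zero_iff] at h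
          have := Nat.le_of_dvd hpos h
          omega
        have hn1' : ((n + 1 : ℕ) : ZMod p) ≠ 0 := by
          intro h
          rw [ZMod.natCast_eq_zero_iff] at h
          have := Nat.le_of_dvd (Nat.succ_pos n) h
          omega
        have hne1 : ((n + 1 : ℕ) : ZMod p) ≠ 1 := by
          intro h
          apply hn0
          push_cast at h
          linear_combination h
        have h1 := hrec _ hn1' hne1
        have h2 := ih hpos (by omega)
        have e : ((n + 1 : ℕ) : ZMod p) - 1 = (n : ZMod p) := by push_cast; ring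
        rw [e, h2] at h1
        rw [h1]
        push_cast
        field_simp
        ring
  have hform : ∀ w : ZMod p, w ≠ 0 → f w = f 1 / w := by
    intro w hw
    have hv0 : w.val ≠ 0 := by
      intro h
      exact hw ((ZMod.val_eq_zero w).mp h)
    have h1 := hnat w.val (Nat.pos_of_ne_zero hv0) (ZMod.val_lt w)
    rw [ZMod.natCast_zmod_val] at h1
    have hfw := hf0 w hw
    field_simp
    field_simp at h1
    linear_combination -h1
  -- the final element
  obtain ⟨⟨h₁, hh₁, hm₁⟩, -⟩ := key 1 one_ne_zero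
  rw [div_one] at hm₁
  refine ⟨t * h₁, ?_⟩
  ext x : 1
  cases x with
  | none => rw [pi_mul, hh₁.1, ht2, tau_none]
  | some i =>
    by_cases hi : i = 0
    · rw [hi, pi_mul, hh₁.2, ht1, tau_zero]
    · have hne : -f 1 * i ≠ 0 := mul_ne_zero (neg_ne_zero.mpr ha0) hi
      rw [pi_mul, R.pi_H0 hh₁, hm₁, hf _ hne, tau_some p i hi, hform _ hne]
      congr 1
      field_simp

end Rep

end Cfsg.Agent.Lib.Helper99.PSL2p
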