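import Mathlib
import Cfsg.Agent.Lib.Helper99.PSL2pG

/-!
Recognition of `PSL(2,p)`, part H (helper99): a simple group of order `p (p+1) d`, `p = 2d+1`,
(any parity of `d`) whose number of Sylow `p`-subgroups is forced to be `p + 1`, is isomorphic to
`PSL(2, F)` for every field `F` with `p` elements.
-/

set_option autoImplicit false
set_option linter.unusedSectionVars false

namespace Cfsg.Agent.Lib.Helper99.PSL2p

open Subgroup

variable {p : ℕ} [Fact p.Prime] {G : Type*} [Group G] (R : Rep p G)

namespace Rep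

variable [Finite G]

/-- the image of the representation is the reference group, given an element acting as
`x ↦ -1/x` -/
theorem range_eq_of_tau (d : ℕ) (hd : p = 2 * d + 1) (hd0 : 0 < d)
    (hH : Nat.card R.H0 = d) (t' : G) (ht' : R.π t' = tau p) :
    R.π.range = K0 p := by
  have hd2 : (p - 1) / 2 = d := by omega
  have hH0 : ∀ h ∈ R.H0, R.π h ∈ K0 p := by
    intro h hh
    have hm : R.π h = mulPerm p (Units.mk0 (R.mval h) (R.mval_ne_zero hh)) := by
      ext x : 1
      cases x with
      | none => rw [hh.1, mulPerm_none]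
      | some i => rw [R.pi_H0 hh, mulPerm_some]; rfl
    apply Subgroup.subset_closure
    right
    refine ⟨Units.mk0 (R.mval h) (R.mval_ne_zero hh), ?_, hm⟩
    rw [hd2]
    exact R.mval_pow_card d hH hh
  have hc : R.π R.c ∈ K0 p := by
    apply Subgroup.subset_closure
    left
    rw [R.hc]
    exact Set.mem_insert _ _
  have ht : R.π t' ∈ K0 p := by
    apply Subgroup.subset_closure
    left
    rw [ht']
    exact Set.mem_insert_of_mem _ rfl
  have hstabK : ∀ g : G, R.π g none = none → R.π g ∈ K0 p := by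
    intro g hg
    obtain ⟨j, h, hh, rfl⟩ := R.exists_eq_of_fix hg
    rw [map_mul, map_pow]
    exact (K0 p).mul_mem ((K0 p).pow_mem hc _) (hH0 _ hh)
  apply le_antisymm
  · rintro _ ⟨g, rfl⟩
    by_cases hg : R.π g none = none
    · exact hstabK g hg
    · obtain ⟨i, hi⟩ := Option.ne_none_iff_exists'.mp hg
      have h1 : R.π (t'⁻¹ * (R.c ^ i.val)⁻¹ * g) none = none := by
        rw [pi_mul, pi_mul, hi, R.pi_inv_eq (R.pi_c_val i)]
        apply R.pi_inv_eq
        rw [ht', tau_none]
      have hg' : g = R.c ^ i.val * t' * (t'⁻¹ * (R.c ^ i.val)⁻¹ * g) := by group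
      rw [hg', map_mul, map_mul, map_pow]
      exact (K0 p).mul_mem ((K0 p).mul_mem ((K0 p).pow_mem hc _) ht) (hstabK _ h1)
  · unfold K0
    rw [Subgroup.closure_le]
    rintro σ (hσ | ⟨s, hs, rfl⟩)
    · rcases hσ with rfl | hσ
      · exact ⟨R.c, R.hc⟩
      · rw [Set.mem_singleton_iff] at hσ
        rw [hσ]
        exact ⟨t', ht'⟩
    · rw [hd2] at hs
      obtain ⟨h, hh, hm⟩ := R.exists_mval_eq d hd0 hH (s : ZMod p) hs
      refine ⟨h, ?_⟩
      ext x : 1
      cases x with
      | none => rw [hh.1, mulPerm_none]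
      | some i => rw [R.pi_H0 hh, mulPerm_some, hm]

/-- for `d` even, the group is isomorphic to the reference group -/
theorem nonempty_mulEquiv_of_even (d : ℕ) (hd : p = 2 * d + 1) (heven : Even d)
    (hstab : Nat.card {g : G // R.π g none = none} = p * d) : Nonempty (G ≃* K0 p) := by
  have hp : p.Prime := Fact.out
  have hd0 : 0 < d := by
    rcases Nat.eq_zero_or_pos d with h | h
    · subst h
      exact absurd hp (by rw [hd]; decide)
    · exact h
  have hH := R.card_H0 d hstab
  obtain ⟨t', ht'⟩ := R.exists_tau_of_even d hd heven hH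
  exact ⟨(MonoidHom.ofInjective R.inj).trans
    (MulEquiv.subgroupCongr (R.range_eq_of_tau d hd hd0 hH t' ht'))⟩

end Rep

variable {G : Type*} [Group G] [Finite G] [IsSimpleGroup G]

/-- the recognition theorem, any parity -/
theorem nonempty_mulEquiv_K0' (d : ℕ) (hd : p = 2 * d + 1)
    (hcard : Nat.card G = p * ((p + 1) * d)) (hsyl : Nat.card (Sylow p G) = p + 1) :
    Nonempty (G ≃* K0 p) := by
  rcases Nat.even_or_odd d with heven | hodd
  · have hp : p.Prime := Fact.out
    have hd0 : 0 < d := by
      rcases Nat.eq_zero_or_pos d with h | h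
      · subst h
        exact absurd hp (by rw [hd]; decide)
      · exact h
    have hG : ¬ IsMulCommutative G := by
      apply Cfsg.Agent.Lib.Helper17.Sylow.not_comm_of_not_prime
      rw [hcard]
      apply Nat.not_prime_mul hp.one_lt.ne'
      have : 1 < (p + 1) * d := by nlinarith [hp.one_lt]
      exact this.ne'
    obtain ⟨R, hR⟩ := exists_rep hG d hd hcard hsyl
    exact R.nonempty_mulEquiv_of_even d hd heven hR
  · exact nonempty_mulEquiv_K0 d hd hodd hcard hsyl

/-- the main recognition theorem, any parity -/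
theorem nonempty_mulEquiv_PSL' (d : ℕ) (hd : p = 2 * d + 1) (hp4 : 4 ≤ p)
    (hdiv : ∀ n : ℕ, n ∣ (p + 1) * d → n % p = 1 → n = 1 ∨ n = p + 1)
    (hcard : Nat.card G = p * ((p + 1) * d))
    {F : Type*} [Field F] [Fintype F] (hF : Fintype.card F = p) :
    Nonempty (G ≃* Matrix.ProjectiveSpecialLinearGroup (Fin 2) F) := by
  have hp : p.Prime := Fact.out
  have hd0 : 0 < d := by omega
  have h4 : 4 ≤ Nat.card F := by rw [Nat.card_eq_fintype_card, hF]; exact hp4
  have hs : IsSimpleGroup (Matrix.ProjectiveSpecialLinearGroup (Fin 2) F) :=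
    Matrix.ProjectiveSpecialLinearGroup.rank_two_simple h4
  have hc := card_PSL_eq d hd hF
  have hfin : Finite (Matrix.ProjectiveSpecialLinearGroup (Fin 2) F) := by
    apply Nat.finite_of_card_ne_zero
    rw [hc]
    have : 0 < (p + 1) * d := Nat.mul_pos (Nat.succ_pos p) hd0
    exact (Nat.mul_pos hp.pos this).ne'
  obtain ⟨e₁⟩ := nonempty_mulEquiv_K0' d hd hcard (card_sylow_eq_succ d hd hcard hdiv)
  obtain ⟨e₂⟩ := nonempty_mulEquiv_K0' d hd hc (card_sylow_eq_succ d hd hc hdiv)
  exact ⟨e₁.trans e₂.symm⟩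

end Cfsg.Agent.Lib.Helper99.PSL2p
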