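import Mathlib
import Cfsg.Agent.Lib.Helper81.RMStmt

/-! Piece MINN of S4581: a nontrivial finite solvable group has a nontrivial normal subgroup
which has odd order or exponent two. -/

set_option autoImplicit false

namespace Cfsg.Agent.Lib.Helper99.RMMINN

universe u

theorem main : Cfsg.Agent.Lib.Helper81.RMStmt.MINN.{u} := by
  intro G _ _ hsolv _
  classical
  have hex : ∃ n, derivedSeries G n = ⊥ := hsolv.solvable
  have hk1 : derivedSeries G (Nat.find hex) = ⊥ := Nat.find_spec hex
  have hk0 : Nat.find hex ≠ 0 := by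
    intro h0
    rw [h0, derivedSeries_zero] at hk1
    exact top_ne_bot hk1
  obtain ⟨j, hj⟩ := Nat.exists_eq_succ_of_ne_zero hk0
  have hAne : derivedSeries G j ≠ ⊥ := by
    intro h
    have := Nat.find_min' hex h
    omega
  have hAcomm : ⁅derivedSeries G j, derivedSeries G j⁆ = ⊥ := by
    rw [← derivedSeries_succ, ← Nat.succ_eq_add_one, ← hj]; exact hk1
  have hAn : (derivedSeries G j).Normal := derivedSeries_normal G j
  have hcomm : ∀ x ∈ derivedSeries G j, ∀ y ∈ derivedSeries G j, x * y = y * x := by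
    intro x hx y hy
    have := (Subgroup.commutator_eq_bot_iff_le_centralizer.1 hAcomm) hx
    rw [Subgroup.mem_centralizer_iff] at this
    exact (this y hy).symm
  by_cases hodd : Odd (Nat.card ↥(derivedSeries G j))
  · exact ⟨derivedSeries G j, hAn, hAne, Or.inl hodd⟩
  · have h2 : 2 ∣ Nat.card ↥(derivedSeries G j) := by
      rw [Nat.not_odd_iff_even] at hodd; exact hodd.two_dvd
    haveI : Fact (Nat.Prime 2) := ⟨Nat.prime_two⟩
    obtain ⟨x, hx⟩ := exists_prime_orderOf_dvd_card' 2 h2
    let U : Subgroup G :=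
      { carrier := {a | a ∈ derivedSeries G j ∧ a * a = 1}
        one_mem' := ⟨Subgroup.one_mem _, by simp⟩
        mul_mem' := by
          rintro a b ⟨ha, ha2⟩ ⟨hb, hb2⟩
          refine ⟨Subgroup.mul_mem _ ha hb, ?_⟩
          calc a * b * (a * b) = a * (b * a) * b := by group
            _ = a * (a * b) * b := by rw [hcomm b hb a ha]
            _ = (a * a) * (b * b) := by group
            _ = 1 := by rw [ha2, hb2, one_mul]
        inv_mem' := by
          rintro a ⟨ha, ha2⟩
          refine ⟨Subgroup.inv_mem _ ha, ?_⟩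
          rw [← mul_inv_rev, ha2, inv_one] }
    refine ⟨U, ⟨?_⟩, ?_, Or.inr (fun u hu => hu.2)⟩
    · rintro a ⟨ha, ha2⟩ g
      refine ⟨hAn.conj_mem a ha g, ?_⟩
      calc g * a * g⁻¹ * (g * a * g⁻¹) = g * (a * a) * g⁻¹ := by group
        _ = 1 := by rw [ha2]; group
    · intro hU
      have hx2 : x ^ 2 = 1 := by rw [← hx]; exact pow_orderOf_eq_one x
      have hx2' : (x : G) * (x : G) = 1 := by
        have h3 : ((x ^ 2 : ↥(derivedSeries G j)) : G) = 1 := by rw [hx2]; rfl
        rw [Subgroup.coe_pow, pow_two] at h3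
        exact h3
      have hxU : (x : G) ∈ U := ⟨x.2, hx2'⟩
      rw [hU, Subgroup.mem_bot] at hxU
      have hx1 : x = 1 := Subtype.ext hxU
      rw [hx1, orderOf_one] at hx
      exact absurd hx (by norm_num)

end Cfsg.Agent.Lib.Helper99.RMMINN
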