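import Mathlib
import Cfsg.Agent.Lib.Helper81.RMStmt

/-! Piece WCOUNT of S4581: counting through fibres which are equivalence classes. -/

set_option autoImplicit false

namespace Cfsg.Agent.Lib.Helper99.RMWCOUNT

universe u

theorem card_eq_sum {X I : Type u} [Finite X] [Finite I] (r : I → I → Prop)
    (hr : Equivalence r) (R : X → I → Prop) (h1 : ∀ x, ∃ i, R x i)
    (h2 : ∀ x i j, R x i → (R x j ↔ r i j))
    [Fintype (Quotient (Setoid.mk r hr))] :
    Nat.card X = ∑ q : Quotient (Setoid.mk r hr), Nat.card {x // R x q.out} := by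
  classical
  let s : Setoid I := Setoid.mk r hr
  let π : X → Quotient s := fun x => Quotient.mk s (Classical.choose (h1 x))
  have hπ : ∀ (x : X) (q : Quotient s), π x = q ↔ R x q.out := by
    intro x q
    have hc := Classical.choose_spec (h1 x)
    constructor
    · intro h
      have h' : Quotient.mk s (Classical.choose (h1 x)) = Quotient.mk s q.out := by
        rw [Quotient.out_eq]; exact h
      have h3 : r (Classical.choose (h1 x)) q.out := Quotient.exact h'
      exact (h2 x _ _ hc).2 h3
    · intro h
      have h3 : r (Classical.choose (h1 x)) q.out := (h2 x _ _ hc).1 h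
      have h' : Quotient.mk s (Classical.choose (h1 x)) = Quotient.mk s q.out :=
        Quotient.sound h3
      rw [Quotient.out_eq] at h'
      exact h'
  rw [← Nat.card_congr (Equiv.sigmaFiberEquiv π), Nat.card_sigma]
  apply Finset.sum_congr rfl
  intro q _
  exact Nat.card_congr (Equiv.subtypeEquivRight (fun x => hπ x q))

theorem main : Cfsg.Agent.Lib.Helper81.RMStmt.WCOUNT.{u} := by
  intro X X' I _ _ _ r R R' hr h1 h2 h1' h2' hcard
  classical
  haveI : Fintype (Quotient (Setoid.mk r hr)) := Fintype.ofFinite _
  rw [card_eq_sum r hr R h1 h2, card_eq_sum r hr R' h1' h2']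
  apply Finset.sum_congr rfl
  intro q _
  exact hcard q.out

end Cfsg.Agent.Lib.Helper99.RMWCOUNT
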