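import Mathlib
import Cfsg.Agent.Lib.Helper12.SNStmt

/-!
S4073 piece CBGLUE (helper99, for helper12): glue `CBBurn → CBNorm → Ctb`.
-/

set_option autoImplicit false

universe u

namespace Cfsg.Agent.Lib.Helper99.SNCBGLUE

open Cfsg.Agent.Lib.Helper12.SNDef Cfsg.Agent.Lib.Helper12.SNStmt

theorem main : CBGlue.{u} := by
  intro hBurn hNorm G _ _ _ hna hS x hx hnc p _ P y hP hxy hz
  have hPc : IsMulCommutative (P : Subgroup G) := by
    rw [hP]
    infer_instance
  have hP1 : (P : Subgroup G) ≠ ⊥ := by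
    intro hbot
    rw [hP] at hbot
    rw [hbot] at hxy
    exact hx (Subgroup.mem_bot.mp hxy)
  obtain ⟨z, hzN, hzC⟩ := hBurn hna p P hPc hP1
  have hzN' : z ∈ Subgroup.normalizer ((Subgroup.zpowers y : Subgroup G) : Set G) := by
    rw [← hP]; exact hzN
  have h1 := hNorm x y z hxy hzN'
  have hzcx : z ∈ Subgroup.centralizer ({x} : Set G) := by
    by_contra hcon
    exact hnc (hS.comm_of_normalizer _ z h1 hcon)
  have hzy := hz z hzcx hzN'
  apply hzC
  rw [Subgroup.mem_centralizer_iff]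
  intro g hg
  have hzP : z ∈ (P : Subgroup G) := by rw [hP]; exact hzy
  have := hPc.is_comm.comm (⟨g, hg⟩ : (P : Subgroup G)) ⟨z, hzP⟩
  exact congrArg Subtype.val this

end Cfsg.Agent.Lib.Helper99.SNCBGLUE
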