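import Mathlib
import Cfsg.Agent.Lib.Helper32.T3Stmt

/-!
S3701 piece CFG (helper99, for helper32): the hypotheses of S3701 give a configuration `Cfg3`
(assuming the piece SYL).
-/

set_option autoImplicit false

universe u

namespace Cfsg.Agent.Lib.Helper99.T3CFG

open Cfsg.Agent.Lib.Helper32.T3Stmt

/-- the relations of the configuration -/
structure R3 {M : Type*} [Group M] (x1 x2 x3 u1 u2 u3 : M) : Prop where
  x13 : x1 ^ 3 = 1
  x23 : x2 ^ 3 = 1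
  x33 : x3 ^ 3 = 1
  c12 : x1 * x2 = x2 * x1
  c13 : x1 * x3 = x3 * x1
  c23 : x2 * x3 = x3 * x2
  u1sq : u1 ^ 2 = 1
  u2sq : u2 ^ 2 = 1
  u3sq : u3 ^ 2 = 1
  u12 : u1 * u2 = u3
  u21 : u2 * u1 = u3
  u13 : u1 * u3 = u2
  u31 : u3 * u1 = u2
  u23 : u2 * u3 = u1
  u32 : u3 * u2 = u1
  a11 : u1 * x1 = x1 * u1
  a12 : u1 * x2 * u1⁻¹ = x2⁻¹
  a13 : u1 * x3 * u1⁻¹ = x3⁻¹
  a21 : u2 * x1 * u2⁻¹ = x1⁻¹
  a22 : u2 * x2 = x2 * u2
  a23 : u2 * x3 * u2⁻¹ = x3⁻¹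
  a31 : u3 * x1 * u3⁻¹ = x1⁻¹
  a32 : u3 * x2 * u3⁻¹ = x2⁻¹
  a33 : u3 * x3 = x3 * u3

theorem R3.map {M N : Type*} [Group M] [Group N] (f : M →* N) {x1 x2 x3 u1 u2 u3 : M}
    (h : R3 x1 x2 x3 u1 u2 u3) : R3 (f x1) (f x2) (f x3) (f u1) (f u2) (f u3) where
  x13 := by rw [← map_pow, h.x13, map_one]
  x23 := by rw [← map_pow, h.x23, map_one]
  x33 := by rw [← map_pow, h.x33, map_one]
  c12 := by rw [← map_mul, h.c12, map_mul]
  c13 := by rw [← map_mul, h.c13, map_mul]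
  c23 := by rw [← map_mul, h.c23, map_mul]
  u1sq := by rw [← map_pow, h.u1sq, map_one]
  u2sq := by rw [← map_pow, h.u2sq, map_one]
  u3sq := by rw [← map_pow, h.u3sq, map_one]
  u12 := by rw [← map_mul, h.u12]
  u21 := by rw [← map_mul, h.u21]
  u13 := by rw [← map_mul, h.u13]
  u31 := by rw [← map_mul, h.u31]
  u23 := by rw [← map_mul, h.u23]
  u32 := by rw [← map_mul, h.u32]
  a11 := by rw [← map_mul, h.a11, map_mul]
  a12 := by rw [← map_inv, ← map_mul, ← map_mul, h.a12, map_inv]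
  a13 := by rw [← map_inv, ← map_mul, ← map_mul, h.a13, map_inv]
  a21 := by rw [← map_inv, ← map_mul, ← map_mul, h.a21, map_inv]
  a22 := by rw [← map_mul, h.a22, map_mul]
  a23 := by rw [← map_inv, ← map_mul, ← map_mul, h.a23, map_inv]
  a31 := by rw [← map_inv, ← map_mul, ← map_mul, h.a31, map_inv]
  a32 := by rw [← map_inv, ← map_mul, ← map_mul, h.a32, map_inv]
  a33 := by rw [← map_mul, h.a33, map_mul]

theorem R3.comap {M N : Type*} [Group M] [Group N] (f : M →* N) (hf : Function.Injective f)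
    {x1 x2 x3 u1 u2 u3 : M} (h : R3 (f x1) (f x2) (f x3) (f u1) (f u2) (f u3)) :
    R3 x1 x2 x3 u1 u2 u3 where
  x13 := hf (by rw [map_pow, h.x13, map_one])
  x23 := hf (by rw [map_pow, h.x23, map_one])
  x33 := hf (by rw [map_pow, h.x33, map_one])
  c12 := hf (by rw [map_mul, h.c12, map_mul])
  c13 := hf (by rw [map_mul, h.c13, map_mul])
  c23 := hf (by rw [map_mul, h.c23, map_mul])
  u1sq := hf (by rw [map_pow, h.u1sq, map_one])
  u2sq := hf (by rw [map_pow, h.u2sq, map_one])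
  u3sq := hf (by rw [map_pow, h.u3sq, map_one])
  u12 := hf (by rw [map_mul, h.u12])
  u21 := hf (by rw [map_mul, h.u21])
  u13 := hf (by rw [map_mul, h.u13])
  u31 := hf (by rw [map_mul, h.u31])
  u23 := hf (by rw [map_mul, h.u23])
  u32 := hf (by rw [map_mul, h.u32])
  a11 := hf (by rw [map_mul, h.a11, map_mul])
  a12 := hf (by rw [map_mul, map_mul, map_inv, h.a12, map_inv])
  a13 := hf (by rw [map_mul, map_mul, map_inv, h.a13, map_inv])
  a21 := hf (by rw [map_mul, map_mul, map_inv, h.a21, map_inv])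
  a22 := hf (by rw [map_mul, h.a22, map_mul])
  a23 := hf (by rw [map_mul, map_mul, map_inv, h.a23, map_inv])
  a31 := hf (by rw [map_mul, map_mul, map_inv, h.a31, map_inv])
  a32 := hf (by rw [map_mul, map_mul, map_inv, h.a32, map_inv])
  a33 := hf (by rw [map_mul, h.a33, map_mul])

section abstract

variable {M : Type*} [Group M] {x1 x2 x3 u1 u2 u3 : M}

/-- the elements `x1 ^ i * x2 ^ j * x3 ^ k` -/
def T0p (x1 x2 x3 : M) (g : M) : Prop := ∃ i j k : ℕ, g = x1 ^ i * x2 ^ j * x3 ^ k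

/-- the normal form of the elements of `H` -/
def NF (x1 x2 x3 u1 u2 u3 : M) (g : M) : Prop :=
  ∃ t, T0p x1 x2 x3 t ∧ (g = t ∨ g = t * u1 ∨ g = t * u2 ∨ g = t * u3)

theorem t0_one (x1 x2 x3 : M) : T0p x1 x2 x3 1 := ⟨0, 0, 0, by simp⟩

theorem t0_x1 (x1 x2 x3 : M) : T0p x1 x2 x3 x1 := ⟨1, 0, 0, by simp⟩

theorem t0_x2 (x1 x2 x3 : M) : T0p x1 x2 x3 x2 := ⟨0, 1, 0, by simp⟩

theorem t0_x3 (x1 x2 x3 : M) : T0p x1 x2 x3 x3 := ⟨0, 0, 1, by simp⟩

theorem t0_mul (h : R3 x1 x2 x3 u1 u2 u3) {a b : M} (ha : T0p x1 x2 x3 a)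
    (hb : T0p x1 x2 x3 b) : T0p x1 x2 x3 (a * b) := by
  obtain ⟨i, j, k, rfl⟩ := ha
  obtain ⟨i', j', k', rfl⟩ := hb
  refine ⟨i + i', j + j', k + k', ?_⟩
  have c12 : Commute x1 x2 := h.c12
  have c13 : Commute x1 x3 := h.c13
  have c23 : Commute x2 x3 := h.c23
  have e1 : Commute (x3 ^ k) (x1 ^ i' * x2 ^ j') :=
    (c13.symm.pow_pow k i').mul_right (c23.symm.pow_pow k j')
  have e2 : Commute (x2 ^ j) (x1 ^ i') := c12.symm.pow_pow j i'
  rw [pow_add, pow_add, pow_add, e1.mul_mul_mul_comm, e2.mul_mul_mul_comm]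

theorem t0_pow (h : R3 x1 x2 x3 u1 u2 u3) {a : M} (ha : T0p x1 x2 x3 a) (n : ℕ) :
    T0p x1 x2 x3 (a ^ n) := by
  induction n with
  | zero => rw [pow_zero]; exact t0_one x1 x2 x3
  | succ n ih => rw [pow_succ]; exact t0_mul h ih ha

theorem pow_inv3 {x : M} (h3 : x ^ 3 = 1) (i : ℕ) : (x ^ i)⁻¹ = x ^ (2 * i) := by
  apply inv_eq_of_mul_eq_one_right
  rw [← pow_add, show i + 2 * i = 3 * i by ring, pow_mul, h3, one_pow]

theorem pow3_mod {z : M} (h : z ^ 3 = 1) (k : ℕ) : z ^ k = z ^ (k % 3) := by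
  conv_lhs => rw [← Nat.div_add_mod k 3, pow_add, pow_mul, h, one_pow, one_mul]

theorem conj3 (a b c d : M) :
    a * (b * c * d) * a⁻¹ = (a * b * a⁻¹) * (a * c * a⁻¹) * (a * d * a⁻¹) := by group

theorem conj_of_comm {a x : M} (h : a * x = x * a) : a * x * a⁻¹ = x := by
  rw [h, mul_assoc, mul_inv_cancel, mul_one]

theorem t0_conj {a : M} (h : R3 x1 x2 x3 u1 u2 u3)
    (h1 : a * x1 * a⁻¹ = x1 ∨ a * x1 * a⁻¹ = x1⁻¹)
    (h2 : a * x2 * a⁻¹ = x2 ∨ a * x2 * a⁻¹ = x2⁻¹)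
    (h3 : a * x3 * a⁻¹ = x3 ∨ a * x3 * a⁻¹ = x3⁻¹) {t : M} (ht : T0p x1 x2 x3 t) :
    T0p x1 x2 x3 (a * t * a⁻¹) := by
  obtain ⟨i, j, k, rfl⟩ := ht
  have key : ∀ (x : M), x ^ 3 = 1 → (a * x * a⁻¹ = x ∨ a * x * a⁻¹ = x⁻¹) → ∀ n : ℕ,
      ∃ n' : ℕ, a * x ^ n * a⁻¹ = x ^ n' := by
    intro x hx3 hx n
    rcases hx with hx | hx
    · exact ⟨n, by rw [← conj_pow, hx]⟩
    · exact ⟨2 * n, by rw [← conj_pow, hx, inv_pow, pow_inv3 hx3]⟩
  obtain ⟨i', hi⟩ := key x1 h.x13 h1 i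
  obtain ⟨j', hj⟩ := key x2 h.x23 h2 j
  obtain ⟨k', hk⟩ := key x3 h.x33 h3 k
  exact ⟨i', j', k', by rw [conj3, hi, hj, hk]⟩

theorem t0_conj_u1 (h : R3 x1 x2 x3 u1 u2 u3) {t : M} (ht : T0p x1 x2 x3 t) :
    T0p x1 x2 x3 (u1 * t * u1⁻¹) :=
  t0_conj h (Or.inl (conj_of_comm h.a11)) (Or.inr h.a12) (Or.inr h.a13) ht

theorem t0_conj_u2 (h : R3 x1 x2 x3 u1 u2 u3) {t : M} (ht : T0p x1 x2 x3 t) :
    T0p x1 x2 x3 (u2 * t * u2⁻¹) :=
  t0_conj h (Or.inr h.a21) (Or.inl (conj_of_comm h.a22)) (Or.inr h.a23) ht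

theorem t0_conj_u3 (h : R3 x1 x2 x3 u1 u2 u3) {t : M} (ht : T0p x1 x2 x3 t) :
    T0p x1 x2 x3 (u3 * t * u3⁻¹) :=
  t0_conj h (Or.inr h.a31) (Or.inr h.a32) (Or.inl (conj_of_comm h.a33)) ht

theorem nf_one (x1 x2 x3 u1 u2 u3 : M) : NF x1 x2 x3 u1 u2 u3 1 :=
  ⟨1, t0_one x1 x2 x3, Or.inl rfl⟩

theorem nf_t0_mul (h : R3 x1 x2 x3 u1 u2 u3) {s g : M} (hs : T0p x1 x2 x3 s)
    (hg : NF x1 x2 x3 u1 u2 u3 g) : NF x1 x2 x3 u1 u2 u3 (s * g) := by
  obtain ⟨t, ht, hgt⟩ := hg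
  refine ⟨s * t, t0_mul h hs ht, ?_⟩
  rcases hgt with rfl | rfl | rfl | rfl
  · exact Or.inl rfl
  · exact Or.inr (Or.inl (mul_assoc s t u1).symm)
  · exact Or.inr (Or.inr (Or.inl (mul_assoc s t u2).symm))
  · exact Or.inr (Or.inr (Or.inr (mul_assoc s t u3).symm))

theorem nf_u2_mul (h : R3 x1 x2 x3 u1 u2 u3) {g : M}
    (hg : NF x1 x2 x3 u1 u2 u3 g) : NF x1 x2 x3 u1 u2 u3 (u2 * g) := by
  obtain ⟨t, ht, hgt⟩ := hg
  refine ⟨u2 * t * u2⁻¹, t0_conj_u2 h ht, ?_⟩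
  rcases hgt with rfl | rfl | rfl | rfl
  · right; right; left
    group
  · right; right; right
    have e : u2 * (t * u1) = u2 * t * u2⁻¹ * (u2 * u1) := by group
    rw [e, h.u21]
  · left
    have e : u2 * (t * u2) = u2 * t * u2⁻¹ * (u2 ^ 2) := by group
    rw [e, h.u2sq, mul_one]
  · right; left
    have e : u2 * (t * u3) = u2 * t * u2⁻¹ * (u2 * u3) := by group
    rw [e, h.u23]

theorem nf_u3_mul (h : R3 x1 x2 x3 u1 u2 u3) {g : M}
    (hg : NF x1 x2 x3 u1 u2 u3 g) : NF x1 x2 x3 u1 u2 u3 (u3 * g) := by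
  obtain ⟨t, ht, hgt⟩ := hg
  refine ⟨u3 * t * u3⁻¹, t0_conj_u3 h ht, ?_⟩
  rcases hgt with rfl | rfl | rfl | rfl
  · right; right; right
    group
  · right; right; left
    have e : u3 * (t * u1) = u3 * t * u3⁻¹ * (u3 * u1) := by group
    rw [e, h.u31]
  · right; left
    have e : u3 * (t * u2) = u3 * t * u3⁻¹ * (u3 * u2) := by group
    rw [e, h.u32]
  · left
    have e : u3 * (t * u3) = u3 * t * u3⁻¹ * (u3 ^ 2) := by group
    rw [e, h.u3sq, mul_one]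

theorem inv_eq_sq {x : M} (h : x ^ 3 = 1) : x⁻¹ = x * x := by
  apply inv_eq_of_mul_eq_one_right
  have e : x * (x * x) = x ^ 3 := by rw [pow_succ, pow_succ, pow_one, mul_assoc]
  rw [e, h]

theorem inv_eq_self {a : M} (h : a ^ 2 = 1) : a⁻¹ = a := by
  apply inv_eq_of_mul_eq_one_right
  rw [← pow_two, h]

theorem nf_of_mem_closure (h : R3 x1 x2 x3 u1 u2 u3) {g : M}
    (hg : g ∈ Subgroup.closure ({x1, x2, x3, u3, u2} : Set M)) :
    NF x1 x2 x3 u1 u2 u3 g := by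
  refine Subgroup.closure_induction_left (p := fun g _ => NF x1 x2 x3 u1 u2 u3 g)
    (nf_one x1 x2 x3 u1 u2 u3) ?_ ?_ hg
  · intro x hx y _ ih
    simp only [Set.mem_insert_iff, Set.mem_singleton_iff] at hx
    rcases hx with hx | hx | hx | hx | hx
    · rw [hx]; exact nf_t0_mul h (t0_x1 x1 x2 x3) ih
    · rw [hx]; exact nf_t0_mul h (t0_x2 x1 x2 x3) ih
    · rw [hx]; exact nf_t0_mul h (t0_x3 x1 x2 x3) ih
    · rw [hx]; exact nf_u3_mul h ih
    · rw [hx]; exact nf_u2_mul h ih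
  · intro x hx y _ ih
    simp only [Set.mem_insert_iff, Set.mem_singleton_iff] at hx
    rcases hx with hx | hx | hx | hx | hx
    · rw [hx, inv_eq_sq h.x13]
      exact nf_t0_mul h (t0_mul h (t0_x1 x1 x2 x3) (t0_x1 x1 x2 x3)) ih
    · rw [hx, inv_eq_sq h.x23]
      exact nf_t0_mul h (t0_mul h (t0_x2 x1 x2 x3) (t0_x2 x1 x2 x3)) ih
    · rw [hx, inv_eq_sq h.x33]
      exact nf_t0_mul h (t0_mul h (t0_x3 x1 x2 x3) (t0_x3 x1 x2 x3)) ih
    · rw [hx, inv_eq_self h.u3sq]; exact nf_u3_mul h ih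
    · rw [hx, inv_eq_self h.u2sq]; exact nf_u2_mul h ih

theorem NF.comap {M N : Type*} [Group M] [Group N] (f : M →* N) (hf : Function.Injective f)
    {x1 x2 x3 u1 u2 u3 g : M} (h : NF (f x1) (f x2) (f x3) (f u1) (f u2) (f u3) (f g)) :
    NF x1 x2 x3 u1 u2 u3 g := by
  obtain ⟨t, ⟨i, j, k, rfl⟩, ht⟩ := h
  refine ⟨x1 ^ i * x2 ^ j * x3 ^ k, ⟨i, j, k, rfl⟩, ?_⟩
  rcases ht with ht | ht | ht | ht
  · left; apply hf; rw [ht]; simp only [map_mul, map_pow]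
  · right; left; apply hf; rw [ht]; simp only [map_mul, map_pow]
  · right; right; left; apply hf; rw [ht]; simp only [map_mul, map_pow]
  · right; right; right; apply hf; rw [ht]; simp only [map_mul, map_pow]

theorem NF.map {M N : Type*} [Group M] [Group N] (f : M →* N)
    {x1 x2 x3 u1 u2 u3 g : M} (h : NF x1 x2 x3 u1 u2 u3 g) :
    NF (f x1) (f x2) (f x3) (f u1) (f u2) (f u3) (f g) := by
  obtain ⟨t, ⟨i, j, k, rfl⟩, ht⟩ := h
  refine ⟨f x1 ^ i * f x2 ^ j * f x3 ^ k, ⟨i, j, k, rfl⟩, ?_⟩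
  rcases ht with rfl | rfl | rfl | rfl
  · left; simp only [map_mul, map_pow]
  · right; left; simp only [map_mul, map_pow]
  · right; right; left; simp only [map_mul, map_pow]
  · right; right; right; simp only [map_mul, map_pow]

end abstract

/-! ### the permutations -/

/-- `(0 1 2)` -/
def c1 : Equiv.Perm (Fin 9) := Equiv.swap (0 : Fin 9) 1 * Equiv.swap 1 2
/-- `(3 4 5)` -/
def c2 : Equiv.Perm (Fin 9) := Equiv.swap (3 : Fin 9) 4 * Equiv.swap 4 5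
/-- `(6 7 8)` -/
def c3 : Equiv.Perm (Fin 9) := Equiv.swap (6 : Fin 9) 7 * Equiv.swap 7 8
/-- `(0 1)(3 4)` -/
def d3 : Equiv.Perm (Fin 9) := Equiv.swap (0 : Fin 9) 1 * Equiv.swap 3 4
/-- `(0 1)(6 7)` -/
def d2 : Equiv.Perm (Fin 9) := Equiv.swap (0 : Fin 9) 1 * Equiv.swap 6 7
/-- `(3 4)(6 7)` -/
def d1 : Equiv.Perm (Fin 9) := d2 * d3

set_option maxRecDepth 4000 in
theorem perm_rel : R3 c1 c2 c3 d1 d2 d3 where
  x13 := by decide
  x23 := by decide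
  x33 := by decide
  c12 := by decide
  c13 := by decide
  c23 := by decide
  u1sq := by decide
  u2sq := by decide
  u3sq := by decide
  u12 := by decide
  u21 := by decide
  u13 := by decide
  u31 := by decide
  u23 := by decide
  u32 := by decide
  a11 := by decide
  a12 := by decide
  a13 := by decide
  a21 := by decide
  a22 := by decide
  a23 := by decide
  a31 := by decide
  a32 := by decide
  a33 := by decide

theorem c1_ne : c1 ≠ 1 := by decide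

theorem c2_ne : c2 ≠ 1 := by decide

theorem c3_ne : c3 ≠ 1 := by decide

/-! ### the configuration from the normal form -/

theorem core {G : Type u} [Group G] [Finite G] (hS : SYL.{u}) (T H : Subgroup G) (hTH : T ≤ H)
    (hcard : Nat.card T = 27) (hN : Subgroup.normalizer (T : Set G) = H)
    (hC : ∀ t ∈ T, t ≠ 1 → Subgroup.centralizer ({t} : Set G) ≤ H)
    (x1 x2 x3 u1 u2 u3 : G) (hR : R3 x1 x2 x3 u1 u2 u3)
    (hne1 : x1 ≠ 1) (hne2 : x2 ≠ 1) (hne3 : x3 ≠ 1)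
    (hu1 : u1 ∈ H) (hu2 : u2 ∈ H) (hu3 : u3 ∈ H)
    (hNF : ∀ g ∈ H, NF x1 x2 x3 u1 u2 u3 g) : Cfg3 T H x1 x2 x3 u1 u2 u3 := by
  -- squares
  have hsq : ∀ g ∈ H, T0p x1 x2 x3 (g * g) := by
    intro g hg
    obtain ⟨t, ht, hgt⟩ := hNF g hg
    rcases hgt with rfl | rfl | rfl | rfl
    · exact t0_mul hR ht ht
    · have e : t * u1 * (t * u1) = t * (u1 * t * u1⁻¹) * (u1 ^ 2) := by group
      rw [e, hR.u1sq, mul_one]
      exact t0_mul hR ht (t0_conj_u1 hR ht)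
    · have e : t * u2 * (t * u2) = t * (u2 * t * u2⁻¹) * (u2 ^ 2) := by group
      rw [e, hR.u2sq, mul_one]
      exact t0_mul hR ht (t0_conj_u2 hR ht)
    · have e : t * u3 * (t * u3) = t * (u3 * t * u3⁻¹) * (u3 ^ 2) := by group
      rw [e, hR.u3sq, mul_one]
      exact t0_mul hR ht (t0_conj_u3 hR ht)
  -- `T` consists of normal forms
  have hsub : ∀ t ∈ T, T0p x1 x2 x3 t := by
    intro t ht
    have h27 : t ^ 27 = 1 := by
      have h := pow_card_eq_one' (G := T) (x := ⟨t, ht⟩)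
      rw [hcard] at h
      have h' := congrArg Subtype.val h
      simpa using h'
    have e : t = (t * t) ^ 14 := by
      have e1 : (t * t) ^ 14 = t ^ 27 * t := by
        rw [← pow_two, ← pow_mul, ← pow_succ]
      rw [e1, h27, one_mul]
    rw [e]
    exact t0_pow hR (hsq t (hTH ht)) 14
  -- counting
  have hsup : ∀ t, T0p x1 x2 x3 t → t ∈ T := by
    have hsubset : (T : Set G) ⊆ Set.range (fun p : Fin 3 × Fin 3 × Fin 3 =>
        x1 ^ (p.1 : ℕ) * x2 ^ (p.2.1 : ℕ) * x3 ^ (p.2.2 : ℕ)) := by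
      intro t ht
      obtain ⟨i, j, k, rfl⟩ := hsub t ht
      refine ⟨(⟨i % 3, Nat.mod_lt _ (by norm_num)⟩, ⟨j % 3, Nat.mod_lt _ (by norm_num)⟩,
        ⟨k % 3, Nat.mod_lt _ (by norm_num)⟩), ?_⟩
      show x1 ^ (i % 3) * x2 ^ (j % 3) * x3 ^ (k % 3) = _
      rw [← pow3_mod hR.x13, ← pow3_mod hR.x23, ← pow3_mod hR.x33]
    have hle : (Set.range (fun p : Fin 3 × Fin 3 × Fin 3 =>
        x1 ^ (p.1 : ℕ) * x2 ^ (p.2.1 : ℕ) * x3 ^ (p.2.2 : ℕ))).ncard ≤ 27 := by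
      have h1 := Set.ncard_image_le (f := fun p : Fin 3 × Fin 3 × Fin 3 =>
        x1 ^ (p.1 : ℕ) * x2 ^ (p.2.1 : ℕ) * x3 ^ (p.2.2 : ℕ)) (s := Set.univ) (Set.toFinite _)
      rw [Set.image_univ, Set.ncard_univ, Nat.card_prod, Nat.card_prod, Nat.card_fin] at h1
      exact h1
    have hT27 : (T : Set G).ncard = 27 := by
      rw [← Nat.card_coe_set_eq]
      exact hcard
    have heq := Set.eq_of_subset_of_ncard_le hsubset (by rw [hT27]; exact hle) (Set.toFinite _)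
    intro t ht
    obtain ⟨i, j, k, rfl⟩ := ht
    have hmem : x1 ^ i * x2 ^ j * x3 ^ k ∈ Set.range (fun p : Fin 3 × Fin 3 × Fin 3 =>
        x1 ^ (p.1 : ℕ) * x2 ^ (p.2.1 : ℕ) * x3 ^ (p.2.2 : ℕ)) := by
      refine ⟨(⟨i % 3, Nat.mod_lt _ (by norm_num)⟩, ⟨j % 3, Nat.mod_lt _ (by norm_num)⟩,
        ⟨k % 3, Nat.mod_lt _ (by norm_num)⟩), ?_⟩
      show x1 ^ (i % 3) * x2 ^ (j % 3) * x3 ^ (k % 3) = _
      rw [← pow3_mod hR.x13, ← pow3_mod hR.x23, ← pow3_mod hR.x33]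
    rw [← heq] at hmem
    exact hmem
  exact
    { x13 := hR.x13
      x23 := hR.x23
      x33 := hR.x33
      c12 := hR.c12
      c13 := hR.c13
      c23 := hR.c23
      u1sq := hR.u1sq
      u2sq := hR.u2sq
      u3sq := hR.u3sq
      u12 := hR.u12
      u21 := hR.u21
      u13 := hR.u13
      u31 := hR.u31
      u23 := hR.u23
      u32 := hR.u32
      a11 := hR.a11
      a12 := hR.a12
      a13 := hR.a13
      a21 := hR.a21
      a22 := hR.a22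
      a23 := hR.a23
      a31 := hR.a31
      a32 := hR.a32
      a33 := hR.a33
      ne1 := hne1
      ne2 := hne2
      ne3 := hne3
      memT := fun g => ⟨hsub g, hsup g⟩
      memH := fun g => by
        constructor
        · intro hg
          obtain ⟨t, ht, hgt⟩ := hNF g hg
          exact ⟨t, hsup t ht, hgt⟩
        · rintro ⟨t, ht, rfl | rfl | rfl | rfl⟩
          · exact hTH ht
          · exact H.mul_mem (hTH ht) hu1
          · exact H.mul_mem (hTH ht) hu2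
          · exact H.mul_mem (hTH ht) hu3
      norm := fun g hg => by
        rw [← hN]
        exact Subgroup.mem_normalizer_fintype (fun n hn => hg n hn)
      loc := fun t ht ht1 g hg => by
        apply hC t ht ht1
        rw [Subgroup.mem_centralizer_iff]
        intro h hh
        rw [Set.mem_singleton_iff.1 hh]
        exact hg.symm
      syl := hS T hcard (fun g hg => by
        rw [hN] at hg
        rw [pow_two]
        exact hsup _ (hsq g hg)) }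

theorem main (hS : SYL.{u}) : CFG.{u} := by
  intro G _ _ H hiso T hTH hcard hN hC
  obtain ⟨e0⟩ := hiso
  have e : ↥H ≃* ↥(Subgroup.closure ({c1, c2, c3, d3, d2} : Set (Equiv.Perm (Fin 9)))) := e0
  have hc1 : c1 ∈ Subgroup.closure ({c1, c2, c3, d3, d2} : Set (Equiv.Perm (Fin 9))) :=
    Subgroup.subset_closure (by simp)
  have hc2 : c2 ∈ Subgroup.closure ({c1, c2, c3, d3, d2} : Set (Equiv.Perm (Fin 9))) :=
    Subgroup.subset_closure (by simp)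
  have hc3 : c3 ∈ Subgroup.closure ({c1, c2, c3, d3, d2} : Set (Equiv.Perm (Fin 9))) :=
    Subgroup.subset_closure (by simp)
  have hd3 : d3 ∈ Subgroup.closure ({c1, c2, c3, d3, d2} : Set (Equiv.Perm (Fin 9))) :=
    Subgroup.subset_closure (by simp)
  have hd2 : d2 ∈ Subgroup.closure ({c1, c2, c3, d3, d2} : Set (Equiv.Perm (Fin 9))) :=
    Subgroup.subset_closure (by simp)
  have hd1 : d1 ∈ Subgroup.closure ({c1, c2, c3, d3, d2} : Set (Equiv.Perm (Fin 9))) :=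
    Subgroup.mul_mem _ hd2 hd3
  -- the embedding of `H`
  have hΦinj : Function.Injective ((Subgroup.closure ({c1, c2, c3, d3, d2} :
      Set (Equiv.Perm (Fin 9)))).subtype.comp e.toMonoidHom) := by
    intro a b hab
    exact e.injective (Subtype.ext hab)
  have hy : ∀ (c : Equiv.Perm (Fin 9))
      (hc : c ∈ Subgroup.closure ({c1, c2, c3, d3, d2} : Set (Equiv.Perm (Fin 9)))),
      ((Subgroup.closure ({c1, c2, c3, d3, d2} :
        Set (Equiv.Perm (Fin 9)))).subtype.comp e.toMonoidHom) (e.symm ⟨c, hc⟩) = c := by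
    intro c hc
    show ((e (e.symm ⟨c, hc⟩) : Subgroup.closure ({c1, c2, c3, d3, d2} :
      Set (Equiv.Perm (Fin 9)))) : Equiv.Perm (Fin 9)) = c
    rw [e.apply_symm_apply]
  have hRH : R3 (e.symm ⟨c1, hc1⟩) (e.symm ⟨c2, hc2⟩) (e.symm ⟨c3, hc3⟩) (e.symm ⟨d1, hd1⟩)
      (e.symm ⟨d2, hd2⟩) (e.symm ⟨d3, hd3⟩) := by
    apply R3.comap _ hΦinj
    rw [hy c1 hc1, hy c2 hc2, hy c3 hc3, hy d1 hd1, hy d2 hd2, hy d3 hd3]
    exact perm_rel
  have hR := R3.map H.subtype hRH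
  have hNF : ∀ g ∈ H, NF (H.subtype (e.symm ⟨c1, hc1⟩)) (H.subtype (e.symm ⟨c2, hc2⟩))
      (H.subtype (e.symm ⟨c3, hc3⟩)) (H.subtype (e.symm ⟨d1, hd1⟩))
      (H.subtype (e.symm ⟨d2, hd2⟩)) (H.subtype (e.symm ⟨d3, hd3⟩)) g := by
    intro g hg
    have h1 : NF (e.symm ⟨c1, hc1⟩) (e.symm ⟨c2, hc2⟩) (e.symm ⟨c3, hc3⟩) (e.symm ⟨d1, hd1⟩)
        (e.symm ⟨d2, hd2⟩) (e.symm ⟨d3, hd3⟩) (⟨g, hg⟩ : ↥H) := by
      apply NF.comap _ hΦinj
      rw [hy c1 hc1, hy c2 hc2, hy c3 hc3, hy d1 hd1, hy d2 hd2, hy d3 hd3]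
      exact nf_of_mem_closure perm_rel (e ⟨g, hg⟩).2
    exact NF.map H.subtype h1
  have hne : ∀ (c : Equiv.Perm (Fin 9))
      (hc : c ∈ Subgroup.closure ({c1, c2, c3, d3, d2} : Set (Equiv.Perm (Fin 9)))),
      c ≠ 1 → H.subtype (e.symm ⟨c, hc⟩) ≠ 1 := by
    intro c hc hc1 h
    apply hc1
    have h2 : e.symm ⟨c, hc⟩ = 1 := Subtype.ext h
    have h3 := hy c hc
    rw [h2, map_one] at h3
    exact h3.symm
  exact ⟨_, _, _, _, _, _, core hS T H hTH hcard hN hC _ _ _ _ _ _ hR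
    (hne c1 hc1 c1_ne) (hne c2 hc2 c2_ne) (hne c3 hc3 c3_ne)
    (e.symm ⟨d1, hd1⟩).2 (e.symm ⟨d2, hd2⟩).2 (e.symm ⟨d3, hd3⟩).2 hNF⟩

end Cfsg.Agent.Lib.Helper99.T3CFG
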