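import Cfsg.Agent.Lib.Helper88.VFStmt

/-!
S5286 piece CHAIN: a predicate `C R b` that holds at `b = 1`, is stable under right
multiplication by `S₀` and under crossing an edge fixed by `R`, holds at `g.right` for every
`g ∈ PiSet` whose left component is fixed by `R`.
-/

set_option autoImplicit false

namespace Cfsg.Agent.Lib.Helper99.VFCHAIN

open Cfsg Cfsg.Agent.Lib.Helper88.VFDefs Cfsg.Agent.Lib.Helper88.VFStmt

universe u

/-- An element fixing the edge `⟨i, a Q_i⟩` is conjugated into `Q i` by `a`. -/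
theorem fix_edge {K : Type u} [Group K] {I : Type u} (Q : I → Subgroup K) (i : I) (a r : K)
    (h : r • (⟨i, (a : K ⧸ Q i)⟩ : Y Q) = ⟨i, (a : K ⧸ Q i)⟩) : a⁻¹ * r * a ∈ Q i := by
  rw [Sigma.smul_mk, Sigma.mk.inj_iff] at h
  have h2 : r • (a : K ⧸ Q i) = (a : K ⧸ Q i) := eq_of_heq h.2
  rw [MulAction.Quotient.smul_mk, smul_eq_mul, QuotientGroup.eq] at h2
  have h3 := (Q i).inv_mem h2
  have h4 : ((r * a)⁻¹ * a)⁻¹ = a⁻¹ * r * a := by group
  rwa [h4] at h3

/-- Walking along a path all of whose edges are fixed by `R`. -/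
theorem walk {K : Type u} [Group K] (S₀ : Subgroup K) {I : Type u}
    (Q : I → Subgroup K) (sg : I → K) (C : Subgroup K → K → Prop)
    (hS : ∀ R b s, s ∈ S₀ → C R b → C R (b * s))
    (hE : ∀ R i a, (∀ r ∈ R, a⁻¹ * r * a ∈ Q i) → (C R a ↔ C R (a * sg i)))
    (R : Subgroup K) :
    ∀ (L : List (Y Q × Bool)) (v v' : K ⧸ S₀), IsPath S₀ Q sg v L v' →
      (∀ x ∈ L, ∀ r ∈ R, r • x.1 = x.1) →
      (∀ a : K, (a : K ⧸ S₀) = v → C R a) → ∀ a' : K, (a' : K ⧸ S₀) = v' → C R a' := by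
  intro L
  induction L with
  | nil =>
    intro v v' hp _ hv a' ha'
    simp only [IsPath] at hp
    exact hv a' (ha'.trans hp.symm)
  | cons x L ih =>
    intro v v' hp hfix hv
    obtain ⟨y, b⟩ := x
    have hy : ∀ r ∈ R, r • y = y := fun r hr => hfix (y, b) (List.mem_cons_self) r hr
    have hfix' : ∀ x ∈ L, ∀ r ∈ R, r • x.1 = x.1 := fun x hx => hfix x (List.mem_cons_of_mem _ hx)
    cases b with
    | true =>
      simp only [IsPath] at hp
      obtain ⟨v₁, ⟨i, a, rfl, rfl, rfl⟩, hp'⟩ := hp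
      have hfe : ∀ r ∈ R, a⁻¹ * r * a ∈ Q i := fun r hr => fix_edge Q i a r (hy r hr)
      have hCa : C R (a * sg i) := (hE R i a hfe).mp (hv a rfl)
      refine ih _ v' hp' hfix' ?_
      intro a₁ ha₁
      have hs : (a * sg i)⁻¹ * a₁ ∈ S₀ := QuotientGroup.eq.mp ha₁.symm
      have := hS R _ _ hs hCa
      rwa [mul_inv_cancel_left] at this
    | false =>
      simp only [IsPath] at hp
      obtain ⟨v₁, ⟨i, a, rfl, rfl, rfl⟩, hp'⟩ := hp
      have hfe : ∀ r ∈ R, a⁻¹ * r * a ∈ Q i := fun r hr => fix_edge Q i a r (hy r hr)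
      have hCa : C R a := (hE R i a hfe).mpr (hv (a * sg i) rfl)
      refine ih _ v' hp' hfix' ?_
      intro a₁ ha₁
      have hs : a⁻¹ * a₁ ∈ S₀ := QuotientGroup.eq.mp ha₁.symm
      have := hS R _ _ hs hCa
      rwa [mul_inv_cancel_left] at this

theorem main (hRed : RedP.{u}) (hIso : IsoP.{u}) : ChainP.{u} := by
  intro K _ S₀ I Q sg h1 h2 C hC1 hS hE g hg R hR
  haveI : DecidableEq (Y Q) := Classical.decEq _
  have hpath := hRed S₀ Q sg h1 h2 g hg
  have hfix : ∀ x ∈ FreeGroup.toWord g.left, ∀ r ∈ R, r • x.1 = x.1 := by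
    intro x hx r hr
    have h3 := hIso (MulAction.toPerm r : Equiv.Perm (Y Q)) g.left
    rw [← act_eq, hR r hr] at h3
    have h4 : (FreeGroup.toWord g.left).map (Prod.map (MulAction.toPerm r : Equiv.Perm (Y Q)) id)
        = (FreeGroup.toWord g.left).map id := by
      rw [← h3, List.map_id]
    have h5 := List.map_inj_left.mp h4 x hx
    have h6 := congrArg Prod.fst h5
    simpa using h6
  refine walk S₀ Q sg C hS hE R _ _ _ hpath hfix ?_ g.right rfl
  intro a ha
  have hs : (1 : K)⁻¹ * a ∈ S₀ := QuotientGroup.eq.mp ha.symm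
  have := hS R 1 _ hs (hC1 R)
  rwa [mul_inv_cancel_left] at this

end Cfsg.Agent.Lib.Helper99.VFCHAIN
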