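import Cfsg.Agent.Lib.Helper88.VFStmt

/-!
S5286 piece FINCONJ: a finite subgroup of `Ghat` inside `PiSet` is conjugate, by an element of
`PiSet`, into `{(1, s) : s ∈ S₀}`.
-/

set_option autoImplicit false

namespace Cfsg.Agent.Lib.Helper99.VFFINCONJ

open Cfsg Cfsg.Agent.Lib.Helper88.VFDefs Cfsg.Agent.Lib.Helper88.VFStmt

universe u

theorem isPath_append_split {K : Type u} [Group K] (S₀ : Subgroup K) {I : Type u}
    (Q : I → Subgroup K) (sg : I → K) :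
    ∀ (L₁ L₂ : List (Y Q × Bool)) (v v' : K ⧸ S₀), IsPath S₀ Q sg v (L₁ ++ L₂) v' →
      ∃ v₁, IsPath S₀ Q sg v L₁ v₁ ∧ IsPath S₀ Q sg v₁ L₂ v' := by
  intro L₁
  induction L₁ with
  | nil =>
    intro L₂ v v' h
    refine ⟨v, ?_, h⟩
    simp only [IsPath]
  | cons x L ih =>
    intro L₂ v v' h
    obtain ⟨y, b⟩ := x
    cases b with
    | true =>
      simp only [List.cons_append, IsPath] at h ⊢
      obtain ⟨v₁, he, hp⟩ := h
      obtain ⟨v₂, h1, h2⟩ := ih L₂ v₁ v' hp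
      exact ⟨v₂, ⟨v₁, he, h1⟩, h2⟩
    | false =>
      simp only [List.cons_append, IsPath] at h ⊢
      obtain ⟨v₁, he, hp⟩ := h
      obtain ⟨v₂, h1, h2⟩ := ih L₂ v₁ v' hp
      exact ⟨v₂, ⟨v₁, he, h1⟩, h2⟩

theorem main (hFix : FixP.{u}) (hRed : RedP.{u}) (hSub : SubgP.{u}) : FinConjP.{u} := by
  intro K _ S₀ I Q sg h1 h2 H _ hH
  haveI : DecidableEq (Y Q) := Classical.decEq _
  obtain ⟨h₀, hh₀, n, hfix⟩ :=
    hFix (fun k : K => (MulAction.toPerm k : Equiv.Perm (Y Q))) (act Q) (act_eq Q) H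
  obtain ⟨Gp, hGp⟩ := hSub S₀ Q sg
  have hpath := hRed S₀ Q sg h1 h2 h₀ (hH h₀ hh₀)
  have hsplit : IsPath S₀ Q sg ((1 : K) : K ⧸ S₀)
      ((FreeGroup.toWord h₀.left).take n ++ (FreeGroup.toWord h₀.left).drop n)
      ((h₀.right : K) : K ⧸ S₀) := by
    rw [List.take_append_drop]; exact hpath
  obtain ⟨v₁, hp1, hp2⟩ := isPath_append_split S₀ Q sg _ _ _ _ hsplit
  obtain ⟨b, rfl⟩ := QuotientGroup.mk_surjective v₁
  have hg₀ : (⟨FreeGroup.mk ((FreeGroup.toWord h₀.left).take n), b⟩ : Ghat Q) ∈ PiSet S₀ Q sg :=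
    ⟨(FreeGroup.toWord h₀.left).take n, rfl, hp1⟩
  refine ⟨⟨FreeGroup.mk ((FreeGroup.toWord h₀.left).take n), b⟩, hg₀, ?_⟩
  intro h hh
  have hleft : ((⟨FreeGroup.mk ((FreeGroup.toWord h₀.left).take n), b⟩ : Ghat Q)⁻¹ * h *
      ⟨FreeGroup.mk ((FreeGroup.toWord h₀.left).take n), b⟩).left = 1 := by
    have hf := hfix h hh
    simp only [SemidirectProduct.mul_left, SemidirectProduct.mul_right,
      SemidirectProduct.inv_left, SemidirectProduct.inv_right]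
    rw [map_mul (act Q) b⁻¹ h.right, MulAut.mul_apply, mul_assoc, ← map_mul, hf, ← map_mul,
      inv_mul_cancel, map_one]
  refine ⟨hleft, ?_⟩
  have hmem : (⟨FreeGroup.mk ((FreeGroup.toWord h₀.left).take n), b⟩ : Ghat Q)⁻¹ * h *
      ⟨FreeGroup.mk ((FreeGroup.toWord h₀.left).take n), b⟩ ∈ PiSet S₀ Q sg := by
    rw [← hGp]
    exact Gp.mul_mem (Gp.mul_mem (Gp.inv_mem ((hGp _).mpr hg₀)) ((hGp _).mpr (hH h hh)))
      ((hGp _).mpr hg₀)
  have hr := hRed S₀ Q sg h1 h2 _ hmem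
  rw [hleft, FreeGroup.toWord_one] at hr
  have hr' : ((1 : K) : K ⧸ S₀) =
      ((((⟨FreeGroup.mk ((FreeGroup.toWord h₀.left).take n), b⟩ : Ghat Q)⁻¹ * h *
      ⟨FreeGroup.mk ((FreeGroup.toWord h₀.left).take n), b⟩).right : K) : K ⧸ S₀) := by
    simpa only [IsPath] using hr
  rw [QuotientGroup.eq] at hr'
  simpa using hr'

end Cfsg.Agent.Lib.Helper99.VFFINCONJ
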